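/-
Fixed vectors of non-solvable subgroups on modules of symmetric groups (for S4100), part 1:
permutations as numbers and a verified Gaussian elimination over `ZMod p` on packed rows.
-/
import Cfsg.Agent.Base

set_option autoImplicit false

namespace CL.AltFix

open Equiv

/-! ### permutations as numbers -/

def app (a i : ℕ) : ℕ := (a >>> (4 * i)) % 16

def mulP (a : ℕ) : ℕ → ℕ → ℕ
  | 0, _ => 0
  | k + 1, b => app a (b % 16) + 16 * mulP a k (b / 16)

def valid (n a : ℕ) : Bool :=
  (List.range n).all (fun i => decide (app a i < n)) && decide ((List.range n).map (app a)).Nodup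

def isId (n a : ℕ) : Bool := (List.range n).all fun i => app a i == i

def Rp {n : ℕ} (g : Perm (Fin n)) (a : ℕ) : Prop := ∀ i, (g i : ℕ) = app a i

open Classical in
noncomputable def el (n a : ℕ) : Perm (Fin n) := if h : ∃ g : Perm (Fin n), Rp g a then h.choose else 1

def Vd (n a : ℕ) : Prop := Rp (el n a) a

variable {n a b : ℕ}

theorem app_lt (a i : ℕ) : app a i < 16 := Nat.mod_lt _ (by norm_num)

theorem app_succ (a i : ℕ) : app a (i + 1) = app (a / 16) i := by
  simp only [app, Nat.shiftRight_eq_div_pow, Nat.div_div_eq_div_mul]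
  rw [Nat.mul_succ, pow_add, mul_comm]; rfl

theorem app_mulP (a : ℕ) : ∀ (k b i : ℕ), i < k → app (mulP a k b) i = app a (app b i)
  | k + 1, b, 0, _ => by
    have := app_lt a (b % 16)
    simp only [mulP, app, mul_zero, Nat.shiftRight_zero] at *
    omega
  | k + 1, b, i + 1, h => by
    have := app_lt a (b % 16)
    rw [app_succ, app_succ, ← app_mulP a k (b / 16) i (by omega), mulP]
    congr 1
    omega

theorem Rp.eq {g h : Perm (Fin n)} (hg : Rp g a) (hh : Rp h a) : g = h :=
  Equiv.ext fun i => Fin.ext ((hg i).trans (hh i).symm)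

theorem Rp.vd {g : Perm (Fin n)} (hg : Rp g a) : Vd n a ∧ el n a = g := by
  have h : ∃ g : Perm (Fin n), Rp g a := ⟨g, hg⟩
  have h1 : Vd n a := by unfold Vd el; rw [dif_pos h]; exact h.choose_spec
  exact ⟨h1, Rp.eq h1 hg⟩

theorem Vd.mul (ha : Vd n a) (hb : Vd n b) : Vd n (mulP a n b) ∧ el n (mulP a n b) = el n a * el n b :=
  Rp.vd fun i => by rw [app_mulP a n b i i.2, Perm.mul_apply, ha, hb]

theorem vd_of_valid (h : valid n a = true) : Vd n a := by
  simp only [valid, Bool.and_eq_true, List.all_eq_true, List.mem_range, decide_eq_true_eq] at h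
  have hi : Function.Injective fun i : Fin n => (⟨app a i, h.1 i i.2⟩ : Fin n) := fun i j e =>
    Fin.ext (List.inj_on_of_nodup_map h.2 (List.mem_range.2 i.2) (List.mem_range.2 j.2) (congrArg Fin.val e))
  exact (Rp.vd (g := Equiv.ofBijective _ (Finite.injective_iff_bijective.1 hi)) fun _ => rfl).1

theorem of_isId (h : isId n a = true) : Vd n a ∧ el n a = 1 := by
  simp only [isId, List.all_eq_true, List.mem_range, beq_iff_eq] at h
  exact Rp.vd fun i => (h i i.2).symm

theorem Vd.ne_one (ha : Vd n a) (h : isId n a = false) : el n a ≠ 1 := fun e => by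
  have : isId n a = true := by
    simp only [isId, List.all_eq_true, List.mem_range, beq_iff_eq]
    intro i hi
    rw [← ha ⟨i, hi⟩, e]; rfl
  simp [this] at h

/-- `a ^ (k + 1)` -/
def pwP (n a : ℕ) : ℕ → ℕ
  | 0 => a
  | k + 1 => mulP a n (pwP n a k)

theorem Vd.pw (ha : Vd n a) : ∀ k, Vd n (pwP n a k) ∧ el n (pwP n a k) = el n a ^ (k + 1)
  | 0 => ⟨ha, (pow_one _).symm⟩
  | k + 1 => ⟨(ha.mul (ha.pw k).1).1, by rw [pwP, (ha.mul (ha.pw k).1).2, (ha.pw k).2, ← pow_succ']⟩

/-! ### elimination -/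

section Elim
variable (p B : ℕ)

def dot : ℕ → ℕ → (ℕ → ZMod p) → ZMod p
  | 0, _, _ => 0
  | k + 1, r, c => ((r % B : ℕ) : ZMod p) * c 0 + dot k (r / B) fun i => c (i + 1)

def bd : ℕ → ℕ → ℕ → Prop
  | 0, _, _ => True
  | k + 1, r, M => r % B ≤ M ∧ bd k (r / B) M

def pick : List ℕ → Option (ℕ × List ℕ)
  | [] => none
  | r :: l => bif r % B % p == 0 then (pick l).map fun x => (x.1, r :: x.2) else some (r, l)

def stp (q a r : ℕ) : ℕ := bif r % B % p == 0 then r / B else (a * r + (p - r % B % p) * q) / B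

def elim : ℕ → List ℕ → Bool
  | 0, _ => true
  | k + 1, l => match pick p B l with
    | none => false
    | some x => elim k (x.2.map (stp p B x.1 (x.1 % B % p)))

variable {p B}

theorem bd_mono {M M' : ℕ} (h : M ≤ M') : ∀ (k r : ℕ), bd B k r M → bd B k r M'
  | 0, _, _ => trivial
  | k + 1, _, hr => ⟨hr.1.trans h, bd_mono h k _ hr.2⟩

theorem comb {M M' a b : ℕ} (h : a * M + b * M' < B) : ∀ (k r s : ℕ) (c : ℕ → ZMod p), bd B k r M → bd B k s M' →
    bd B k (a * r + b * s) (a * M + b * M') ∧ dot p B k (a * r + b * s) c = a * dot p B k r c + b * dot p B k s c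
  | 0, _, _, _, _, _ => ⟨trivial, by simp [dot]⟩
  | k + 1, r, s, c, hr, hs => by
    have h1 : a * (r % B) + b * (s % B) ≤ a * M + b * M' :=
      add_le_add (Nat.mul_le_mul_left _ hr.1) (Nat.mul_le_mul_left _ hs.1)
    have e : a * r + b * s = (a * (r % B) + b * (s % B)) + B * (a * (r / B) + b * (s / B)) := by
      conv_lhs => rw [← Nat.mod_add_div r B, ← Nat.mod_add_div s B]
      ring
    have e1 : (a * r + b * s) % B = a * (r % B) + b * (s % B) := by
      rw [e, Nat.add_mul_mod_self_left, Nat.mod_eq_of_lt (h1.trans_lt h)]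
    have e2 : (a * r + b * s) / B = a * (r / B) + b * (s / B) := by
      rw [e, Nat.add_mul_div_left _ _ (by omega), Nat.div_eq_of_lt (h1.trans_lt h), zero_add]
    obtain ⟨i1, i2⟩ := comb h k (r / B) (s / B) (fun i => c (i + 1)) hr.2 hs.2
    refine ⟨⟨e1 ▸ h1, e2 ▸ i1⟩, ?_⟩
    rw [dot, dot, dot, e1, e2, i2]
    push_cast
    ring

theorem zero_row : ∀ (k : ℕ) (c : ℕ → ZMod p), bd B k 0 0 ∧ dot p B k 0 c = 0
  | 0, _ => ⟨trivial, rfl⟩
  | k + 1, c => by
    obtain ⟨h1, h2⟩ := zero_row k fun i => c (i + 1)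
    exact ⟨⟨by simp, by simpa using h1⟩, by simp [dot, h2]⟩

theorem pow_row (hB : 1 < B) : ∀ (k i : ℕ) (c : ℕ → ZMod p), i < k → bd B k (B ^ i) 1 ∧ dot p B k (B ^ i) c = c i
  | k + 1, 0, c, _ => by
    obtain ⟨h1, h2⟩ := zero_row (B := B) k fun i => c (i + 1)
    have e : 1 / B = 0 := Nat.div_eq_of_lt hB
    exact ⟨⟨by simp [Nat.mod_eq_of_lt hB], by simpa [e] using bd_mono zero_le_one k 0 h1⟩,
      by simp [dot, e, h2, Nat.mod_eq_of_lt hB]⟩
  | k + 1, i + 1, c, h => by
    obtain ⟨h1, h2⟩ := pow_row hB k i (fun i => c (i + 1)) (by omega)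
    have e : B ^ (i + 1) / B = B ^ i := by rw [pow_succ, Nat.mul_div_cancel _ (by omega)]
    have e' : B ^ (i + 1) % B = 0 := by rw [pow_succ, Nat.mul_mod_left]
    exact ⟨⟨by omega, e ▸ h1⟩, by simp [dot, e, e', h2]⟩

theorem dot_zero : ∀ (k r : ℕ) (c : ℕ → ZMod p), (∀ i < k, c i = 0) → dot p B k r c = 0
  | 0, _, _, _ => rfl
  | k + 1, r, c, h => by
    rw [dot, h 0 (by omega), dot_zero k _ _ fun i hi => h (i + 1) (by omega), mul_zero, add_zero]

theorem pick_spec : ∀ (l : List ℕ) (x : ℕ × List ℕ), pick p B l = some x →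
    x.1 ∈ l ∧ x.1 % B % p ≠ 0 ∧ ∀ r ∈ x.2, r ∈ l
  | [], _, h => by simp [pick] at h
  | r :: l, x, h => by
    by_cases hr : r % B % p = 0
    · simp only [pick, hr, beq_self_eq_true, cond_true, Option.map_eq_some_iff] at h
      obtain ⟨y, hy, rfl⟩ := h
      obtain ⟨h1, h2, h3⟩ := pick_spec l y hy
      exact ⟨List.mem_cons_of_mem _ h1, h2, fun s hs =>
        (List.mem_cons.1 hs).elim (· ▸ List.mem_cons_self) fun h => List.mem_cons_of_mem _ (h3 s h)⟩
    · have : (r % B % p == 0) = false := by simpa using hr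
      simp only [pick, this, cond_false, Option.some.injEq] at h
      subst h
      exact ⟨List.mem_cons_self, hr, fun s hs => List.mem_cons_of_mem _ hs⟩

theorem elim_sound [hp : Fact p.Prime] : ∀ (k : ℕ) (l : List ℕ) (M : ℕ) (c : ℕ → ZMod p), M * (2 * p) ^ k < B →
    (∀ r ∈ l, bd B k r M ∧ dot p B k r c = 0) → elim p B k l = true → ∀ i < k, c i = 0
  | 0, _, _, _, _, _, _ => fun _ h => absurd h (Nat.not_lt_zero _)
  | k + 1, l, M, c, hM, hl, h => by
    have hp0 := hp.out.pos
    rw [elim] at h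
    split at h
    · simp at h
    rename_i x hx
    obtain ⟨h1, h2, h3⟩ := pick_spec l x hx
    obtain ⟨q1, q2⟩ := hl _ h1
    have key : ∀ i < k, c (i + 1) = 0 := by
      refine elim_sound k _ (M * (2 * p)) (fun i => c (i + 1)) (by rwa [mul_assoc, ← pow_succ']) ?_ h
      intro s hs
      obtain ⟨r, hr, rfl⟩ := List.mem_map.1 hs
      obtain ⟨r1, r2⟩ := hl r (h3 r hr)
      by_cases hr0 : r % B % p = 0
      · rw [dot, ← ZMod.natCast_mod, hr0, Nat.cast_zero, zero_mul, zero_add] at r2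
        simp only [stp, hr0, beq_self_eq_true, cond_true]
        exact ⟨bd_mono (by nlinarith) _ _ r1.2, r2⟩
      · have e : (r % B % p == 0) = false := by simpa using hr0
        have l1 := (Nat.mod_lt (x.1 % B) hp0).le
        have l2 := (Nat.mod_lt (r % B) hp0).le
        have l3 : x.1 % B % p * M + (p - r % B % p) * M ≤ M * (2 * p) := by
          have := Nat.sub_le p (r % B % p)
          nlinarith
        have l4 : M * (2 * p) ≤ M * (2 * p) ^ (k + 1) :=
          Nat.mul_le_mul_left _ (Nat.le_self_pow (by omega) _)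
        obtain ⟨c1, c2⟩ := comb (l3.trans_lt (l4.trans_lt hM)) (k + 1) r x.1 c r1 q1
        obtain ⟨-, c3⟩ := comb (p := p) (l3.trans_lt (l4.trans_lt hM)) 1 r x.1 (fun _ => 1) ⟨r1.1, trivial⟩
          ⟨q1.1, trivial⟩
        simp only [dot, mul_one, add_zero] at c3
        rw [Nat.cast_sub l2, ZMod.natCast_mod, ZMod.natCast_mod, ZMod.natCast_self] at c3
        rw [r2, q2, mul_zero, mul_zero, add_zero, dot, c3] at c2
        simp only [stp, e, cond_false]
        exact ⟨bd_mono l3 _ _ c1.2, by linear_combination c2⟩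
    rintro (_ | i) hi
    · rw [dot, dot_zero k _ _ key, add_zero, ← ZMod.natCast_mod] at q2
      refine (mul_eq_zero.1 q2).resolve_left fun e => h2 ?_
      exact Nat.eq_zero_of_dvd_of_lt ((ZMod.natCast_eq_zero_iff _ _).1 e) (Nat.mod_lt _ hp0)
    · exact key i (by omega)

end Elim

end CL.AltFix
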