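/-
Fixed vectors of non-solvable subgroups on modules of symmetric groups (for S4100), part 2:
the double coset certificate.
-/
import Cfsg.Agent.Inv.AltFix1

set_option autoImplicit false

namespace CL.AltFix

open Equiv

variable {p n : ℕ} [hp : Fact p.Prime] {M : Type*} [AddCommGroup M] [Module (ZMod p) M]

/-- no non-zero vector is fixed by a `(2,3,5)`- or `(2,3,7)`-group -/
def NF {Γ : Type*} [Group Γ] (ρ : Representation (ZMod p) Γ M) : Prop :=
  ∀ x y : Γ, x ≠ 1 → x ^ 2 = 1 → y ^ 3 = 1 → (x * y) ^ 35 = 1 → ∀ m, ρ x m = m → ρ y m = m → m = 0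

def key (n : ℕ) : List ((ℕ → Bool) × ℕ) → ℕ → ℕ
  | [], a => a
  | x :: l, a => key n l (bif x.1 a then mulP a n x.2 else a)

def bchk (n : ℕ) (kl : List ((ℕ → Bool) × ℕ)) (x y : ℕ) (S : List ℕ) : Bool :=
  valid n x && valid n y && S.all (valid n) && !isId n x && isId n (pwP n x 1) && isId n (pwP n y 2) &&
    isId n (pwP n (mulP x n y) 34) && (S.map fun s => key n kl (mulP x n s)).isPerm (S.map (key n kl)) &&
    (S.map fun s => key n kl (mulP y n s)).isPerm (S.map (key n kl))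

def rchk (n N NK : ℕ) (kc rep : ℕ → ℕ) (g : ℕ) : List ℕ → List ℕ → Bool
  | [], [] => true
  | s :: S, d :: D => decide (d % 64 < N) && decide (d / 64 % 256 < NK) && decide (d / 16384 < NK) &&
      mulP (kc (d / 64 % 256)) n (mulP g n s) == mulP (rep (d % 64)) n (kc (d / 16384)) && rchk n N NK kc rep g S D
  | _, _ => false

def row (p B : ℕ) (mu lam : ℕ → ℕ) : List ℕ → ℕ
  | [] => 0
  | d :: D => mu (d / 64 % 256) * lam (d / 16384) % p * B ^ (d % 64) + row p B mu lam D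

variable {ρ : Representation (ZMod p) (Perm (Fin n)) M} {v : M}

theorem key_spec : ∀ (kl : List ((ℕ → Bool) × ℕ)) (a : ℕ), (∀ z ∈ kl, Vd n z.2 ∧ ρ (el n z.2) v = v) → Vd n a →
    Vd n (key n kl a) ∧ ρ (el n (key n kl a)) v = ρ (el n a) v
  | [], _, _, ha => ⟨ha, rfl⟩
  | x :: l, a, h, ha => by
    have h1 := h x List.mem_cons_self
    have h2 := fun z hz => h z (List.mem_cons_of_mem _ hz)
    rw [key]
    cases x.1 a
    · exact key_spec l a h2 ha
    · obtain ⟨i1, i2⟩ := key_spec l _ h2 (ha.mul h1.1).1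
      exact ⟨i1, by rw [cond_true, i2, (ha.mul h1.1).2, map_mul, Module.End.mul_apply, h1.2]⟩

theorem base_sum (hNF : NF ρ) {kl : List ((ℕ → Bool) × ℕ)} (hk : ∀ z ∈ kl, Vd n z.2 ∧ ρ (el n z.2) v = v)
    {x y : ℕ} {S : List ℕ} (h : bchk n kl x y S = true) :
    (∀ s ∈ S, Vd n s) ∧ (S.map fun s => ρ (el n s) v).sum = 0 := by
  simp only [bchk, Bool.and_eq_true, List.all_eq_true, List.isPerm_iff, Bool.not_eq_true'] at h
  obtain ⟨⟨⟨⟨⟨⟨⟨⟨h1, h2⟩, h3⟩, h4⟩, h5⟩, h6⟩, h7⟩, h8⟩, h9⟩ := h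
  have hx := vd_of_valid h1
  have hy := vd_of_valid h2
  have hS := fun s hs => vd_of_valid (h3 s hs)
  have fx : ∀ z, Vd n z → (S.map fun s => key n kl (mulP z n s)).Perm (S.map (key n kl)) →
      ρ (el n z) (S.map fun s => ρ (el n s) v).sum = (S.map fun s => ρ (el n s) v).sum := fun z hz e => by
    have e' := (e.map fun s => ρ (el n s) v).sum_eq
    rw [List.map_map, List.map_map] at e'
    rw [map_list_sum, List.map_map]
    refine (congrArg List.sum (List.map_congr_left fun s hs => ?_)).trans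
      (e'.trans (congrArg List.sum (List.map_congr_left fun s hs => (key_spec kl s hk (hS s hs)).2)))
    simp only [Function.comp]
    rw [(key_spec kl _ hk (hz.mul (hS s hs)).1).2, (hz.mul (hS s hs)).2, map_mul, Module.End.mul_apply]
  refine ⟨hS, hNF _ _ (hx.ne_one h4) ((hx.pw 1).2.symm.trans (of_isId h5).2) ((hy.pw 2).2.symm.trans (of_isId h6).2)
    ?_ _ (fx x hx h8) (fx y hy h9)⟩
  rw [← (hx.mul hy).2]
  exact ((hx.mul hy).1.pw 34).2.symm.trans (of_isId h7).2

theorem rel_sum {N NK B g : ℕ} {kc rep mu lam : ℕ → ℕ} (hp0 : 0 < p) (hkc : ∀ i < NK, Vd n (kc i))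
    (hrep : ∀ r < N, Vd n (rep r)) (hg : Vd n g) {ψ : Perm (Fin n) → ZMod p} {c : ℕ → ZMod p}
    (hψ : ∀ y, ∀ i < NK, ∀ r < N, ∀ j < NK, el n (kc i) * y = el n (rep r) * el n (kc j) → ψ y = mu i * lam j * c r) :
    ∀ S D : List ℕ, (∀ s ∈ S, Vd n s) → p * S.length < B → rchk n N NK kc rep g S D = true →
      bd B N (row p B mu lam D) (p * S.length) ∧
        dot p B N (row p B mu lam D) c = (S.map fun s => ψ (el n g * el n s)).sum
  | [], [], _, _, _ => by simpa [row] using zero_row N c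
  | [], _ :: _, _, _, h => by simp [rchk] at h
  | _ :: _, [], _, _, h => by simp [rchk] at h
  | s :: S, d :: D, hS, hB, h => by
    simp only [rchk, Bool.and_eq_true, decide_eq_true_eq, beq_iff_eq] at h
    obtain ⟨⟨⟨⟨h1, h2⟩, h3⟩, h4⟩, h5⟩ := h
    rw [List.length_cons, Nat.mul_succ] at hB ⊢
    obtain ⟨i1, i2⟩ := rel_sum (B := B) hp0 hkc hrep hg hψ S D (fun t ht => hS t (List.mem_cons_of_mem _ ht))
      (by omega) h5
    have l1 := Nat.mod_lt (mu (d / 64 % 256) * lam (d / 16384)) hp0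
    have hp2 := hp.out.two_le
    obtain ⟨w1, w2⟩ := pow_row (B := B) (by omega) N _ c h1
    obtain ⟨c1, c2⟩ := comb (a := mu (d / 64 % 256) * lam (d / 16384) % p) (b := 1) (M := 1) (M' := p * S.length)
      (by omega) N _ _ c w1 i1
    have hs := hS s List.mem_cons_self
    have e := congrArg (el n) h4
    rw [((hkc _ h2).mul (hg.mul hs).1).2, (hg.mul hs).2, ((hrep _ h1).mul (hkc _ h3)).2] at e
    rw [one_mul (row p B mu lam D)] at c1 c2
    refine ⟨bd_mono (M' := p * S.length + p) (by omega) _ _ c1, ?_⟩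
    rw [row, c2, w2, i2, List.map_cons, List.sum_cons, hψ _ _ h2 _ h1 _ h3 e, ZMod.natCast_mod]
    push_cast
    ring

/-- the left regular representation on functions -/
def lreg (F Γ : Type*) [Field F] [Group Γ] : Representation F Γ (Γ → F) where
  toFun g := LinearMap.funLeft F F (g⁻¹ * ·)
  map_one' := by ext φ x; simp [LinearMap.funLeft]
  map_mul' g h := by ext φ x; simp [LinearMap.funLeft, mul_assoc]

theorem core {ι : Type*} (hv : v ≠ 0) {N NK B : ℕ} {kc rep lam : ℕ → ℕ} {PAR : List ι} {chi : ι → ℕ → ℕ}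
    (hkc : ∀ i < NK, Vd n (kc i) ∧ ρ (el n (kc i)) v = (lam i : ZMod p) • v) (hrep : ∀ r < N, Vd n (rep r))
    (hN : 0 < N) (hNK : 0 < NK)
    (hE : ∀ W : Submodule (ZMod p) (Perm (Fin n) → ZMod p), W ≠ ⊥ →
      (∀ i < NK, ∀ φ ∈ W, lreg _ _ (el n (kc i)) φ ∈ W) →
      ∃ φ ∈ W, φ ≠ 0 ∧ ∃ a ∈ PAR, ∀ i < NK, lreg _ _ (el n (kc i)) φ = (chi a i : ZMod p) • φ)
    {rels : List (ℕ × List ℕ × List ℕ)}
    (hrel : ∀ x ∈ rels, Vd n x.1 ∧ (∀ s ∈ x.2.1, Vd n s) ∧ (x.2.1.map fun s => ρ (el n s) v).sum = 0 ∧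
      x.2.1.length ≤ 64 ∧ rchk n N NK kc rep x.1 x.2.1 x.2.2 = true)
    (hB : p * 64 * (2 * p) ^ N < B)
    (hel : ∀ a ∈ PAR, elim p B N (rels.map fun x => row p B (chi a) lam x.2.2) = true) : False := by
  classical
  set K := Subgroup.closure {k | ∃ i < NK, el n (kc i) = k}
  have hK : ∀ i < NK, el n (kc i) ∈ K := fun i hi => Subgroup.subset_closure ⟨i, hi, rfl⟩
  let U : Perm (Fin n) → Prop := fun g => ∃ k ∈ K, ∃ r < N, ∃ j < NK, k * g = el n (rep r) * el n (kc j)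
  have hU : ∀ k ∈ K, ∀ g, U (k * g) ↔ U g := fun k hk g =>
    ⟨fun ⟨k', h1, h2⟩ => ⟨k' * k, mul_mem h1 hk, by simpa only [mul_assoc] using h2⟩,
      fun ⟨k', h1, h2⟩ => ⟨k' * k⁻¹, mul_mem h1 (inv_mem hk), by simpa only [mul_assoc, inv_mul_cancel_left] using h2⟩⟩
  have hU1 : ∀ r < N, ∀ j < NK, U (el n (rep r) * el n (kc j)) := fun r hr j hj => ⟨1, one_mem _, r, hr, j, hj, one_mul _⟩
  let Φ : Module.Dual (ZMod p) M →ₗ[ZMod p] (Perm (Fin n) → ZMod p) :=
    { toFun := fun f g => if U g then f (ρ g v) else 0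
      map_add' := fun f f' => by ext g; by_cases h : U g <;> simp [h]
      map_smul' := fun a f => by ext g; by_cases h : U g <;> simp [h] }
  have hΦ : ∀ f g, Φ f g = if U g then f (ρ g v) else 0 := fun _ _ => rfl
  have inj : ∀ g, ρ g v ≠ 0 := fun g e => hv (by rw [← ρ.inv_self_apply g v, e, map_zero])
  obtain ⟨φ, ⟨f, rfl⟩, h0, a, ha, hf⟩ := hE (LinearMap.range Φ) (fun e => inj (el n (rep 0) * el n (kc 0))
      ((Module.forall_dual_apply_eq_zero_iff (ZMod p) _).1 fun f => by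
        have := congrFun ((Submodule.eq_bot_iff _).1 e _ ⟨f, rfl⟩) (el n (rep 0) * el n (kc 0))
        rwa [hΦ, if_pos (hU1 0 hN 0 hNK)] at this))
    (by
      rintro i hi _ ⟨f, rfl⟩
      refine ⟨f ∘ₗ ρ (el n (kc i))⁻¹, funext fun g => ?_⟩
      change _ = Φ f ((el n (kc i))⁻¹ * g)
      simp only [hΦ, hU _ (inv_mem (hK i hi)), map_mul, Module.End.mul_apply, LinearMap.comp_apply])
  have hf' : ∀ i < NK, ∀ g, Φ f g = chi a i * Φ f (el n (kc i) * g) := fun i hi g => by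
    have := congrFun (hf i hi) (el n (kc i) * g)
    change Φ f ((el n (kc i))⁻¹ * (el n (kc i) * g)) = _ at this
    rwa [inv_mul_cancel_left] at this
  have h1 : ∀ r < N, ∀ j < NK, Φ f (el n (rep r) * el n (kc j)) = lam j * f (ρ (el n (rep r)) v) := fun r hr j hj => by
    rw [hΦ, if_pos (hU1 r hr j hj), map_mul, Module.End.mul_apply, (hkc j hj).2, map_smul, map_smul, smul_eq_mul]
  have hz : ∀ r < N, f (ρ (el n (rep r)) v) = 0 := by
    have hp1 := hp.out.pos
    refine elim_sound N _ (p * 64) (fun r => f (ρ (el n (rep r)) v)) hB (fun w hw => ?_) (hel a ha)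
    obtain ⟨x, hx, rfl⟩ := List.mem_map.1 hw
    obtain ⟨x1, x2, x3, x4, x5⟩ := hrel x hx
    have l1 := Nat.mul_le_mul_left p x4
    have l2 : p * 64 ≤ p * 64 * (2 * p) ^ N := Nat.le_mul_of_pos_right _ (by positivity)
    obtain ⟨i1, i2⟩ := rel_sum (B := B) (mu := chi a) (lam := lam) hp1 (fun i hi => (hkc i hi).1) hrep x1
      (ψ := fun y => f (ρ y v)) (c := fun r => f (ρ (el n (rep r)) v)) (fun y i hi r hr j hj e => by
        have := hf' i hi y
        rwa [hΦ, if_pos ⟨_, hK i hi, r, hr, j, hj, e⟩, e, h1 r hr j hj, ← mul_assoc] at this) _ _ x2 (by omega) x5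
    refine ⟨bd_mono l1 _ _ i1, ?_⟩
    have := congrArg (fun m => f (ρ (el n x.1) m)) x3
    simp only [map_list_sum, List.map_map, map_zero] at this
    rw [i2, ← this]
    simp only [map_mul, Module.End.mul_apply]
    rfl
  have hk0 : ∀ k ∈ K, ∀ g, Φ f (k * g) = 0 ↔ Φ f g = 0 := fun k hk => by
    induction hk using Subgroup.closure_induction with
    | mem k hk =>
      obtain ⟨i, hi, rfl⟩ := hk
      refine fun g => ⟨fun e => by rw [hf' i hi, e, mul_zero], fun e => ?_⟩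
      refine (mul_eq_zero.1 ((hf' i hi g).symm.trans e)).resolve_left fun e' => h0 (funext fun g => ?_)
      rw [hf' i hi, e', zero_mul]; rfl
    | one => simp
    | mul k k' _ _ i1 i2 => exact fun g => by rw [mul_assoc, i1, i2]
    | inv k _ i1 => exact fun g => by rw [← i1, mul_inv_cancel_left]
  refine h0 (funext fun g => ?_)
  by_cases hg : U g
  · obtain ⟨k, hk, r, hr, j, hj, e⟩ := hg
    exact (hk0 k hk g).1 (by rw [e, h1 r hr j hj, hz r hr, mul_zero])
  · rw [hΦ, if_neg hg]; rfl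

end CL.AltFix
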