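/-
Fixed vectors of non-solvable subgroups on modules of symmetric groups (for S4100), part 3:
common eigenvectors.
-/
import Cfsg.Agent.Inv.AltFix2

set_option autoImplicit false

namespace CL.AltFix

open Equiv

section
variable {p : ℕ} [hp : Fact p.Prime] {E Γ : Type*} [AddCommGroup E] [Module (ZMod p) E] [Group Γ]
  {σ : Representation (ZMod p) Γ E}

theorem eig_step (T : Module.End (ZMod p) E) (Q : E → Prop) (hQ : ∀ (e : E) (a : ZMod p), Q e → Q (T e - a • e)) :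
    ∀ (l : List ℕ) (e : E), Q e → e ≠ 0 → l.foldl (fun e (a : ℕ) => T e - (a : ZMod p) • e) e = 0 →
      ∃ a ∈ l, ∃ e, Q e ∧ e ≠ 0 ∧ T e = (a : ZMod p) • e
  | [], _, _, h, h' => absurd h' h
  | a :: l, e, hq, h, h' => by
    by_cases h1 : T e - (a : ZMod p) • e = 0
    · exact ⟨a, List.mem_cons_self, e, hq, h, sub_eq_zero.1 h1⟩
    · obtain ⟨b, hb, r⟩ := eig_step T Q hQ l _ (hQ e a hq) h1 h'
      exact ⟨b, List.mem_cons_of_mem _ hb, r⟩

theorem eig_pow {x : Γ} {e : E} {a : ZMod p} (h : σ x e = a • e) : ∀ k : ℕ, σ (x ^ k) e = a ^ k • e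
  | 0 => by simp
  | k + 1 => by rw [pow_succ, map_mul, Module.End.mul_apply, h, map_smul, eig_pow h k, smul_smul, ← pow_succ']

theorem eig_pres {x g : Γ} {e : E} {a : ZMod p} (k : ℕ) (h : σ x e = a • e) (h1 : x * g = g * x ^ k) (h2 : a ^ k = a)
    (b : ZMod p) : σ x (σ g e - b • e) = a • (σ g e - b • e) := by
  rw [map_sub, ← Module.End.mul_apply, ← map_mul, h1, map_mul, Module.End.mul_apply, eig_pow h, h2, map_smul,
    map_smul, h, smul_sub, smul_comm]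

end

section
variable {E Γ : Type*} [AddCommGroup E] [Group Γ]

instance : Fact (Nat.Prime 5) := ⟨Nat.prime_five⟩

theorem eig5 [Module (ZMod 5) E] (σ : Representation (ZMod 5) Γ E) {s t u w : Γ} (hs : s ^ 5 = 1) (ht : t ^ 5 = 1)
    (hu : u ^ 4 = 1) (hw : w ^ 2 = 1) (h1 : s * t = t * s ^ 1) (h2 : s * u = u * s ^ 3) (h3 : t * u = u * t ^ 3)
    (h4 : s * w = w * s ^ 4) (h5 : t * w = w * t ^ 1) (h6 : u * w = w * u ^ 1) (W : Submodule (ZMod 5) E) (hW : W ≠ ⊥)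
    (hi : ∀ g ∈ [s, t, u, w], ∀ e ∈ W, σ g e ∈ W) : ∃ e ∈ W, e ≠ 0 ∧ σ s e = (1 : ZMod 5) • e ∧
      σ t e = (1 : ZMod 5) • e ∧ ∃ a ∈ [1, 2, 3, 4], ∃ b ∈ [1, 4], σ u e = ((a : ℕ) : ZMod 5) • e ∧
        σ w e = ((b : ℕ) : ZMod 5) • e := by
  have z5 : (5 : ZMod 5) = 0 := rfl
  have pw : ∀ (g : Γ) (k : ℕ), g ^ k = 1 → ∀ e, (σ g ^ k) e = e := fun g k h e => by
    rw [← map_pow, h, map_one, Module.End.one_apply]
  have o5 : ∀ g : Γ, g ^ 5 = 1 → ∀ e, [1, 1, 1, 1, 1].foldl (fun e a => σ g e - ((a : ℕ) : ZMod 5) • e) e = 0 :=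
    fun g h e => by
      have := pw g 5 h e
      simp only [pow_succ, pow_zero, one_mul, Module.End.mul_apply] at this
      simp only [List.foldl, map_sub, map_smul, Nat.cast_one]
      linear_combination (norm := module) this + z5 • (-σ g (σ g (σ g (σ g e))) + (2 : ZMod 5) • σ g (σ g (σ g e)) -
        (2 : ZMod 5) • σ g (σ g e) + σ g e)
  have hm : ∀ g ∈ [s, t, u, w], ∀ e (a : ZMod 5), e ∈ W → σ g e - a • e ∈ W := fun g hg e a he =>
    W.sub_mem (hi g hg e he) (W.smul_mem a he)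
  obtain ⟨e, he, h0⟩ := (Submodule.ne_bot_iff W).1 hW
  obtain ⟨a, ha, e, he, h0, es⟩ := eig_step (σ s) (· ∈ W) (hm s (by simp)) _ e he h0 (o5 s hs e)
  obtain rfl : a = 1 := by simpa using ha
  obtain ⟨a, ha, e, ⟨he, es⟩, h0, et⟩ := eig_step (σ t) (fun e => e ∈ W ∧ σ s e = ((1 : ℕ) : ZMod 5) • e)
    (fun e a h => ⟨hm t (by simp) e a h.1, eig_pres 1 h.2 h1 (pow_one _) a⟩) _ e ⟨he, es⟩ h0 (o5 t ht e)
  obtain rfl : a = 1 := by simpa using ha
  rw [Nat.cast_one] at es et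
  obtain ⟨a, ha, e, ⟨he, es, et⟩, h0, eu⟩ := eig_step (σ u)
    (fun e => e ∈ W ∧ σ s e = (1 : ZMod 5) • e ∧ σ t e = (1 : ZMod 5) • e)
    (fun e a h => ⟨hm u (by simp) e a h.1, eig_pres 3 h.2.1 h2 (one_pow _) a, eig_pres 3 h.2.2 h3 (one_pow _) a⟩)
    [1, 2, 3, 4] e ⟨he, es, et⟩ h0 (by
      have := pw u 4 hu e
      simp only [pow_succ, pow_zero, one_mul, Module.End.mul_apply] at this
      simp only [List.foldl, map_sub, map_smul, Nat.cast_one, Nat.cast_ofNat]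
      linear_combination (norm := module) this + z5 • (-(2 : ZMod 5) • σ u (σ u (σ u e)) + (7 : ZMod 5) • σ u (σ u e) -
        (10 : ZMod 5) • σ u e + (5 : ZMod 5) • e))
  obtain ⟨b, hb, e, ⟨he, es, et, eu⟩, h0, ew⟩ := eig_step (σ w)
    (fun e => e ∈ W ∧ σ s e = (1 : ZMod 5) • e ∧ σ t e = (1 : ZMod 5) • e ∧ σ u e = (a : ZMod 5) • e)
    (fun e a h => ⟨hm w (by simp) e a h.1, eig_pres 4 h.2.1 h4 (one_pow _) a, eig_pres 1 h.2.2.1 h5 (one_pow _) a,
      eig_pres 1 h.2.2.2 h6 (pow_one _) a⟩)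
    [1, 4] e ⟨he, es, et, eu⟩ h0 (by
      have := pw w 2 hw e
      simp only [pow_succ, pow_zero, one_mul, Module.End.mul_apply] at this
      simp only [List.foldl, map_sub, map_smul, Nat.cast_one, Nat.cast_ofNat]
      linear_combination (norm := module) this + z5 • (e - σ w e))
  exact ⟨e, he, h0, es, et, a, ha, b, hb, eu, ew⟩

def pc (n : ℕ) : List ℕ → Bool
  | [] => true
  | g :: l => valid n g && isId n (mulP g n g) && l.all (fun x => l.any fun y => mulP x n g == mulP g n y) && pc n l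

theorem fix2 {n : ℕ} [Module (ZMod 2) E] (σ : Representation (ZMod 2) (Perm (Fin n)) E) (W : Submodule (ZMod 2) E)
    (hW : W ≠ ⊥) : ∀ l : List ℕ, pc n l = true → (∀ g ∈ l, ∀ e ∈ W, σ (el n g) e ∈ W) →
      ∃ e ∈ W, e ≠ 0 ∧ ∀ g ∈ l, Vd n g ∧ σ (el n g) e = e
  | [], _, _ => by simpa using (Submodule.ne_bot_iff W).1 hW
  | g :: l, h, hi => by
    simp only [pc, Bool.and_eq_true, List.all_eq_true, List.any_eq_true, beq_iff_eq] at h
    obtain ⟨⟨⟨h1, h2⟩, h3⟩, h4⟩ := h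
    have hg := vd_of_valid h1
    obtain ⟨e, he, h0, hl⟩ := fix2 σ W hW l h4 fun x hx => hi x (List.mem_cons_of_mem _ hx)
    have z2 : (2 : ZMod 2) = 0 := rfl
    by_cases h5 : σ (el n g) e + e = 0
    · exact ⟨e, he, h0, List.forall_mem_cons.2 ⟨⟨hg, by linear_combination (norm := module) h5 - z2 • e⟩, hl⟩⟩
    refine ⟨_, W.add_mem (hi g List.mem_cons_self e he) he, h5, List.forall_mem_cons.2 ⟨⟨hg, ?_⟩, fun x hx => ?_⟩⟩
    · rw [map_add, ← Module.End.mul_apply, ← map_mul, ← (hg.mul hg).2, (of_isId h2).2, map_one, add_comm]; rfl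
    · obtain ⟨y, hy, e'⟩ := h3 x hx
      have e2 := congrArg (el n) e'
      rw [((hl x hx).1.mul hg).2, (hg.mul (hl y hy).1).2] at e2
      exact ⟨(hl x hx).1, by rw [map_add, ← Module.End.mul_apply, ← map_mul, e2, map_mul, Module.End.mul_apply,
        (hl y hy).2, (hl x hx).2]⟩

end

/-- entry `i` of a packed table of permutations -/
def tb (T i : ℕ) : ℕ := (T >>> (40 * i)) % 1099511627776

def pw0 (n u a : ℕ) : ℕ → ℕ
  | 0 => u
  | k + 1 => mulP a n (pw0 n u a k)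

def kcG (n u : ℕ) : List (ℕ × ℕ) → ℕ → ℕ
  | [], _ => u
  | x :: l, i => mulP (pw0 n u x.1 (i % x.2)) n (kcG n u l (i / x.2))

def chiG (ev : ℕ → ℕ) : List (ℕ × ℕ) → ℕ → ℕ
  | [], _ => 1
  | x :: l, i => ev x.1 ^ (i % x.2) * chiG ev l (i / x.2)

variable {n u : ℕ}

theorem Vd.pw0 {a : ℕ} (hu : isId n u = true) (ha : Vd n a) : ∀ k, Vd n (pw0 n u a k) ∧ el n (pw0 n u a k) = el n a ^ k
  | 0 => of_isId hu
  | k + 1 => ⟨(ha.mul (ha.pw0 hu k).1).1, by rw [AltFix.pw0, (ha.mul (ha.pw0 hu k).1).2, (ha.pw0 hu k).2, ← pow_succ']⟩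

theorem kcG_spec {p : ℕ} [Fact p.Prime] {E : Type*} [AddCommGroup E] [Module (ZMod p) E]
    {σ : Representation (ZMod p) (Perm (Fin n)) E} {e : E} {ev : ℕ → ℕ} (hu : isId n u = true) :
    ∀ (l : List (ℕ × ℕ)) (i : ℕ), (∀ x ∈ l, Vd n x.1 ∧ σ (el n x.1) e = (ev x.1 : ZMod p) • e) →
      Vd n (kcG n u l i) ∧ σ (el n (kcG n u l i)) e = (chiG ev l i : ZMod p) • e
  | [], _, _ => ⟨(of_isId hu).1, by simp [kcG, chiG, (of_isId hu).2]⟩
  | x :: l, i, h => by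
    obtain ⟨h1, h2⟩ := h x List.mem_cons_self
    obtain ⟨i1, i2⟩ := kcG_spec hu l (i / x.2) fun y hy => h y (List.mem_cons_of_mem _ hy)
    obtain ⟨j1, j2⟩ := h1.pw0 hu (i % x.2)
    refine ⟨(j1.mul i1).1, ?_⟩
    rw [kcG, (j1.mul i1).2, map_mul, Module.End.mul_apply, i2, map_smul, j2, eig_pow h2, smul_smul, chiG,
      Nat.cast_mul, Nat.cast_pow, mul_comm]

/-- the check of a list of relations against a list of base sets -/
def rchks (n N NK : ℕ) (kc rep : ℕ → ℕ) (bases : List (ℕ × ℕ × List ℕ)) (rels : List (ℕ × ℕ × List ℕ)) : Bool :=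
  rels.all fun x => valid n x.2.1 && decide ((bases.getD x.1 (0, 0, [])).2.2.length ≤ 64) &&
    rchk n N NK kc rep x.2.1 (bases.getD x.1 (0, 0, [])).2.2 x.2.2

theorem core' {p : ℕ} [Fact p.Prime] {M : Type*} [AddCommGroup M] [Module (ZMod p) M]
    {ρ : Representation (ZMod p) (Perm (Fin n)) M} {v : M} (hNF : NF ρ) {ι : Type*} (hv : v ≠ 0) {N NK B : ℕ}
    {kc rep lam : ℕ → ℕ} {PAR : List ι} {chi : ι → ℕ → ℕ}
    (hkc : ∀ i < NK, Vd n (kc i) ∧ ρ (el n (kc i)) v = (lam i : ZMod p) • v)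
    (hrep : (List.range N).all (fun r => valid n (rep r)) = true) (hN : 0 < N) (hNK : 0 < NK)
    (hE : ∀ W : Submodule (ZMod p) (Perm (Fin n) → ZMod p), W ≠ ⊥ →
      (∀ i < NK, ∀ φ ∈ W, lreg _ _ (el n (kc i)) φ ∈ W) →
      ∃ φ ∈ W, φ ≠ 0 ∧ ∃ a ∈ PAR, ∀ i < NK, lreg _ _ (el n (kc i)) φ = (chi a i : ZMod p) • φ)
    {kl : List ((ℕ → Bool) × ℕ)} (hk : ∀ z ∈ kl, Vd n z.2 ∧ ρ (el n z.2) v = v)
    {bases rels : List (ℕ × ℕ × List ℕ)} (hb : bases.all (fun x => bchk n kl x.1 x.2.1 x.2.2) = true)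
    (hr : rchks n N NK kc rep bases rels = true) (hB : p * 64 * (2 * p) ^ N < B)
    (hel : ∀ a ∈ PAR, elim p B N (rels.map fun x => row p B (chi a) lam x.2.2) = true) : False := by
  simp only [rchks, List.all_eq_true, Bool.and_eq_true, decide_eq_true_eq, List.mem_range] at hb hr hrep
  refine core hv hkc (fun r h => vd_of_valid (hrep r h)) hN hNK hE
    (rels := rels.map fun x => (x.2.1, (bases.getD x.1 (0, 0, [])).2.2, x.2.2)) (fun y hy => ?_) hB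
    (by simpa only [List.map_map, Function.comp_def] using hel)
  obtain ⟨x, hx, rfl⟩ := List.mem_map.1 hy
  obtain ⟨⟨h1, h2⟩, h3⟩ := hr x hx
  have : (∀ s ∈ (bases.getD x.1 (0, 0, [])).2.2, Vd n s) ∧
      ((bases.getD x.1 (0, 0, [])).2.2.map fun s => ρ (el n s) v).sum = 0 := by
    rcases lt_or_ge x.1 bases.length with h | h
    · rw [List.getD_eq_getElem _ _ h]; exact base_sum hNF hk (hb _ (List.getElem_mem h))
    · rw [List.getD_eq_default _ _ h]; simp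
  exact ⟨vd_of_valid h1, this.1, this.2, h2, h3⟩

end CL.AltFix
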