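/-
Groups in which the non-central `p`-elements have solvable centralisers (for S4100): the reduction to modules.
-/
import Cfsg.Agent.Inv.AltFix2
import Cfsg.Agent.Grp.Coprime2
import Cfsg.Agent.Grp.NilpSub
import Cfsg.Agent.Loc.ElemAb
import Cfsg.Agent.Loc.PGen

set_option autoImplicit false

namespace CL.AltFix

open Cfsg Subgroup CL.Grp CL.Loc
open scoped commutatorElement

universe u

def T235 {A : Type*} [Group A] (x y : A) : Prop := x ≠ 1 ∧ x ^ 2 = 1 ∧ y ^ 3 = 1 ∧ (x * y) ^ 35 = 1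

def Hyp (p : ℕ) (G : Type*) [Group G] : Prop :=
  ∀ x : G, x ∉ center G → (∃ k : ℕ, orderOf x = p ^ k) → Group.IsSolvable (centralizer ({x} : Set G))

/-- every non-zero module has a non-zero vector fixed by a non-solvable subgroup -/
def KL (p : ℕ) (A : Type) [Group A] : Prop :=
  ∀ (G : Type u) [Group G] (π : G →* A), Function.Surjective π → ∀ (V : Type u) [AddCommGroup V] [Module (ZMod p) V]
    (σ : Representation (ZMod p) G V), (∀ g, π g = 1 → ∀ v, σ g v = v) → ∀ v : V, v ≠ 0 →
      ∃ x y : G, T235 (π x) (π y) ∧ ∃ w, w ≠ 0 ∧ σ x w = w ∧ σ y w = w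

variable {A : Type} [Group A] {p : ℕ} [hp : Fact p.Prime]

theorem T235.eq_one {C : Type*} [CommGroup C] {a b : C} (h2 : a ^ 2 = 1) (h3 : b ^ 3 = 1) (h : (a * b) ^ 35 = 1) :
    a = 1 ∧ b = 1 := by
  have h1 : a = 1 := by
    calc a = (a * b) ^ (35 * 3) * ((b ^ 3) ^ 35)⁻¹ * ((a ^ 2) ^ 52)⁻¹ := by rw [mul_pow]; group
      _ = 1 := by rw [pow_mul, h, h2, h3]; simp
  rw [h1, one_mul] at h
  exact ⟨h1, by calc b = (b ^ 3) ^ 12 * (b ^ 35)⁻¹ := by group
    _ = 1 := by rw [h, h3]; simp⟩

theorem T235.le_comm {x y : A} (h : T235 x y) : closure {x, y} ≤ ⁅closure {x, y}, closure ({x, y} : Set A)⁆ := by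
  have hx : x ∈ closure ({x, y} : Set A) := subset_closure (by simp)
  have hy : y ∈ closure ({x, y} : Set A) := subset_closure (by simp)
  obtain ⟨h1, h2⟩ := T235.eq_one (a := Abelianization.of (⟨x, hx⟩ : closure ({x, y} : Set A)))
    (b := Abelianization.of ⟨y, hy⟩) (by rw [← map_pow, ← map_one Abelianization.of]; exact congrArg _ (Subtype.ext h.2.1))
    (by rw [← map_pow, ← map_one Abelianization.of]; exact congrArg _ (Subtype.ext h.2.2.1))
    (by rw [← map_mul, ← map_pow, ← map_one Abelianization.of]; exact congrArg _ (Subtype.ext h.2.2.2))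
  rw [← MonoidHom.mem_ker, Abelianization.ker_of] at h1 h2
  rw [← map_subtype_commutator, closure_le]
  rintro _ (rfl | rfl)
  exacts [⟨_, h1, rfl⟩, ⟨_, h2, rfl⟩]

theorem Hyp.fin {G : Type*} [Group G] [Finite G] (h : Hyp p G) (π : G →* A) {w : G} (hw : w ∉ center G) {k : ℕ}
    (hk : w ^ p ^ k = 1) {x y : A} (ht : T235 x y) {K : Subgroup G} (hK : closure {x, y} ≤ K.map π)
    (hc : ∀ g ∈ K, Commute (QuotientGroup.mk' (center G) g) (QuotientGroup.mk' (center G) w)) : False := by
  obtain ⟨j, -, hj⟩ := (Nat.dvd_prime_pow hp.out).1 (orderOf_dvd_of_pow_eq_one hk)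
  haveI := h w hw ⟨j, hj⟩
  have h0 : ⁅⁅K, zpowers w⁆, K⁆ = ⊥ := commutator_eq_bot_iff_le_centralizer.2 (le_trans (commutator_le.2 (by
    rintro a ha _ ⟨n, rfl⟩
    rw [← QuotientGroup.eq_one_iff, ← QuotientGroup.mk'_apply, map_commutatorElement, map_zpow]
    exact ((hc a ha).zpow_right n).commutator_eq)) (center_le_centralizer _))
  have h1 : ⁅K, K⁆ ≤ centralizer {w} := (commutator_eq_bot_iff_le_centralizer.1
    (commutator_commutator_eq_bot_of_rotate h0 (by rwa [commutator_comm (zpowers w)]))).trans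
      (centralizer_le (by simp))
  have h2 : closure {x, y} ≤ (centralizer {w}).map π :=
    ht.le_comm.trans ((commutator_mono hK hK).trans ((map_commutator _ _ _).ge.trans (map_mono h1)))
  haveI : Group.IsSolvable ((centralizer {w}).map π) := Group.isSolvable_of_surjective (π.subgroupMap_surjective _)
  haveI : Group.IsSolvable (closure ({x, y} : Set A)) := Group.isSolvable_of_isSolvable_injective (inclusion_injective h2)
  haveI : Nontrivial (closure ({x, y} : Set A)) :=
    ⟨⟨⟨x, subset_closure (by simp)⟩, 1, fun e => ht.1 (congrArg Subtype.val e)⟩⟩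
  refine (Group.IsSolvable.commutator_lt_top_of_nontrivial (closure ({x, y} : Set A))).ne (map_subtype_inj.1 ?_)
  rw [map_subtype_commutator, top_map_subtype]
  exact le_antisymm ((commutator_le_sup _ _).trans (sup_idem _).le) ht.le_comm

omit hp in
theorem Hyp.sub {G : Type*} [Group G] (h : Hyp p G) (M : Subgroup G) : Hyp p M := by
  rintro w hw ⟨k, hk⟩
  haveI := h w (fun e => hw (mem_center_iff.2 fun g => Subtype.ext (mem_center_iff.1 e g))) ⟨k, by simpa using hk⟩
  exact Group.isSolvable_of_isSolvable_injective (f := (M.subtype.comp (centralizer {w}).subtype).codRestrict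
    (centralizer {(w : G)}) fun g => mem_centralizer_singleton_iff.2
      (congrArg Subtype.val (mem_centralizer_singleton_iff.1 g.2)))
    fun a b e => Subtype.ext (Subtype.ext (congrArg (fun z : centralizer {(w : G)} => (z : G)) e))

theorem no_alt (hZ : center A = ⊥) {c x y : A} (hc : c ≠ 1) (hcp : c ^ p = 1) (hx : Commute c x) (hy : Commute c y)
    (ht : T235 x y) (hKL : ¬ p ∣ Nat.card (closure ({x, y} : Set A)) ∨ KL.{u} p A) (n : ℕ) :
    ∀ (G : Type u) [Group G] [Finite G], Nat.card G = n → Hyp p G → ∀ π : G →* A, Function.Surjective π → False := by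
  induction n using Nat.strong_induction_on with
  | _ n ih =>
  intro G _ _ hn h π hπ
  have hN : π.ker ≤ frattini G := le_iInf₂ fun M hM => by
    by_contra hm
    have e : M ⊔ π.ker = ⊤ := hM.2 _ (left_lt_sup.2 hm)
    obtain ⟨z, -, hz⟩ := SetLike.exists_of_lt hM.1.lt_top
    refine ih _ (hn ▸ Finite.card_subtype_lt hz) M rfl (h.sub M) (π.comp M.subtype) fun a => ?_
    · obtain ⟨g, rfl⟩ := hπ a
      obtain ⟨m, hm, k, hk, rfl⟩ := mem_sup_of_ge_normalizer (le_normalizer_of_normal (H := π.ker)) |>.1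
        (show g ∈ π.ker ⊔ M from (sup_comm M π.ker ▸ e).ge (mem_top g))
      exact ⟨⟨k, hk⟩, by simp [MonoidHom.mem_ker.1 hm]⟩
  haveI := frattini_nilpotent (G := G)
  have hnil : Group.IsNilpotent π.ker := Group.nilpotent_of_mulEquiv (subgroupOfEquivOfLe hN)
  have hS := isSylowIn_pCoreOf_of_isNilpotent hnil p
  set S := pCoreOf p π.ker
  have nc : ∀ w, π w = c → w ∉ center G := fun w e hw => hc (mem_bot.1 (hZ.le (mem_center_iff.2 fun a => by
    obtain ⟨g, rfl⟩ := hπ a
    rw [← e, ← map_mul, ← map_mul, mem_center_iff.1 hw g])))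
  obtain ⟨w₀, rfl⟩ := hπ c
  obtain ⟨w, -, ⟨j, hj⟩, hw⟩ := exists_pElt_map_eq (p := p) π w₀ (k := 1) (by rwa [pow_one])
  rw [← hw] at hc hcp hx hy nc
  set B := closure ({x, y} : Set A)
  have hB : ∀ b ∈ B, Commute (π w) b := fun b hb => (mem_centralizer_singleton_iff.1
    ((closure_le (centralizer {π w})).2 (by
      rintro _ (rfl | rfl)
      exacts [mem_centralizer_singleton_iff.2 hx.symm, mem_centralizer_singleton_iff.2 hy.symm]) hb)).symm
  set R := (zpowers (π w)).comap π
  have hNR : π.ker ≤ R := fun g hg => mem_comap.2 (by rw [MonoidHom.mem_ker.1 hg]; exact one_mem _)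
  obtain ⟨Q, hQ, hwQ⟩ := exists_isSylowIn_ge (U := zpowers w) (H := R) (fun ⟨_, n, rfl⟩ => ⟨j, Subtype.ext (by
    simp only [SubmonoidClass.coe_pow, OneMemClass.coe_one]; rw [← zpow_natCast, ← zpow_mul, mul_comm, zpow_mul,
      zpow_natCast, hj, one_zpow])⟩) (zpowers_le.2 (mem_zpowers _))
  have hwQ := hwQ (mem_zpowers w)
  have hSQ : S ≤ Q := hQ.le_of_normalized hS.isPGroup (hS.le.trans hNR) le_normalizer_of_normal
  have hQN : Q ⊓ π.ker = S := hS.eq_of_le hQ.isPGroup.to_inf_left (le_inf hSQ hS.le) inf_le_right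
  set K := normalizer (Q : Set G) ⊓ B.comap π
  have hK : B ≤ K.map π := fun b hb => by
    obtain ⟨g, rfl⟩ := hπ b
    obtain ⟨r, ⟨m, hm⟩, hr⟩ := hQ.frattini (H := B.comap π) (fun a ha => mem_normalizer_iff.2 fun z => by
      have := hB _ ha
      simp only [R, mem_comap, map_mul, map_inv]
      exact mem_normalizer_iff.1 (centralizer_le_normalizer _ (by
        rintro _ ⟨n, rfl⟩; exact (this.zpow_left n).eq)) _) hb
    have e : π (w ^ (-m) * (r * g)) = π g := by simp [← hm]
    exact ⟨_, ⟨mul_mem (le_normalizer (zpow_mem hwQ _)) hr, mem_comap.2 (e ▸ hb)⟩, e⟩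
  have hKS : ∀ g ∈ K, w⁻¹ * (g * w * g⁻¹) ∈ S := fun g hg => hQN.le
    (mem_inf.2 ⟨mul_mem (inv_mem hwQ) (conj_mem_of_mem_normalizer hg.1 hwQ), by
      simp [MonoidHom.mem_ker, ← (hB _ hg.2).eq]⟩)
  by_cases hSZ : S ≤ center G
  · refine h.fin π (nc w rfl) hj ht hK fun g hg => ?_
    have := (QuotientGroup.eq_one_iff _).2 (hSZ (hKS g hg))
    rw [← QuotientGroup.mk'_apply, map_mul, map_mul, map_mul, map_inv, map_inv, inv_mul_eq_one, eq_mul_inv_iff_mul_eq] at this
    exact this.symm
  rcases hKL with hKL | hKL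
  · have hSK : S ≤ K := le_inf (hSQ.trans le_normalizer) fun g hg => mem_comap.2 (by
      rw [MonoidHom.mem_ker.1 (hS.le hg)]; exact one_mem _)
    have h1 : IsSylowIn p S K := (CL.Grp.IsSylowIn.of_not_dvd_relIndex hS (H := B.comap π)
      (fun g hg => mem_comap.2 (by rw [MonoidHom.mem_ker.1 hg]; exact one_mem _)) (by
        rwa [relIndex_ker, map_comap_eq_self_of_surjective hπ])).of_le hSK inf_le_right
    obtain ⟨H, hHK, hH, -, hc'⟩ := exists_complement_in hSK le_normalizer_of_normal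
      (coprime_card_of_isPGroup hS.isPGroup ((Nat.Prime.coprime_iff_not_dvd hp.out).2 h1.not_dvd).symm)
    haveI := hS.isPGroup.isNilpotent
    obtain ⟨z, ⟨hzQ, hzH⟩, hz⟩ := exists_centralizer_mem_leftCoset' (A := H) (K := Q) (N := S) (hHK.trans inf_le_left)
      hSQ le_normalizer_of_normal (hc' ▸ (coprime_card_of_isPGroup hS.isPGroup
        ((Nat.Prime.coprime_iff_not_dvd hp.out).2 h1.not_dvd).symm).symm) (Or.inr inferInstance) hwQ
      fun g hg => hKS g (hHK hg)
    obtain ⟨i, hi⟩ := hQ.isPGroup ⟨z, hzQ⟩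
    have e := MonoidHom.mem_ker.1 (hS.le hz)
    rw [map_mul, map_inv, inv_mul_eq_one] at e
    refine h.fin π (nc z e.symm) (congrArg Subtype.val hi) ht (K := H) (hK.trans ?_)
      fun g hg => Commute.map (hzH g hg) _
    rw [← hH, Subgroup.map_sup, (map_eq_bot_iff S).2 hS.le, bot_sup_eq]
  · set q := QuotientGroup.mk' (center G)
    have hq := QuotientGroup.mk'_surjective (center G)
    haveI : (S.map q).Normal := Normal.map inferInstance _ hq
    haveI : (π.ker.map q).Normal := Normal.map inferInstance _ hq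
    obtain ⟨z, hz, hz1, hzc⟩ := exists_central_of_isNilpotent (K := π.ker.map q) (N := S.map q)
      (Group.nilpotent_of_surjective _ (q.subgroupMap_surjective _)) (map_mono hS.le) le_normalizer_of_normal
      (fun e => hSZ (by simpa [q] using (map_eq_bot_iff S).1 e))
    set Z := S.map q ⊓ centralizer (π.ker.map q : Set _)
    have hZ1 : Z ≠ ⊥ := fun e => hz1 (mem_bot.1 (e.le ⟨hz, le_centralizer_singleton_iff.1 hzc⟩))
    have hZp : IsPGroup p Z := (hS.isPGroup.map q).to_inf_left
    have hV : IsElementaryAbelian p (omegaOne p Z) :=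
      ea_omegaOne (inf_le_right.trans (centralizer_le (inf_le_left.trans (map_mono hS.le))))
    haveI := omegaOne_normal (p := p) Z
    obtain ⟨v, hv, hv1⟩ := (bot_or_exists_ne_one _).resolve_left (omegaOne_ne_bot (p := p) (H := Z)
      (hZp.card_eq_or_dvd.resolve_left fun e => hZ1 (card_eq_one.1 e)))
    obtain ⟨a, b, hab, m, hm, ha, hb⟩ := hKL G π hπ (EAMod hV)
      (LinearEquiv.automorphismGroup.toLinearMapMonoidHom.comp ((conjRep hV).comp
        (q.codRestrict _ fun g => le_normalizer_of_normal (mem_top _))))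
      (fun g hg v => (conjRep_apply_eq_self_iff hV _ v).2 ((omegaOne_le Z (EAMod.val_mem hV v)).2 _ ⟨g, hg, rfl⟩))
      (EAMod.mk hV v hv) fun e => hv1 ((EAMod.val_eq_one hV).2 e)
    obtain ⟨s, hs, e⟩ := (omegaOne_le Z (EAMod.val_mem hV m)).1
    obtain ⟨i, hi⟩ := hS.isPGroup ⟨s, hs⟩
    refine h.fin π (w := s) (fun e' => hm ((EAMod.val_eq_one hV).1 (e ▸ (QuotientGroup.eq_one_iff s).2 e')))
      (congrArg Subtype.val hi) hab (K := (centralizer {q s}).comap q) ((closure_le _).2 ?_)
      fun g hg => mem_centralizer_singleton_iff.1 hg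
    rintro _ (rfl | rfl)
    exacts [⟨a, mem_centralizer_singleton_iff.2 (e ▸ (conjRep_apply_eq_self_iff hV _ m).1 ha), rfl⟩,
      ⟨b, mem_centralizer_singleton_iff.2 (e ▸ (conjRep_apply_eq_self_iff hV _ m).1 hb), rfl⟩]

theorem kl_of_nf {n : ℕ} (h : ∀ (M : Type u) [AddCommGroup M] [Module (ZMod p) M]
    (ρ : Representation (ZMod p) (Equiv.Perm (Fin n)) M), NF ρ → ∀ m : M, m = 0) :
    KL.{u} p (alternatingGroup (Fin n)) := by
  classical
  intro G _ π hπ V _ _ σ hσ v hv
  by_contra! hn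
  set φ := (alternatingGroup (Fin n)).subtype.comp π
  have hφ : ∀ a b, φ a = φ b → ∀ v, σ a v = σ b v := fun a b e v => by
    rw [← mul_inv_cancel_left b a, map_mul, Module.End.mul_apply, hσ (b⁻¹ * a) (by
      rw [map_mul, map_inv, Subtype.ext e, inv_mul_cancel])]
  have h0 := h _ (Representation.coind φ σ) (fun x y h1 h2 h3 h4 m hx hy => Subtype.ext (funext fun s => by
      by_contra hs
      obtain ⟨s1, s2⟩ := T235.eq_one (a := Equiv.Perm.sign x) (b := Equiv.Perm.sign y) (by rw [← map_pow, h2, map_one])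
        (by rw [← map_pow, h3, map_one]) (by rw [← map_mul, ← map_pow, h4, map_one])
      obtain ⟨a, ha⟩ := hπ ⟨s * x * s⁻¹, by simp [s1]⟩
      obtain ⟨b, hb⟩ := hπ ⟨s * y * s⁻¹, by simp [s2]⟩
      refine hn a b ⟨fun e => h1 (by simpa [ha] using congrArg Subtype.val e), Subtype.ext (by simp [ha, h2]),
        Subtype.ext (by simp [hb, h3]), Subtype.ext (by simp [ha, hb, h4])⟩ (m.1 s) hs ?_ ?_
      · rw [← m.2 a s, show φ a * s = s * x by simp [φ, ha]]
        exact congrFun (congrArg Subtype.val hx) s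
      · rw [← m.2 b s, show φ b * s = s * y by simp [φ, hb]]
        exact congrFun (congrArg Subtype.val hy) s))
    ⟨fun s => if e : ∃ g, φ g = s then σ e.choose v else 0, fun g s => by
      by_cases e : ∃ g, φ g = s
      · have e' : ∃ a, φ a = φ g * s := ⟨g * e.choose, by rw [map_mul, e.choose_spec]⟩
        simp only [dif_pos e, dif_pos e']
        rw [hφ _ (g * e.choose) (by rw [e'.choose_spec, map_mul, e.choose_spec]), map_mul, Module.End.mul_apply]
      · have e' : ¬ ∃ a, φ a = φ g * s := fun ⟨a, ha⟩ => e ⟨g⁻¹ * a, by rw [map_mul, ha, map_inv, inv_mul_cancel_left]⟩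
        simp only [dif_neg e, dif_neg e', map_zero]⟩
  have e : ∃ g, φ g = 1 := ⟨1, map_one _⟩
  have := congrFun (congrArg Subtype.val h0) 1
  simp only [dif_pos e] at this
  rw [hφ _ 1 (by rw [e.choose_spec, map_one]), map_one] at this
  exact hv this

end CL.AltFix
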