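/-
Groups whose average character degree exceeds two.
-/
import Cfsg.Agent.Char.DegIto
import Cfsg.Agent.Char.FrobChar
import Cfsg.Agent.Char.FrobSchur
import Cfsg.Agent.Char.Faithful
import Cfsg.Agent.Grp.CoprimeAct
import Cfsg.Agent.Grp.Coprime2

set_option autoImplicit false

namespace CL.InvA.Acd

open Cfsg CL.Char CL.Grp Finset Subgroup Function

universe u

variable {G : Type*} [Group G] [Finite G]

/-- The average degree of the irreducible characters exceeds two. -/
def Bad (G : Type*) [Group G] [Finite G] : Prop := (commutator G).index < ∑ χ : IrrCharacter G, (charDegree χ.1 - 2)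

theorem lin_eq : (commutator G).index = #{χ : IrrCharacter G | charDegree χ.1 = 1} := by
  classical
  rw [← card_linear_irr, Nat.card_eq_fintype_card, Fintype.card_subtype]
  exact congrArg _ (filter_congr fun χ _ => χ.2.isCharacter.charDegree_eq_one_iff.symm)

theorem not_bad_of_le (h : ∑ᶠ χ : IrrCharacter G, charDegree χ.1 ≤ 2 * Nat.card (IrrCharacter G)) : ¬ Bad G := by
  have h1 : ∑ χ : IrrCharacter G, (charDegree χ.1 + if charDegree χ.1 = 1 then 1 else 0) =
      ∑ χ : IrrCharacter G, (2 + (charDegree χ.1 - 2)) := sum_congr rfl fun χ _ => by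
    have := χ.2.charDegree_pos; split_ifs <;> omega
  rw [sum_add_distrib, sum_add_distrib, ← card_filter, ← lin_eq, sum_const, card_univ, ← Nat.card_eq_fintype_card, smul_eq_mul] at h1
  rw [finsum_eq_sum_of_fintype] at h
  rw [Bad]; omega

theorem Bad.of_surj {Q : Type*} [Group Q] [Finite Q] (h : Bad Q) (f : G →* Q) (hf : Surjective f) : Bad G := by
  classical
  have := Fintype.ofFinite (G →* ℂˣ)
  have := Fintype.ofFinite (Q →* ℂˣ)
  let Φ : (G →* ℂˣ) × IrrCharacter Q → IrrCharacter G := fun p => ⟨_, (p.2.2.comp_of_surjective f hf).monoidHom_mul p.1⟩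
  have h1 : ∀ p, charDegree (Φ p).1 = charDegree p.2.1 := fun p => by simp [Φ, charDegree]
  have h2 : ∀ χ ∈ univ.image Φ, #{p | Φ p = χ} ≤ (commutator Q).index := fun χ hχ => by
    obtain ⟨p₀, -, rfl⟩ := mem_image.1 hχ
    have h3 : ∀ p, Φ p = Φ p₀ → ∃ β : Q →* ℂˣ, β.comp f = p.1 / p₀.1 := fun p hp =>
      ⟨f.liftOfSurjective hf ⟨_, fun g hg => by
        have h4 := congrFun (congrArg Subtype.val hp)
        have h5 := h4 g
        have h6 := h4 1
        simp only [Φ, map_one, Units.val_one, one_mul, (MonoidHom.mem_ker.1 hg)] at h5 h6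
        rw [h6, mul_left_inj' p₀.2.2.one_ne_zero, Units.val_inj] at h5
        simp [h5]⟩, MonoidHom.liftOfRightInverse_comp _ _ _ _⟩
    choose! β hβ using h3
    rw [← card_monoidHom_eq_index, Nat.card_eq_fintype_card, ← card_univ]
    refine card_le_card_of_injOn β (fun _ _ => mem_univ _) fun p hp p' hp' e => ?_
    have h4 : p.1 = p'.1 := div_left_injective (((hβ p (mem_filter.1 hp).2).symm.trans (e ▸ rfl)).trans (hβ p' (mem_filter.1 hp').2))
    refine Prod.ext h4 (Subtype.ext (funext fun q => ?_))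
    obtain ⟨g, rfl⟩ := hf q
    simpa [Φ, h4] using congrFun (congrArg Subtype.val ((mem_filter.1 hp).2.trans (mem_filter.1 hp').2.symm)) g
  have h3 : (commutator G).index * ∑ χ : IrrCharacter Q, (charDegree χ.1 - 2) ≤
      (commutator Q).index * ∑ χ : IrrCharacter G, (charDegree χ.1 - 2) := by
    rw [← card_monoidHom_eq_index, Nat.card_eq_fintype_card, ← card_univ, ← smul_eq_mul, ← sum_const, ← Fintype.sum_prod_type' (f := fun _ (χ : IrrCharacter Q) => charDegree χ.1 - 2),
      ← sum_congr rfl fun p _ => congrArg (· - 2) (h1 p), sum_comp (fun χ : IrrCharacter G => charDegree χ.1 - 2) Φ, mul_sum]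
    exact (sum_le_sum fun χ hχ => Nat.mul_le_mul_right _ (h2 χ hχ)).trans (sum_le_sum_of_subset (subset_univ _))
  exact lt_of_mul_lt_mul_left (((mul_comm _ _).trans_lt (Nat.mul_lt_mul_of_pos_left h (Nat.pos_of_ne_zero index_ne_zero_of_finite))).trans_le h3)
    (Nat.zero_le _)

theorem bad_of_deg {χ : G → ℂ} (hχ : IsIrrCharacter G χ) (h : (commutator G).index + 3 ≤ charDegree χ) : Bad G :=
  lt_of_lt_of_le (by simp only; omega) (single_le_sum (f := fun χ : IrrCharacter G => charDegree χ.1 - 2) (fun _ _ => Nat.zero_le _)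
    (mem_univ ⟨χ, hχ⟩))

theorem card_le (h : ¬ Bad G) :
    Nat.card G ≤ 4 * Nat.card (IrrCharacter G) + (commutator G).index + (commutator G).index ^ 2 := by
  have h1 : ∑ χ : IrrCharacter G, (charDegree χ.1 ^ 2 + 3 * if charDegree χ.1 = 1 then 1 else 0) =
      ∑ χ : IrrCharacter G, ((charDegree χ.1 - 2) ^ 2 + 4 * (charDegree χ.1 - 2) + 4) := sum_congr rfl fun χ _ => by
    have := χ.2.charDegree_pos
    split_ifs with e
    · simp [e]
    · obtain ⟨k, hk⟩ := Nat.exists_eq_add_of_le (by omega : 2 ≤ charDegree χ.1)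
      rw [hk, Nat.add_sub_cancel_left]; ring
  have h2 := sum_sq_le_sq_sum_of_nonneg (s := univ) (f := fun χ : IrrCharacter G => charDegree χ.1 - 2) fun _ _ => Nat.zero_le _
  rw [sum_add_distrib, sum_add_distrib, sum_add_distrib, ← mul_sum, ← mul_sum, ← card_filter, ← lin_eq, sum_const, card_univ,
    ← Nat.card_eq_fintype_card, smul_eq_mul, sum_charDegree_sq] at h1
  have h3 := Nat.pow_le_pow_left (not_lt.1 h) 2
  have h4 := not_lt.1 h
  omega

theorem deg_ne_two [IsSimpleGroup G] (hG : commutator G = ⊤) {χ : G → ℂ} (hχ : IsIrrCharacter G χ) : charDegree χ ≠ 2 := fun h => by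
  obtain ⟨t, ht⟩ := exists_prime_orderOf_dvd_card' 2 (h ▸ hχ.charDegree_dvd_card)
  have h1 := hχ.charKer_eq_bot_of_simple (by rintro rfl; simp [charDegree] at h)
  have h2 : ‖χ t‖ = ‖χ 1‖ := by
    rw [hχ.isCharacter.norm_one, h]
    obtain ⟨n, ρ, -, rfl⟩ := hχ
    obtain rfl : n = 2 := by simpa [charDegree_character] using h
    have h3 : (fsMat ρ t).det = 1 := congrArg Units.val (mem_commutator_iff_forall_monoidHom.1 (hG ▸ mem_top t)
      ((Matrix.detMonoidHom.comp (fsMat ρ)).toHomUnits))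
    have h4 : (fsMat ρ t * fsMat ρ t).trace = 2 := by
      rw [← map_mul, ← sq, orderOf_dvd_iff_pow_eq_one.1 ht.dvd, map_one]; simp
    rw [← fsMat_trace, ← sq_eq_sq₀ (norm_nonneg _) (by positivity), ← norm_pow, show (fsMat ρ t).trace ^ 2 = 4 by
      simp only [Matrix.det_fin_two, Matrix.trace_fin_two, Matrix.mul_apply, Fin.sum_univ_two] at *
      linear_combination h4 + 2 * h3]
    norm_num
  have h3 := hχ.isCharacter.charCenter_le_center h1 (hχ.isCharacter.mem_charCenter.2 h2)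
  rcases (inferInstance : (center G).Normal).eq_bot_or_eq_top with e | e
  · simp [e] at h3; simp [h3] at ht
  · have : IsMulCommutative G := ⟨⟨fun a b => mem_center_iff.1 (e ▸ mem_top b) a⟩⟩
    exact bot_ne_top ((commutator_eq_bot G).symm.trans hG)

theorem bad_of_simple [IsSimpleGroup G] (hG : ¬ ∀ a b : G, a * b = b * a) : Bad G := by
  classical
  have h0 : commutator G = ⊤ := (inferInstance : (commutator G).Normal).eq_bot_or_eq_top.resolve_left fun e =>
    hG fun a b => commutatorElement_eq_one_iff_mul_comm.1 (mem_bot.1 (e ▸ commutator_mem_commutator (mem_top a) (mem_top b)))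
  by_contra h
  have h1 := card_le h
  have h2 : Nat.card (IrrCharacter G) ≤ (commutator G).index + ∑ χ : IrrCharacter G, (charDegree χ.1 - 2) := by
    rw [lin_eq, card_filter, ← sum_add_distrib, Nat.card_eq_fintype_card, ← card_univ, card_eq_sum_ones]
    exact sum_le_sum fun χ _ => by have := χ.2.charDegree_pos; have := deg_ne_two h0 χ.2; split_ifs <;> omega
  obtain ⟨χ, hχ, h3⟩ := exists_irr_charDegree_ne_one hG
  have h4 := sum_le_sum_of_subset (f := fun χ : IrrCharacter G => charDegree χ.1 ^ 2)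
    (subset_univ {⟨χ, hχ⟩, ⟨_, isIrrCharacter_one⟩})
  rw [sum_pair fun e => h3 (by simp [show χ = _ from congrArg Subtype.val e, charDegree]), sum_charDegree_sq,
    show charDegree (fun _ : G => (1 : ℂ)) = 1 by simp [charDegree]] at h4
  rw [Bad, h0, index_top] at h
  rw [h0, index_top] at h1 h2
  have h5 := hχ.charDegree_pos
  have h6 := deg_ne_two h0 hχ
  have h7 := hχ.charDegree_dvd_card
  have h8 : charDegree χ = 3 := by nlinarith [show 3 ≤ charDegree χ by omega, show Nat.card G ≤ 10 by omega]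
  simp only [h8] at h4 h7
  omega

theorem exists_bad (G : Type u) [Group G] [Finite G] : ¬ Group.IsSolvable G → ∃ K : Subgroup G, Bad K := by
  refine induction_on_card (P := fun G _ _ => ¬ Group.IsSolvable G → ∃ K : Subgroup G, Bad K) (fun G _ _ ih hG => ?_) G
  have : Nontrivial G := not_subsingleton_iff_nontrivial.1 fun _ => hG inferInstance
  by_cases h : IsSimpleGroup G
  · exact ⟨⊤, (bad_of_simple fun e => hG (Group.isSolvable_of_comm e)).of_surj (⊤ : Subgroup G).subtype topEquiv.surjective⟩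
  obtain ⟨N, hN, h1⟩ : ∃ N : Subgroup G, N.Normal ∧ N ≠ ⊥ ∧ N ≠ ⊤ := by
    by_contra! e
    exact h ⟨fun N hN => or_iff_not_imp_left.2 (e N hN)⟩
  by_cases h2 : Group.IsSolvable N
  · obtain ⟨K, hK⟩ := ih (G ⧸ N) (card_quotient_lt h1.1) fun _ => hG
      (Group.isSolvable_of_ker_le_range N.subtype (QuotientGroup.mk' N) (by simp))
    exact ⟨_, hK.of_surj _ (MonoidHom.subgroupComap_surjective_of_surjective _ K (QuotientGroup.mk'_surjective N))⟩
  · obtain ⟨K, hK⟩ := ih N (card_subgroup_lt h1.2) h2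
    exact ⟨K.map N.subtype, hK.of_surj (K.equivMapOfInjective _ N.subtype_injective).symm.toMonoidHom (MulEquiv.surjective _)⟩

theorem frob_count {K : Subgroup G} [K.Normal] (hK : ∀ a b : K, a * b = b * a) (hc : commutator G ≤ K)
    (hC : ∀ g : G, ∀ k ∈ K, k ≠ 1 → g * k = k * g → g ∈ K) : ∃ m, m * K.index + 1 = Nat.card K ∧
      (¬ Bad G → m * (K.index - 2) ≤ K.index) ∧ (m ≠ 0 → ∃ χ, IsIrrCharacter G χ ∧ charDegree χ = K.index) := by
  classical
  have := Fintype.ofFinite G
  have h1 : ∀ χ : IrrCharacter G, charDegree χ.1 = if K ≤ charKer χ.1 then 1 else K.index := fun χ => by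
    split_ifs with h
    · exact χ.2.isCharacter.charDegree_eq_one_iff.2 (χ.2.one_eq_one_iff.2 (hc.trans h))
    · obtain ⟨θ, hθ, -, e⟩ := frob_exists_eq_indFun hC χ.2 (by simpa [SetLike.le_def, χ.2.mem_charKer] using h)
      rw [e, charDegree_indFun hθ.isCharacter, hθ.isCharacter.charDegree_eq_one_iff.2 (hθ.one_eq_one_of_comm hK), mul_one]
  have h2 : #{χ : IrrCharacter G | K ≤ charKer χ.1} = K.index := by
    rw [← Fintype.card_subtype, ← Nat.card_eq_fintype_card, card_irr_le_charKer,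
      card_irr_of_comm (Normal.quotient_commutative_iff_commutator_le.2 hc).1.1, index]
  refine ⟨#{χ : IrrCharacter G | ¬ K ≤ charKer χ.1}, ?_, fun h => ?_, fun h => ?_⟩
  · have h3 := sum_charDegree_sq (G := G)
    simp only [h1, ite_pow, sum_ite, sum_const, smul_eq_mul, h2, ← K.index_mul_card] at h3
    exact mul_left_cancel₀ (index_ne_zero_of_finite (H := K)) (by rw [← h3]; ring)
  · rcases le_or_gt K.index 2 with h3 | h3
    · simp [h3]
    have h4 := not_lt.1 h
    rw [lin_eq, filter_congr (q := fun χ => K ≤ charKer χ.1) fun χ _ => by rw [h1]; split_ifs <;> simp [*, h3.ne', (lt_trans one_lt_two h3).ne'], h2] at h4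
    simpa [h1, apply_ite (· - 2), sum_ite] using h4
  · obtain ⟨χ, hχ⟩ := card_ne_zero.1 h
    exact ⟨χ, χ.2, by rw [h1, if_neg (mem_filter.1 hχ).2]⟩

theorem frob_amb {W : Subgroup G} [IsMulCommutative W] {c : G} (hc : c ∈ normalizer (W : Set G)) (hW : W ≠ ⊥)
    (hF : ∀ g ∈ zpowers c, ∀ w ∈ W, w ≠ 1 → g * w = w * g → g = 1) : ∃ m ≠ 0, m * orderOf c + 1 = Nat.card W ∧
      (¬ Bad ↥(W ⊔ zpowers c) → m * (orderOf c - 2) ≤ orderOf c) ∧
        ∃ χ, IsIrrCharacter ↥(W ⊔ zpowers c) χ ∧ charDegree χ = orderOf c := by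
  have h1 := zpowers_le.2 hc
  have := (normal_subgroupOf_iff_le_normalizer (le_sup_left : W ≤ W ⊔ zpowers c)).2 (sup_le le_normalizer h1)
  obtain ⟨w, hw, hw1⟩ := (W.bot_or_exists_ne_one).resolve_left hW
  have h2 : (W.subgroupOf (W ⊔ zpowers c)).index = orderOf c := by
    rw [← relIndex, sup_comm, relIndex_sup_of_le_normalizer h1, relIndex, subgroupOf_eq_bot.2 (disjoint_def.2 fun ha hb =>
      hF _ hb w hw hw1 (setLike_mul_comm ha hw)), index_bot, Nat.card_zpowers]
  obtain ⟨m, h3, h4, h5⟩ := frob_count (K := W.subgroupOf (W ⊔ zpowers c)) (fun a b => Subtype.ext (Subtype.ext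
    (setLike_mul_comm (s := W) a.2 b.2))) (commutator_le.2 fun x _ y _ => by
      obtain ⟨a, ha, b, hb, e⟩ := (mem_sup_of_le_normalizer' h1).1 x.2
      obtain ⟨a', ha', b', hb', e'⟩ := (mem_sup_of_le_normalizer' h1).1 y.2
      have h3 := mul_mem (mul_mem (mul_mem ha ((h1 hb _).1 ha')) ((h1 hb' _).1 (inv_mem ha))) (inv_mem ha')
      rw [mem_subgroupOf, commutatorElement_def]
      push_cast
      rw [← e, ← e']
      convert h3 using 1
      simp [mul_assoc, ← mul_assoc b' b⁻¹, setLike_mul_comm hb' (inv_mem hb)]) fun g k hk hk1 e => by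
      obtain ⟨a, ha, b, hb, e'⟩ := (mem_sup_of_le_normalizer' h1).1 g.2
      have h3 : (g : G) * k = k * g := congrArg Subtype.val e
      rw [← e', ← mul_assoc, setLike_mul_comm (s := W) (mem_subgroupOf.1 hk) ha, mul_assoc, mul_assoc, mul_right_inj] at h3
      rw [mem_subgroupOf, ← e', hF b hb k hk (by simpa using hk1) h3, mul_one]
      exact ha
  rw [h2, Nat.card_congr (subgroupOfEquivOfLe le_sup_left).toEquiv] at *
  have h6 : m ≠ 0 := by rintro rfl; exact hW (card_eq_one.1 (by simpa using h3.symm))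
  exact ⟨m, h6, h3, h4, h5 h6⟩

theorem frob_module {V : Subgroup G} [V.Normal] [IsMulCommutative V] {c : G} {s k : ℕ} (hs : s.Prime) (hc : orderOf c = s ^ (k + 1))
    (hco : s.Coprime (Nat.card V)) :
    ∀ g ∈ zpowers c, ∀ w ∈ ⁅V, zpowers (c ^ s ^ k)⁆, w ≠ 1 → g * w = w * g → g = 1 := fun g hg w hw hw1 e => by
  by_contra h
  have := Fact.mk hs
  have h1 : orderOf (c ^ s ^ k) = s := by
    rw [orderOf_pow_of_dvd (pow_ne_zero _ hs.ne_zero) (hc ▸ pow_dvd_pow _ k.le_succ), hc, pow_succ', Nat.mul_div_cancel _ (pow_pos hs.pos _)]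
  have h2 : zpowers (c ^ s ^ k) ≤ zpowers g := by
    obtain ⟨i, rfl⟩ := mem_powers_iff_mem_zpowers.2 hg
    obtain ⟨j, hj, e'⟩ := (Nat.dvd_prime_pow hs).1 (Nat.gcd_dvd_right i (s ^ (k + 1)))
    have h2 : j ≤ k := by_contra fun h2 => h (orderOf_dvd_iff_pow_eq_one.1 (hc ▸ (pow_dvd_pow s (by omega)).trans (e' ▸ Nat.gcd_dvd_left _ _)))
    rw [zpowers_le, ← Nat.add_sub_cancel' h2, pow_add, pow_mul, ← e', ← zpow_natCast c, Nat.gcd_eq_gcd_ab, zpow_add, zpow_mul, zpow_mul,
      zpow_natCast, zpow_natCast, ← hc, pow_orderOf_eq_one, one_zpow, mul_one]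
    exact pow_mem (zpow_mem_zpowers _ _) _
  refine hw1 (mem_bot.1 (inf_centralizer_inf_commutator_eq_bot (V := V) (A := zpowers (c ^ s ^ k)) le_normalizer_of_normal
    (by rwa [Nat.card_zpowers, h1]) ▸ mem_inf.2 ⟨⟨commutator_le_left _ _ hw, fun x hx => ?_⟩, hw⟩))
  obtain ⟨i, rfl⟩ := h2 hx
  exact (Commute.zpow_left e i).eq

theorem bad_seven {W : Subgroup G} [IsMulCommutative W] {c t : G} (hc : c ∈ normalizer (W : Set G)) (hW : W ≠ ⊥)
    (hF : ∀ g ∈ zpowers c, ∀ w ∈ W, w ≠ 1 → g * w = w * g → g = 1) (h7 : orderOf c = 7) (ht : t ∈ normalizer (W : Set G))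
    (ht' : t ∈ normalizer (zpowers c : Set G)) (h2 : t * c * t⁻¹ = c ^ 2) (h3 : t ^ 3 = 1) (hW' : W ≤ ⁅W, zpowers c⁆) :
    Bad ↥(zpowers t ⊔ (W ⊔ zpowers c)) := by
  obtain ⟨-, -, -, -, χ, hχ, e⟩ := frob_amb hc hW hF
  obtain ⟨ψ, hψ, h4⟩ := exists_irr_charDegree_le (hχ.comp_mulEquiv (subgroupOfEquivOfLe (le_sup_right : _ ≤ zpowers t ⊔ _)))
  have h5 : W ⊔ zpowers c ≤ ⁅zpowers t ⊔ (W ⊔ zpowers c), zpowers t ⊔ (W ⊔ zpowers c)⁆ :=
    sup_le (hW'.trans (commutator_mono (le_sup_of_le_right le_sup_left) (le_sup_of_le_right le_sup_right))) (zpowers_le.2 (by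
      convert commutator_mem_commutator (mem_sup_left (mem_zpowers t)) (mem_sup_right (mem_sup_right (mem_zpowers c))) using 1
      rw [commutatorElement_def, h2, sq, mul_inv_cancel_right]))
  rw [← map_subtype_commutator] at h5
  have h6 := index_dvd_of_le ((comap_mono h5).trans (comap_map_eq_self_of_injective (subtype_injective _) _).le)
  rw [← subgroupOf, ← relIndex, relIndex_sup_of_le_normalizer (zpowers_le.2 (normalizer_inf_normalizer_le_normalizer_sup _ _ ⟨ht, ht'⟩))] at h6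
  have h8 := Nat.le_of_dvd three_pos ((h6.trans (index_dvd_card _)).trans ((Nat.card_zpowers t).dvd.trans (orderOf_dvd_of_pow_eq_one h3)))
  simp only [charDegree, map_one] at e h4
  exact bad_of_deg hψ (by rw [charDegree]; omega)

end CL.InvA.Acd
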