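/-
Groups with the conjugacy class sizes of `PSL(2, q)`: the order of the central quotient.
-/
import Cfsg.Agent.Fgs.ClassBasic

set_option autoImplicit false

open Subgroup CL.Fgs CL.Grp
open scoped commutatorElement

namespace CL.Inv

variable {G : Type*} [Group G] [Finite G]

theorem cent_eq_of_le_of_cs {x y : G} (h : cent(x) ≤ cent(y)) (e : cs(y) = cs(x)) : cent(y) = cent(x) := by
  refine (eq_of_le_of_card_ge h ?_).symm
  have e1 := card_cent_mul_cs x
  rw [← e, ← card_cent_mul_cs y] at e1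
  exact (Nat.eq_of_mul_eq_mul_right (cs_pos y) e1).ge

theorem exists_primePart_not_mem {H : Subgroup G} {x : G} (hx : x ∉ H) :
    ∃ r : ℕ, r.Prime ∧ r ∣ orderOf x ∧ piPart {r} x ∉ H := by
  by_contra h
  push Not at h
  exact hx (mem_of_forall_piPart_mem h)

theorem exists_isPiElt_not_mem {Z C : Subgroup G} [Z.Normal] {t : ℕ} (ht : t.Prime)
    (h : t ∣ Z.relIndex C) : ∃ u ∈ C, u ∉ Z ∧ IsPiElt {t} u := by
  have := Fact.mk ht
  rw [← card_map_mk'] at h
  obtain ⟨⟨v, c, hc, rfl⟩, hv⟩ := exists_prime_orderOf_dvd_card' t h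
  rw [← orderOf_coe] at hv
  refine ⟨piPart {t} c, piPart_mem hc, fun e => ?_, isPiElt_piPart _ _⟩
  rw [← QuotientGroup.eq_one_iff, ← QuotientGroup.mk'_apply, map_piPart, piPart_eq_one_iff,
    isPiElt_compl_singleton_iff ht] at e
  exact e (hv ▸ dvd_rfl)

/-- A class size that is both minimal and maximal under divisibility. -/
theorem prime_eq_of_isolated_cs {x : G} (hx : x ∉ center G) (h1 : ∀ g : G, cs(x) ∣ cs(g) → cs(g) = cs(x))
    (h2 : ∀ g ∉ center G, cs(g) ∣ cs(x) → cs(g) = cs(x)) {t s : ℕ} (ht : t.Prime) (hs : s.Prime)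
    (htx : t ∣ (center G).relIndex cent(x)) (hsx : s ∣ (center G).relIndex cent(x)) {y : G}
    (hy : y ∉ center G) (hyx : cs(y) ≠ cs(x)) (hty : ¬ t ∣ cs(y)) : t = s := by
  by_contra hts
  have hA : ∀ g ∉ center G, cent(x) ≤ cent(g) → cent(g) = cent(x) := fun g hg hle =>
    cent_eq_of_le_of_cs hle (h2 g hg (cs_dvd_of_le hle))
  have hB : ∀ (u w : G) (π : Set ℕ), cent(u) = cent(x) → w ∈ cent(x) → IsPiElt π u → IsPiElt πᶜ w →
      cent(x) ≤ cent(w) := fun u w π hu hw hπu hπw => by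
    have hc : Commute u w := mem_cent'.1 (hu ▸ hw)
    have e := cent_mul_of_coprime hc (hπu.coprime hπw)
    have hle : cent(u * w) ≤ cent(x) := by rw [e, hu]; exact inf_le_left
    rw [cent_eq_of_le_of_cs hle (h1 _ (cs_dvd_of_le hle)).symm, e]
    exact inf_le_right
  obtain ⟨u, hu, huZ, hut⟩ := exists_isPiElt_not_mem ht htx
  obtain ⟨v, hv, hvZ, hvs⟩ := exists_isPiElt_not_mem hs hsx
  obtain ⟨r, hr, -, hrZ⟩ := exists_primePart_not_mem hx
  have hxr := hA _ hrZ (cent_le_piPart _ x)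
  obtain ⟨k, w, hk, hw, hwZ, hwk⟩ : ∃ (k : ℕ) (w : G), k ≠ r ∧ w ∈ cent(x) ∧ w ∉ center G ∧
      IsPiElt {k} w := by
    by_cases e : t = r
    · exact ⟨s, v, fun e' => hts (e.trans e'.symm), hv, hvZ, hvs⟩
    · exact ⟨t, u, e, hu, huZ, hut⟩
  have hw' := hA w hwZ (hB _ w {r} hxr hw (isPiElt_piPart _ _) (hwk.mono (by simpa using hk.symm)))
  have hab : ∀ c ∈ cent(x), cent(x) ≤ cent(c) := fun c hc => by
    rw [← piPart_mul_piPart_compl {r} c]
    refine le_trans (le_inf ?_ ?_) (inf_le_cent_mul _ _)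
    · exact hB w _ {k} hw' (piPart_mem hc) hwk ((isPiElt_piPart _ _).mono (by simpa using hk))
    · exact hB _ _ {r} hxr (piPart_mem hc) (isPiElt_piPart _ _) (isPiElt_piPart _ _)
  have := Fact.mk ht
  obtain ⟨T, hT⟩ := not_dvd_cs_iff.1 hty
  obtain ⟨g, hg⟩ := hut.exists_conj_mem_sylow T
  have e1 : g⁻¹ * y * g⁻¹⁻¹ ∈ cent(x) := by
    rw [← hA u huZ (hab u hu), inv_inv, ← mem_cent_conj]
    exact mem_cent_comm.1 (hT hg)
  refine hyx ?_
  rw [← cs_conj g⁻¹ y, hA _ (fun e => hy ?_) (hab _ e1)]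
  rwa [← cs_eq_one_iff, cs_conj, cs_eq_one_iff] at e

omit [Finite G] in
theorem relIndex_center_mul_cs (x : G) : (center G).relIndex cent(x) * cs(x) = (center G).index :=
  relIndex_mul_index (center_le_cent x)

/-- The class sizes of `PSL(2, q)` determine the order of `G / Z(G)`. -/
theorem index_center_of_cs {q a b d : ℕ} (hqa : q.Coprime a) (hqb : q.Coprime b) (hab : a.Coprime b)
    (hda : d ∣ a) (hq : 1 < q) (ha : 1 < a) (hb : 1 < b)
    (hcs : ∀ g ∉ center G, cs(g) = d * a * b ∨ cs(g) = d * q * a ∨ cs(g) = d * q * b ∨ cs(g) = q * b)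
    {x₁ x₃ y : G} (h1 : cs(x₁) = d * a * b) (h3 : cs(x₃) = d * q * a) (h4 : cs(y) = q * b) :
    (center G).index = d * q * a * b := by
  have hd : 0 < d := Nat.pos_of_dvd_of_pos hda (by omega)
  have hq1 : q.Coprime (d * a * b) := ((hqa.coprime_dvd_right hda).mul_right hqa).mul_right hqb
  have hb1 : b.Coprime (d * q * a) :=
    ((hab.symm.coprime_dvd_right hda).mul_right hqb.symm).mul_right hab.symm
  have ha1 : a.Coprime (q * b) := hqa.symm.mul_right hab
  have nq : ∀ k, ¬ q * k ∣ d * a * b := fun k e =>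
    hq.ne' (hq1.eq_one_of_dvd ((dvd_mul_right q k).trans e))
  have nb : ∀ k, ¬ b * k ∣ d * q * a := fun k e =>
    hb.ne' (hb1.eq_one_of_dvd ((dvd_mul_right b k).trans e))
  have na : ∀ k, ¬ d * (a * k) ∣ d * (q * b) := fun k e =>
    ha.ne' (ha1.eq_one_of_dvd ((dvd_mul_right a k).trans ((Nat.mul_dvd_mul_iff_left hd).1 e)))
  have nc : ∀ {g : G} {k : ℕ}, cs(g) = k → 1 < k → g ∉ center G := fun e hk hg => by
    rw [cs_eq_one_iff.2 hg] at e
    omega
  have c1 := nc h1 (by nlinarith [Nat.mul_pos hd (show 0 < a by omega)])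
  have c3 := nc h3 (by nlinarith [Nat.mul_pos hd (show 0 < q by omega)])
  have c4 := nc h4 (by nlinarith)
  have up : ∀ x : G, x ∉ center G → ∀ g : G, cs(x) ∣ cs(g) → g ∉ center G := fun x hx g e hg => by
    rw [cs_eq_one_iff.2 hg, Nat.dvd_one, cs_eq_one_iff] at e
    exact hx e
  have i1 : ∀ g : G, cs(x₁) ∣ cs(g) → cs(g) = cs(x₁) := fun g e => by
    rcases hcs g (up _ c1 g e) with e1 | e1 | e1 | e1 <;> rw [h1, e1] at e
    · rw [h1, e1]
    · exact absurd (by convert e using 1; ring) (nb (d * a))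
    · exact absurd (by convert e using 1 <;> ring) (na b)
    · exact absurd (by rw [← mul_assoc]; exact e.mul_left d) (na b)
  have j1 : ∀ g ∉ center G, cs(g) ∣ cs(x₁) → cs(g) = cs(x₁) := fun g hg e => by
    rcases hcs g hg with e1 | e1 | e1 | e1 <;> rw [h1, e1] at e
    · rw [h1, e1]
    · exact absurd (by convert e using 1; ring) (nq (d * a))
    · exact absurd (by convert e using 1; ring) (nq (d * b))
    · exact absurd e (nq b)
  have i3 : ∀ g : G, cs(x₃) ∣ cs(g) → cs(g) = cs(x₃) := fun g e => by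
    rcases hcs g (up _ c3 g e) with e1 | e1 | e1 | e1 <;> rw [h3, e1] at e
    · exact absurd (by convert e using 1; ring) (nq (d * a))
    · rw [h3, e1]
    · exact absurd (by convert e using 1 <;> ring) (na q)
    · exact absurd (by rw [mul_comm a q, ← mul_assoc]; exact e.mul_left d) (na q)
  have j3 : ∀ g ∉ center G, cs(g) ∣ cs(x₃) → cs(g) = cs(x₃) := fun g hg e => by
    rcases hcs g hg with e1 | e1 | e1 | e1 <;> rw [h3, e1] at e
    · exact absurd (by convert e using 1; ring) (nb (d * a))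
    · rw [h3, e1]
    · exact absurd (by convert e using 1; ring) (nb (d * q))
    · exact absurd (by convert e using 1; ring) (nb q)
  have e1 := relIndex_center_mul_cs x₁
  have e3 := relIndex_center_mul_cs x₃
  obtain ⟨m, hm⟩ : q ∣ (center G).relIndex cent(x₁) := hq1.dvd_of_dvd_mul_right (by
    rw [← h1, e1, ← e3, h3]
    exact Dvd.intro ((center G).relIndex cent(x₃) * d * a) (by ring))
  have e4 : (center G).relIndex cent(x₃) = b * m := by
    refine Nat.eq_of_mul_eq_mul_right (cs_pos x₃) ?_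
    rw [e3, ← e1, hm, h1, h3]
    ring
  have hm1 : m = 1 := by
    by_contra hne
    obtain ⟨t, ht, htm⟩ := Nat.exists_prime_and_dvd hne
    obtain ⟨p, hp, hpq⟩ := Nat.exists_prime_and_dvd hq.ne'
    obtain ⟨r, hr, hrb⟩ := Nat.exists_prime_and_dvd hb.ne'
    have n13 : cs(x₃) ≠ cs(x₁) := fun e => nq (d * a) (by rw [← h1, ← e, h3]; exact ⟨1, by ring⟩)
    have k1 : ∀ z ∉ center G, cs(z) ≠ cs(x₁) → ¬ t ∣ cs(z) → t ∣ q := fun z hz e1 e2 =>
      prime_eq_of_isolated_cs c1 i1 j1 ht hp (hm ▸ htm.mul_left _) (hm ▸ hpq.mul_right _) hz e1 e2 ▸ hpq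
    have hn : ∀ {k l : ℕ}, k.Coprime l → t ∣ k → ¬ t ∣ l := fun hc e1 e2 =>
      ht.ne_one (Nat.eq_one_of_dvd_coprimes hc e1 e2)
    have htq : t ∣ q := by
      by_cases htb : t ∣ b
      · exact k1 x₃ c3 n13 (h3 ▸ hn hb1 htb)
      · by_contra htq
        exact htq (k1 y c4 (fun e => nq b (by rw [← h1, ← e, h4]))
          (h4 ▸ fun e => (ht.dvd_mul.1 e).elim htq htb))
    exact hn hqb htq (prime_eq_of_isolated_cs c3 i3 j3 ht hr (e4 ▸ htm.mul_left _)
      (e4 ▸ hrb.mul_right _) c1 n13.symm (h1 ▸ hn hq1 htq) ▸ hrb)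
  rw [← e1, hm, hm1, h1]
  ring

omit [Finite G] in
/-- Transfer: a power of a central element of `G'` lies in `H'`. -/
theorem pow_index_mem_commutator (H : Subgroup G) [H.FiniteIndex] {z : G} (hz : z ∈ center G)
    (hz' : z ∈ commutator G) : z ^ H.index ∈ ⁅H, H⁆ := by
  have key : ∀ (k : ℕ) (g₀ : G), g₀⁻¹ * z ^ k * g₀ ∈ H → g₀⁻¹ * z ^ k * g₀ = z ^ k := fun k g _ => by
    rw [mul_assoc, ← mem_center_iff.1 (pow_mem hz k) g, inv_mul_cancel_left]
  have e := MonoidHom.transfer_eq_pow (Abelianization.of (G := H)) z key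
  rw [Abelianization.commutator_subset_ker _ hz', eq_comm, ← MonoidHom.mem_ker,
    Abelianization.ker_of] at e
  have e2 := mem_map_of_mem H.subtype e
  rwa [map_subtype_commutator] at e2

open DihedralGroup in
/-- A central extension of a dihedral group in which the central rotation lifts to a central
element. -/
theorem commutator_inf_ker_dihedral {D : Type*} [Group D] {n : ℕ} (hn : 2 < n)
    (π : D →* DihedralGroup n) (hπ : Function.Surjective π) (hk : π.ker ≤ center D) {y : D}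
    (hy : y ∈ center D) (hy1 : π y ≠ 1) : commutator D ⊓ π.ker = ⊥ := by
  have : NeZero n := ⟨by omega⟩
  obtain ⟨c, hc⟩ := hπ (r 1)
  obtain ⟨s, hs⟩ := hπ (sr 0)
  have hK : ∀ k i, π k = r i → ∃ z ∈ center D, k = c ^ i.val * z := fun k i e =>
    ⟨(c ^ i.val)⁻¹ * k, hk (by simp [MonoidHom.mem_ker, hc, e]), by group⟩
  have hcomm : ∀ k l i j, π k = r i → π l = r j → k * l = l * k := fun k l i j e1 e2 => by
    obtain ⟨z, hz, rfl⟩ := hK k i e1
    obtain ⟨w, hw, rfl⟩ := hK l j e2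
    exact ((Commute.pow_pow_self c _ _).mul_left (mem_center_iff.1 hz _).symm).mul_right
      (mem_center_iff.1 hw _)
  have hsk : ∀ k i, π k = r i → π (s * k * s⁻¹) = r (-i) := fun k i e => by simp [hs, e]
  let Φ : Subgroup D :=
    { carrier := {g | ∃ k i, π k = r i ∧ g = s * k * s⁻¹ * k⁻¹}
      one_mem' := ⟨1, 0, by simp, by group⟩
      mul_mem' := by
        rintro _ _ ⟨k, i, e1, rfl⟩ ⟨l, j, e2, rfl⟩
        refine ⟨k * l, i + j, by simp [e1, e2], ?_⟩
        have f1 := hcomm _ _ _ _ (show π k⁻¹ = r (-i) by simp [e1]) (hsk l j e2)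
        have f2 := hcomm _ _ _ _ (show π k⁻¹ = r (-i) by simp [e1]) (show π l⁻¹ = r (-j) by simp [e2])
        calc s * k * s⁻¹ * k⁻¹ * (s * l * s⁻¹ * l⁻¹) = s * k * s⁻¹ * (k⁻¹ * (s * l * s⁻¹)) * l⁻¹ := by group
          _ = s * k * s⁻¹ * (s * l * s⁻¹) * (k⁻¹ * l⁻¹) := by rw [f1]; group
          _ = _ := by rw [f2]; group
      inv_mem' := by
        rintro _ ⟨k, i, e1, rfl⟩
        refine ⟨k⁻¹, -i, by simp [e1], ?_⟩
        have f1 := hcomm _ _ _ _ e1 (hsk _ _ (show π k⁻¹ = r (-i) by simp [e1]))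
        calc (s * k * s⁻¹ * k⁻¹)⁻¹ = k * (s * k⁻¹ * s⁻¹) := by group
          _ = _ := by rw [f1]; group }
  have hdec : ∀ g : D, (∃ i, π g = r i) ∨ ∃ k i, π k = r i ∧ g = s * k := fun g => by
    rcases e : π g with i | i
    · exact Or.inl ⟨i, rfl⟩
    · exact Or.inr ⟨s⁻¹ * g, i, by simp [hs, e], by group⟩
  have hΦ1 : ∀ k l i j, π k = r i → π l = r j → ⁅s * k, l⁆ ∈ Φ := fun k l i j e1 e2 =>
    ⟨l, j, e2, by
      rw [commutatorElement_def, mul_assoc s k l, hcomm k l i j e1 e2]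
      group⟩
  have hle : commutator D ≤ Φ := by
    rw [_root_.commutator_def, commutator_le]
    intro g _ h _
    rcases hdec g with ⟨i, e1⟩ | ⟨k, i, e1, rfl⟩ <;> rcases hdec h with ⟨j, e2⟩ | ⟨l, j, e2, rfl⟩
    · rw [commutatorElement_eq_one_iff_mul_comm.2 (hcomm g h i j e1 e2)]
      exact Φ.one_mem
    · rw [← commutatorElement_inv]
      exact Φ.inv_mem (hΦ1 l g j i e2 e1)
    · exact hΦ1 k h i j e1 e2
    · refine ⟨s * (l * k⁻¹) * s⁻¹, -(j - i), hsk _ _ (by simp [e1, e2, sub_eq_add_neg]), ?_⟩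
      have f1 := hcomm _ _ _ _ e1 (hsk (l * k⁻¹) (j - i) (by simp [e1, e2, sub_eq_add_neg]))
      have f2 := hcomm _ _ _ _ e1 (show π l⁻¹ = r (-j) by simp [e2])
      calc ⁅s * k, s * l⁆ = s * (k * (s * (l * k⁻¹) * s⁻¹)) * l⁻¹ * s⁻¹ := by
            rw [commutatorElement_def]; group
        _ = s * (s * (l * k⁻¹) * s⁻¹) * (k * l⁻¹) * s⁻¹ := by rw [f1]; group
        _ = _ := by group
  have hyc : ∀ g, π g * π y = π y * π g := fun g => by rw [← map_mul, ← map_mul, mem_center_iff.1 hy g]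
  obtain ⟨j, hj⟩ : ∃ j, π y = r j := by
    rcases e : π y with j | j
    · exact ⟨j, rfl⟩
    · exfalso
      have e1 := hyc c
      rw [hc, e, r_mul_sr, sr_mul_r, sr.injEq] at e1
      have e2 : ((2 : ℕ) : ZMod n) = 0 := by push_cast; linear_combination -e1
      exact absurd (Nat.le_of_dvd two_pos ((ZMod.natCast_eq_zero_iff _ _).1 e2)) (by omega)
  have hj2 : 2 * j.val = n := by
    have e1 := hyc s
    rw [hs, hj, r_mul_sr, sr_mul_r, sr.injEq] at e1
    refine ((ZMod.neg_eq_self_iff j).1 (by linear_combination -e1)).resolve_left fun e => hy1 ?_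
    rw [hj, e, r_zero]
  rw [eq_bot_iff]
  rintro _ ⟨h1, h2⟩
  obtain ⟨k, i, e1, rfl⟩ := hle h1
  have hkc : k ∈ center D := by
    have e2 : r (-i + -i) = (r 0 : DihedralGroup n) := by
      rw [r_zero, ← show π _ = 1 from h2, map_mul, hsk k i e1]
      simp [e1]
    rcases (ZMod.neg_eq_self_iff i).1 (by linear_combination r.inj e2) with e3 | e3
    · exact hk (by rw [MonoidHom.mem_ker, e1, e3, r_zero])
    · have e4 : i = j := ZMod.val_injective n (by omega)
      have e5 : y⁻¹ * k ∈ center D := hk (by simp [MonoidHom.mem_ker, e1, hj, e4])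
      simpa using mul_mem hy e5
  rw [mem_bot, mem_center_iff.1 hkc s]
  group

end CL.Inv
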