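/-
Groups with the conjugacy class sizes of `PSL(2, q)`.
-/
import Cfsg.Agent.Inv.CsPSL
import Cfsg.Agent.Inv.IsoP4
import Cfsg.Agent.Cls.SL2NormD
import Cfsg.Agent.Perm.SpecGL2

set_option autoImplicit false

open Subgroup CL.Fgs CL.Grp
open scoped MatrixGroups

namespace CL.Inv

open DihedralGroup in
theorem cent_of_normalizer_dihedral {G : Type*} [Group G] [Finite G] {x : G} (hx : x ≠ 1) {n : ℕ}
    (f : normalizer (zpowers x : Set G) ≃* DihedralGroup n) :
    (orderOf x = 2 ∧ Nonempty (cent(x) ≃* DihedralGroup n)) ∨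
      (orderOf x ≠ 2 ∧ IsCyclic cent(x) ∧ Nat.card cent(x) = n) := by
  classical
  have hle : cent(x) ≤ normalizer (zpowers x : Set G) := by
    refine le_trans ?_ (centralizer_le_normalizer (zpowers x : Set G))
    intro g hg y hy
    obtain ⟨k, rfl⟩ := mem_zpowers_iff.1 hy
    exact (mem_cent'.1 hg).zpow_left k
  have hxN : x ∈ normalizer (zpowers x : Set G) := le_normalizer (mem_zpowers x)
  by_cases h2 : orderOf x = 2
  · refine Or.inl ⟨h2, ⟨(MulEquiv.subgroupCongr (le_antisymm hle fun g hg => ?_)).trans f⟩⟩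
    have h1 := (mem_normalizer_iff.1 hg x).1 (mem_zpowers x)
    rw [mem_cent_iff_conj]
    have h3 := mem_zpowers_iff_mem_range_orderOf.1 h1
    rw [h2, Finset.mem_image] at h3
    obtain ⟨i, hi, e⟩ := h3
    have : i < 2 := Finset.mem_range.1 hi
    interval_cases i
    · exact absurd (conj_eq_one_iff.1 (e.symm.trans (pow_zero x))) hx
    · rw [← e, pow_one]
  · have ho : orderOf (f ⟨x, hxN⟩) = orderOf x := by rw [f.orderOf_eq, ← orderOf_coe]
    obtain ⟨i, hi⟩ : ∃ i, f ⟨x, hxN⟩ = r i := by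
      rcases e : f ⟨x, hxN⟩ with i | i
      · exact ⟨i, rfl⟩
      · exact absurd (by rw [← ho, e, orderOf_sr]) h2
    have hn : n ≠ 0 := by
      rintro rfl
      have := Nat.card_congr f.toEquiv
      rw [nat_card] at this
      exact Nat.card_pos.ne' this
    have : NeZero n := ⟨hn⟩
    have e : cent(x) = zpowers ((f.symm (r 1) : normalizer (zpowers x : Set G)) : G) := by
      refine le_antisymm (fun g hg => ?_) (zpowers_le.2 ?_)
      · have hc : f ⟨g, hle hg⟩ * r i = r i * f ⟨g, hle hg⟩ := by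
          rw [← hi, ← map_mul, ← map_mul]
          exact congrArg f (Subtype.ext (mem_cent.1 hg))
        rcases e : f ⟨g, hle hg⟩ with j | j
        · have e2 : f.symm (r 1) ^ j.val = ⟨g, hle hg⟩ := by
            rw [← map_pow, MulEquiv.symm_apply_eq, e]
            simp
          rw [show g = _ from (congrArg Subtype.val e2).symm]
          exact pow_mem (mem_zpowers _) _
        · exfalso
          rw [e, r_mul_sr, sr_mul_r, sr.injEq] at hc
          have e2 : orderOf x ∣ 2 := by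
            rw [← ho, hi, orderOf_dvd_iff_pow_eq_one, sq, r_mul_r, ← r_zero]
            exact congrArg r (by linear_combination hc)
          exact ((Nat.dvd_prime Nat.prime_two).1 e2).elim (fun e => hx (orderOf_eq_one_iff.1 e)) h2
      · have e2 : f.symm (r 1) * ⟨x, hxN⟩ = ⟨x, hxN⟩ * f.symm (r 1) := by
          apply f.injective
          simp [hi, add_comm]
        exact mem_cent.2 (congrArg Subtype.val e2)
    refine Or.inr ⟨h2, e ▸ inferInstance, ?_⟩
    rw [e, Nat.card_zpowers, orderOf_coe, f.symm.orderOf_eq, orderOf_r_one]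

variable {F : Type*} [Field F] [Fintype F]

theorem gcd_dvd_card_add_one :
    Nat.gcd 2 (Fintype.card F - 1) ∣ Fintype.card F + 1 := by
  have : 1 < Fintype.card F := Fintype.one_lt_card
  rw [show Fintype.card F + 1 = Fintype.card F - 1 + 2 by omega]
  exact dvd_add (Nat.gcd_dvd_right _ _) (Nat.gcd_dvd_left _ _)

theorem isoP_psl {p : ℕ} [Fact p.Prime] [CharP F p] : IsoP p PSL(2, F) := fun g hg => by
  rcases CL.SL2.psl_orderOf_cases p g with h | h | h
  · exact absurd ((hg.trans h).trans (Nat.div_dvd_of_dvd gcd_dvd_card_add_one))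
      (CL.SL2.not_dvd_card_add_one p)
  · exact absurd ((hg.trans h).trans (Nat.div_dvd_of_dvd (Nat.gcd_dvd_right _ _)))
      (CL.SL2.not_dvd_card_sub_one p)
  · rw [← h, pow_orderOf_eq_one]

/-- The arithmetic of `PSL(2, q)`: `a`, `b` are the orders of the two tori, `a` is divisible by `d`. -/
structure PslNum (p n a b d : ℕ) : Prop where
  n_ne : n ≠ 0
  d_lt : d < p
  d_dvd : d ∣ a
  two_lt_a : 2 < a
  two_lt_b : 2 < b
  odd_b : Odd b
  tori : (a * d = p ^ n + 1 ∧ b * d = p ^ n - 1) ∨ (a * d = p ^ n - 1 ∧ b * d = p ^ n + 1)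
  d_eq : (d = 1 ∧ p = 2) ∨ (d = 2 ∧ p ≠ 2)

theorem exists_pslNum (hq : (2 ∣ Fintype.card F ∧ 2 < Fintype.card F) ∨
    (¬ 2 ∣ Fintype.card F ∧ 7 ≤ Fintype.card F)) :
    ∃ (p n a b : ℕ) (_ : Fact p.Prime) (_ : CharP F p), Fintype.card F = p ^ n ∧
      PslNum p n a b (Nat.gcd 2 (Fintype.card F - 1)) := by
  obtain ⟨p, hchar, ⟨n, hn⟩, hp, hq'⟩ := FiniteField.card' F
  have hq' : Fintype.card F = p ^ n := hq'
  have := Fact.mk hp
  rcases hq with ⟨h1, h2⟩ | ⟨h1, h2⟩
  · obtain rfl : 2 = p :=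
      (Nat.prime_dvd_prime_iff_eq Nat.prime_two hp).1 (Nat.prime_two.dvd_of_dvd_pow (hq' ▸ h1))
    refine ⟨2, n, 2 ^ n - 1, 2 ^ n + 1, this, hchar, hq', ?_⟩
    rw [CL.SL2.gcd_two_of_eq (CharP.cast_eq_zero F 2)]
    exact ⟨hn.ne', one_lt_two, one_dvd _, by omega, by omega, Nat.odd_iff.2 (by omega),
      Or.inr ⟨mul_one _, mul_one _⟩, Or.inl ⟨rfl, rfl⟩⟩
  · have hp2 : p ≠ 2 := by
      rintro rfl
      exact h1 (hq' ▸ dvd_pow_self 2 hn.ne')
    have h2' : (2 : F) ≠ 0 := fun e => hp2 ((Nat.prime_dvd_prime_iff_eq hp Nat.prime_two).1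
      ((CharP.cast_eq_zero_iff F p 2).1 e))
    have h3 := hp.two_le
    rw [CL.SL2.gcd_two_of_ne h2']
    by_cases h4 : Fintype.card F % 4 = 1
    · exact ⟨p, n, (p ^ n - 1) / 2, (p ^ n + 1) / 2, this, hchar, hq', hn.ne', by omega, by omega,
        by omega, by omega, Nat.odd_iff.2 (by omega), Or.inr ⟨by omega, by omega⟩, Or.inr ⟨rfl, hp2⟩⟩
    · exact ⟨p, n, (p ^ n + 1) / 2, (p ^ n - 1) / 2, this, hchar, hq', hn.ne', by omega, by omega,
        by omega, by omega, Nat.odd_iff.2 (by omega), Or.inl ⟨by omega, by omega⟩, Or.inr ⟨rfl, hp2⟩⟩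

namespace PslNum

variable {p n a b d : ℕ} (h : PslNum p n a b d) [hp : Fact p.Prime]
include h

theorem one_lt : 1 < p ^ n := hp.out.one_lt.trans_le (Nat.le_self_pow h.n_ne p)

theorem sq : d * (d * a * b) + 1 = (p ^ n) ^ 2 := by
  obtain ⟨k, hk⟩ : ∃ k, p ^ n = k + 1 := ⟨p ^ n - 1, by have := h.one_lt; omega⟩
  rw [show d * (d * a * b) = a * d * (b * d) by ring]
  rcases h.tori with ⟨h1, h2⟩ | ⟨h1, h2⟩ <;> rw [h1, h2, hk, Nat.add_sub_cancel] <;> ring

theorem not_dvd : ¬ p ∣ d * a * b := not_dvd_of_mul_add_one h.n_ne h.sq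

theorem coprime : (p ^ n).Coprime (d * a * b) :=
  Nat.Coprime.pow_left n ((Nat.Prime.coprime_iff_not_dvd hp.out).2 h.not_dvd)

theorem coprime_a : (p ^ n).Coprime a := h.coprime.coprime_dvd_right ⟨d * b, by ring⟩

theorem coprime_b : (p ^ n).Coprime b := h.coprime.coprime_dvd_right ⟨d * a, by ring⟩

theorem coprime_ab : a.Coprime b := by
  have h0 := h.one_lt
  have h1 : Nat.gcd a b ∣ 2 := by
    have e1 := (Nat.gcd_dvd_left a b).mul_right d
    have e2 := (Nat.gcd_dvd_right a b).mul_right d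
    rcases h.tori with ⟨h1, h2⟩ | ⟨h1, h2⟩
    · exact (Nat.dvd_add_right e2).1 (by rwa [show b * d + 2 = a * d by omega])
    · exact (Nat.dvd_add_right e1).1 (by rwa [show a * d + 2 = b * d by omega])
  refine ((Nat.dvd_prime Nat.prime_two).1 h1).resolve_right fun e => ?_
  exact (Nat.not_even_iff_odd.2 h.odd_b) (even_iff_two_dvd.2 (e ▸ Nat.gcd_dvd_right a b))

theorem d_pos : 0 < d := by rcases h.d_eq with h | h <;> omega

theorem eq_or {k : ℕ} (hk : k * d = p ^ n + 1 ∨ k * d = p ^ n - 1) : k = a ∨ k = b := by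
  have := h.d_pos
  rcases h.tori with ⟨h1, h2⟩ | ⟨h1, h2⟩ <;> rcases hk with hk | hk
  · exact Or.inl (Nat.eq_of_mul_eq_mul_right this (hk.trans h1.symm))
  · exact Or.inr (Nat.eq_of_mul_eq_mul_right this (hk.trans h2.symm))
  · exact Or.inr (Nat.eq_of_mul_eq_mul_right this (hk.trans h2.symm))
  · exact Or.inl (Nat.eq_of_mul_eq_mul_right this (hk.trans h1.symm))

end PslNum

variable {p n a b : ℕ} [hp : Fact p.Prime] [CharP F p] (hF : Fintype.card F = p ^ n)
  (h : PslNum p n a b (Nat.gcd 2 (Fintype.card F - 1)))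
include hF h

omit [CharP F p] in
theorem PslNum.card_psl : Nat.card PSL(2, F) = p ^ n * (Nat.gcd 2 (Fintype.card F - 1) * a * b) := by
  refine Nat.eq_of_mul_eq_mul_right h.d_pos ?_
  rw [CL.SL2.card_psl_mul, mul_assoc, mul_comm _ (Nat.gcd _ _)]
  nth_rw 1 [hF]
  nth_rw 1 [hF]
  rw [← h.sq, Nat.add_sub_cancel]

/-- Centralisers in `PSL(2, q)`. -/
theorem PslNum.cent_cases {x : PSL(2, F)} (hx : x ≠ 1) :
    (orderOf x = p ∧ Nat.card cent(x) = p ^ n) ∨
      (Nat.gcd 2 (Fintype.card F - 1) = 2 ∧ orderOf x = 2 ∧ Nonempty (cent(x) ≃* DihedralGroup a)) ∨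
      (IsCyclic cent(x) ∧ (Nat.card cent(x) = a ∨ Nat.card cent(x) = b)) := by
  by_cases hxp : x ^ p = 1
  · refine Or.inl ⟨orderOf_eq_prime hxp hx, ?_⟩
    have h1 : IsPGroup p cent(x) := fun g => ⟨1, Subtype.ext (by
      rw [pow_one]; exact isoP_psl.pow_of_commute hx hxp (mem_cent'.1 g.2))⟩
    obtain ⟨c, hc⟩ := (CL.SL2.uhyp_psl (F := F) p).exists_le_Q h1 fun e => hx (mem_bot.1 (e ▸ self_mem_cent x))
    have h2 := (CL.SL2.uhyp_psl (F := F) p).isMulCommutative_Q c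
    rw [le_antisymm hc fun g hg => mem_cent.2 (setLike_mul_comm hg (hc (self_mem_cent x))),
      CL.SL2.card_Q_psl, Nat.card_eq_fintype_card, hF]
  · obtain ⟨k, hk1, hk2, ⟨f⟩⟩ := CL.SL2.normalizer_psl p hxp
    have hk := h.eq_or (k := k) (by simpa only [← hF] using hk2)
    rcases cent_of_normalizer_dihedral hx f with ⟨h1, h2⟩ | ⟨-, h1, h2⟩
    · refine Or.inr (Or.inl ⟨?_, h1, ?_⟩)
      · refine (h.d_eq.resolve_left fun e => hxp ?_).1
        exact orderOf_dvd_iff_pow_eq_one.1 (by rw [h1, e.2])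
      · obtain rfl | rfl := hk
        · exact h2
        · exact absurd (even_iff_two_dvd.2 (h1 ▸ hk1)) (Nat.not_even_iff_odd.2 h.odd_b)
    · exact Or.inr (Or.inr ⟨h1, h2 ▸ hk⟩)

theorem PslNum.card_cent {x : PSL(2, F)} (hx : x ≠ 1) :
    Nat.card cent(x) = p ^ n ∨ Nat.card cent(x) = b ∨ Nat.card cent(x) = a ∨
      Nat.card cent(x) = Nat.gcd 2 (Fintype.card F - 1) * a := by
  rcases h.cent_cases hF hx with ⟨-, h1⟩ | ⟨h1, -, ⟨f⟩⟩ | ⟨-, h1 | h1⟩
  · exact Or.inl h1
  · rw [h1, Nat.card_congr f.toEquiv, DihedralGroup.nat_card]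
    simp
  · exact Or.inr (Or.inr (Or.inl h1))
  · exact Or.inr (Or.inl h1)

theorem PslNum.exists_orderOf {k : ℕ} (hk : k ∣ p ∨ k ∣ a ∨ k ∣ b) : ∃ x : PSL(2, F), orderOf x = k := by
  have e : k ∈ CL.Perm.Spec PSL(2, F) := by
    rw [CL.Perm.spec_PSL2 p]
    have hd := h.d_pos
    have ht := h.tori
    rw [← hF] at ht
    rcases ht with ⟨h1, h2⟩ | ⟨h1, h2⟩
    · simp only [Set.mem_setOf_eq]
      rw [Nat.div_eq_of_eq_mul_left hd h1.symm, Nat.div_eq_of_eq_mul_left hd h2.symm]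
      tauto
    · simp only [Set.mem_setOf_eq]
      rw [Nat.div_eq_of_eq_mul_left hd h1.symm, Nat.div_eq_of_eq_mul_left hd h2.symm]
      tauto
  exact e

theorem PslNum.exists_card_cent :
    (∃ x : PSL(2, F), Nat.card cent(x) = p ^ n) ∧ (∃ x : PSL(2, F), Nat.card cent(x) = b) ∧
      ∃ x : PSL(2, F), Nat.card cent(x) = Nat.gcd 2 (Fintype.card F - 1) * a := by
  have hdvd : ∀ x : PSL(2, F), orderOf x ∣ Nat.card cent(x) := fun x =>
    orderOf_dvd_natCard _ (self_mem_cent x)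
  have ha := h.two_lt_a
  have hb := h.two_lt_b
  have hp2 := hp.out.two_le
  refine ⟨?_, ?_, ?_⟩
  · obtain ⟨x, hx⟩ := h.exists_orderOf hF (Or.inl dvd_rfl)
    have e := hx ▸ hdvd x
    refine ⟨x, (h.card_cent hF fun e => by rw [e, orderOf_one] at hx; omega).resolve_right ?_⟩
    rintro (h1 | h1 | h1) <;> rw [h1] at e
    · exact h.not_dvd (e.mul_left _)
    · exact h.not_dvd ((e.mul_left _).mul_right _)
    · exact h.not_dvd (e.mul_right _)
  · obtain ⟨x, hx⟩ := h.exists_orderOf hF (Or.inr (Or.inr dvd_rfl))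
    have e := hx ▸ hdvd x
    refine ⟨x, ?_⟩
    rcases h.card_cent hF (x := x) fun e => by rw [e, orderOf_one] at hx; omega with
      h1 | h1 | h1 | h1 <;> rw [h1] at e
    · exact absurd (h.coprime_b.symm.eq_one_of_dvd e) (by omega)
    · exact h1
    · exact absurd (h.coprime_ab.symm.eq_one_of_dvd e) (by omega)
    · exact absurd (((h.coprime_ab.symm.coprime_dvd_right h.d_dvd).mul_right
        h.coprime_ab.symm).eq_one_of_dvd e) (by omega)
  · rcases h.d_eq with ⟨h0, -⟩ | ⟨h0, h2⟩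
    · obtain ⟨x, hx⟩ := h.exists_orderOf hF (Or.inr (Or.inl dvd_rfl))
      have e := hx ▸ hdvd x
      refine ⟨x, ?_⟩
      rcases h.card_cent hF (x := x) fun e => by rw [e, orderOf_one] at hx; omega with
        h1 | h1 | h1 | h1 <;> rw [h1] at e
      · exact absurd (h.coprime_a.symm.eq_one_of_dvd e) (by omega)
      · exact absurd (h.coprime_ab.eq_one_of_dvd e) (by omega)
      · rw [h1, h0, one_mul]
      · exact h1
    · obtain ⟨x, hx⟩ := h.exists_orderOf hF (k := 2) (Or.inr (Or.inl (h0 ▸ h.d_dvd)))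
      refine ⟨x, ?_⟩
      have hx1 : x ≠ 1 := fun e => by rw [e, orderOf_one] at hx; omega
      have hxp : x ^ p ≠ 1 := fun e => h2 ((orderOf_eq_prime e hx1).symm.trans hx)
      obtain ⟨k, hk1, hk2, ⟨f⟩⟩ := CL.SL2.normalizer_psl p hxp
      have hk := h.eq_or (k := k) (by simpa only [← hF] using hk2)
      rcases cent_of_normalizer_dihedral hx1 f with ⟨-, ⟨g⟩⟩ | ⟨h1, -⟩
      · obtain rfl | rfl := hk
        · rw [h0, Nat.card_congr g.toEquiv, DihedralGroup.nat_card]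
        · exact absurd (even_iff_two_dvd.2 (hx ▸ hk1)) (Nat.not_even_iff_odd.2 h.odd_b)
      · exact absurd hx h1

end CL.Inv
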