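/-
A group with the conjugacy class sizes of `PSL(2, q)` is `PSL(2, q)` times its centre.
-/
import Cfsg.Agent.Inv.CsPSL2

set_option autoImplicit false

open Subgroup CL.Fgs CL.Grp
open scoped MatrixGroups

namespace CL.Inv

variable {G : Type*} [Group G] [Finite G]

omit [Finite G] in
theorem orderOf_mk_dvd_relIndex (g : G) : orderOf (g : G ⧸ center G) ∣ (center G).relIndex cent(g) := by
  rw [← card_map_mk']
  exact orderOf_dvd_natCard _ (mem_map_of_mem _ (self_mem_cent g))

omit [Finite G] in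
theorem comm_cent_of_isCyclic {H : Type*} [Group H] (π : G →* H) (hk : π.ker = center G) {x : G}
    (h : IsCyclic cent(π x)) : ⁅cent(x), cent(x)⁆ = ⊥ := by
  rw [commutator_eq_bot_iff_le_centralizer]
  intro g hg k hk'
  let f : cent(x) →* cent(π x) := (π.comp cent(x).subtype).codRestrict _ fun c => cent_le_comap π x c.2
  have := congrArg Subtype.val (commutative_of_cyclic_center_quotient f (fun c hc => by
    have e : (c : G) ∈ center G := hk ▸ (congrArg Subtype.val hc : π c = 1)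
    exact mem_center_iff.2 fun d => Subtype.ext (mem_center_iff.1 e d)) ⟨k, hk'⟩ ⟨g, hg⟩)
  exact this

theorem psl_of_cs {F : Type*} [Field F] [Fintype F]
    (hq : (2 ∣ Fintype.card F ∧ 2 < Fintype.card F) ∨ (¬ 2 ∣ Fintype.card F ∧ 7 ≤ Fintype.card F))
    (h : Set.range (fun g : G => cs(g)) = Set.range (fun g : PSL(2, F) => cs(g))) :
    Nonempty (G ⧸ center G ≃* PSL(2, F)) ∧ commutator G ⊓ center G = ⊥ := by
  obtain ⟨p, n, a, b, hp, hchar, hF, hN⟩ := exists_pslNum hq
  have hL := hN.card_psl hF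
  have hcc := fun x hx => hN.card_cent hF (x := x) hx
  have hcases := fun x hx => hN.cent_cases hF (x := x) hx
  obtain ⟨⟨y₁, hy₁⟩, ⟨y₃, hy₃⟩, y₄, hy₄⟩ := hN.exists_card_cent hF
  set d := Nat.gcd 2 (Fintype.card F - 1) with hd
  have ha := hN.two_lt_a
  have hb := hN.two_lt_b
  have hd0 := hN.d_pos
  have hq1 := hN.one_lt
  have key : ∀ {u v w : ℕ}, 0 < u → u * v = p ^ n * (d * a * b) → u * w = p ^ n * (d * a * b) → v = w :=
    fun hu e1 e2 => Nat.eq_of_mul_eq_mul_left hu (e1.trans e2.symm)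
  have c1 : ∀ x : PSL(2, F), Nat.card cent(x) = p ^ n → cs(x) = d * a * b := fun x e =>
    key (by omega) (by rw [← hL, ← e, card_cent_mul_cs]) rfl
  have c3 : ∀ x : PSL(2, F), Nat.card cent(x) = b → cs(x) = d * p ^ n * a := fun x e =>
    key (u := b) (by omega) (by rw [← hL, ← e, card_cent_mul_cs]) (by ring)
  have c2 : ∀ x : PSL(2, F), Nat.card cent(x) = a → cs(x) = d * p ^ n * b := fun x e =>
    key (u := a) (by omega) (by rw [← hL, ← e, card_cent_mul_cs]) (by ring)
  have c4 : ∀ x : PSL(2, F), Nat.card cent(x) = d * a → cs(x) = p ^ n * b := fun x e =>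
    key (u := d * a) (by positivity) (by rw [← hL, ← e, card_cent_mul_cs]) (by ring)
  have hcs : ∀ g ∉ center G, cs(g) = d * a * b ∨ cs(g) = d * p ^ n * a ∨ cs(g) = d * p ^ n * b ∨
      cs(g) = p ^ n * b := fun g hg => by
    obtain ⟨x, hx⟩ : cs(g) ∈ Set.range (fun g : PSL(2, F) => cs(g)) := h ▸ ⟨g, rfl⟩
    have hx : cs(x) = cs(g) := hx
    rw [← hx]
    rcases hcc x (fun e => hg (by rw [← cs_eq_one_iff, ← hx, e, cs_one])) with e | e | e | e
    · exact Or.inl (c1 x e)
    · exact Or.inr (Or.inl (c3 x e))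
    · exact Or.inr (Or.inr (Or.inl (c2 x e)))
    · exact Or.inr (Or.inr (Or.inr (c4 x e)))
  have hex : ∀ x : PSL(2, F), ∃ g : G, cs(g) = cs(x) := fun x =>
    (h ▸ ⟨x, rfl⟩ : cs(x) ∈ Set.range (fun g : G => cs(g)))
  obtain ⟨x₁, hx₁⟩ := hex y₁
  obtain ⟨x₃, hx₃⟩ := hex y₃
  obtain ⟨x₄, hx₄⟩ := hex y₄
  rw [c1 _ hy₁] at hx₁
  rw [c3 _ hy₃] at hx₃
  rw [c4 _ hy₄] at hx₄
  have hZ : (center G).index = p ^ n * (d * a * b) := by
    rw [index_center_of_cs hN.coprime_a hN.coprime_b hN.coprime_ab hN.d_dvd hq1 (by omega) (by omega)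
      hcs hx₁ hx₃ hx₄]
    ring
  have key2 : ∀ (g : G) {v w : ℕ}, cs(g) = v → v * w = p ^ n * (d * a * b) →
      (center G).relIndex cent(g) = w := fun g v w e1 e2 =>
    key (cs_pos g) (by rw [mul_comm, relIndex_center_mul_cs, hZ]) (e1 ▸ e2)
  have hrel : ∀ g ∉ center G, (center G).relIndex cent(g) = p ^ n ∨ (center G).relIndex cent(g) = b ∨
      (center G).relIndex cent(g) ∣ d * a := fun g hg => by
    rcases hcs g hg with e | e | e | e
    · exact Or.inl (key2 g e (by ring))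
    · exact Or.inr (Or.inl (key2 g e (by ring)))
    · exact Or.inr (Or.inr (key2 g (w := a) e (by ring) ▸ dvd_mul_left _ _))
    · exact Or.inr (Or.inr (key2 g (w := d * a) e (by ring) ▸ dvd_rfl))
  have hrelp : ∀ g : G, p ∣ orderOf (g : G ⧸ center G) → (center G).relIndex cent(g) = p ^ n := by
    intro g hg
    have e := hg.trans (orderOf_mk_dvd_relIndex g)
    rcases hrel g (fun e1 => hp.out.not_dvd_one (by
      rwa [(QuotientGroup.eq_one_iff g).2 e1, orderOf_one] at hg)) with e1 | e1 | e1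
    · exact e1
    · exact absurd ((e1 ▸ e).mul_left _) hN.not_dvd
    · exact absurd ((e.trans e1).mul_right _) hN.not_dvd
  have hH : Nat.card (G ⧸ center G) = p ^ n * (d * a * b) := hZ
  have hiso : IsoP p (G ⧸ center G) := isoP_of_card hH hN.n_ne hN.sq hN.d_lt fun g hg => by
    obtain ⟨g, rfl⟩ := QuotientGroup.mk_surjective g
    exact ⟨n, orderOf_dvd_iff_pow_eq_one.1 (hrelp g hg ▸ orderOf_mk_dvd_relIndex g)⟩
  have hcard := CL.SL2.card_psl_mul (F := F)
  rw [hL, ← hH, ← hd] at hcard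
  obtain ⟨e⟩ : Nonempty (G ⧸ center G ≃* PSL(2, F)) := by
    rcases hN.d_eq with ⟨h1, rfl⟩ | ⟨h1, h2⟩
    · exact hiso.psl_even hF (by rw [← hcard, h1, mul_one])
    · rcases hiso.psl_odd hF h2 (by rcases hN.tori with h | h <;> omega)
        (by rw [← hcard, h1, mul_comm]) with h3 | ⟨h7, g, hg⟩
      · exact h3
      · exfalso
        obtain ⟨g, rfl⟩ := QuotientGroup.mk_surjective g
        have e := hg ▸ orderOf_mk_dvd_relIndex g
        have e2 := hN.odd_b
        have ht := hN.tori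
        rw [← hF, h7, h1] at ht
        obtain ⟨rfl, rfl⟩ : a = 4 ∧ b = 3 := by rw [Nat.odd_iff] at e2; omega
        rcases hrel g (fun e1 => by
          rw [(QuotientGroup.eq_one_iff g).2 e1, orderOf_one] at hg; omega) with e1 | e1 | e1
        · rw [e1, ← hF, h7] at e
          omega
        · omega
        · have := e.trans e1
          omega
  refine ⟨⟨e⟩, ?_⟩
  let π : G →* PSL(2, F) := e.toMonoidHom.comp (QuotientGroup.mk' _)
  have hk : π.ker = center G := by
    ext g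
    simp [π, MonoidHom.mem_ker]
  have hmap : ∀ g : G, Nat.card (cent(g).map π) = (center G).relIndex cent(g) := fun g => by
    rw [← card_map_mk', ← map_map]
    exact Nat.card_congr (equivMapOfInjective _ _ e.injective).toEquiv.symm
  have hdvd : ∀ g : G, (center G).relIndex cent(g) ∣ Nat.card cent(π g) := fun g =>
    hmap g ▸ card_dvd_of_le (map_cent_le π g)
  have nc : ∀ {g : G} {k : ℕ}, cs(g) = k → 1 < k → π g ≠ 1 := fun e1 hk1 hg => by
    rw [cs_eq_one_iff.2 (hk ▸ hg)] at e1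
    omega
  have r1 := key2 x₁ (w := p ^ n) hx₁ (by ring)
  have r3 := key2 x₃ (w := b) hx₃ (by ring)
  have r4 := key2 x₄ (w := d * a) hx₄ (by ring)
  have n1 := nc hx₁ (by nlinarith [Nat.mul_pos hd0 (show 0 < a by omega)])
  have n3 := nc hx₃ (by nlinarith [Nat.mul_pos hd0 (show 0 < p ^ n by omega)])
  have n4 := nc hx₄ (by nlinarith)
  have f1 : ⁅cent(x₁), cent(x₁)⁆ = ⊥ := by
    have hm := hN.not_dvd
    have hS : ∀ g : G, (center G).relIndex cent(g) = p ^ n → ∃ P : Sylow p (G ⧸ center G),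
        cent(g) = (P : Subgroup (G ⧸ center G)).comap (QuotientGroup.mk' (center G)) := fun g hg => by
      rw [← card_map_mk'] at hg
      obtain ⟨P, hP⟩ := (IsPGroup.of_card hg).exists_le_sylow
      refine ⟨P, ?_⟩
      rw [← eq_of_le_of_card_ge hP (by rw [hg, card_sylow_of_eq hH hm P]), comap_map_eq_self]
      rw [QuotientGroup.ker_mk']
      exact center_le_cent g
    obtain ⟨P, hP⟩ := hS x₁ r1
    rw [commutator_eq_bot_iff_le_centralizer]
    intro u hu v hv
    by_cases huZ : u ∈ center G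
    · exact mem_center_iff.1 huZ v
    have hu1 : (u : G ⧸ center G) ≠ 1 := fun e => huZ ((QuotientGroup.eq_one_iff u).1 e)
    have huP : (u : G ⧸ center G) ∈ (P : Subgroup (G ⧸ center G)) := by rw [hP] at hu; exact hu
    obtain ⟨Q, hQ⟩ := hS u (hrelp u (orderOf_eq_prime (hiso.pow_of_mem P.isPGroup' huP) hu1).symm.dvd)
    have huQ : (u : G ⧸ center G) ∈ (Q : Subgroup (G ⧸ center G)) := by
      have := self_mem_cent u
      rw [hQ] at this
      exact this
    obtain rfl : P = Q := hiso.sylow_eq (ne_bot_iff_exists_ne_one.2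
      ⟨⟨_, huP, huQ⟩, fun e => hu1 (congrArg Subtype.val e)⟩)
    rw [hP, ← hQ] at hv
    exact mem_cent.1 hv
  have f3 : ⁅cent(x₃), cent(x₃)⁆ = ⊥ := by
    have e1 := r3 ▸ hdvd x₃
    rcases hcases _ n3 with ⟨-, h1⟩ | ⟨h1, -, ⟨f⟩⟩ | ⟨h1, -⟩
    · exact absurd (hN.coprime_b.symm.eq_one_of_dvd (h1 ▸ e1)) (by omega)
    · rw [Nat.card_congr f.toEquiv, DihedralGroup.nat_card, ← h1] at e1
      exact absurd (((hN.coprime_ab.symm.coprime_dvd_right hN.d_dvd).mul_right
        hN.coprime_ab.symm).eq_one_of_dvd e1) (by omega)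
    · exact comm_cent_of_isCyclic π hk h1
  have f4 : ⁅cent(x₄), cent(x₄)⁆ ⊓ center G = ⊥ := by
    have e1 := r4 ▸ hdvd x₄
    rcases hcases _ n4 with ⟨-, h1⟩ | ⟨h1, -, ⟨f⟩⟩ | ⟨h1, -⟩
    · exact absurd (hN.coprime_a.symm.eq_one_of_dvd ((dvd_mul_left _ _).trans (h1 ▸ e1))) (by omega)
    · let g : cent(x₄) →* cent(π x₄) :=
        (π.comp cent(x₄).subtype).codRestrict _ fun c => cent_le_comap π x₄ c.2
      have hg : Function.Surjective g := fun c => by
        have e2 : cent(x₄).map π = cent(π x₄) := eq_of_le_of_card_ge (map_cent_le π x₄) (by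
          rw [hmap, r4, Nat.card_congr f.toEquiv, DihedralGroup.nat_card, h1])
        obtain ⟨u, hu, e3⟩ := e2.ge c.2
        exact ⟨⟨u, hu⟩, Subtype.ext e3⟩
      have hker : ∀ c : cent(x₄), c ∈ (f.toMonoidHom.comp g).ker ↔ (c : G) ∈ center G := fun c => by
        rw [← hk]
        exact (map_eq_one_iff f f.injective).trans Subtype.ext_iff
      have e3 := commutator_inf_ker_dihedral ha (f.toMonoidHom.comp g) (f.surjective.comp hg)
        (fun c hc => mem_center_iff.2 fun d => Subtype.ext (mem_center_iff.1 ((hker c).1 hc) d))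
        (y := ⟨x₄, self_mem_cent x₄⟩) (mem_center_iff.2 fun d => Subtype.ext (mem_cent.1 d.2))
        (fun e => n4 (by have := (hker _).1 e; rwa [← hk] at this))
      rw [eq_bot_iff, ← map_subtype_commutator]
      rintro _ ⟨⟨c, hc, rfl⟩, hc'⟩
      have : c ∈ commutator cent(x₄) ⊓ (f.toMonoidHom.comp g).ker := ⟨hc, (hker c).2 hc'⟩
      rw [e3, mem_bot] at this
      simp [this]
    · rw [comm_cent_of_isCyclic π hk h1, bot_inf_eq]
  rw [eq_bot_iff]
  rintro z ⟨hz1, hz2⟩
  have g1 := pow_index_mem_commutator cent(x₁) hz2 hz1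
  have g3 := pow_index_mem_commutator cent(x₃) hz2 hz1
  have g4 : z ^ cs(x₄) ∈ ⁅cent(x₄), cent(x₄)⁆ ⊓ center G :=
    ⟨pow_index_mem_commutator cent(x₄) hz2 hz1, pow_mem hz2 _⟩
  rw [f1, hx₁, mem_bot, ← orderOf_dvd_iff_pow_eq_one] at g1
  rw [f3, hx₃, mem_bot, ← orderOf_dvd_iff_pow_eq_one] at g3
  rw [f4, hx₄, mem_bot, ← orderOf_dvd_iff_pow_eq_one] at g4
  have g5 := (hN.coprime.symm.coprime_dvd_left g1).dvd_of_dvd_mul_left g4
  rw [mem_bot, ← orderOf_eq_one_iff]
  exact Nat.eq_one_of_dvd_coprimes (((hN.coprime_ab.symm.coprime_dvd_right hN.d_dvd).mul_right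
    hN.coprime_b.symm).mul_right hN.coprime_ab.symm) g5 g3

theorem exists_normal_psl_of_cs {F : Type*} [Field F] [Fintype F]
    (hq : (2 ∣ Fintype.card F ∧ 2 < Fintype.card F) ∨ (¬ 2 ∣ Fintype.card F ∧ 7 ≤ Fintype.card F))
    (h : Set.range (fun g : G => cs(g)) = Set.range (fun g : PSL(2, F) => cs(g))) :
    commutator G ⊓ center G = ⊥ ∧ commutator G ⊔ center G = ⊤ ∧ Nonempty (commutator G ≃* PSL(2, F)) := by
  obtain ⟨⟨e⟩, h1⟩ := psl_of_cs hq h
  have := CL.SLn.isSimpleGroup_PSL_fin (F := F) 2 le_rfl fun _ => by omega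
  have hs := e.isSimpleGroup
  have hP : commutator (G ⧸ center G) = ⊤ := by
    refine (hs.eq_bot_or_eq_top_of_normal _ inferInstance).resolve_left fun e1 => ?_
    have hc : IsMulCommutative (G ⧸ center G) := (commutator_eq_bot_iff _).1 e1
    obtain ⟨p, n, a, b, hp, hchar, hF, hN⟩ := exists_pslNum hq
    have e2 := Group.is_simple_iff_prime_card.1 hs
    rw [Nat.card_congr e.toEquiv, hN.card_psl hF, Nat.prime_mul_iff] at e2
    have := hN.one_lt
    have := hN.two_lt_b
    rcases e2 with ⟨-, e2⟩ | ⟨-, e2⟩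
    · have := Nat.eq_one_of_mul_eq_one_left e2
      omega
    · omega
  have hm : (commutator G).map (QuotientGroup.mk' (center G)) = ⊤ := by
    rw [map_commutator_eq, MonoidHom.range_eq_top.2 (QuotientGroup.mk'_surjective _)]
    exact hP
  have h2 : commutator G ⊔ center G = ⊤ := by
    have := comap_map_eq (QuotientGroup.mk' (center G)) (commutator G)
    rwa [hm, comap_top, QuotientGroup.ker_mk', eq_comm] at this
  refine ⟨h1, h2, ⟨(MulEquiv.ofBijective ((QuotientGroup.mk' (center G)).comp (commutator G).subtype)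
    ⟨(injective_iff_map_eq_one _).2 fun c hc => ?_, fun y => ?_⟩).trans e⟩⟩
  · have : (c : G) ∈ commutator G ⊓ center G := ⟨c.2, (QuotientGroup.eq_one_iff _).1 hc⟩
    rw [h1, mem_bot] at this
    exact Subtype.ext this
  · obtain ⟨c, hc, rfl⟩ := hm.ge (mem_top y)
    exact ⟨⟨c, hc⟩, rfl⟩

end CL.Inv

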