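/-
Subgroups of `E₇(2)`: the numerical data of the modules of dimension `56` and `133`, and the configurations.
-/
import Cfsg.Agent.Inv.E8s0
import Cfsg.Agent.Chev.AltSec11

set_option autoImplicit false

namespace CL.E7m

open Module CL.E8s Cfsg.Lie CL.Chev CL.AltEx Matrix Subgroup

/-- Elements of order `3`: the fixed dimensions on both modules. -/
def tab3 : List (ℕ × ℕ) := [(32, 67), (2, 79), (14, 49), (20, 49), (20, 43)]
/-- Elements `g` of order `9`: the fixed dimensions of `g` and `g ^ 3`. -/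
def tab9 : List (ℕ × ℕ) := [(0, 2), (0, 20), (6, 20), (8, 20), (12, 20)]
/-- Elements `g` of order `15`: the fixed dimension of `g`, and those of `g ^ 5` on both modules. -/
def tab15 : List (ℕ × ℕ × ℕ) :=
  [(8, 32, 67), (0, 32, 67), (4, 20, 43), (2, 2, 79), (6, 14, 49), (4, 20, 49), (12, 20, 49)]

section Good

variable {G V W : Type*} [Group G] [AddCommGroup V] [Module (ZMod 2) V] [AddCommGroup W] [Module (ZMod 2) W]

/-- A faithful self-dual module of dimension `56` and a module of dimension `133`. -/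
structure Basic (σ : Representation (ZMod 2) G V) (τ : Representation (ZMod 2) G W) : Prop where
  dimV : finrank (ZMod 2) V = 56
  dimW : finrank (ZMod 2) W = 133
  inj : Function.Injective σ
  form : ∃ B : LinearMap.BilinForm (ZMod 2) V, (∀ v w, B v w = B w v) ∧ (∀ v, (∀ w, B v w = 0) → v = 0) ∧
    ∀ g v w, B (σ g v) (σ g w) = B v w

/-- The fixed dimensions of the elements of order `3, 5, 13, 9, 15`. -/
structure Tabs (σ : Representation (ZMod 2) G V) (τ : Representation (ZMod 2) G W) : Prop where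
  three : ∀ g, g ^ 3 = 1 → g ≠ 1 → (fx (σ g), fx (τ g)) ∈ tab3
  five : ∀ g, g ^ 5 = 1 → g ≠ 1 → fx (σ g) = 16
  thirteen : ∀ g, g ^ 13 = 1 → g ≠ 1 → fx (σ g) = 8
  nine : ∀ g, g ^ 9 = 1 → g ^ 3 ≠ 1 → (fx (σ g), fx (σ (g ^ 3))) ∈ tab9
  fifteen : ∀ g, g ^ 15 = 1 → g ^ 3 ≠ 1 → g ^ 5 ≠ 1 → (fx (σ g), fx (σ (g ^ 5)), fx (τ (g ^ 5))) ∈ tab15

/-- The data of a subgroup of `E₇(2)`. -/
structure Good (σ : Representation (ZMod 2) G V) (τ : Representation (ZMod 2) G W) : Prop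
  extends Basic σ τ, Tabs σ τ

/-- There is a nonzero fixed vector. -/
def HasFix (σ : Representation (ZMod 2) G V) : Prop := ∃ v : V, v ≠ 0 ∧ ∀ g, σ g v = v

variable {σ : Representation (ZMod 2) G V} {τ : Representation (ZMod 2) G W}

theorem Basic.finV (h : Basic σ τ) : FiniteDimensional (ZMod 2) V :=
  Module.finite_of_finrank_pos (by rw [h.dimV]; norm_num)

theorem Basic.finW (h : Basic σ τ) : FiniteDimensional (ZMod 2) W :=
  Module.finite_of_finrank_pos (by rw [h.dimW]; norm_num)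

theorem Good.comp (h : Good σ τ) {H : Type*} [Group H] {φ : H →* G} (hφ : Function.Injective φ) :
    Good (σ.comp φ : Representation (ZMod 2) H V) (τ.comp φ : Representation (ZMod 2) H W) := by
  have e : ∀ (g : H) (n : ℕ), φ g ^ n = 1 ↔ g ^ n = 1 := fun g n => by rw [← map_pow, map_eq_one_iff _ hφ]
  have e' : ∀ g : H, φ g = 1 ↔ g = 1 := fun g => map_eq_one_iff _ hφ
  obtain ⟨B, h1, h2, h3⟩ := h.form
  exact
  { dimV := h.dimV
    dimW := h.dimW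
    inj := h.inj.comp hφ
    form := ⟨B, h1, h2, fun g => h3 (φ g)⟩
    three := fun g a b => h.three (φ g) ((e g 3).2 a) (mt (e' g).1 b)
    five := fun g a b => h.five (φ g) ((e g 5).2 a) (mt (e' g).1 b)
    thirteen := fun g a b => h.thirteen (φ g) ((e g 13).2 a) (mt (e' g).1 b)
    nine := fun g a b => by simpa using h.nine (φ g) ((e g 9).2 a) (mt (e g 3).1 b)
    fifteen := fun g a b c => by simpa using h.fifteen (φ g) ((e g 15).2 a) (mt (e g 3).1 b) (mt (e g 5).1 c) }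

end Good

section Conf

variable (G : Type*) [Group G]

/-- `(2, 5, 5)`-generation. -/
def T255 : Prop := ∃ x y : G, x ^ 2 = 1 ∧ y ^ 5 = 1 ∧ (x * y) ^ 5 = 1 ∧ y ≠ 1 ∧ x * y ≠ 1 ∧ closure {x, y} = ⊤

/-- `(2, 4, 5)`-generation. -/
def T245 : Prop := ∃ x y : G, x ^ 2 = 1 ∧ y ^ 4 = 1 ∧ (x * y) ^ 5 = 1 ∧ x * y ≠ 1 ∧ closure {x, y} = ⊤

variable {G} in
/-- `s` and `t` generate `5²`, `t` and `z` generate `A₅`, and `s` centralises `z`. -/
def FiveA5 (s t z : G) : Prop := s ^ 5 = 1 ∧ t ^ 5 = 1 ∧ z ^ 3 = 1 ∧ (t * z) ^ 2 = 1 ∧ Commute s t ∧ Commute s z ∧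
  z ≠ 1 ∧ t ≠ 1 ∧ ∀ i < 5, s * t ^ i ≠ 1

/-- The configuration in `U₃(4)`. -/
def CU34 : Prop := ∃ x z a s t : G, x ^ 2 = 1 ∧ (x * z) ^ 13 = 1 ∧ x * z ≠ 1 ∧ closure {x, z} = ⊤ ∧ FiveA5 s t z ∧
  IsConj a x ∧ Commute s a ∧ a * (z * a * z⁻¹) = z⁻¹ * a * z

/-- The configuration in `J₂` and `G₂(4)`: `z` is also the centre of `3^{1+2}`. -/
def CJ2 : Prop := ∃ s t z u v : G, FiveA5 s t z ∧ u ^ 3 = 1 ∧ v ^ 3 = 1 ∧ Commute z u ∧ Commute z v ∧ u * v = v * u * z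

/-- The configuration in `L₃(16)`. -/
def CL316 : Prop := ∃ y w u v t : G, y ^ 3 = 1 ∧ y ≠ 1 ∧ u ^ 5 = 1 ∧ u ≠ 1 ∧ u * v ^ 2 ≠ 1 ∧ Commute u v ∧
  Commute y u ∧ Commute y w ∧ w * u * w⁻¹ = v ∧ w * v * w⁻¹ = (u * v)⁻¹ ∧ t ^ 5 = 1 ∧ t ≠ 1 ∧ (t * y) ^ 2 = 1

/-- The configuration in `G₂(8)`: the torus `9²` and an element of order `3` of the Weyl group. -/
def CG28 : Prop := ∃ u v w : G, u ^ 9 = 1 ∧ Commute u v ∧ w * u * w⁻¹ = v ∧ w * v * w⁻¹ = (u * v)⁻¹ ∧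
  u ^ 3 * v ^ 6 ≠ 1

variable {G}

/-- A class function. -/
def Cls (F : G → ℕ) : Prop := ∀ g h, F (h * g * h⁻¹) = F g
/-- The sum over `⟨x, y⟩ ≅ 3²`. -/
def S2 (F : G → ℕ) (x y : G) : ℕ := ∑ i : Fin 3, ∑ j : Fin 3, F (x ^ i.val * y ^ j.val)
/-- The sum over `⟨x, y, z⟩ ≅ 3³`. -/
def S3 (F : G → ℕ) (x y z : G) : ℕ := ∑ i : Fin 3, ∑ j : Fin 3, ∑ k : Fin 3, F (x ^ i.val * y ^ j.val * z ^ k.val)
/-- The sum over `⟨x, y, z, w⟩ ≅ 3⁴`. -/
def S4 (F : G → ℕ) (x y z w : G) : ℕ :=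
  ∑ i : Fin 3, ∑ j : Fin 3, ∑ k : Fin 3, ∑ l : Fin 3, F (x ^ i.val * y ^ j.val * z ^ k.val * w ^ l.val)
/-- Four commuting elements with trivial cubes. -/
def E4 (x y z w : G) : Prop := x ^ 3 = 1 ∧ y ^ 3 = 1 ∧ z ^ 3 = 1 ∧ w ^ 3 = 1 ∧ Commute x y ∧ Commute x z ∧
  Commute x w ∧ Commute y z ∧ Commute y w ∧ Commute z w
/-- An element of order `3`. -/
def O3 (a : G) : Prop := a ^ 3 = 1 ∧ a ≠ 1

variable (G)

/-- The configuration in `U₄(3)` and `Ω₇(3)`. -/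
def CU43 : Prop := ∃ x y z w a b c : G, E4 x y z w ∧ O3 a ∧ O3 b ∧ O3 c ∧
  ∀ F : G → ℕ, Cls F → S4 F x y z w = F 1 + 20 * F a + 30 * F b + 30 * F c

/-- The configuration in `G₂(3)`. -/
def CG23 : Prop := ∃ x y z w a b c d e : G, E4 x y z w ∧ O3 a ∧ O3 b ∧ O3 c ∧ O3 d ∧ O3 e ∧
  ∀ F : G → ℕ, Cls F → S2 F z w = F 1 + 8 * F a ∧ S2 F x y = F 1 + 8 * F b ∧
    S3 F x y w = F 1 + 2 * F a + 8 * F b + 16 * F c ∧ S3 F y z w = F 1 + 8 * F a + 2 * F b + 16 * F c ∧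
    S4 F x y z w = F 1 + 8 * F a + 8 * F b + 28 * F c + 18 * F d + 18 * F e

end Conf

/-- The group `E₇(2)`. -/
abbrev GE : Type := chevE7.group (ZMod 2)

/-- The root vectors on the module of dimension `56` in characteristic `2`. -/
def eM (K : Type*) [Field K] (r : ℕ) : Matrix (Fin 56) (Fin 56) K :=
  Matrix.of fun a b => if ∀ i : Fin 7, w56 a i = w56 b i + 2 * Cert.auxE7.rt r i then 1 else 0

/-- `ρ` is the representation of degree `56`. -/
def IsRho (K : Type*) [Field K] (ρ : chevE7.group K →* Matrix (Fin 56) (Fin 56) K) : Prop :=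
  ∀ (r : Fin chevE7.nroots) (t : K), ρ ((realE7.Sg K).x r t) = 1 + t • eM K r

/-- The representation of degree `56` exists in characteristic `2`, and the torus acts by the weights. -/
def RhoEx : Prop := ∀ (K : Type) [Field K] [CharP K 2], ∃ ρ, IsRho K ρ ∧
  ∀ (hM : (realE7.Sg K).HMul) (c : Fin 7 → Kˣ), ∃ d : Fin 56 → K, ρ (hM.torus c) = diagonal d ∧
    ∀ j : Fin 56, d j ^ 2 = (chr realE7.R (fun i : Fin 7 => w56 j i) c : Kˣ)

/-- The module of a matrix representation. -/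
noncomputable def sig {G K n : Type*} [Group G] [Field K] [Fintype n] [DecidableEq n] (ρ : G →* Matrix n n K) :
    Representation K G (n → K) := (Matrix.toLinAlgEquiv' : Matrix n n K ≃ₐ[K] _).toMonoidHom.comp ρ

theorem sig_apply {G K n : Type*} [Group G] [Field K] [Fintype n] [DecidableEq n] (ρ : G →* Matrix n n K) (g : G)
    (v : n → K) : sig ρ g v = ρ g *ᵥ v := rfl

/-- The data of `E₇(2)` itself. -/
structure Top (σ : Representation (ZMod 2) GE (Fin 56 → ZMod 2)) : Prop where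
  good : Good σ (adj chevE7 (ZMod 2))
  nofix : ¬ HasFix σ

end CL.E7m
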