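/-
Subgroups of `E₇(2)`: counting fixed dimensions on modules over the field with two elements.
-/
import Cfsg.Agent.Inv.E7m0
import Cfsg.Agent.Inv.E8sG2
import Cfsg.Agent.Blk.DefectNum

set_option autoImplicit false

namespace CL.E7m

open Module CL.E8s Finset Cfsg CL.Blk CL.Blk.Rk CL.Char

variable {G V : Type*} [Group G] [AddCommGroup V] [Module (ZMod 2) V]

theorem add_self (v : V) : v + v = 0 := by rw [← two_smul (ZMod 2) v, show (2 : ZMod 2) = 0 from rfl, zero_smul]

theorem odd_smul {n : ℕ} (h : Odd n) (v : V) : n • v = v := by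
  obtain ⟨k, rfl⟩ := h
  rw [add_smul, one_smul, mul_smul, two_smul, add_self, zero_add]

theorem fx_toMatrix {k F n : Type*} [Field k] [Field F] {U : Type*} [AddCommGroup U] [Module F U] [Fintype n]
    [DecidableEq n] (b : Basis n F U) (f : F →+* k) (x : End F U) :
    fx (Matrix.toLin' ((LinearMap.toMatrix b b x).map f)) = fx x := by
  have := Module.Finite.of_basis b
  have h1 := fx_map f (LinearMap.toMatrix b b x)
  have h2 := LinearMap.finrank_range_add_finrank_ker (x - 1)
  rw [← LinearMap.toMatrix_one b, ← map_sub, Matrix.rank_eq_finrank_range_toLin _ b b, Matrix.toLin_toMatrix] at h1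
  rw [finrank_eq_card_basis b] at h2
  unfold fx at h1 ⊢
  omega

theorem finrank_fixS_top {k A U : Type*} [Field k] [CharP k 2] [Group A] [Fintype A] [AddCommGroup U] [Module k U]
    (ρ : Representation k A U) (h : Odd (Fintype.card A)) : finrank k (fixS ρ ⊤) = fx (∑ a, ρ a) := by
  refine congrArg (fun S : Submodule k U => finrank k S) (Submodule.ext fun v => ?_)
  rw [LinearMap.mem_ker, LinearMap.sub_apply, sub_eq_zero, LinearMap.sum_apply, End.one_apply]
  refine ⟨fun hv => ?_, fun hv g _ => ?_⟩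
  · obtain ⟨m, hm⟩ := h
    rw [sum_congr rfl fun a _ => hv a trivial, sum_const, card_univ, hm, ← Nat.cast_smul_eq_nsmul k]
    simp [CharTwo.two_eq_zero]
  · rw [← hv, map_sum]
    exact Fintype.sum_equiv (Equiv.mulLeft g) _ _ fun a => by simp

/-- The sum of the fixed dimensions over a group of odd prime exponent. -/
theorem g1 [FiniteDimensional (ZMod 2) V] {A : Type*} [Group A] [Fintype A] {p : ℕ} (hp : (p + 1).Prime)
    (h2 : p + 1 ≠ 2) (ρ : Representation (ZMod 2) A V) (h : ∀ a : A, a ^ (p + 1) = 1) :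
    (p + 1) * ∑ a, fx (ρ a) = Fintype.card A * (finrank (ZMod 2) V + p * finrank (ZMod 2) (fixS ρ ⊤)) := by
  classical
  obtain ⟨M, hM⟩ := exists_isPModular' Nat.prime_two
  have := charP_resField hM
  have := Fact.mk hp
  let f := ZMod.castHom (dvd_refl 2) (resField M)
  let b := Module.finBasis (ZMod 2) V
  let σ := sig (f.mapMatrix.toMonoidHom.comp ((LinearMap.toMatrixAlgEquiv b).toMonoidHom.comp ρ))
  have e1 : ∀ a, fx (σ a) = fx (ρ a) := fun a => fx_toMatrix b f (ρ a)
  obtain ⟨m, hm⟩ := IsPGroup.iff_card.1 (show IsPGroup (p + 1) A from fun a => ⟨1, by rw [pow_one, h]⟩)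
  have ho : Odd (Fintype.card A) := by rw [← Nat.card_eq_fintype_card, hm]; exact (hp.odd_of_ne_two h2).pow
  have e2 : finrank (resField M) (fixS σ ⊤) = finrank (ZMod 2) (fixS ρ ⊤) := by
    rw [finrank_fixS_top σ ho, finrank_fixS_top ρ ho, ← fx_toMatrix b f, map_sum, ← RingHom.mapMatrix_apply, map_sum,
      map_sum]
    rfl
  have := Fintype.ofFinite (⊤ : Subgroup A)
  have h3 := sum_br hM σ ⊤ (by rw [Subgroup.card_top, Nat.card_eq_fintype_card]; exact ho.not_two_dvd_nat)
  rw [Subgroup.card_top, Nat.card_eq_fintype_card, e2,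
    Fintype.sum_equiv Subgroup.topEquiv.toEquiv (fun g => br 2 σ g) (fun a => br 2 σ a) fun _ => rfl] at h3
  have h4 : ∀ i ∈ range p, ∑ a, br 2 σ (a ^ (i + 1)) = ∑ a, br 2 σ a := fun i hi =>
    Fintype.sum_equiv (powCoprime (n := i + 1) (hm ▸ Nat.Coprime.pow_left m
      ((Nat.coprime_of_lt_prime (by omega) (by have := mem_range.1 hi; omega) hp)))) _ _ fun _ => rfl
  have h5 := sum_congr (s₁ := univ) rfl fun a _ => sum_br_cyc hM σ (hp.odd_of_ne_two h2).not_two_dvd_nat (h a)
  rw [sum_comm, sum_range_succ', sum_congr rfl h4, h3] at h5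
  simp only [pow_zero, br_one Nat.prime_two, e1, sum_const, card_range, card_univ, finrank_fintype_fun_eq_card,
    Fintype.card_fin, ← mul_sum, nsmul_eq_mul] at h5
  have h6 : (((p + 1) * ∑ a, fx (ρ a) : ℕ) : ℂ) =
      (Fintype.card A * (finrank (ZMod 2) V + p * finrank (ZMod 2) (fixS ρ ⊤)) : ℕ) := by
    push_cast at h5 ⊢
    linear_combination -h5
  exact_mod_cast h6

/-- The powers of an element. -/
def cyc {M : Type*} [Monoid M] (p : ℕ) [NeZero p] (x : M) (h : x ^ p = 1) : Multiplicative (ZMod p) →* M where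
  toFun i := x ^ i.toAdd.val
  map_one' := by simp
  map_mul' i j := by rw [toAdd_mul, ZMod.val_add, ← pow_eq_pow_mod _ h, pow_add]

theorem cyc_apply {M : Type*} [Monoid M] (p : ℕ) [NeZero p] (x : M) (h : x ^ p = 1) (i : Multiplicative (ZMod p)) :
    cyc p x h i = x ^ i.toAdd.val := rfl

theorem pow_fix {x : End (ZMod 2) V} {v : V} (h : x v = v) (n : ℕ) : (x ^ n) v = v := by
  induction n with
  | zero => rfl
  | succ n ih => rw [pow_succ, End.mul_apply, h, ih]

theorem mem_ker {x : End (ZMod 2) V} {v : V} : v ∈ LinearMap.ker (x - 1) ↔ x v = v := by simp [sub_eq_zero]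

/-- The fixed space of `x` is invariant under what commutes with `x`. -/
theorem ker_inv {x y : End (ZMod 2) V} (h : Commute x y) : ∀ v ∈ LinearMap.ker (x - 1), y v ∈ LinearMap.ker (x - 1) :=
  fun v hv => mem_ker.2 (by rw [← End.mul_apply, h.eq, End.mul_apply, mem_ker.1 hv])

theorem fx_pow {x : End (ZMod 2) V} {n i : ℕ} (h : x ^ n = 1) (hi : i.Coprime n) : fx (x ^ i) = fx x := by
  rcases Nat.lt_or_ge 1 n with h1 | h1
  · obtain ⟨j, -, hj⟩ := Nat.exists_mul_mod_eq_one_of_coprime hi h1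
    exact fx_eq_of_pow rfl (by rw [← pow_mul, pow_eq_pow_mod _ h, hj, pow_one])
  · obtain rfl | rfl : n = 0 ∨ n = 1 := by omega
    · rw [(Nat.coprime_zero_right _).1 hi, pow_one]
    · rw [pow_one] at h; rw [h, one_pow]

theorem pp0 [FiniteDimensional (ZMod 2) V] {p : ℕ} (hp : (p + 1).Prime) (h2 : p + 1 ≠ 2) {a b : End (ZMod 2) V}
    (hc : Commute a b) (ha : a ^ (p + 1) = 1) (hb : b ^ (p + 1) = 1) :
    finrank (ZMod 2) V + (p + 1) * finrank (ZMod 2) (LinearMap.ker (a - 1) ⊓ LinearMap.ker (b - 1) : Submodule _ V) =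
      fx b + ∑ i ∈ range (p + 1), fx (a * b ^ i) := by
  have := Fact.mk hp
  let ρ := (cyc (p + 1) a ha).noncommCoprod (cyc (p + 1) b hb) fun _ _ => hc.pow_pow _ _
  have h1 := g1 hp h2 ρ fun x => Prod.ext (Multiplicative.toAdd.injective (by simp))
    (Multiplicative.toAdd.injective (by simp))
  have h3 : fixS ρ ⊤ = LinearMap.ker (a - 1) ⊓ LinearMap.ker (b - 1) := by
    ext v
    simp only [Submodule.mem_inf, LinearMap.mem_ker, LinearMap.sub_apply, sub_eq_zero, End.one_apply]
    refine ⟨fun h => ⟨?_, ?_⟩, fun h g _ => ?_⟩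
    · have : (a ^ (1 : ZMod (p + 1)).val * b ^ 0) v = v := h (.ofAdd 1, 1) trivial
      simpa [ZMod.val_one] using this
    · have : (a ^ 0 * b ^ (1 : ZMod (p + 1)).val) v = v := h (1, .ofAdd 1) trivial
      simpa [ZMod.val_one] using this
    · change (a ^ _) ((b ^ _) v) = v
      rw [pow_fix h.2, pow_fix h.1]
  have h4 : ∀ (F : ℕ → ℕ), ∑ i : Multiplicative (ZMod (p + 1)), F i.toAdd.val = ∑ i ∈ range (p + 1), F i := fun F =>
    (Fintype.sum_equiv Multiplicative.toAdd _ (fun i : Fin (p + 1) => F i) fun _ => rfl).trans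
      (Fin.sum_univ_eq_sum_range F (p + 1))
  have h5 : ∀ i ∈ range p, (i + 1).Coprime (p + 1) := fun i hi =>
    (Nat.coprime_of_lt_prime (by omega) (by have := mem_range.1 hi; omega) hp).symm
  have h6 : ∀ i ∈ range p, ∑ j : Multiplicative (ZMod (p + 1)), fx (a ^ (i + 1) * b ^ j.toAdd.val) =
      ∑ j ∈ range (p + 1), fx (a * b ^ j) := fun i hi => by
    rw [← h4 fun j => fx (a * b ^ j)]
    refine (Fintype.sum_equiv (powCoprime (n := i + 1) (by simpa using (h5 i hi).symm)) _ _ fun j => ?_).symm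
    rw [← fx_pow (n := p + 1) (by rw [(hc.pow_right _).mul_pow, ha, pow_right_comm, hb]; simp) (h5 i hi),
      (hc.pow_right _).mul_pow, powCoprime_apply, ← cyc_apply _ _ hb, ← cyc_apply _ _ hb, map_pow]
  rw [h3, Fintype.sum_prod_type] at h1
  change _ * ∑ i : Multiplicative (ZMod (p + 1)), ∑ j : Multiplicative (ZMod (p + 1)),
    fx (a ^ i.toAdd.val * b ^ j.toAdd.val) = _ at h1
  rw [h4 fun i => ∑ j : Multiplicative (ZMod (p + 1)), fx (a ^ i * b ^ j.toAdd.val), sum_range_succ',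
    sum_congr rfl h6, h4 fun j => fx (a ^ 0 * b ^ j), sum_range_succ' (fun j => fx (a ^ 0 * b ^ j)),
    sum_congr (f := fun j => fx (a ^ 0 * b ^ (j + 1))) (g := fun _ => fx b) rfl fun j hj => by
      rw [pow_zero, one_mul, fx_pow hb (h5 j hj)]] at h1
  simp only [sum_const, card_range, smul_eq_mul, pow_zero, one_mul, fx_one, Fintype.card_prod,
    Fintype.card_multiplicative, ZMod.card, mul_assoc] at h1
  have h7 := Nat.eq_of_mul_eq_mul_left hp.pos h1
  refine Nat.eq_of_mul_eq_mul_left (show 0 < p by have := hp.two_le; omega) ?_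
  linarith

/-- The dimension of the space of fixed vectors in `U`. -/
noncomputable def fU (U : Submodule (ZMod 2) V) (x : End (ZMod 2) V) : ℕ :=
  finrank (ZMod 2) (U ⊓ LinearMap.ker (x - 1) : Submodule _ V)

theorem fU_top (x : End (ZMod 2) V) : fU ⊤ x = fx x := by rw [fU, top_inf_eq, fx]

theorem finrank_comap (U S : Submodule (ZMod 2) V) :
    finrank (ZMod 2) (S.comap U.subtype) = finrank (ZMod 2) (U ⊓ S : Submodule _ V) := by
  rw [← Submodule.map_comap_subtype, Submodule.finrank_map_subtype_eq]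

theorem ker_restrict {U : Submodule (ZMod 2) V} {x : End (ZMod 2) V} (h : ∀ v ∈ U, x v ∈ U) :
    LinearMap.ker (x.restrict h - 1) = (LinearMap.ker (x - 1)).comap U.subtype := by
  ext v; simp [sub_eq_zero, Subtype.ext_iff]

theorem fx_restrict {U : Submodule (ZMod 2) V} {x : End (ZMod 2) V} (h : ∀ v ∈ U, x v ∈ U) :
    fx (x.restrict h) = fU U x := by rw [fx, ker_restrict, finrank_comap, fU]

theorem restrict_pow_eq_one {U : Submodule (ZMod 2) V} {x : End (ZMod 2) V} (h : ∀ v ∈ U, x v ∈ U) {n : ℕ}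
    (e : ∀ v ∈ U, (x ^ n) v = v) : (x.restrict h : End _ U) ^ n = 1 := by
  rw [End.pow_restrict]; exact LinearMap.ext fun v => Subtype.ext (e v v.2)

/-- The relation between the fixed dimensions of the subgroups of `p²` acting on `U`. -/
theorem pp [FiniteDimensional (ZMod 2) V] {p : ℕ} (hp : p.Prime) (h2 : p ≠ 2) {U : Submodule (ZMod 2) V}
    {a b : End (ZMod 2) V} (hc : Commute a b) (ha : ∀ v ∈ U, a v ∈ U) (hb : ∀ v ∈ U, b v ∈ U)
    (ha' : ∀ v ∈ U, (a ^ p) v = v) (hb' : ∀ v ∈ U, (b ^ p) v = v) :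
    finrank (ZMod 2) U + p * fU (U ⊓ LinearMap.ker (a - 1)) b = fU U b + ∑ i ∈ range p, fU U (a * b ^ i) := by
  obtain ⟨p, rfl⟩ := Nat.exists_eq_succ_of_ne_zero hp.ne_zero
  have := pp0 hp h2 (a := a.restrict ha) (b := b.restrict hb)
    (LinearMap.ext fun v => Subtype.ext (LinearMap.congr_fun hc.eq v)) (restrict_pow_eq_one ha ha')
    (restrict_pow_eq_one hb hb')
  rw [ker_restrict, ker_restrict, ← Submodule.comap_inf, finrank_comap, ← inf_assoc, fx_restrict] at this
  refine this.trans (congrArg _ (sum_congr rfl fun i _ => ?_))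
  rw [End.pow_restrict, ← fx_restrict (x := a * b ^ i) fun v hv => ha _ (End.pow_apply_mem_of_forall_mem i hb v hv)]
  rfl

theorem card_sub [FiniteDimensional (ZMod 2) V] (U : Submodule (ZMod 2) V) : Nat.card U = 2 ^ finrank (ZMod 2) U := by
  rw [Module.natCard_eq_pow_finrank (K := ZMod 2), Nat.card_zmod]

theorem mod0 [FiniteDimensional (ZMod 2) V] {p n : ℕ} (hp : p.Prime) {x : End (ZMod 2) V} (h : x ^ p ^ n = 1) :
    2 ^ finrank (ZMod 2) V ≡ 2 ^ fx x [MOD p] := by
  classical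
  have := Fact.mk hp
  have := Module.finite_of_finite (ZMod 2) (M := V)
  have := Fintype.ofFinite V
  let f : End (ZMod 2) V →* Function.End V := ⟨⟨fun x => ⇑x, rfl⟩, fun _ _ => rfl⟩
  have h1 := Equiv.Perm.card_fixedPoints_modEq (f := f x) (p := p) (n := n) (by rw [← map_pow, h, map_one])
  rw [fx, ← card_sub, ← finrank_top, ← card_sub, Nat.card_congr Submodule.topEquiv.toEquiv, Nat.card_eq_fintype_card]
  convert h1 using 1
  rw [← Nat.card_eq_fintype_card]
  exact Nat.card_congr (Equiv.subtypeEquivRight fun v => sub_eq_zero)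

/-- Counting orbits of an element of prime order. -/
theorem modp [FiniteDimensional (ZMod 2) V] {p : ℕ} (hp : p.Prime) {U : Submodule (ZMod 2) V} {x : End (ZMod 2) V}
    (h : ∀ v ∈ U, x v ∈ U) (e : ∀ v ∈ U, (x ^ p) v = v) : 2 ^ finrank (ZMod 2) U ≡ 2 ^ fU U x [MOD p] :=
  fx_restrict h ▸ mod0 (n := 1) hp (by rw [pow_one, restrict_pow_eq_one h e])

theorem mod90 [FiniteDimensional (ZMod 2) V] {x : End (ZMod 2) V} (h : x ^ 9 = 1) :
    2 ^ finrank (ZMod 2) V ≡ 2 ^ fx (x ^ 3) [MOD 9] := by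
  classical
  have := Module.finite_of_finite (ZMod 2) (M := V)
  have := Fintype.ofFinite V
  letI : MulAction (Multiplicative (ZMod 9)) V := MulAction.compHom V (cyc 9 x h)
  have h1 := MulAction.sum_card_fixedBy_eq_card_orbits_mul_card_group (Multiplicative (ZMod 9)) V
  have h2 : ∀ i : Multiplicative (ZMod 9), Fintype.card (MulAction.fixedBy V i) = 2 ^ fx (x ^ i.toAdd.val) := fun i => by
    rw [fx, ← card_sub, ← Nat.card_eq_fintype_card]
    exact Nat.card_congr (Equiv.subtypeEquivRight fun v => sub_eq_zero.symm)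
  rw [sum_congr rfl fun i _ => h2 i, (Fintype.sum_equiv Multiplicative.toAdd
    (fun i : Multiplicative (ZMod 9) => 2 ^ fx (x ^ i.toAdd.val)) (fun i : Fin 9 => 2 ^ fx (x ^ i.val))
    fun _ => rfl).trans (Fin.sum_univ_eq_sum_range (fun i => 2 ^ fx (x ^ i)) 9)] at h1
  have h3 : fx (x ^ 6) = fx (x ^ 3) := by
    rw [← fx_pow (x := x ^ 3) (n := 3) (i := 2) (by rwa [← pow_mul]) (by decide), ← pow_mul]
  have h4 := modp (U := LinearMap.ker (x ^ 3 - 1)) (x := x) Nat.prime_three
    (ker_inv (Commute.pow_self x 3)) fun v hv => mem_ker.1 hv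
  rw [fU, inf_eq_right.2 (ker_le_pow x 3)] at h4
  simp only [sum_range_succ, sum_range_zero, pow_zero, pow_one, fx_one, h3, fx_pow h (i := 2) (by decide),
    fx_pow h (i := 4) (by decide), fx_pow h (i := 5) (by decide), fx_pow h (i := 7) (by decide),
    fx_pow h (i := 8) (by decide), Fintype.card_multiplicative, ZMod.card] at h1
  change 2 ^ fx (x ^ 3) % 3 = 2 ^ fx x % 3 at h4
  unfold Nat.ModEq
  omega

/-- Counting orbits of an element of order `9`. -/
theorem mod9 [FiniteDimensional (ZMod 2) V] {U : Submodule (ZMod 2) V} {x : End (ZMod 2) V}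
    (h : ∀ v ∈ U, x v ∈ U) (e : ∀ v ∈ U, (x ^ 9) v = v) : 2 ^ finrank (ZMod 2) U ≡ 2 ^ fU U (x ^ 3) [MOD 9] := by
  have := mod90 (restrict_pow_eq_one h e)
  rwa [End.pow_restrict, fx_restrict] at this

theorem fU_le [FiniteDimensional (ZMod 2) V] (U : Submodule (ZMod 2) V) (x : End (ZMod 2) V) :
    fU U x ≤ fx x ∧ fU U x ≤ finrank (ZMod 2) U := ⟨Submodule.finrank_mono inf_le_right, Submodule.finrank_mono inf_le_left⟩

/-- An involution fixes at least half of the space. -/
theorem half [FiniteDimensional (ZMod 2) V] {U : Submodule (ZMod 2) V} {x : End (ZMod 2) V} (h : ∀ v ∈ U, x v ∈ U)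
    (e : ∀ v ∈ U, x (x v) = v) : finrank (ZMod 2) U ≤ 2 * fU U x := by
  have h1 := LinearMap.finrank_range_add_finrank_ker (x.restrict h - 1 : End _ U)
  have h2 : LinearMap.range (x.restrict h - 1 : End _ U) ≤ LinearMap.ker (x.restrict h - 1 : End _ U) := by
    rintro _ ⟨v, rfl⟩
    refine Subtype.ext ?_
    change x (x v - v) - (x v - v) = 0
    rw [map_sub, e v v.2]
    linear_combination (norm := abel1) add_self (v - x v)
  have h3 := Submodule.finrank_mono h2
  rw [← fx_restrict h, fx]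
  omega

theorem half' [FiniteDimensional (ZMod 2) V] {x : End (ZMod 2) V} (e : x ^ 2 = 1) : finrank (ZMod 2) V ≤ 2 * fx x := by
  have := half (U := ⊤) (x := x) (fun _ _ => trivial) fun v _ => by rw [← End.mul_apply, ← sq, e, End.one_apply]
  rwa [finrank_top, fU_top] at this

theorem quarter [FiniteDimensional (ZMod 2) V] {x : End (ZMod 2) V} (e : x ^ 4 = 1) : finrank (ZMod 2) V ≤ 4 * fx x := by
  have h1 := half' (x := x ^ 2) (by rwa [← pow_mul])
  have h2 := half (U := LinearMap.ker (x ^ 2 - 1)) (x := x) (ker_inv (Commute.pow_self x 2))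
    fun v hv => by rw [← End.mul_apply, ← sq]; exact mem_ker.1 hv
  have h3 := (fU_le (LinearMap.ker (x ^ 2 - 1)) x).1
  unfold fx at h1
  omega

theorem mem_fix {U : Submodule (ZMod 2) V} {x : End (ZMod 2) V} {v : V} :
    v ∈ U ⊓ LinearMap.ker (x - 1) ↔ v ∈ U ∧ x v = v := by simp [sub_eq_zero]

/-- In `A₅` an element of order `3` fixes at least as much as an element of order `5`. -/
theorem a5 [FiniteDimensional (ZMod 2) V] {U : Submodule (ZMod 2) V} {t z : End (ZMod 2) V} (h : ∀ v ∈ U, z v ∈ U)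
    (ht : t ^ 5 = 1) (hz : z ^ 3 = 1) (e : (t * z) ^ 2 = 1) : fU U t ≤ fU U z := by
  have h1 : z * z = t * z * t := by
    calc z * z = (t * z) ^ 2 * (z * z) := by rw [e, one_mul]
      _ = t * z * t * z ^ 3 := by noncomm_ring
      _ = _ := by rw [hz, mul_one]
  have h2 : (1 + t + t ^ 2 + t ^ 3 + t ^ 4) * t = 1 + t + t ^ 2 + t ^ 3 + t ^ 4 := by
    rw [← sub_eq_zero, ← sub_eq_zero.2 ht]; noncomm_ring
  refine LinearMap.finrank_le_finrank_of_injective (f := (1 + z + z * z).restrict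
    (p := U ⊓ LinearMap.ker (t - 1)) (q := U ⊓ LinearMap.ker (z - 1)) fun v hv => mem_fix.2
      ⟨add_mem (add_mem hv.1 (h v hv.1)) (h _ (h v hv.1)), ?_⟩) ((injective_iff_map_eq_zero _).2 fun v hv => ?_)
  · rw [← End.mul_apply, show z * (1 + z + z * z) = z + z * z + z ^ 3 by noncomm_ring, hz]
    congr 1; abel
  · have h3 := (mem_fix.1 v.2).2
    have h4 := congrArg (1 + t + t ^ 2 + t ^ 3 + t ^ 4 : End _ V) (congrArg Subtype.val hv)
    change (1 + t + t ^ 2 + t ^ 3 + t ^ 4 : End _ V) (v + z v + (z * z) v) = _ at h4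
    rw [h1, End.mul_apply, End.mul_apply, h3, map_add, map_add, ← End.mul_apply _ t, h2, add_assoc, add_self,
      add_zero] at h4
    simp only [LinearMap.add_apply, pow_fix h3, h3, End.one_apply, add_self, zero_add, Submodule.coe_zero,
      map_zero, add_zero] at h4
    exact Subtype.ext h4

/-- In `A₄` an involution fixes at least as much as an element of order `3`. -/
theorem a4 [FiniteDimensional (ZMod 2) V] {ρ : Representation (ZMod 2) G V} {U : Submodule (ZMod 2) V} {a z : G}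
    (h : ∀ v ∈ U, ρ a v ∈ U) (ha : a ^ 2 = 1) (e : a * (z * a * z⁻¹) = z⁻¹ * a * z) : fU U (ρ z) ≤ fU U (ρ a) := by
  have m : ∀ g h v, ρ (g * h) v = ρ g (ρ h v) := fun g h v => by rw [map_mul, End.mul_apply]
  have h0 : ∀ v, ρ a (ρ a v) = v := fun v => by rw [← m, ← sq, ha, map_one, End.one_apply]
  set Z := U ⊓ LinearMap.ker (ρ z - 1)
  set K := U ⊓ LinearMap.ker (ρ a - 1)
  have h1 := LinearMap.finrank_range_add_finrank_ker ((ρ a - 1).domRestrict Z)
  rw [LinearMap.range_domRestrict, LinearMap.ker_domRestrict, finrank_comap] at h1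
  have h2 := Submodule.finrank_sup_add_finrank_inf_eq (Z.map (ρ a - 1)) (Z ⊓ LinearMap.ker (ρ a - 1))
  have h3 : Z.map (ρ a - 1) ⊓ (Z ⊓ LinearMap.ker (ρ a - 1)) = ⊥ := by
    refine le_bot_iff.1 ?_
    rintro _ ⟨⟨v, hv, rfl⟩, h4⟩
    have h5 := (mem_fix.1 hv).2
    have h6 := (mem_fix.1 (mem_fix.1 h4).1).2
    change ρ z (ρ a v - v) = ρ a v - v at h6
    rw [map_sub, h5, sub_left_inj] at h6
    have h7 : ∀ w, ρ z w = w → ρ z⁻¹ w = w := fun w hw => by
      conv_lhs => rw [← hw, ← m, inv_mul_cancel, map_one, End.one_apply]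
    have h8 := congrArg (fun g => ρ g v) e
    simp only [m, h7 v h5, h5, h6, h7 _ h6, h0] at h8
    exact sub_eq_zero.2 h8.symm
  have h4 : Z.map (ρ a - 1) ⊔ (Z ⊓ LinearMap.ker (ρ a - 1)) ≤ K := sup_le (by
    rintro _ ⟨v, hv, rfl⟩
    refine mem_fix.2 ⟨sub_mem (h v hv.1) hv.1, ?_⟩
    change ρ a (ρ a v - v) = ρ a v - v
    rw [map_sub, h0]
    linear_combination (norm := abel1) add_self (v - ρ a v)) (inf_le_inf_right _ inf_le_left)
  have h5 := Submodule.finrank_mono h4
  rw [h3, finrank_bot] at h2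
  change finrank _ Z ≤ finrank _ K
  omega

end CL.E7m
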