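/-
Subgroups of `E₇(2)`: Scott's inequality and sums over elementary abelian `3`-groups.
-/
import Cfsg.Agent.Inv.E7m1

set_option autoImplicit false

namespace CL.E7m

open Module CL.E8s Finset Subgroup

variable {G V : Type*} [Group G] [AddCommGroup V] [Module (ZMod 2) V]

theorem rep_mul (ρ : Representation (ZMod 2) G V) (g h : G) (v : V) : ρ (g * h) v = ρ g (ρ h v) := by
  rw [map_mul, End.mul_apply]

theorem fx_inv (ρ : Representation (ZMod 2) G V) (g : G) : fx (ρ g⁻¹) = fx (ρ g) := by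
  rw [fx, fx, ← fixS_zpowers, ← fixS_zpowers, zpowers_inv]

theorem fx_isConj (ρ : Representation (ZMod 2) G V) {g h : G} (e : IsConj g h) : fx (ρ h) = fx (ρ g) := by
  obtain ⟨k, rfl⟩ := isConj_iff.1 e
  exact fx_conj ρ g k

theorem fx_rep_pow (ρ : Representation (ZMod 2) G V) {g : G} {n i : ℕ} (h : g ^ n = 1) (hi : i.Coprime n) :
    fx (ρ (g ^ i)) = fx (ρ g) := by rw [map_pow, fx_pow (by rw [← map_pow, h, map_one]) hi]

theorem cls_fx (ρ : Representation (ZMod 2) G V) : Cls fun g => fx (ρ g) := fx_conj ρ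

/-- The vectors fixed by the elements of a list. -/
def Fx (ρ : Representation (ZMod 2) G V) (l : List G) : Submodule (ZMod 2) V := fixS ρ (closure {g | g ∈ l})

theorem mem_Fx {ρ : Representation (ZMod 2) G V} {l : List G} {v : V} : v ∈ Fx ρ l ↔ ∀ g ∈ l, ρ g v = v :=
  mem_fixS_closure

/-- The dimension of the space fixed by the elements of a list. -/
noncomputable def dL (ρ : Representation (ZMod 2) G V) (l : List G) : ℕ := finrank (ZMod 2) (Fx ρ l)

theorem dL_nil (ρ : Representation (ZMod 2) G V) : dL ρ [] = finrank (ZMod 2) V := by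
  rw [dL, show Fx ρ [] = ⊤ from eq_top_iff.2 fun v _ => mem_Fx.2 (by simp), finrank_top]

theorem dL_single (ρ : Representation (ZMod 2) G V) (g : G) : dL ρ [g] = fx (ρ g) := by
  rw [dL, show Fx ρ [g] = LinearMap.ker (ρ g - 1) from Submodule.ext fun v => by simp [mem_Fx, sub_eq_zero], fx]

theorem Fx_cons (ρ : Representation (ZMod 2) G V) (l : List G) (g : G) :
    Fx ρ (g :: l) = Fx ρ l ⊓ LinearMap.ker (ρ g - 1) :=
  Submodule.ext fun v => by simp [mem_Fx, sub_eq_zero, and_comm]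

theorem fU_Fx (ρ : Representation (ZMod 2) G V) (l : List G) (g : G) : fU (Fx ρ l) (ρ g) = dL ρ (g :: l) := by
  rw [dL, Fx_cons, fU]

theorem dL_le [FiniteDimensional (ZMod 2) V] (ρ : Representation (ZMod 2) G V) {l l' : List G}
    (h : ∀ g ∈ l', g ∈ closure {g | g ∈ l}) : dL ρ l ≤ dL ρ l' :=
  Submodule.finrank_mono (fixS_anti ρ ((closure_le _).2 h))

theorem dL_congr [FiniteDimensional (ZMod 2) V] (ρ : Representation (ZMod 2) G V) {l l' : List G}
    (h : ∀ g ∈ l', g ∈ closure {g | g ∈ l}) (h' : ∀ g ∈ l, g ∈ closure {g | g ∈ l'}) : dL ρ l = dL ρ l' :=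
  le_antisymm (dL_le ρ h) (dL_le ρ h')

theorem dL_conj [FiniteDimensional (ZMod 2) V] (ρ : Representation (ZMod 2) G V) (l : List G) (k : G) :
    dL ρ (l.map fun g => k * g * k⁻¹) = dL ρ l := by
  have : ∀ (l : List G) (k : G), dL ρ l ≤ dL ρ (l.map fun g => k * g * k⁻¹) := fun l k =>
    LinearMap.finrank_le_finrank_of_injective (f := (ρ k).restrict (p := Fx ρ l) fun v hv => mem_Fx.2 fun g hg => by
      obtain ⟨g, h, rfl⟩ := List.mem_map.1 hg
      rw [← rep_mul, inv_mul_cancel_right, rep_mul, mem_Fx.1 hv g h]) fun v w e => Subtype.ext (by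
        simpa [← rep_mul] using congrArg (ρ k⁻¹) (congrArg Subtype.val e))
  refine le_antisymm ?_ (this l k)
  simpa [Function.comp_def, mul_assoc] using this (l.map fun g => k * g * k⁻¹) k⁻¹

theorem Fx_inv {ρ : Representation (ZMod 2) G V} {l : List G} {a : G} (h : ∀ g ∈ l, Commute g a) :
    ∀ v ∈ Fx ρ l, ρ a v ∈ Fx ρ l := fun v hv => mem_Fx.2 fun g hg => by
  rw [← rep_mul, (h g hg).eq, rep_mul, mem_Fx.1 hv g hg]

/-- The relation `pp` for the group `p²` acting on the fixed space of a list. -/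
theorem ppL [FiniteDimensional (ZMod 2) V] (ρ : Representation (ZMod 2) G V) {p : ℕ} (hp : p.Prime) (h2 : p ≠ 2)
    {l : List G} {a b : G} (hc : Commute a b) (ha : ∀ g ∈ l, Commute g a) (hb : ∀ g ∈ l, Commute g b)
    (ha' : a ^ p ∈ closure {g | g ∈ l}) (hb' : b ^ p ∈ closure {g | g ∈ l}) :
    dL ρ l + p * dL ρ (b :: a :: l) = dL ρ (b :: l) + ∑ i ∈ range p, dL ρ (a * b ^ i :: l) := by
  have := pp hp h2 (hc.map ρ) (Fx_inv ha) (Fx_inv hb) (fun v hv => by rw [← map_pow]; exact hv _ ha')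
    fun v hv => by rw [← map_pow]; exact hv _ hb'
  simp only [← Fx_cons, ← map_pow, ← map_mul, fU_Fx] at this
  exact this

/-- If `x` and `y` commute and have coprime orders, `x * y` fixes what both fix. -/
theorem dL_mul [FiniteDimensional (ZMod 2) V] (ρ : Representation (ZMod 2) G V) {x y : G} {m n : ℕ} (h : Commute x y)
    (hx : x ^ m = 1) (hy : y ^ n = 1) (hm : 1 < m) (hn : 1 < n) (hc : m.Coprime n) : dL ρ [x, y] = fx (ρ (x * y)) := by
  have key : ∀ {x y : G} {m n : ℕ}, Commute x y → x ^ m = 1 → y ^ n = 1 → 1 < m → n.Coprime m →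
      x ∈ closure {g | g ∈ [x * y]} := fun {x y m n} h hx hy hm hc => by
    obtain ⟨j, -, hj⟩ := Nat.exists_mul_mod_eq_one_of_coprime hc hm
    have : (x * y) ^ (n * j) = x := by rw [h.mul_pow, pow_mul y, hy, one_pow, mul_one, pow_eq_pow_mod _ hx, hj, pow_one]
    exact this ▸ pow_mem (subset_closure (by simp [this])) _
  rw [← dL_single]
  refine dL_congr ρ (by simpa using mul_mem (subset_closure (by simp)) (subset_closure (by simp))) ?_
  simp only [List.mem_cons, List.not_mem_nil, or_false, forall_eq_or_imp, forall_eq]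
  exact ⟨by simpa using key h hx hy hm hc.symm, by simpa [h.eq] using key h.symm hy hx hn hc⟩

theorem s4 [FiniteDimensional (ZMod 2) V] (ρ : Representation (ZMod 2) G V) {x y z w : G} (h : E4 x y z w) :
    S4 (fun g => fx (ρ g)) x y z w = 27 * finrank (ZMod 2) V + 54 * dL ρ [x, y, z, w] := by
  obtain ⟨a1, a2, a3, a4, b1, b2, b3, b4, b5, b6⟩ := h
  let φ := (cyc 3 x a1).noncommCoprod ((cyc 3 y a2).noncommCoprod ((cyc 3 z a3).noncommCoprod (cyc 3 w a4)
    fun _ _ => b6.pow_pow _ _) fun _ _ => (b4.pow_pow _ _).mul_right (b5.pow_pow _ _))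
    fun _ _ => (b1.pow_pow _ _).mul_right ((b2.pow_pow _ _).mul_right (b3.pow_pow _ _))
  have h1 := g1 (p := 2) Nat.prime_three (by decide) (ρ.comp φ) (by decide)
  have h2 : fixS (ρ.comp φ) ⊤ = Fx ρ [x, y, z, w] := by
    ext v
    refine ⟨fun h => mem_Fx.2 ?_, fun h g _ => h _ (mul_mem (pow_mem (subset_closure (by simp)) _) (mul_mem
      (pow_mem (subset_closure (by simp)) _) (mul_mem (pow_mem (subset_closure (by simp)) _)
        (pow_mem (subset_closure (by simp)) _))))⟩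
    have c1 : ρ (x ^ 1 * (y ^ 0 * (z ^ 0 * w ^ 0))) v = v := h (.ofAdd 1, 1, 1, 1) trivial
    have c2 : ρ (x ^ 0 * (y ^ 1 * (z ^ 0 * w ^ 0))) v = v := h (1, .ofAdd 1, 1, 1) trivial
    have c3 : ρ (x ^ 0 * (y ^ 0 * (z ^ 1 * w ^ 0))) v = v := h (1, 1, .ofAdd 1, 1) trivial
    have c4 : ρ (x ^ 0 * (y ^ 0 * (z ^ 0 * w ^ 1))) v = v := h (1, 1, 1, .ofAdd 1) trivial
    simp only [pow_zero, pow_one, mul_one, one_mul] at c1 c2 c3 c4
    simp [c1, c2, c3, c4]
  have h3 : ∑ a, fx ((ρ.comp φ) a) = S4 (fun g => fx (ρ g)) x y z w := by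
    simp only [Fintype.sum_prod_type, S4, mul_assoc]
    rfl
  rw [h2, h3] at h1
  simp only [Fintype.card_prod, Fintype.card_multiplicative, ZMod.card] at h1
  unfold dL
  omega

theorem s3 [FiniteDimensional (ZMod 2) V] (ρ : Representation (ZMod 2) G V) {x y z : G} (h : E4 x y z 1) :
    S3 (fun g => fx (ρ g)) x y z = 9 * finrank (ZMod 2) V + 18 * dL ρ [x, y, z] := by
  have h1 := s4 ρ h
  rw [dL_congr ρ (l := [x, y, z, 1]) (l' := [x, y, z]) (fun g hg => subset_closure (by simp at hg ⊢; tauto))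
    fun g hg => by
      rcases (by simpa [or_assoc] using hg : g ∈ [x, y, z] ∨ g = 1) with e | rfl
      exacts [subset_closure e, one_mem _]] at h1
  simp only [S4, one_pow, mul_one, sum_const, card_univ, Fintype.card_fin, smul_eq_mul, ← mul_sum] at h1
  simp only [S3]
  omega

theorem s2 [FiniteDimensional (ZMod 2) V] (ρ : Representation (ZMod 2) G V) {x y : G} (h : E4 x y 1 1) :
    S2 (fun g => fx (ρ g)) x y = 3 * finrank (ZMod 2) V + 6 * dL ρ [x, y] := by
  have h1 := s3 ρ h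
  rw [dL_congr ρ (l := [x, y, 1]) (l' := [x, y]) (fun g hg => subset_closure (by simp at hg ⊢; tauto))
    fun g hg => by
      rcases (by simpa [or_assoc] using hg : g ∈ [x, y] ∨ g = 1) with e | rfl
      exacts [subset_closure e, one_mem _]] at h1
  simp only [S3, one_pow, mul_one, sum_const, card_univ, Fintype.card_fin, smul_eq_mul, ← mul_sum] at h1
  simp only [S2]
  omega

theorem scott_lin [FiniteDimensional (ZMod 2) V] (X Y : End (ZMod 2) V) (hd : ∀ v, X v = v → X (Y v) = v → v = 0)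
    (hS : LinearMap.range (X - 1) ⊔ LinearMap.range (Y - 1) = ⊤) :
    fx X + fx Y + fx (X * Y) ≤ finrank (ZMod 2) V := by
  set R := LinearMap.range (X - 1)
  set W := (LinearMap.range (Y - 1)).map X
  have h1 := Submodule.finrank_sup_add_finrank_inf_eq R W
  have h3 : finrank (ZMod 2) (LinearMap.ker (X * Y - 1)) ≤ finrank (ZMod 2) (R ⊓ W : Submodule (ZMod 2) V) :=
    LinearMap.finrank_le_finrank_of_injective (f := (X - 1).restrict (p := LinearMap.ker (X * Y - 1)) (q := R ⊓ W)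
      fun v hv => ⟨⟨v, rfl⟩, _, ⟨-v, rfl⟩, by
        change X (Y (-v) - -v) = X v - v
        rw [map_neg, map_sub, map_neg, map_neg, show X (Y v) = v from mem_ker.1 hv]
        abel⟩) ((injective_iff_map_eq_zero _).2 fun v h => Subtype.ext
          (hd v (sub_eq_zero.1 (congrArg Subtype.val h)) (mem_ker.1 v.2)))
  have h5 : finrank (ZMod 2) W ≤ finrank (ZMod 2) (LinearMap.range (Y - 1)) := Submodule.finrank_map_le _ _
  have h6 := LinearMap.finrank_range_add_finrank_ker (X - 1)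
  have h7 := LinearMap.finrank_range_add_finrank_ker (Y - 1)
  have h9 : R ⊔ W = ⊤ := top_le_iff.1 (hS ▸ sup_le le_sup_left (by
    rintro _ ⟨v, rfl⟩
    refine Submodule.mem_sup.2 ⟨_, ⟨-(Y - 1) v, rfl⟩, _, ⟨_, ⟨v, rfl⟩, rfl⟩, ?_⟩
    simp; abel))
  rw [h9, finrank_top] at h1
  unfold fx
  change finrank _ R + _ = _ at h6
  omega

theorem sub_mem_of_closure (ρ : Representation (ZMod 2) G V) {x y g : G} (hg : g ∈ closure {x, y}) (v : V) :
    ρ g v - v ∈ LinearMap.range (ρ x - 1) ⊔ LinearMap.range (ρ y - 1) := by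
  induction hg using closure_induction generalizing v with
  | mem k hk =>
    rcases hk with rfl | rfl
    exacts [Submodule.mem_sup_left ⟨v, rfl⟩, Submodule.mem_sup_right ⟨v, rfl⟩]
  | one => simp
  | mul g k _ _ hg hk => simpa [rep_mul] using add_mem (hg (ρ k v)) (hk v)
  | inv g _ hg => simpa [← rep_mul] using neg_mem (hg (ρ g⁻¹ v))

theorem fix_of_closure (ρ : Representation (ZMod 2) G V) {x y g : G} (hg : g ∈ closure {x, y}) {v : V}
    (h1 : ρ x v = v) (h2 : ρ x (ρ y v) = v) : ρ g v = v := by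
  refine (mem_fixS_closure (σ := ρ)).2 ?_ g hg
  have h3 := congrArg (ρ x⁻¹) (h2.trans h1.symm)
  rw [← rep_mul ρ x⁻¹, ← rep_mul ρ x⁻¹, inv_mul_cancel, map_one, End.one_apply, End.one_apply] at h3
  rintro _ (rfl | rfl)
  exacts [h1, h3]

/-- Scott's inequality if `⟨x, y⟩` has an element without fixed vectors. -/
theorem scott_fpf [FiniteDimensional (ZMod 2) V] (ρ : Representation (ZMod 2) G V) {x y a : G}
    (ha : a ∈ closure {x, y}) (h0 : ∀ v, ρ a v = v → v = 0) :
    fx (ρ x) + fx (ρ y) + fx (ρ (x * y)) ≤ finrank (ZMod 2) V := by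
  rw [map_mul]
  refine scott_lin _ _ (fun v h1 h2 => h0 v (fix_of_closure ρ ha h1 h2)) (eq_top_iff.2 fun v _ => ?_)
  obtain ⟨w, rfl⟩ := LinearMap.surjective_of_injective (f := ρ a - 1)
    ((injective_iff_map_eq_zero _).2 fun v h => h0 v (sub_eq_zero.1 h)) v
  exact sub_mem_of_closure ρ ha w

variable {W : Type*} [AddCommGroup W] [Module (ZMod 2) W] {σ : Representation (ZMod 2) G V}
  {τ : Representation (ZMod 2) G W}

/-- Scott's inequality for the self-dual module. -/
theorem Basic.scott (h : Basic σ τ) {x y : G} (hg : closure {x, y} = ⊤)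
    (h1 : 56 < fx (σ x) + fx (σ y) + fx (σ (x * y))) : HasFix σ := by
  have := h.finV
  obtain ⟨B, b1, b2, b3⟩ := h.form
  by_contra h0
  have h2 : ∀ v, (∀ g, σ g v = v) → v = 0 := fun v hv => by_contra fun e => h0 ⟨v, e, hv⟩
  rw [map_mul, ← h.dimV] at h1
  refine absurd (scott_lin _ _ (fun v a b => h2 v fun g => fix_of_closure σ (hg ▸ mem_top g) a b) ?_) h1.not_ge
  have hB : B.Nondegenerate := ⟨fun v hv => b2 v hv, fun v hv => b2 v fun w => (b1 _ _).trans (hv w)⟩
  rw [← LinearMap.BilinForm.orthogonal_orthogonal hB (fun a b e => (b1 _ _).trans e) (_ ⊔ _),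
    ← LinearMap.BilinForm.orthogonal_bot (B := B)]
  refine congrArg _ (eq_bot_iff.2 fun v hv => h2 v fun g => sub_eq_zero.1 (b2 _ fun w => ?_))
  have h3 : B (σ g⁻¹ w - w) v = 0 := hv _ (sub_mem_of_closure σ (hg ▸ mem_top g⁻¹) w)
  rw [map_sub, LinearMap.sub_apply, ← b3 g, ← rep_mul, mul_inv_cancel, map_one, End.one_apply] at h3
  rw [map_sub, LinearMap.sub_apply, b1, b1 v, h3]

end CL.E7m
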