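/-
Subgroups of `E₇(2)`: what the configurations imply.
-/
import Cfsg.Agent.Inv.E7m2

set_option autoImplicit false

namespace CL.E7m

open Module CL.E8s Finset Subgroup

variable {G V W : Type*} [Group G] [AddCommGroup V] [Module (ZMod 2) V] [AddCommGroup W] [Module (ZMod 2) W]
  {σ : Representation (ZMod 2) G V} {τ : Representation (ZMod 2) G W}

theorem Good.hf (h : Good σ τ) {x : G} (e : x ^ 2 = 1) : 28 ≤ fx (σ x) := by
  have := h.finV
  have h1 := half' (x := σ x) (by rw [← map_pow, e, map_one])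
  rw [h.dimV] at h1
  omega

theorem Good.t255 (h : Good σ τ) (c : T255 G) : HasFix σ := by
  obtain ⟨x, y, a, b, c, d, e, f⟩ := c
  refine h.scott f ?_
  have := h.hf a
  rw [h.five y b d, h.five _ c e]
  omega

theorem Good.t245 (h : Good σ τ) (c : T245 G) : HasFix σ := by
  obtain ⟨x, y, a, b, c, d, f⟩ := c
  have := h.finV
  have h1 := quarter (x := σ y) (by rw [← map_pow, b, map_one])
  refine h.scott f ?_
  have := h.hf a
  rw [h.dimV] at h1
  rw [h.five _ c d]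
  omega

theorem pow_ne {x : G} {n i : ℕ} (h : x ^ n = 1) (hi : i.Coprime n) (h1 : x ≠ 1) : x ^ i ≠ 1 := fun e =>
  h1 (by rw [← pow_one x, ← hi.gcd_eq_one]; exact pow_gcd_eq_one.2 ⟨e, h⟩)

theorem Good.t15 (h : Good σ τ) {y u : G} (hy : y ^ 3 = 1) (hy1 : y ≠ 1) (hu : u ^ 5 = 1) (hu1 : u ≠ 1)
    (c : Commute y u) : (dL σ [y, u], fx (σ y), fx (τ y)) ∈ tab15 := by
  have := h.finV
  have e5 : (y * u) ^ 5 = y ^ 5 := by rw [c.mul_pow, hu, mul_one]
  have h1 := h.fifteen (y * u) (by rw [show 15 = 5 * 3 from rfl, pow_mul, e5, pow_right_comm, hy, one_pow])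
    (by rw [c.mul_pow, hy, one_mul]; exact pow_ne hu (by decide) hu1) (e5 ▸ pow_ne hy (by decide) hy1)
  rwa [e5, fx_rep_pow σ hy (by decide), fx_rep_pow τ hy (by decide),
    ← dL_mul σ c hy hu (by decide) (by decide) (by decide)] at h1

theorem Good.fiveA5 (h : Good σ τ) {s t z : G} (c : FiveA5 s t z) :
    fx (σ z) = 32 ∧ fx (τ z) = 67 ∨ dL σ [z, s] = 12 ∧ fx (σ z) = 20 ∧ fx (τ z) = 49 := by
  obtain ⟨a1, a2, a3, a4, a5', a6, a7, a8, a9⟩ := c
  have := h.finV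
  have h1 := ppL σ Nat.prime_five (by decide) (l := []) a5' (by simp) (by simp) (a1 ▸ one_mem _) (a2 ▸ one_mem _)
  rw [sum_congr rfl (g := fun _ => 16) fun i hi => (dL_single _ _).trans (h.five _ (by
    rw [(a5'.pow_right _).mul_pow, a1, pow_right_comm, a2]; simp) (a9 i (mem_range.1 hi))), dL_nil, dL_single,
    h.five t a2 a8, h.dimV] at h1
  have h2 := a5 (U := Fx σ [s]) (t := σ t) (z := σ z) (Fx_inv (by simpa using a6)) (by rw [← map_pow, a2, map_one])
    (by rw [← map_pow, a3, map_one]) (by rw [← map_mul, ← map_pow, a4, map_one])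
  have h3 := h.t15 a3 a7 a1 (by simpa using a9 0) a6.symm
  rw [fU_Fx, fU_Fx] at h2
  simp only [tab15, List.mem_cons, Prod.mk.injEq, List.not_mem_nil, or_false, sum_const, card_range, smul_eq_mul] at h1 h3
  omega

theorem cube {a b z : G} (ha : a ^ 3 = 1) (hb : b ^ 3 = 1) (hz : z ^ 3 = 1) (h1 : Commute z a) (h2 : Commute z b)
    (e : a * b = b * a * z) : (a * b) ^ 3 = 1 := by
  have e1 : ∀ x, a * (b * x) = b * (a * (z * x)) := fun x => by rw [← mul_assoc, e, mul_assoc, mul_assoc]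
  have e2 : ∀ x, z * (a * x) = a * (z * x) := h1.left_comm
  have e3 : ∀ x, z * (b * x) = b * (z * x) := h2.left_comm
  have e4 : (a * b) ^ 3 = b ^ 3 * (a ^ 3 * (z ^ 3 * z ^ 3)) := by
    rw [← mul_one ((a * b) ^ 3)]
    simp only [pow_succ, pow_zero, one_mul, mul_assoc, e1, e2, e3]
    rw [mul_one]
  rw [e4, ha, hb, hz]; simp

theorem Good.cj2_aux (h : Good σ τ) {z g k : G} (hz : z ^ 3 = 1) (h1 : z ≠ 1) (hg : g ^ 3 = 1) (c : Commute z g)
    (c' : Commute z k) (e : k * g * k⁻¹ = g * z) : ∃ m, 133 + 3 * dL τ [g, z] = fx (τ z) + 3 * (3 * m + 1) := by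
  have := h.finW
  have h2 := ppL τ Nat.prime_three (by decide) (l := []) c.symm (by simp) (by simp) (hg ▸ one_mem _) (hz ▸ one_mem _)
  have h3 : ∀ i, fx (τ (g * z ^ i)) = fx (τ g) := fun i => by
    induction i with
    | zero => simp
    | succ i ih =>
      rw [← ih, ← fx_conj τ (g * z ^ i) k, pow_succ', ← mul_assoc g, ← e, mul_assoc _ k⁻¹,
        ← (c'.inv_right.pow_left i).eq]
      simp only [mul_assoc]
  have h4 := h.three g hg (by rintro rfl; exact h1 (by simpa using e.symm))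
  rw [dL_congr τ (l := [z, g]) (l' := [g, z]) (fun x hx => subset_closure (by simp at hx ⊢; tauto))
    fun x hx => subset_closure (by simp at hx ⊢; tauto)] at h2
  simp only [dL_single, h3, dL_nil, h.dimW, tab3, List.mem_cons, Prod.mk.injEq, List.not_mem_nil, or_false, sum_const,
    card_range, smul_eq_mul] at h2 h4
  exact ⟨fx (τ g) / 3, by omega⟩

theorem Good.cj2 (h : Good σ τ) (c : CJ2 G) : False := by
  obtain ⟨s, t, z, u, v, c, hu, hv, c1, c2, e⟩ := c
  have := h.finW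
  have h1 := h.fiveA5 c
  obtain ⟨-, -, hz, -, -, -, h0, -⟩ := c
  have i1 := Fx_inv (ρ := τ) (l := [z]) (a := u) (by simpa using c1)
  have i2 := Fx_inv (ρ := τ) (l := [z]) (a := v) (by simpa using c2)
  have h2 := pp0 (p := 2) Nat.prime_three (by decide) (a := (τ u).restrict i1) (b := (τ v).restrict i2)
    (LinearMap.ext fun x => Subtype.ext (by
      change τ u (τ v x) = τ v (τ u x)
      rw [← rep_mul, e, rep_mul, mem_Fx.1 x.2 z (by simp), rep_mul]))
    (restrict_pow_eq_one i1 fun x _ => by rw [← map_pow, hu, map_one, End.one_apply])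
    (restrict_pow_eq_one i2 fun x _ => by rw [← map_pow, hv, map_one, End.one_apply])
  have h3 : ∀ i, fx (((τ u).restrict i1 : End _ _) * ((τ v).restrict i2 : End _ _) ^ i) = dL τ [u * v ^ i, z] :=
    fun i => by
      rw [← fU_Fx, End.pow_restrict, map_mul, map_pow, ← fx_restrict (x := τ u * τ v ^ i)
        fun x hx => i1 _ (End.pow_apply_mem_of_forall_mem i i2 x hx)]
      rfl
  have e1 : u * v = v * z * u := by rw [e, mul_assoc, mul_assoc, c1.eq]
  have e2 : u * v ^ 2 = v ^ 2 * u * z ^ 2 := by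
    rw [sq, ← mul_assoc, e, mul_assoc _ z, c2.eq, ← mul_assoc, mul_assoc v u, e]; simp only [sq, mul_assoc]
  have h4 : ∀ i, (u * v ^ i) ^ 3 = 1 → ∃ m, 133 + 3 * dL τ [u * v ^ i, z] = fx (τ z) + 3 * (3 * m + 1) :=
    fun i hi => h.cj2_aux (k := v⁻¹) hz h0 hi (c1.mul_right (c2.pow_right i)) c2.inv_right (by
      rw [inv_inv, mul_assoc, mul_assoc, ← pow_succ, pow_succ', ← mul_assoc u, e, mul_assoc, mul_assoc,
        inv_mul_cancel_left, mul_assoc, (c2.pow_right i).eq])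
  obtain ⟨m0, k0⟩ := h4 0 (by simpa using hu)
  obtain ⟨m1, k1⟩ := h4 1 (by simpa using cube hu hv hz c1 c2 e)
  obtain ⟨m2, k2⟩ := h4 2 (cube hu (by rw [pow_right_comm, hv, one_pow]) (by rw [pow_right_comm, hz, one_pow])
    (c1.pow_left 2) (c2.pow_pow 2 2) e2)
  obtain ⟨m3, k3⟩ := h.cj2_aux (k := u) hz h0 hv c2 c1 (by rw [e1, mul_inv_cancel_right])
  simp only [h3, sum_range_succ, sum_range_zero] at h2
  rw [fx_restrict, fU_Fx, ← dL, dL_single] at h2
  omega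

theorem fU_add [FiniteDimensional (ZMod 2) V] {U R : Submodule (ZMod 2) V} (h : U ⊓ R = ⊥) (x : End (ZMod 2) V) :
    fU U x + fU R x ≤ fx x := by
  have h1 := Submodule.finrank_sup_add_finrank_inf_eq (U ⊓ LinearMap.ker (x - 1)) (R ⊓ LinearMap.ker (x - 1))
  have h2 : finrank (ZMod 2) (U ⊓ LinearMap.ker (x - 1) ⊔ R ⊓ LinearMap.ker (x - 1) : Submodule _ V) ≤ fx x :=
    Submodule.finrank_mono (sup_le inf_le_right inf_le_right)
  rw [inf_inf_inf_comm, h, bot_inf_eq, finrank_bot] at h1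
  unfold fU
  omega

theorem Good.cu34 (h : Good σ τ) (c : CU34 G) : HasFix σ := by
  obtain ⟨x, z, a, s, t, a1, a2, a3, a4', c, a5, a6, a7⟩ := c
  have := h.finV
  refine h.scott a4' ?_
  have h0 := h.hf a1
  rw [h.thirteen _ a2 a3]
  obtain h1 | ⟨h1, h2, -⟩ := h.fiveA5 c
  · omega
  have ha : a ^ 2 = 1 := by have := a5.pow 2; rwa [a1, isConj_one_left] at this
  have hs : σ s ^ 5 = 1 := by rw [← map_pow, c.1, map_one]
  have h3 := a4 (ρ := σ) (U := Fx σ [s]) (Fx_inv (by simpa using a6)) ha a7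
  have h4 := half (U := LinearMap.range (σ s - 1)) (x := σ a) (by
    rintro _ ⟨v, rfl⟩
    exact ⟨σ a v, by
      rw [LinearMap.sub_apply, LinearMap.sub_apply, map_sub, ← rep_mul, a6.eq, rep_mul]; rfl⟩) fun v _ => by rw [← rep_mul, ← sq, ha, map_one, End.one_apply]
  have h5 := LinearMap.finrank_range_add_finrank_ker (σ s - 1)
  have h6 : finrank (ZMod 2) (LinearMap.ker (σ s - 1)) = 16 :=
    h.five s c.1 (by simpa using c.2.2.2.2.2.2.2.2 0)
  have h7 := fU_add (U := Fx σ [s]) (R := LinearMap.range (σ s - 1)) (eq_bot_iff.2 (by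
    rintro _ ⟨h1, v, rfl⟩
    have h2 := mem_Fx.1 h1 s (by simp)
    have h3 : (1 + σ s + σ s ^ 2 + σ s ^ 3 + σ s ^ 4) * (σ s - 1) = 0 := by
      rw [← sub_eq_zero.2 hs]; noncomm_ring
    have h4 := LinearMap.congr_fun h3 v
    rw [End.mul_apply] at h4
    simp only [LinearMap.add_apply, pow_fix h2, h2, End.one_apply, add_self, zero_add] at h4
    exact h4)) (σ a)
  rw [fU_Fx, h1] at h3
  rw [h.dimV] at h5
  rw [fx_isConj σ a5]
  omega

theorem Good.cu43 (h : Good σ τ) (c : CU43 G) : False := by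
  obtain ⟨x, y, z, w, a, b, c, e, ha, hb, hc, k⟩ := c
  have := h.finV
  have := h.finW
  have h1 := (k _ (cls_fx σ)).symm.trans (s4 σ e)
  have h2 := (k _ (cls_fx τ)).symm.trans (s4 τ e)
  simp only [map_one, fx_one, h.dimV, h.dimW] at h1 h2
  have h3 := (by decide : ∀ p ∈ tab3, ∀ q ∈ tab3, ∀ r ∈ tab3, 20 * p.1 + 30 * q.1 + 30 * r.1 < 1456 ∨
    (20 * p.1 + 30 * q.1 + 30 * r.1) % 54 ≠ 52 ∨ 20 * p.2 + 30 * q.2 + 30 * r.2 < 3458 ∨
    (20 * p.2 + 30 * q.2 + 30 * r.2) % 54 ≠ 2) _ (h.three a ha.1 ha.2) _ (h.three b hb.1 hb.2) _ (h.three c hc.1 hc.2)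
  simp only at h3
  omega

theorem Good.three' (h : Good σ τ) {a : G} (ha : O3 a) :
    fx (σ a) = 32 ∨ fx (σ a) = 2 ∨ fx (σ a) = 14 ∨ fx (σ a) = 20 := by
  have := h.three a ha.1 ha.2
  simp only [tab3, List.mem_cons, Prod.mk.injEq, List.not_mem_nil, or_false] at this
  omega

theorem cg23_num {a b c d e p q r s t : ℕ} (ha : a = 32 ∨ a = 2 ∨ a = 14 ∨ a = 20)
    (hb : b = 32 ∨ b = 2 ∨ b = 14 ∨ b = 20) (hc : c = 32 ∨ c = 2 ∨ c = 14 ∨ c = 20)
    (hd : d = 32 ∨ d = 2 ∨ d = 14 ∨ d = 20) (he : e = 32 ∨ e = 2 ∨ e = 14 ∨ e = 20)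
    (k1 : 3 * 56 + 6 * p = 56 + 8 * a) (k2 : 3 * 56 + 6 * q = 56 + 8 * b)
    (k3 : 9 * 56 + 18 * r = 56 + 2 * a + 8 * b + 16 * c) (k4 : 9 * 56 + 18 * s = 56 + 8 * a + 2 * b + 16 * c)
    (k5 : 27 * 56 + 54 * t = 56 + 8 * a + 8 * b + 28 * c + 18 * d + 18 * e) (h1 : s ≤ p) (h2 : r ≤ q) : False := by
  have : (d + e) % 3 = 1 := by omega
  clear hd he
  rcases ha with rfl | rfl | rfl | rfl <;> rcases hb with rfl | rfl | rfl | rfl <;>
    rcases hc with rfl | rfl | rfl | rfl <;> omega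

theorem Good.cg23 (h : Good σ τ) (c : CG23 G) : False := by
  obtain ⟨x, y, z, w, a, b, c, d, e, E, ha, hb, hc, hd, he, k⟩ := c
  have := h.finV
  obtain ⟨k1, k2, k3, k4, k5⟩ := k _ (cls_fx σ)
  rw [s4 σ E] at k5
  obtain ⟨a1, a2, a3, a4, b1, b2, b3, b4, b5, b6⟩ := E
  rw [s2 σ (by simp [E4, *])] at k1 k2
  rw [s3 σ (by simp [E4, *])] at k3 k4
  have h1 := dL_le σ (l := [y, z, w]) (l' := [z, w]) fun g hg => subset_closure (by simp at hg ⊢; tauto)
  have h2 := dL_le σ (l := [x, y, w]) (l' := [x, y]) fun g hg => subset_closure (by simp at hg ⊢; tauto)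
  simp only [map_one, fx_one, h.dimV] at k1 k2 k3 k4 k5
  exact cg23_num (h.three' ha) (h.three' hb) (h.three' hc) (h.three' hd) (h.three' he) k1 k2 k3 k4 k5 h1 h2

end CL.E7m
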