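/-
Subgroups of `E₇(2)`: the configurations of a torus with an element of order `3` of the Weyl group.
-/
import Cfsg.Agent.Inv.E7m3

set_option autoImplicit false

namespace CL.E7m

open Module CL.E8s Finset Subgroup

variable {G V W : Type*} [Group G] [AddCommGroup V] [Module (ZMod 2) V] [AddCommGroup W] [Module (ZMod 2) W]
  {σ : Representation (ZMod 2) G V} {τ : Representation (ZMod 2) G W}

/-- The products of powers of the elements of a list. -/
def sp : List G → List G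
  | [] => [1]
  | a :: l => (List.range 9).flatMap fun i => (sp l).map (a ^ i * ·)

theorem mem_of_sp {l : List G} {g : G} (h : g ∈ sp l) : g ∈ closure {g | g ∈ l} := by
  induction l generalizing g with
  | nil => rw [List.mem_singleton.1 h]; exact one_mem _
  | cons a l ih =>
    obtain ⟨i, -, hi⟩ := List.mem_flatMap.1 h
    obtain ⟨x, hx, rfl⟩ := List.mem_map.1 hi
    exact mul_mem (pow_mem (subset_closure (by simp)) _) (closure_mono (fun y hy => List.mem_cons_of_mem _ hy) (ih hx))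

/-- Two lists generate the same subgroup. -/
def eqv [DecidableEq G] (l l' : List G) : Bool := (l'.all fun g => decide (g ∈ sp l)) && l.all fun g => decide (g ∈ sp l')

theorem dL_sp [DecidableEq G] [FiniteDimensional (ZMod 2) V] (ρ : Representation (ZMod 2) G V) (l l' : List G)
    (h : eqv l l' = true) : dL ρ l = dL ρ l' := by
  simp only [eqv, Bool.and_eq_true, List.all_eq_true, decide_eq_true_eq] at h
  exact dL_congr ρ (fun g hg => mem_of_sp (h.1 g hg)) fun g hg => mem_of_sp (h.2 g hg)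

theorem dL_comp {A : Type*} [Group A] (φ : A →* G) (l : List A) :
    dL (σ.comp φ : Representation (ZMod 2) A V) l = dL σ (l.map φ) := by
  rw [dL, dL, show Fx (σ.comp φ : Representation (ZMod 2) A V) l = Fx σ (l.map φ) from
    Submodule.ext fun v => by simp [mem_Fx]]

/-- The torus times a group of order `3`. -/
abbrev TA (n : ℕ) : Type := Multiplicative (ZMod n) × Multiplicative (ZMod n) × Multiplicative (ZMod 3)

/-- The elements of `TA n`. -/
def el {n : ℕ} (i j : ZMod n) (k : ZMod 3) : TA n := (.ofAdd i, .ofAdd j, .ofAdd k)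

/-- The action of the Weyl group element. -/
def th {n : ℕ} (a : TA n) : TA n := (a.2.1⁻¹, a.1 * a.2.1⁻¹, a.2.2)

theorem tor [FiniteDimensional (ZMod 2) V] (σ : Representation (ZMod 2) G V) (n : ℕ) [NeZero n] {u v w y : G}
    (hu : u ^ n = 1) (hy : y ^ 3 = 1) (c1 : Commute u v) (c2 : Commute y u) (c3 : Commute y w)
    (e1 : w * u * w⁻¹ = v) (e2 : w * v * w⁻¹ = (u * v)⁻¹) : ∃ φ : TA n →* G,
      (∀ i j k, φ (el i j k) = u ^ i.val * (v ^ j.val * y ^ k.val)) ∧ ∀ l l' : List (TA n),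
        eqv (l.map th) l' = true →
          dL (σ.comp φ : Representation (ZMod 2) _ V) l' = dL (σ.comp φ : Representation (ZMod 2) _ V) l := by
  have hv : v ^ n = 1 := by rw [← e1, conj_pow, hu]; simp
  have c4 : Commute v y := e1 ▸ ((c3.mul_right c2).mul_right c3.inv_right).symm
  let φ := (cyc n u hu).noncommCoprod ((cyc n v hv).noncommCoprod (cyc 3 y hy) fun _ _ => c4.pow_pow _ _)
    fun _ _ => (c1.pow_pow _ _).mul_right (c2.symm.pow_pow _ _)
  refine ⟨φ, fun _ _ _ => rfl, fun l l' h => ?_⟩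
  rw [← dL_sp _ _ _ h, dL_comp, dL_comp, ← dL_conj σ (l.map φ) w, List.map_map, List.map_map]
  refine congrArg _ (List.map_congr_left fun a _ => ?_)
  change cyc n u hu a.2.1⁻¹ * (cyc n v hv (a.1 * a.2.1⁻¹) * y ^ a.2.2.toAdd.val) = w * (u ^ _ * (v ^ _ * y ^ _)) * w⁻¹
  rw [← conj_mul, ← conj_mul, ← conj_pow, ← conj_pow, ← conj_pow, e1, e2, ← c3.eq, mul_inv_cancel_right, inv_pow,
    c1.mul_pow, map_mul, map_inv, map_inv, cyc_apply, cyc_apply, cyc_apply, mul_inv_rev, ← mul_assoc, ← mul_assoc,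
    ← mul_assoc, ← mul_assoc, mul_left_inj, mul_assoc]
  exact ((c1.pow_pow _ _).mul_right (c1.pow_pow _ _).inv_right).inv_left.eq

theorem Good.cl316 (h : Good σ τ) (c : CL316 G) : False := by
  obtain ⟨y, w, u, v, t, a1, a2, a3, a4, a5', a6, a7, a8, e1, e2, b1, b2, b3⟩ := c
  have := h.finV
  have h1 := a5 (U := ⊤) (t := σ t) (z := σ y) (fun _ _ => trivial) (by rw [← map_pow, b1, map_one])
    (by rw [← map_pow, a1, map_one]) (by rw [← map_mul, ← map_pow, b3, map_one])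
  rw [fU_top, fU_top, h.five t b1 b2] at h1
  have hv : v ^ 5 = 1 := by rw [← e1, conj_pow, a3]; simp
  have c4 : Commute y v := e1 ▸ (a8.mul_right a7).mul_right a8.inv_right
  have h2 := h.t15 a1 a2 a3 a4 a7
  have h3 := h.t15 a1 a2 (by rw [(a6.pow_right 2).mul_pow, a3, pow_right_comm, hv]; simp) a5'
    (a7.mul_right (c4.pow_right 2))
  obtain ⟨φ, f, T⟩ := tor σ 5 a3 a1 a6 a7 a8 e1 e2
  have h4 := ppL (σ.comp φ) Nat.prime_five (by decide) (l := [el 0 0 1]) (a := el 1 0 0) (b := el 0 1 0)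
    (.all _ _) (fun _ _ => .all _ _) (fun _ _ => .all _ _) (mem_of_sp (by decide +kernel))
    (mem_of_sp (by decide +kernel))
  have g1 : φ (el 0 0 1) = y := (f _ _ _).trans (show u ^ 0 * (v ^ 0 * y ^ 1) = _ by simp)
  have g2 : φ (el 1 0 0) = u := (f _ _ _).trans (show u ^ 1 * (v ^ 0 * y ^ 0) = _ by simp)
  have g3 : φ (el 1 2 0) = u * v ^ 2 := (f _ _ _).trans (show u ^ 1 * (v ^ 2 * y ^ 0) = _ by simp)
  simp only [sum_range_succ, sum_range_zero] at h4
  rw [T [el 0 1 0, el 0 0 1] [el 1 0 0 * el 0 1 0 ^ 1, _] (by decide +kernel),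
    T [el 0 0 1, el 1 0 0] [el 0 1 0, _] (by decide +kernel),
    T [el 1 0 0 * el 0 1 0 ^ 3, el 0 0 1] [el 1 0 0 * el 0 1 0 ^ 4, _] (by decide +kernel),
    T [el 0 0 1, el 1 2 0] [el 1 0 0 * el 0 1 0 ^ 3, _] (by decide +kernel),
    dL_sp _ [el 1 0 0 * el 0 1 0 ^ 0, _] [el 0 0 1, el 1 0 0] (by decide +kernel),
    dL_sp _ [el 1 0 0 * el 0 1 0 ^ 2, _] [el 0 0 1, el 1 2 0] (by decide +kernel), dL_single] at h4
  simp only [dL_comp, List.map_cons, List.map_nil, g1, g2, g3, MonoidHom.comp_apply] at h4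
  simp only [tab15, List.mem_cons, Prod.mk.injEq, List.not_mem_nil, or_false] at h2 h3
  omega

theorem Good.cg28 (h : Good σ τ) (c : CG28 G) : False := by
  obtain ⟨u, v, w, a1, a2, e1, e2, a3⟩ := c
  have := h.finV
  have hv : v ^ 9 = 1 := by rw [← e1, conj_pow, a1]; simp
  have a4 : u ^ 3 ≠ 1 := fun e => a3 (by rw [← e1, conj_pow, show 6 = 3 * 2 from rfl, pow_mul, e]; simp)
  have a5 : (u * v ^ 2) ^ 3 = u ^ 3 * v ^ 6 := by rw [(a2.pow_right 2).mul_pow, ← pow_mul]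
  have h1 := h.nine u a1 a4
  have h2 := h.nine (u * v ^ 2) (by rw [(a2.pow_right 2).mul_pow, a1, pow_right_comm, hv]; simp) (a5 ▸ a3)
  obtain ⟨φ, f, T⟩ := tor σ 9 (y := 1) a1 (one_pow _) a2 (.one_left _) (.one_left _) e1 e2
  have g1 : φ (el 3 0 0) = u ^ 3 := (f _ _ _).trans (show u ^ 3 * (v ^ 0 * 1 ^ 0) = _ by simp)
  have g2 : φ (el 1 2 0) = u * v ^ 2 := (f _ _ _).trans (show u ^ 1 * (v ^ 2 * 1 ^ 0) = _ by simp)
  have g3 : φ (el 3 6 0) = (u * v ^ 2) ^ 3 := (f _ _ _).trans (show u ^ 3 * (v ^ 6 * 1 ^ 0) = _ by simp [a5])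
  rw [← g1] at h1
  rw [← g3, ← g2] at h2
  set ρ : Representation (ZMod 2) (TA 9) V := σ.comp φ
  change (_, fx (ρ _)) ∈ _ at h1
  change (fx (ρ _), fx (ρ _)) ∈ _ at h2
  have P := fun l a b p q => ppL ρ Nat.prime_three (by decide) (l := l) (a := a) (b := b)
    (.all _ _) (fun _ _ => .all _ _) (fun _ _ => .all _ _) (mem_of_sp p) (mem_of_sp q)
  have p1 := P [] (el 3 0 0) (el 0 3 0) (by decide +kernel) (by decide +kernel)
  have p2 := P [el 3 6 0] (el 1 2 0) (el 3 0 0) (by decide +kernel) (by decide +kernel)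
  have p3 := P [el 0 3 0, el 3 0 0] (el 1 0 0) (el 0 1 0) (by decide +kernel) (by decide +kernel)
  have p4 := mod9 (U := Fx ρ [el 1 2 0]) (x := ρ (el 1 0 0)) (Fx_inv fun _ _ => .all _ _) fun v _ => by
    rw [← map_pow, show el (1 : ZMod 9) 0 0 ^ 9 = 1 by decide +kernel, map_one, End.one_apply]
  have p5 := dL_le ρ (l := [el 1 0 0 * el 0 1 0 ^ 2, el 0 3 0, el 3 0 0]) (l' := [el 1 2 0])
    fun g hg => mem_of_sp ((by decide +kernel : ∀ g ∈ [el 1 2 0], _) g hg)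
  simp only [sum_range_succ, sum_range_zero] at p1 p2 p3
  rw [T [el 0 3 0] [el 3 0 0 * el 0 3 0 ^ 1] (by decide +kernel), T [el 3 0 0] [el 0 3 0] (by decide +kernel),
    dL_sp ρ [el 3 0 0 * el 0 3 0 ^ 0] [el 3 0 0] (by decide +kernel),
    dL_sp ρ [el 3 0 0 * el 0 3 0 ^ 2] [el 3 6 0] (by decide +kernel), dL_nil, h.dimV] at p1
  rw [T [el 1 2 0 * el 3 0 0 ^ 1, el 3 6 0] [el 1 2 0 * el 3 0 0 ^ 2, _] (by decide +kernel),
    T [el 1 2 0] [el 1 2 0 * el 3 0 0 ^ 1, _] (by decide +kernel),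
    dL_sp ρ [el 1 2 0 * el 3 0 0 ^ 0, _] [el 1 2 0] (by decide +kernel),
    dL_sp ρ [el 3 0 0, el 3 6 0] [el 0 3 0, el 3 0 0] (by decide +kernel),
    dL_sp ρ [el 3 0 0, el 1 2 0, _] [el 3 0 0, el 1 2 0] (by decide +kernel)] at p2
  rw [T [el 0 1 0, el 0 3 0, el 3 0 0] [el 1 0 0 * el 0 1 0 ^ 1, _, _] (by decide +kernel),
    T [el 1 0 0 * el 0 1 0 ^ 0, el 0 3 0, el 3 0 0] [el 0 1 0, _, _] (by decide +kernel)] at p3
  rw [← map_pow, show el (1 : ZMod 9) 0 0 ^ 3 = el 3 0 0 by decide +kernel, fU_Fx, ← dL] at p4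
  simp only [dL_single, tab9, List.mem_cons, Prod.mk.injEq, List.not_mem_nil, or_false] at h1 h2 p1 p2 p4 p5
  obtain ⟨h3, h4⟩ | ⟨h3, h4⟩ | ⟨h3, h4⟩ | ⟨h3, h4⟩ : (fx (ρ (el 1 2 0)) = 6 ∧ dL ρ [el 3 0 0, el 1 2 0] = 2) ∨
      (fx (ρ (el 1 2 0)) = 8 ∧ dL ρ [el 3 0 0, el 1 2 0] = 4) ∨
      (fx (ρ (el 1 2 0)) = 12 ∧ dL ρ [el 3 0 0, el 1 2 0] = 8) ∨ (fx (ρ (el 1 2 0)) = 0 ∧ False) := by omega
  iterate 3 rw [h3, h4] at p4; exact absurd p4 (by decide)
  exact h4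

end CL.E7m
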