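/-
Subgroups of `E₇(2)`: the fixed dimensions of the elements of order `3` of `A₁₃`.
-/
import Cfsg.Agent.Inv.E7m2

set_option autoImplicit false

namespace CL.E7m

open Module CL.E8s Finset Subgroup CL.AltSec

namespace A13a

/-- The alternating group of degree `13`. -/
abbrev A : Type := alternatingGroup (Fin 13)

/-- An explicit element. -/
def y : A := pm ![0, 1, 2, 3, 4, 5, 6, 7, 8, 9, 11, 12, 10] ![0, 1, 2, 3, 4, 5, 6, 7, 8, 9, 12, 10, 11]
/-- An explicit element. -/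
def s1 : A := pm ![1, 2, 3, 4, 0, 5, 6, 7, 8, 9, 10, 11, 12] ![4, 0, 1, 2, 3, 5, 6, 7, 8, 9, 10, 11, 12]
/-- An explicit element. -/
def s2 : A := pm ![0, 1, 2, 3, 4, 6, 7, 8, 9, 5, 10, 11, 12] ![0, 1, 2, 3, 4, 9, 5, 6, 7, 8, 10, 11, 12]
/-- An explicit element. -/
def a : A := pm ![0, 1, 2, 3, 4, 6, 7, 5, 8, 9, 10, 11, 12] ![0, 1, 2, 3, 4, 7, 5, 6, 8, 9, 10, 11, 12]
/-- An explicit element. -/
def b : A := pm ![0, 1, 2, 3, 4, 5, 6, 7, 9, 10, 8, 11, 12] ![0, 1, 2, 3, 4, 5, 6, 7, 10, 8, 9, 11, 12]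
/-- An explicit element. -/
def z : A := pm ![3, 0, 2, 1, 4, 5, 6, 7, 8, 9, 10, 11, 12] ![1, 3, 2, 0, 4, 5, 6, 7, 8, 9, 10, 11, 12]
/-- An explicit element. -/
def z2 : A := pm ![0, 1, 2, 3, 4, 8, 5, 7, 6, 9, 10, 11, 12] ![0, 1, 2, 3, 4, 6, 8, 7, 5, 9, 10, 11, 12]
/-- An explicit element. -/
def c : A := pm ![1, 2, 0, 3, 4, 5, 6, 7, 8, 9, 10, 11, 12] ![2, 0, 1, 3, 4, 5, 6, 7, 8, 9, 10, 11, 12]
/-- An explicit element. -/
def d : A := pm ![0, 1, 3, 4, 2, 5, 6, 7, 8, 9, 10, 11, 12] ![0, 1, 4, 2, 3, 5, 6, 7, 8, 9, 10, 11, 12]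
/-- An explicit element. -/
def k1 : A := pm ![5, 6, 7, 8, 9, 1, 0, 2, 3, 4, 10, 11, 12] ![6, 5, 7, 8, 9, 0, 1, 2, 3, 4, 10, 11, 12]
/-- An explicit element. -/
def k2 : A := pm ![0, 1, 2, 3, 4, 5, 7, 9, 6, 8, 10, 12, 11] ![0, 1, 2, 3, 4, 5, 8, 6, 9, 7, 10, 12, 11]
/-- An explicit element. -/
def k3 : A := pm ![0, 1, 2, 3, 4, 5, 8, 6, 9, 7, 10, 12, 11] ![0, 1, 2, 3, 4, 5, 7, 9, 6, 8, 10, 12, 11]
/-- An explicit element. -/
def k4 : A := pm ![0, 1, 2, 3, 4, 5, 9, 8, 7, 6, 10, 11, 12] ![0, 1, 2, 3, 4, 5, 9, 8, 7, 6, 10, 11, 12]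
/-- An explicit element. -/
def ka : A := pm ![0, 1, 2, 3, 4, 10, 11, 12, 9, 8, 5, 6, 7] ![0, 1, 2, 3, 4, 10, 11, 12, 9, 8, 5, 6, 7]
/-- An explicit element. -/
def kb : A := pm ![0, 1, 2, 3, 4, 5, 6, 7, 11, 12, 8, 9, 10] ![0, 1, 2, 3, 4, 5, 6, 7, 10, 11, 12, 8, 9]
/-- An explicit element. -/
def kg : A := pm ![0, 1, 2, 3, 4, 5, 6, 7, 8, 10, 9, 12, 11] ![0, 1, 2, 3, 4, 5, 6, 7, 8, 10, 9, 12, 11]

/-- A cycle of length `3`. -/
def T3 (g : A) : Prop := (g : Equiv.Perm (Fin 13)).support.card = 3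

instance (g : A) : Decidable (T3 g) := by unfold T3; infer_instance

theorem T3.ct {g : A} (h : T3 g) : (g : Equiv.Perm (Fin 13)).cycleType = {3} :=
  card_support_eq_three_iff.1 h

theorem ct33 {g h : A} (a1 : T3 g) (a2 : T3 h) (a3 : ∀ x, (g : Equiv.Perm (Fin 13)) x = x ∨ (h : Equiv.Perm (Fin 13)) x = x) :
    ((g * h : A) : Equiv.Perm (Fin 13)).cycleType = {3, 3} := by
  rw [Subgroup.coe_mul, Equiv.Perm.Disjoint.cycleType_mul a3, a1.ct, a2.ct]
  rfl

variable {V W : Type*} [AddCommGroup V] [Module (ZMod 2) V] [AddCommGroup W] [Module (ZMod 2) W]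
  {σ : Representation (ZMod 2) A V} {τ : Representation (ZMod 2) A W}

theorem fx_ct (σ : Representation (ZMod 2) A V) {g h : A}
    (e : (g : Equiv.Perm (Fin 13)).cycleType = (h : Equiv.Perm (Fin 13)).cycleType)
    (l : (g : Equiv.Perm (Fin 13)).cycleType.sum ≤ 11) : fx (σ h) = fx (σ g) :=
  fx_isConj σ (alternatingGroup.isConj_of (Equiv.Perm.isConj_iff_cycleType_eq.2 e)
    (by rw [← Equiv.Perm.sum_cycleType, Fintype.card_fin]; omega))

theorem f1_eq (σ : Representation (ZMod 2) A V) {g : A} (h : (g : Equiv.Perm (Fin 13)).cycleType = {3}) :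
    fx (σ g) = fx (σ y) :=
  (fx_ct σ (h.trans (T3.ct (by decide +kernel)).symm) (by rw [h]; decide)).symm

theorem f2_eq (σ : Representation (ZMod 2) A V) {g : A} (h : (g : Equiv.Perm (Fin 13)).cycleType = {3, 3}) :
    fx (σ g) = fx (σ (a * b)) :=
  (fx_ct σ (h.trans (ct33 (by decide +kernel) (by decide +kernel) (by decide +kernel)).symm) (by rw [h]; decide)).symm

theorem fx_cj (σ : Representation (ZMod 2) A V) {g h : A} (k : A) (e : k * g * k⁻¹ = h) : fx (σ h) = fx (σ g) :=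
  e ▸ fx_conj σ g k

theorem ge16 (h : Good σ τ) {t x : A} (h1 : t ^ 5 = 1) (h2 : t ≠ 1) (h3 : x ^ 3 = 1) (h4 : x ≠ 1)
    (h5 : (t * x) ^ 2 = 1) : fx (σ x) = 20 ∨ fx (σ x) = 32 := by
  have := h.finV
  have h6 := a5 (U := ⊤) (t := σ t) (z := σ x) (fun _ _ => trivial) (by rw [← map_pow, h1, map_one])
    (by rw [← map_pow, h3, map_one]) (by rw [← map_mul, ← map_pow, h5, map_one])
  rw [fU_top, fU_top, h.five t h1 h2] at h6
  have h7 := h.three x h3 h4
  simp only [tab3, List.mem_cons, Prod.mk.injEq, List.not_mem_nil, or_false] at h7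
  omega

theorem p15 {G : Type*} [Group G] {x w : G} (hc : x * w = w * x) (h5 : x ^ 5 = 1) (h3 : w ^ 3 = 1) :
    (x * w) ^ 15 = 1 ∧ (x * w) ^ 5 = w ^ 2 ∧ (x * w) ^ 3 = x ^ 3 ∧ (x * w) ^ 11 = x * w ^ 2 := by
  have hc' : Commute x w := hc
  simp only [hc'.mul_pow]
  refine ⟨?_, ?_, ?_, ?_⟩
  · rw [pow_eq_pow_mod 15 h5, pow_eq_pow_mod 15 h3]; simp
  · rw [h5, pow_eq_pow_mod 5 h3, one_mul]
  · rw [h3, mul_one]
  · rw [pow_eq_pow_mod 11 h5, pow_eq_pow_mod 11 h3]; simp

theorem t15 (h : Good σ τ) (x w : A) (hc : x * w = w * x) (h5 : x ^ 5 = 1) (h3 : w ^ 3 = 1) (h1 : x ^ 3 ≠ 1)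
    (h2 : w ^ 2 ≠ 1) : (fx (σ (w ^ 2)) = 32 → fx (σ (x * w)) = 8 ∨ fx (σ (x * w)) = 0) ∧
      (fx (σ (w ^ 2)) = 20 → fx (σ (x * w)) = 4 ∨ fx (σ (x * w)) = 12) := by
  obtain ⟨e1, e2, e3, -⟩ := p15 hc h5 h3
  have h7 := h.fifteen (x * w) e1 (e3 ▸ h1) (e2 ▸ h2)
  rw [e2] at h7
  simp only [tab15, List.mem_cons, Prod.mk.injEq, List.not_mem_nil, or_false] at h7
  omega

theorem fx_sq (σ : Representation (ZMod 2) A V) (x w : A) (hc : x * w = w * x) (h5 : x ^ 5 = 1) (h3 : w ^ 3 = 1) :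
    fx (σ (x * w)) = fx (σ (x * w ^ 2)) := by
  obtain ⟨e1, -, -, e4⟩ := p15 hc h5 h3
  rw [← e4, fx_rep_pow σ e1 (by decide)]

theorem cm1 {x g : A} (h : x * g = g * x) : ∀ u ∈ [x], Commute u g := fun _ e => List.mem_singleton.1 e ▸ h

theorem one_mem' {g : A} {n : ℕ} {l : List A} (h : g ^ n = 1) : g ^ n ∈ closure {x | x ∈ l} := h ▸ one_mem _

theorem stepb (h : Good σ τ) : (fx (σ y) = 32 ∧ fx (σ (s1 * y)) = 0) ∨ (fx (σ y) = 20 ∧ fx (σ (s1 * y)) = 12) := by
  have := h.finV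
  have h1 := ge16 h (t := s1) (x := z) (by decide +kernel) (by decide +kernel) (by decide +kernel) (by decide +kernel)
    (by decide +kernel)
  rw [f1_eq σ (T3.ct (by decide +kernel))] at h1
  have h2 := ppL σ Nat.prime_five (by decide) (l := [y]) (a := s1) (b := s2) (by unfold Commute SemiconjBy; decide +kernel)
    (cm1 (by decide +kernel)) (cm1 (by decide +kernel))
    (one_mem' (by decide +kernel)) (one_mem' (by decide +kernel))
  have m : ∀ x : A, x * y = y * x → x ^ 5 = 1 → dL σ [x, y] = fx (σ (x * y)) := fun x a1 a2 =>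
    dL_mul σ a1 a2 (show y ^ 3 = 1 by decide +kernel) (by decide) (by decide) (by decide)
  simp only [sum_range_succ, sum_range_zero, pow_zero, mul_one, pow_one, zero_add] at h2
  rw [dL_single, m s2 (by decide +kernel) (by decide +kernel), m s1 (by decide +kernel) (by decide +kernel),
    m (s1 * s2) (by decide +kernel) (by decide +kernel), m (s1 * s2 ^ 2) (by decide +kernel) (by decide +kernel),
    m (s1 * s2 ^ 3) (by decide +kernel) (by decide +kernel), m (s1 * s2 ^ 4) (by decide +kernel) (by decide +kernel),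
    fx_cj σ (g := s1 * y) (h := s2 * y) k1 (by decide +kernel),
    fx_sq σ (s1 * s2 ^ 2) y (by decide +kernel) (by decide +kernel) (by decide +kernel),
    fx_sq σ (s1 * s2 ^ 3) y (by decide +kernel) (by decide +kernel) (by decide +kernel),
    fx_cj σ (g := s1 * s2 * y) (h := s1 * s2 ^ 2 * y ^ 2) k2 (by decide +kernel),
    fx_cj σ (g := s1 * s2 * y) (h := s1 * s2 ^ 3 * y ^ 2) k3 (by decide +kernel),
    fx_cj σ (g := s1 * s2 * y) (h := s1 * s2 ^ 4 * y) k4 (by decide +kernel)] at h2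
  have h3 := t15 h s1 y (by decide +kernel) (by decide +kernel) (by decide +kernel) (by decide +kernel)
    (by decide +kernel)
  have h4 := t15 h (s1 * s2) y (by decide +kernel) (by decide +kernel) (by decide +kernel) (by decide +kernel)
    (by decide +kernel)
  rw [f1_eq σ (T3.ct (by decide +kernel))] at h3 h4
  omega

theorem stepc (h : Good σ τ) : fx (σ (a * b)) = 32 := by
  have := h.finV
  have h1 := ge16 h (t := s1 * s2) (x := z * z2) (by decide +kernel) (by decide +kernel) (by decide +kernel)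
    (by decide +kernel) (by decide +kernel)
  rw [f2_eq σ (ct33 (by decide +kernel) (by decide +kernel) (by decide +kernel))] at h1
  have h2 := ppL σ Nat.prime_three (by decide) (l := [s1]) (a := a) (b := b) (by unfold Commute SemiconjBy; decide +kernel)
    (cm1 (by decide +kernel)) (cm1 (by decide +kernel))
    (one_mem' (by decide +kernel)) (one_mem' (by decide +kernel))
  have m : ∀ x : A, x * s1 = s1 * x → x ^ 3 = 1 → dL σ [x, s1] = fx (σ (x * s1)) := fun x a1 a2 =>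
    dL_mul σ a1 a2 (show s1 ^ 5 = 1 by decide +kernel) (by decide) (by decide) (by decide)
  simp only [sum_range_succ, sum_range_zero, pow_zero, mul_one, pow_one, zero_add] at h2
  rw [dL_single, h.five s1 (by decide +kernel) (by decide +kernel), m b (by decide +kernel) (by decide +kernel),
    m a (by decide +kernel) (by decide +kernel), m (a * b) (by decide +kernel) (by decide +kernel),
    m (a * b ^ 2) (by decide +kernel) (by decide +kernel),
    fx_cj σ (g := s1 * y) (h := a * s1) ka (by decide +kernel),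
    fx_cj σ (g := s1 * y) (h := b * s1) kb (by decide +kernel),
    fx_cj σ (g := a * b * s1) (h := a * b ^ 2 * s1) kg (by decide +kernel)] at h2
  have h3 := t15 h s1 (a * b) (by decide +kernel) (by decide +kernel) (by decide +kernel) (by decide +kernel)
    (by decide +kernel)
  rw [show (a * b) ^ 2 = a ^ 2 * b ^ 2 by decide +kernel, show s1 * (a * b) = a * b * s1 by decide +kernel,
    f2_eq σ (ct33 (by decide +kernel) (by decide +kernel) (by decide +kernel))] at h3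
  have h4 := stepb h
  omega

theorem d24 (h : Good σ τ) (h1 : fx (σ y) = 32) {x : A} (a1 : T3 x) (a2 : x ^ 3 = 1) (a3 : x * y = y * x)
    (a4 : ∀ i, (x : Equiv.Perm (Fin 13)) i = i ∨ (y : Equiv.Perm (Fin 13)) i = i)
    (a5 : ∀ i, (x : Equiv.Perm (Fin 13)) i = i ∨ ((y ^ 2 : A) : Equiv.Perm (Fin 13)) i = i) : dL σ [y, x] = 24 := by
  have := h.finV
  have h2 := ppL σ Nat.prime_three (by decide) (l := []) (a := x) (b := y) a3 (by simp) (by simp) (one_mem' a2)
    (one_mem' (by decide +kernel))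
  simp only [sum_range_succ, sum_range_zero, pow_zero, mul_one, pow_one, zero_add] at h2
  rw [dL_nil, h.dimV, dL_single, dL_single, dL_single, dL_single, f1_eq σ a1.ct,
    f2_eq σ (ct33 a1 (by decide +kernel) a4), f2_eq σ (ct33 a1 (by decide +kernel) a5), stepc h, h1] at h2
  omega

theorem stepd (h : Good σ τ) : fx (σ y) = 20 := by
  have := h.finV
  refine (stepb h).elim (fun ⟨h1, h2⟩ => ?_) fun h => h.1
  have h3 := d24 h h1 (x := c) (by decide +kernel) (by decide +kernel) (by decide +kernel) (by decide +kernel)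
    (by decide +kernel)
  have h4 := d24 h h1 (x := d) (by decide +kernel) (by decide +kernel) (by decide +kernel) (by decide +kernel)
    (by decide +kernel)
  rw [← dL_mul σ (show s1 * y = y * s1 by decide +kernel) (show s1 ^ 5 = 1 by decide +kernel)
    (show y ^ 3 = 1 by decide +kernel) (by decide) (by decide) (by decide)] at h2
  rw [← dL_single] at h1
  have h5 := Submodule.finrank_sup_add_finrank_inf_eq (Fx σ [y, c]) (Fx σ [y, d])
  have h6 : Fx σ [y, c] ⊔ Fx σ [y, d] ≤ Fx σ [y] :=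
    sup_le (fun v hv => mem_Fx.2 fun g hg => mem_Fx.1 hv g (by simp at hg; simp [hg]))
      fun v hv => mem_Fx.2 fun g hg => mem_Fx.1 hv g (by simp at hg; simp [hg])
  have h7 : Fx σ [y, c] ⊓ Fx σ [y, d] ≤ Fx σ [s1, y] := fun v hv => mem_Fx.2 (by
    simp only [List.mem_cons, List.not_mem_nil, or_false, forall_eq_or_imp, forall_eq]
    refine ⟨?_, mem_Fx.1 hv.1 y (by simp)⟩
    rw [show s1 = c * d by decide +kernel, rep_mul, mem_Fx.1 hv.2 d (by simp), mem_Fx.1 hv.1 c (by simp)])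
  have h8 := Submodule.finrank_mono h6
  have h9 := Submodule.finrank_mono h7
  unfold dL at h1 h2 h3 h4
  omega

end A13a

/-- The fixed dimensions of the elements of cycle types `3` and `3²` of `A₁₃`. -/
theorem a13a {V W : Type*} [AddCommGroup V] [Module (ZMod 2) V] [AddCommGroup W] [Module (ZMod 2) W]
    {σ : Representation (ZMod 2) (alternatingGroup (Fin 13)) V}
    {τ : Representation (ZMod 2) (alternatingGroup (Fin 13)) W} (h : Good σ τ) :
    (∀ g : alternatingGroup (Fin 13), (g : Equiv.Perm (Fin 13)).cycleType = {3} → fx (σ g) = 20) ∧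
      (∀ g : alternatingGroup (Fin 13), (g : Equiv.Perm (Fin 13)).cycleType = {3, 3} → fx (σ g) = 32) :=
  ⟨fun _ e => (A13a.f1_eq σ e).trans (A13a.stepd h), fun _ e => (A13a.f2_eq σ e).trans (A13a.stepc h)⟩

end CL.E7m
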