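/-
Subgroups of `E₇(2)`: the group `A₁₃`, if the `3`-cycles fix `20` dimensions and their products `32` dimensions.
-/
import Cfsg.Agent.Inv.E7m2

set_option autoImplicit false

namespace CL.E7m

open Module CL.E8s Finset Subgroup

namespace A13b

variable {V : Type*} [AddCommGroup V] [Module (ZMod 2) V]

/-- The complement of the fixed space of an element of order `3`. -/
def R (x : End (ZMod 2) V) : Submodule (ZMod 2) V := LinearMap.ker (1 + x + x * x)

theorem mem_R {x : End (ZMod 2) V} {v : V} : v ∈ R x ↔ v + x v + x (x v) = 0 := Iff.rfl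

theorem R_inv {x y : End (ZMod 2) V} (h : Commute x y) : ∀ v ∈ R x, y v ∈ R x := fun v hv => by
  have e : ∀ w, x (y w) = y (x w) := fun w => LinearMap.congr_fun h.eq w
  rw [mem_R, e, e, ← map_add, ← map_add, mem_R.1 hv, map_zero]

theorem eq_zero {x : End (ZMod 2) V} {v : V} (h : v ∈ R x) (e : x v = v) : v = 0 := by
  rwa [mem_R, e, e, add_self, zero_add] at h

theorem split [FiniteDimensional (ZMod 2) V] {U : Submodule (ZMod 2) V} {x : End (ZMod 2) V}
    (h : ∀ v ∈ U, x v ∈ U) (e : x ^ 3 = 1) :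
    finrank (ZMod 2) U = finrank (ZMod 2) (U ⊓ R x : Submodule _ V) + fU U x := by
  have h1 := LinearMap.finrank_range_add_finrank_ker ((1 + x + x * x).domRestrict U)
  rw [LinearMap.range_domRestrict, LinearMap.ker_domRestrict, finrank_comap] at h1
  have h2 : U.map (1 + x + x * x) = U ⊓ LinearMap.ker (x - 1) := by
    refine le_antisymm ?_ fun v hv => ⟨v, hv.1, ?_⟩
    · rintro _ ⟨v, hv, rfl⟩
      refine mem_fix.2 ⟨add_mem (add_mem hv (h v hv)) (h _ (h v hv)), ?_⟩
      rw [← End.mul_apply, show x * (1 + x + x * x) = x + x * x + x ^ 3 by noncomm_ring, e]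
      congr 1; abel
    · change v + x v + x (x v) = v
      rw [(mem_fix.1 hv).2, (mem_fix.1 hv).2, add_self, zero_add]
  rw [h2] at h1
  unfold fU R
  omega

theorem inf_inv {U S : Submodule (ZMod 2) V} {x : End (ZMod 2) V} (h : ∀ v ∈ U, x v ∈ U) (h' : ∀ v ∈ S, x v ∈ S) :
    ∀ v ∈ U ⊓ S, x v ∈ U ⊓ S := fun v hv => ⟨h v hv.1, h' v hv.2⟩

section

variable {G : Type*} [Group G] [FiniteDimensional (ZMod 2) V] (ρ : Representation (ZMod 2) G V)

theorem pp3 {l : List G} {a b : G} (hc : Commute a b) (ha : ∀ g ∈ l, Commute g a) (hb : ∀ g ∈ l, Commute g b)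
    (a3 : a ^ 3 = 1) (b3 : b ^ 3 = 1) :
    dL ρ l + 3 * dL ρ (b :: a :: l) = dL ρ (b :: l) + (dL ρ (a :: l) + dL ρ (a * b :: l) + dL ρ (a * (b * b) :: l)) := by
  simpa [sum_range_succ, sq] using ppL ρ Nat.prime_three (by decide) hc ha hb (a3 ▸ one_mem _) (b3 ▸ one_mem _)

theorem pp30 {a b : G} (hc : Commute a b) (a3 : a ^ 3 = 1) (b3 : b ^ 3 = 1) :
    finrank (ZMod 2) V + 3 * dL ρ [b, a] = fx (ρ b) + (fx (ρ a) + fx (ρ (a * b)) + fx (ρ (a * (b * b)))) := by
  simpa only [dL_nil, dL_single] using pp3 ρ (l := []) hc (by simp) (by simp) a3 b3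

theorem dL_head (g : G) (l : List G) : dL ρ (g :: l) ≤ fx (ρ g) :=
  dL_single ρ g ▸ dL_le ρ fun k hk => subset_closure (by simp [List.mem_singleton.1 hk])

theorem dL_tail (g : G) (l : List G) : dL ρ (g :: l) ≤ dL ρ l := dL_le ρ fun k hk => subset_closure (by simp [hk])

theorem rep3 {a : G} (h : a ^ 3 = 1) : ρ a ^ 3 = 1 := by rw [← map_pow, h, map_one]

theorem RK {a b : G} (hc : Commute b a) (a3 : a ^ 3 = 1) {l : List G} (hl : ∀ g ∈ l, Commute g a) :
    dL ρ (b :: l) = finrank (ZMod 2) (Fx ρ (b :: l) ⊓ R (ρ a) : Submodule _ V) + dL ρ (a :: b :: l) :=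
  fU_Fx ρ (b :: l) a ▸ split (Fx_inv (by simpa [hc] using hl)) (rep3 ρ a3)

theorem dimRR {a b : G} (hc : Commute a b) (a3 : a ^ 3 = 1) (b3 : b ^ 3 = 1) (hd : finrank (ZMod 2) V = 56)
    (fa : fx (ρ a) = 20) (fb : fx (ρ b) = 20) (h : dL ρ [a, b] = 16) :
    finrank (ZMod 2) (R (ρ a) ⊓ R (ρ b) : Submodule _ V) = 32 := by
  have h1 := split (U := ⊤) (fun _ _ => trivial) (rep3 ρ a3)
  have h2 := split (R_inv (hc.map ρ)) (rep3 ρ b3)
  have h3 := RK ρ hc.symm a3 (l := []) (by simp)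
  rw [finrank_top, top_inf_eq, fU_top] at h1
  rw [dL_single, Fx_cons, show Fx ρ [] = ⊤ from eq_top_iff.2 fun v _ => mem_Fx.2 (by simp), top_inf_eq,
    inf_comm] at h3
  unfold fU at h2
  omega

theorem leR {a b c : G} (ab : Commute a b) (ac : Commute a c) (bc : Commute b c) (a3 : a ^ 3 = 1) (b3 : b ^ 3 = 1)
    (c3 : c ^ 3 = 1) (fc : fx (ρ c) = 20) (h1 : dL ρ [a, c] = 16) (h2 : dL ρ [b, c] = 16) (h3 : dL ρ [a, b, c] = 12) :
    R (ρ a) ⊓ R (ρ b) ≤ R (ρ c) := by
  have e1 := RK ρ ac.symm a3 (l := []) (by simp)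
  have e2 := RK ρ ab.symm a3 (l := [c]) (by simpa using ac.symm)
  have e3 := split (inf_inv (Fx_inv (ρ := ρ) (l := [c]) (by simpa using bc.symm)) (R_inv (ab.map ρ))) (rep3 ρ b3)
  have e4 := split (inf_inv (R_inv (ac.map ρ)) (R_inv (bc.map ρ))) (rep3 ρ c3)
  rw [fU, inf_right_comm _ _ (LinearMap.ker _), ← Fx_cons, inf_assoc, inf_comm _ (_ ⊓ _), Fx_cons ρ [],
    show Fx ρ [] = ⊤ from eq_top_iff.2 fun v _ => mem_Fx.2 (by simp), top_inf_eq] at e3
  rw [dL_single, Fx_cons ρ [], show Fx ρ [] = ⊤ from eq_top_iff.2 fun v _ => mem_Fx.2 (by simp), top_inf_eq] at e1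
  unfold fU at e4
  exact inf_eq_left.1 (Submodule.eq_of_le_of_finrank_eq inf_le_left (by omega))

end

/-- The group `A₁₃`. -/
abbrev A := alternatingGroup (Fin 13)

/-- A `3`-cycle. -/
def T (a : A) : Prop := (a : Equiv.Perm (Fin 13)).IsThreeCycle

/-- Disjoint permutations. -/
def D (a b : A) : Prop := (a : Equiv.Perm (Fin 13)).Disjoint b

theorem D.symm {a b : A} (h : D a b) : D b a := Equiv.Perm.Disjoint.symm h

theorem D.com {a b : A} (h : D a b) : Commute a b := Subtype.ext h.commute.eq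

theorem D.mul {a b c : A} (h : D a b) (h' : D a c) : D a (b * c) := h.mul_right h'

theorem D.ct {a b : A} (h : D a b) : ((a * b : A) : Equiv.Perm (Fin 13)).cycleType =
    (a : Equiv.Perm (Fin 13)).cycleType + (b : Equiv.Perm (Fin 13)).cycleType := h.cycleType_mul

theorem T.ct {a : A} (h : T a) : (a : Equiv.Perm (Fin 13)).cycleType = {3} := h

theorem T.sq {a : A} (h : T a) : T (a * a) := h.isThreeCycle_sq

theorem T.pow {a : A} (h : T a) : a ^ 3 = 1 := Subtype.ext (by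
  have := pow_orderOf_eq_one (a : Equiv.Perm (Fin 13))
  rwa [h.orderOf] at this)

theorem T.conj {a : A} (h : T a) (g : A) : T (g⁻¹ * a * g) := by
  have := Equiv.Perm.cycleType_conj (σ := (a : Equiv.Perm (Fin 13))) (τ := (g⁻¹ : A))
  rw [← Subgroup.coe_inv, inv_inv] at this
  exact this.trans h

theorem T.of {a : A} (h : #(a : Equiv.Perm (Fin 13)).support = 3) : T a := card_support_eq_three_iff.1 h

theorem exD {a b c : A} (ha : T a) (hb : T b) (hc : T c) : ∃ e, T e ∧ D e a ∧ D e b ∧ D e c := by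
  have h1 : 2 < #((a : Equiv.Perm (Fin 13)).support ∪ (b : Equiv.Perm (Fin 13)).support ∪
      (c : Equiv.Perm (Fin 13)).support)ᶜ := by
    have := card_union_le ((a : Equiv.Perm (Fin 13)).support ∪ (b : Equiv.Perm (Fin 13)).support)
      (c : Equiv.Perm (Fin 13)).support
    have := card_union_le (a : Equiv.Perm (Fin 13)).support (b : Equiv.Perm (Fin 13)).support
    have := ha.card_support
    have := hb.card_support
    have := hc.card_support
    rw [card_compl, Fintype.card_fin]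
    omega
  obtain ⟨x, y, z, hx, hy, hz, xy, xz, yz⟩ := two_lt_card_iff.1 h1
  have h2 := Equiv.Perm.support_swap_mul_swap (x := x) (y := y) (z := z) (by simp [xy, xz, yz])
  have h3 : (Equiv.swap x y * Equiv.swap y z).IsThreeCycle :=
    card_support_eq_three_iff.1 (h2 ▸ card_eq_three.2 ⟨x, y, z, xy, xz, yz, rfl⟩)
  simp only [mem_compl, mem_union, not_or] at hx hy hz
  refine ⟨⟨_, h3.mem_alternatingGroup⟩, h3, ?_, ?_, ?_⟩ <;>
    refine Equiv.Perm.disjoint_iff_disjoint_support.2 (h2 ▸ ?_) <;>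
    simp only [disjoint_insert_left, disjoint_singleton_left, hx, hy, hz, not_false_eq_true, and_self]

open CL.AltSec in
theorem core [FiniteDimensional (ZMod 2) V] (ρ : Representation (ZMod 2) A V) (hd : finrank (ZMod 2) V = 32)
    (h0 : ∀ c, T c → fx (ρ c) = 0) (h13 : ∀ g, g ^ 13 = 1 → g ≠ 1 → fx (ρ g) ≤ 8) : False := by
  let a : A := pm ![1, 2, 0, 3, 4, 5, 6, 7, 8, 9, 10, 11, 12] ![2, 0, 1, 3, 4, 5, 6, 7, 8, 9, 10, 11, 12]
  let b : A := pm ![0, 1, 2, 4, 5, 3, 6, 7, 8, 9, 10, 11, 12] ![0, 1, 2, 5, 3, 4, 6, 7, 8, 9, 10, 11, 12]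
  let c : A := pm ![0, 1, 2, 3, 4, 5, 7, 8, 6, 9, 10, 11, 12] ![0, 1, 2, 3, 4, 5, 8, 6, 7, 9, 10, 11, 12]
  let d : A := pm ![0, 1, 2, 3, 4, 5, 6, 7, 8, 10, 11, 9, 12] ![0, 1, 2, 3, 4, 5, 6, 7, 8, 11, 9, 10, 12]
  let x : A := pm ![4, 12, 2, 3, 0, 11, 6, 9, 8, 7, 10, 5, 1] ![4, 12, 2, 3, 0, 11, 6, 9, 8, 7, 10, 5, 1]
  let k1 : A := pm ![0, 1, 2, 3, 5, 4, 6, 7, 8, 9, 11, 10, 12] ![0, 1, 2, 3, 5, 4, 6, 7, 8, 9, 11, 10, 12]
  let k2 : A := pm ![3, 4, 5, 0, 1, 2, 6, 7, 8, 9, 11, 10, 12] ![3, 4, 5, 0, 1, 2, 6, 7, 8, 9, 11, 10, 12]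
  let k3 : A := pm ![0, 1, 2, 3, 4, 5, 6, 8, 7, 9, 11, 10, 12] ![0, 1, 2, 3, 4, 5, 6, 8, 7, 9, 11, 10, 12]
  let k4 : A := pm ![6, 7, 8, 9, 10, 11, 0, 1, 2, 3, 4, 5, 12] ![6, 7, 8, 9, 10, 11, 0, 1, 2, 3, 4, 5, 12]
  have fa := h0 a (.of (by decide +kernel))
  have fb := h0 b (.of (by decide +kernel))
  have fc := h0 c (.of (by decide +kernel))
  have fd := h0 d (.of (by decide +kernel))
  have e1 := pp30 ρ (a := a) (b := b) (show _ = _ by decide +kernel) (by decide +kernel) (by decide +kernel)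
  have e2 := pp3 ρ (a := c) (b := d) (l := [a * b]) (show _ = _ by decide +kernel)
    (List.forall_mem_singleton.2 (show _ = _ by decide +kernel))
    (List.forall_mem_singleton.2 (show _ = _ by decide +kernel)) (by decide +kernel) (by decide +kernel)
  have e3 := pp30 ρ (a := a * b) (b := c * d) (show _ = _ by decide +kernel) (by decide +kernel) (by decide +kernel)
  have c1 := fx_conj ρ (a * b) k1
  have c2 := dL_conj ρ [c * d, a * b] k2
  have c3 := fx_conj ρ (a * b * (c * d)) k3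
  have c4 := fx_conj ρ (a * b) k4
  rw [show k1 * (a * b) * k1⁻¹ = a * (b * b) by decide +kernel] at c1
  rw [show ([c * d, a * b].map fun g => k2 * g * k2⁻¹) = [c * (d * d), a * b] by decide +kernel] at c2
  rw [show k3 * (a * b * (c * d)) * k3⁻¹ = a * b * (c * d * (c * d)) by decide +kernel] at c3
  rw [show k4 * (a * b) * k4⁻¹ = c * d by decide +kernel] at c4
  have l1 := dL_head ρ b [a]
  have l2 := dL_head ρ d [c, a * b]
  have l3 := dL_head ρ d [a * b]
  have l4 := dL_head ρ c [a * b]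
  rw [dL_single] at e2
  have s := scott_fpf ρ (x := x) (y := a * b * (c * d)) (a := (x * (a * b * (c * d)) * x * (a * b * (c * d)) ^ 2) ^ 10)
    (pow_mem (mul_mem (mul_mem (mul_mem (subset_closure (by simp)) (subset_closure (by simp)))
      (subset_closure (by simp))) (pow_mem (subset_closure (by simp)) _)) _) fun v hv =>
    (Submodule.eq_bot_iff _).1 (Submodule.finrank_eq_zero.1 (h0 _ (.of (by decide +kernel)))) v (mem_ker.2 hv)
  have t1 := half' (x := ρ x) (by rw [← map_pow, show x ^ 2 = 1 by decide +kernel, map_one])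
  have o : (x * (a * b * (c * d))) ^ 13 = 1 := by decide +kernel
  have t2 := h13 _ o (by decide +kernel)
  have t3 := mod0 (p := 13) (n := 1) (by norm_num) (x := ρ (x * (a * b * (c * d)))) (by rw [← map_pow, pow_one, o, map_one])
  rw [hd] at t3
  generalize fx (ρ (x * (a * b * (c * d)))) = f at s t2 t3
  have : f = 8 := by revert t3; interval_cases f <;> decide
  omega

end A13b

open A13b in
theorem a13b {V W : Type*} [AddCommGroup V] [Module (ZMod 2) V] [AddCommGroup W] [Module (ZMod 2) W]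
    {σ : Representation (ZMod 2) (alternatingGroup (Fin 13)) V}
    {τ : Representation (ZMod 2) (alternatingGroup (Fin 13)) W} (h : Good σ τ)
    (h1 : ∀ g : alternatingGroup (Fin 13), (g : Equiv.Perm (Fin 13)).cycleType = {3} → fx (σ g) = 20)
    (h2 : ∀ g : alternatingGroup (Fin 13), (g : Equiv.Perm (Fin 13)).cycleType = {3, 3} → fx (σ g) = 32) : False := by
  have := h.finV
  have hd := h.dimV
  have f2 : ∀ {a b : A}, T a → T b → D a b → fx (σ (a * b)) = 32 := fun ha hb ab => h2 _ (by rw [ab.ct, ha.ct, hb.ct]; rfl)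
  have d2 : ∀ {a b : A}, T a → T b → D a b → dL σ [b, a] = 16 := fun ha hb ab => by
    have := pp30 σ ab.com ha.pow hb.pow
    rw [h1 _ ha, h1 _ hb, f2 ha hb ab, f2 ha hb.sq (ab.mul ab)] at this
    omega
  have c3 : ∀ {a b c : A}, T a → T b → T c → D a b → D a c → D b c →
      ((a * (b * c) : A) : Equiv.Perm (Fin 13)).cycleType = {3, 3, 3} := fun ha hb hc ab ac bc => by
    rw [(ab.mul ac).ct, bc.ct, ha.ct, hb.ct, hc.ct]; rfl
  have f3 : ∀ {g k : A}, (g : Equiv.Perm (Fin 13)).cycleType = {3, 3, 3} →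
      (k : Equiv.Perm (Fin 13)).cycleType = {3, 3, 3} → fx (σ k) = fx (σ g) := fun hg hk =>
    fx_isConj σ (alternatingGroup.isConj_of (Equiv.Perm.isConj_iff_cycleType_eq.2 (hg.trans hk.symm))
      (by rw [← Equiv.Perm.sum_cycleType, hg]; decide))
  have d3 : ∀ {a b c : A}, T a → T b → T c → D a b → D a c → D b c → dL σ [c, b, a] = 12 := by
    intro a b c ha hb hc ab ac bc
    have key : ∀ {c : A}, T c → D a c → D b c → 3 * dL σ [b * c, a] + 4 = 2 * fx (σ (a * (b * c))) := by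
      intro c hc ac bc
      have := pp30 σ (ab.mul ac).com ha.pow (by rw [bc.com.mul_pow, hb.pow, hc.pow, one_mul])
      rw [h1 _ ha, f2 hb hc bc, bc.com.symm.mul_mul_mul_comm, f3 (c3 ha hb hc ab ac bc)
        (c3 ha hb.sq hc.sq (ab.mul ab) (ac.mul ac) ((bc.mul bc).symm.mul (bc.mul bc).symm).symm)] at this
      omega
    have e1 := key hc ac bc
    have e2 := key hc.sq (ac.mul ac) (bc.mul bc)
    have e3 := pp3 σ (l := [a]) bc.com (by simpa using ab.com) (by simpa using ac.com) hb.pow hc.pow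
    have e4 := dL_le σ (l := [c, b, a]) (l' := [b * c, a]) (by
      simpa using ⟨mul_mem (subset_closure (by simp)) (subset_closure (by simp)), subset_closure (by simp)⟩)
    have e5 := h.three (a * (b * c)) (by
      rw [(ab.mul ac).com.mul_pow, bc.com.mul_pow, ha.pow, hb.pow, hc.pow, one_mul, one_mul]) fun e => by
      simpa [e] using c3 ha hb hc ab ac bc
    rw [f3 (c3 ha hb hc ab ac bc) (c3 ha hb hc.sq ab (ac.mul ac) (bc.mul bc))] at e2
    rw [dL_single, h1 _ ha, d2 ha hb ab, d2 ha hc ac] at e3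
    simp only [tab3, List.mem_cons, Prod.mk.injEq, List.not_mem_nil, or_false] at e5
    omega
  have le : ∀ {a b c : A}, T a → T b → T c → D a b → D a c → D b c → R (σ a) ⊓ R (σ b) ≤ R (σ c) :=
    fun ha hb hc ab ac bc => leR σ ab.com ac.com bc.com ha.pow hb.pow hc.pow (h1 _ hc) (d2 hc ha ac.symm)
      (d2 hc hb bc.symm) (d3 hc hb ha bc.symm ac.symm ab.symm)
  obtain ⟨a, ha⟩ : ∃ a, T a := ⟨⟨_, (Equiv.Perm.isThreeCycle_swap_mul_swap_same (a := 0) (b := 1) (c := 2)
    (by decide) (by decide) (by decide)).mem_alternatingGroup⟩,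
    Equiv.Perm.isThreeCycle_swap_mul_swap_same (by decide) (by decide) (by decide)⟩
  obtain ⟨b, hb, ba, -⟩ := exD ha ha ha
  have all : ∀ c, T c → R (σ a) ⊓ R (σ b) ≤ R (σ c) := fun c hc => by
    obtain ⟨e, he, ea, eb, ec⟩ := exD ha hb hc
    obtain ⟨e', he', ea', ee', ec'⟩ := exD ha he hc
    have i1 := le ha hb he ba.symm ea.symm eb.symm
    exact (le_inf ((le_inf inf_le_left i1).trans (le ha he he' ea.symm ea'.symm ee'.symm)) i1).trans
      (le he' he hc ee' ec' ec)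
  have cj : ∀ g c v, T c → v ∈ R (σ a) ⊓ R (σ b) → σ g v ∈ R (σ c) := fun g c v hc hv => by
    have := congrArg (σ g) (mem_R.1 (all _ (hc.conj g) hv))
    simpa only [mem_R, map_add, map_zero, ← rep_mul, ← mul_assoc, mul_inv_cancel, one_mul, mul_inv_cancel_right]
      using this
  have iv : ∀ g, ∀ v ∈ R (σ a) ⊓ R (σ b), σ g v ∈ R (σ a) ⊓ R (σ b) := fun g v hv => ⟨cj g a v ha hv, cj g b v hb hv⟩
  refine core (σ.subrepresentation (R (σ a) ⊓ R (σ b)) iv)
    (dimRR σ ba.com.symm ha.pow hb.pow hd (h1 _ ha) (h1 _ hb) (d2 hb ha ba)) (fun c hc => ?_) fun g e e' => ?_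
  · exact (fx_restrict (iv c)).trans (Submodule.finrank_eq_zero.2 ((Submodule.eq_bot_iff _).2 fun v hv =>
      eq_zero (all c hc hv.1) (mem_fix.1 hv).2))
  · exact (fx_restrict (iv g)).trans_le ((fU_le _ _).1.trans_eq (h.thirteen g e e'))

end CL.E7m
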