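/-
Subgroups of `E₇(2)`: the configurations in `L₃(16)` and `G₂(8)`.
-/
import Cfsg.Agent.Inv.E7m0
import Cfsg.Agent.Fus.OmS10

set_option autoImplicit false

namespace CL.E7m

namespace AL

section L3

open Matrix Subgroup

variable {F : Type*} [Field F]

/-- A diagonal matrix of determinant one. -/
def dg (p q r : F) (h : p * q * r = 1) : Matrix.SpecialLinearGroup (Fin 3) F :=
  ⟨!![p, 0, 0; 0, q, 0; 0, 0, r], by simp [det_fin_three, h]⟩

/-- The matrix of a 3-cycle. -/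
def cy : Matrix.SpecialLinearGroup (Fin 3) F := ⟨!![0, 0, 1; 1, 0, 0; 0, 1, 0], by simp [det_fin_three]⟩

variable {p q r p' q' r' : F}

theorem dg_congr {h : p * q * r = 1} {h' : p' * q' * r' = 1} (h1 : p = p') (h2 : q = q') (h3 : r = r') :
    dg p q r h = dg p' q' r' h' := by subst h1 h2 h3; rfl

theorem dg_one {h : p * q * r = 1} (h1 : p = 1) (h2 : q = 1) (h3 : r = 1) : dg p q r h = 1 := by
  subst h1 h2 h3
  exact Subtype.ext (by ext i j; fin_cases i <;> fin_cases j <;> simp [dg])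

theorem dg_mul (h : p * q * r = 1) (h' : p' * q' * r' = 1) : dg p q r h * dg p' q' r' h' =
    dg (p * p') (q * q') (r * r') (by linear_combination (p' * q' * r') * h + h') :=
  Subtype.ext (show (dg p q r h).1 * (dg p' q' r' h').1 = _ by simp [dg])

theorem dg_pow (h : p * q * r = 1) (n : ℕ) :
    dg p q r h ^ n = dg (p ^ n) (q ^ n) (r ^ n) (by rw [← mul_pow, ← mul_pow, h, one_pow]) := by
  induction n with
  | zero => exact (dg_one (pow_zero _) (pow_zero _) (pow_zero _)).symm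
  | succ n ih => rw [pow_succ, ih, dg_mul]; exact dg_congr (pow_succ _ _).symm (pow_succ _ _).symm (pow_succ _ _).symm

theorem dg_comm (h : p * q * r = 1) (h' : p' * q' * r' = 1) : Commute (dg p q r h) (dg p' q' r' h') := by
  rw [Commute, SemiconjBy, dg_mul, dg_mul]
  exact dg_congr (mul_comm _ _) (mul_comm _ _) (mul_comm _ _)

theorem cy_dg (h : p * q * r = 1) : cy * dg p q r h = dg r p q (by linear_combination h) * cy :=
  Subtype.ext (show cy.1 * (dg p q r h).1 = (dg r p q _).1 * cy.1 by simp [dg, cy])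

theorem dg_center (h : p * p * p = 1) : dg p p p h ∈ center (Matrix.SpecialLinearGroup (Fin 3) F) :=
  Matrix.SpecialLinearGroup.mem_center_iff.2 ⟨p, by simpa [pow_succ] using h, by
    ext i j; fin_cases i <;> fin_cases j <;> simp [dg]⟩

theorem of_center {A : Matrix.SpecialLinearGroup (Fin 3) F} (hA : A ∈ center (Matrix.SpecialLinearGroup (Fin 3) F)) :
    A.1 0 0 = A.1 1 1 ∧ A.1 1 1 = A.1 2 2 ∧ A.1 1 2 = 0 := by
  obtain ⟨c, -, h⟩ := Matrix.SpecialLinearGroup.mem_center_iff.1 hA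
  rw [← h]; simp

/-- An element of order five in `SL₂(4)`. -/
def tt (ω : F) (h : ω ^ 2 = ω + 1) : Matrix.SpecialLinearGroup (Fin 3) F :=
  ⟨!![1, 0, 0; 0, 1, 1; 0, ω, ω ^ 2], by simp [det_fin_three, h]⟩

theorem tt_five {ω : F} (h : ω ^ 2 = ω + 1) (h2 : (2 : F) = 0) : tt ω h ^ 5 = 1 := by
  have e2 : (tt ω h).1 * (tt ω h).1 = !![1, 0, 0; 0, ω ^ 2, ω; 0, ω ^ 2, 0] := by
    ext i j; fin_cases i <;> fin_cases j <;> simp [tt, mul_apply, Fin.sum_univ_three] <;> grind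
  refine Subtype.ext ?_
  change (tt ω h).1 ^ 5 = 1
  rw [show 5 = 2 + 2 + 1 from rfl, pow_add, pow_add, pow_two, e2, pow_one]
  ext i j; fin_cases i <;> fin_cases j <;> simp [tt, mul_apply, Fin.sum_univ_three] <;> grind

theorem tt_dg {ω : F} (h : ω ^ 2 = ω + 1) (h2 : (2 : F) = 0) (h3 : 1 * ω * ω ^ 2 = 1) :
    (tt ω h * dg 1 ω (ω ^ 2) h3) ^ 2 = 1 := by
  refine Subtype.ext ?_
  change ((tt ω h).1 * (dg 1 ω (ω ^ 2) h3).1) ^ 2 = 1
  rw [pow_two]
  ext i j; fin_cases i <;> fin_cases j <;> simp [tt, dg, mul_apply, Fin.sum_univ_three] <;> grind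

end L3

section G2

open CL.Chev CL.OmS Function Equiv StSys

variable {ι Φ : Type} [Fintype ι] [DecidableEq ι] {R : RS ι Φ} {Ω : Type*} [Field Ω] {G : Type*} [Group G]
  {S : StSys R Ω G} [Finite Φ] [IsAlgClosed Ω] [Uncountable Ω] {A : S.FrobSys} {F G₀ : Type*} [Field F] [Fintype F]
  [Group G₀] {S₀ : StSys R F G₀}

theorem cg_split (P : A.Split S₀) (hk : Injective A.hMul.torus) (hw : ∀ i, R.w0 (R.simple i) = R.neg (R.simple i))
    (hF : Fintype.card F = 8) {r s : Φ} (h1 : R.pair r s = -1) (h2 : R.pair s r = -1) {i : ι}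
    (hi : ¬ 3 ∣ R.coroot s i - R.coroot r i) : CG28 G₀ := by
  obtain ⟨v, hv, v1, v2⟩ : ∃ v ∈ R.W, v r = s ∧ R.coroot (v s) = -(R.coroot r + R.coroot s) := by
    refine ⟨R.refl r * R.refl s, mul_mem (R.refl_mem_W r) (R.refl_mem_W s), R.root_inj ?_, ?_⟩
    · rw [Perm.mul_apply, RS.aut_root_comb (R.W_le_aut (R.refl_mem_W r)) (i := 1) (j := 1) (r := r) (s := s)
        (by rw [R.root_refl, h2]; simp), R.refl_self, R.root_neg, R.root_refl, h1]; simp
    · rw [Perm.mul_apply, R.refl_self, RS.aut_neg (R.W_le_aut (R.refl_mem_W r)), R.coroot_neg, R.coroot_refl, h2]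
      simp [add_comm]
  have hw0 := R.w0_mem_W
  have w1 : R.w0 * v * R.w0⁻¹ = v := mul_inv_eq_iff_eq_mul.2 (Equiv.ext fun k => by
    simp only [Perm.mul_apply, R.w0_eq_neg hw, RS.aut_neg (R.W_le_aut hv)])
  have w2 : ∀ c : ι → Ωˣ, R.tAct R.w0 c = c⁻¹ := fun c => funext fun k => by
    simp [RS.tAct_apply, hw, R.coroot_neg, R.coroot_simple, Pi.single_apply]
  generalize R.w0 = w at hw0 w1 w2
  have n1 := S.nW_mem_NW hv
  have n2 := S.nW_mem_NW hw0
  obtain ⟨d, hd⟩ := A.hMul.mem_H_iff.1 (NW_inv_mul_mem_H n1 (w1 ▸ NW_mul (NW_mul n2 n1) (NW_inv n2)))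
  obtain ⟨c, hc⟩ : ∃ c : ι → Ωˣ, c ^ 9 = d := by
    choose e he using fun i => IsAlgClosed.exists_pow_nat_eq (d i).1 (show 0 < 9 by norm_num)
    exact ⟨fun i => Units.mk0 (e i) fun h => by
      have := he i
      rw [h, zero_pow (by norm_num)] at this
      exact Units.ne_zero _ this.symm, funext fun i => Units.ext (he i)⟩
  have g1 : A.lift w * (S.nW v * A.hMul.torus c) * (A.lift w)⁻¹ ∈ A.Fix := by
    rw [A.mem_Fix, A.τ_conj_lift, map_mul, A.τ_torus, ← P.ψ_nW v, P.τ_ψ, P.ψ_nW, P.γτ_eq, hF]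
    congr 2
    have := A.hMul.conj_torus_of_induces (NW_induces n2) (c ^ 8)
    rw [w2, show (c ^ 8)⁻¹ = (c ^ 9)⁻¹ * c by group, hc, map_mul, map_inv, hd] at this
    calc _ = S.nW w * S.nW v * (S.nW w)⁻¹ * (S.nW w * A.hMul.torus (c ^ 8) * (S.nW w)⁻¹) := by group
      _ = _ := by rw [this]; group
  have n3 : (S.nW v * A.hMul.torus c, v) ∈ S.NW := by simpa using NW_mul n1 (S.mem_NW_of_mem_H (A.hMul.torus_mem_H c))
  generalize S.nW v * A.hMul.torus c = n at g1 n3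
  have g2 : ∀ z, A.lift w * n * (A.lift w)⁻¹ * A.emb w z * (A.lift w * n * (A.lift w)⁻¹)⁻¹ =
      A.emb w (R.tAct v z) := fun z => by
    rw [A.emb_apply, A.emb_apply, ← A.hMul.conj_torus_of_induces (NW_induces n3)]; group
  obtain ⟨ζ, hζ⟩ := exists_orderOf_units (Ω := Ω) (n := 9) (by
    have := P.cast_card
    rw [hF] at this
    rw [show 9 = 8 + 1 from rfl, Nat.cast_add, this]; simp)
  have g3 : ∀ k, cr R k ζ ^ 9 = 1 := fun k => by rw [← map_pow, ← hζ, pow_orderOf_eq_one, map_one]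
  have g4 : ∀ k, A.emb w (cr R k ζ) ∈ P.ψ.range := fun k => by
    rw [P.range_eq hk]
    refine A.emb_mem_Fix hw0 ?_
    rw [P.tw_eq, w2, hF, inv_pow, inv_eq_iff_mul_eq_one, ← pow_succ, g3]
  have g5 : ∀ k, R.tAct v (cr R k ζ) = cr R (v k) ζ := fun k =>
    (R.tAct_zpow _ ζ _).trans (by rw [← RS.coroot_aut (R.W_le_aut hv)]; rfl)
  obtain ⟨x, hx⟩ := g4 r
  obtain ⟨y, hy⟩ := g4 s
  obtain ⟨g, hg⟩ := (P.range_eq hk).ge g1
  refine ⟨x, y, g, P.inj ?_, P.inj ?_, P.inj ?_, P.inj ?_, fun e => hi ?_⟩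
  · rw [map_pow, hx, ← map_pow, g3, map_one, map_one]
  · rw [map_mul, map_mul, hx, hy, ← map_mul, ← map_mul, mul_comm]
  · rw [map_mul, map_mul, map_inv, hx, hy, hg, g2, g5, v1]
  · rw [map_mul, map_mul, map_inv, map_inv, map_mul, hx, hy, hg, g2, g5, ← map_mul, ← map_inv]
    congr 1
    funext k
    change ζ ^ R.coroot (v s) k = (ζ ^ R.coroot r k * ζ ^ R.coroot s k)⁻¹
    rw [v2, ← zpow_add, ← zpow_neg]; rfl
  · have h3 := congrArg P.ψ e
    rw [map_mul, map_pow, map_pow, hx, hy, ← map_pow (A.emb w), ← map_pow (A.emb w), ← map_mul, map_one, ← map_one (A.emb w),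
      A.emb_eq_iff, hk.eq_iff] at h3
    have h4 : (ζ ^ R.coroot r i) ^ 3 * (ζ ^ R.coroot s i) ^ 6 = 1 := congrFun h3 i
    rw [← zpow_natCast, ← zpow_natCast, ← zpow_mul, ← zpow_mul, ← zpow_add, ← orderOf_dvd_iff_zpow_eq_one, hζ] at h4
    push_cast at h4
    omega

end G2

end AL

open AL in
theorem cl316 {F : Type*} [Field F] [Fintype F] (hF : Fintype.card F = 16) :
    CL316 (Matrix.ProjectiveSpecialLinearGroup (Fin 3) F) := by
  classical
  have h2 : (2 : F) = 0 := by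
    have := FiniteField.cast_card_eq_zero F
    rw [hF] at this
    exact pow_eq_zero_iff (n := 4) (by norm_num) |>.1 (by rw [← this]; norm_num)
  have hu : Fintype.card Fˣ = 15 := by rw [Fintype.card_units, hF]
  have := Fact.mk Nat.prime_three
  have := Fact.mk Nat.prime_five
  obtain ⟨o, ho⟩ := exists_prime_orderOf_dvd_card (G := Fˣ) 3 (by rw [hu]; norm_num)
  obtain ⟨e, he⟩ := exists_prime_orderOf_dvd_card (G := Fˣ) 5 (by rw [hu]; norm_num)
  rw [← orderOf_units] at ho he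
  generalize (o : F) = ω at ho
  generalize (e : F) = a at he
  have o3 : ω ^ 3 = 1 := by rw [← ho, pow_orderOf_eq_one]
  have o1 : ω ≠ 1 := by rintro rfl; simp at ho
  have a5 : a ^ 5 = 1 := by rw [← he, pow_orderOf_eq_one]
  have a3 : a ^ 3 ≠ 1 := fun h => absurd (he ▸ orderOf_dvd_of_pow_eq_one h) (by norm_num)
  have hω : ω ^ 2 = ω + 1 := by
    have : (ω - 1) * (ω ^ 2 + ω + 1) = 0 := by linear_combination o3
    linear_combination (mul_eq_zero.1 this).resolve_left (sub_ne_zero.2 o1) - (ω + 1) * h2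
  let π : Matrix.SpecialLinearGroup (Fin 3) F →* Matrix.ProjectiveSpecialLinearGroup (Fin 3) F :=
    QuotientGroup.mk' _
  have hπ : ∀ g, π g = 1 ↔ g ∈ Subgroup.center _ := fun g => QuotientGroup.eq_one_iff g
  have dy : 1 * ω * ω ^ 2 = 1 := by linear_combination o3
  have du : a * a ^ 4 * 1 = 1 := by linear_combination a5
  have dv : 1 * a * a ^ 4 = 1 := by linear_combination a5
  refine ⟨π (dg _ _ _ dy), π cy, π (dg _ _ _ du), π (dg _ _ _ dv), π (tt ω hω), ?_, ?_, ?_, ?_, ?_,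
    (dg_comm _ _).map π, (dg_comm _ _).map π, ?_, ?_, ?_, ?_, ?_, ?_⟩
  · rw [← map_pow, dg_pow, dg_one (one_pow _) o3 (by rw [← pow_mul, mul_comm, pow_mul, o3, one_pow]), map_one]
  · exact fun h => o1 (of_center ((hπ _).1 h)).1.symm
  · rw [← map_pow, dg_pow, dg_one a5 (by rw [← pow_mul, mul_comm, pow_mul, a5, one_pow]) (one_pow _), map_one]
  · refine fun h => a3 ?_
    have h3 : a ^ 4 = 1 := (of_center ((hπ _).1 h)).2.1
    grind
  · rw [← map_pow, ← map_mul, dg_pow, dg_mul]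
    refine fun h => a3 ?_
    have h3 : a ^ 4 * a ^ 2 = 1 * (a ^ 4) ^ 2 := (of_center ((hπ _).1 h)).2.1
    grind
  · have dz : ω ^ 2 * ω ^ 2 * ω ^ 2 = 1 := by linear_combination (ω ^ 3 + 1) * o3
    rw [Commute, SemiconjBy, ← map_mul, ← map_mul, cy_dg, ← one_mul (π (dg 1 _ _ _ * cy)), ← (hπ _).2 (dg_center dz),
      ← map_mul, ← mul_assoc, dg_mul]
    congr 2
    exact dg_congr (mul_one _) (by linear_combination o3) (by linear_combination ω * o3)
  · rw [mul_inv_eq_iff_eq_mul, ← map_mul, ← map_mul, cy_dg]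
  · rw [← map_mul π cy, cy_dg, map_mul, mul_inv_cancel_right, eq_inv_iff_mul_eq_one, ← map_mul, ← map_mul, dg_mul,
      dg_mul, dg_one (by linear_combination a5) (by linear_combination a5) (by linear_combination a5), map_one]
  · rw [← map_pow, tt_five hω h2, map_one]
  · exact fun h => one_ne_zero (of_center ((hπ _).1 h)).2.2
  · rw [← map_mul, ← map_pow, tt_dg hω h2, map_one]

open CL.Chev CL.OmS Cfsg.Lie CL.Chev.Alg CL.Chev.Cert CL.Cox in
theorem cg28 {F : Type*} [Field F] [Fintype F] (hF : Fintype.card F = 8) : CG28 (Cfsg.Lie.chevG2.group F) := by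
  have hC := realG2.cartanM_eq.trans datCartan_G2
  obtain ⟨r, s, h1, h2, i, hi⟩ := (fun (R : RS (Fin 2) _) (hc : ∀ i j, R.cartan i j = cG2 i j) =>
    (show ∃ r s, R.pair r s = -1 ∧ R.pair s r = -1 ∧ ∃ i, ¬ 3 ∣ R.coroot s i - R.coroot r i from by
      have h1 : R.pair (R.simple 1) (R.sref 0 (R.simple 1)) = -1 := by
        rw [RS.pair, RS.root_sref, RS.pairv_sub_right, RS.pairv_smul_right]
        change R.pair _ _ - _ * R.pair _ _ = _
        simp [RS.pair_simple_simple, hc, cG2]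
      exact ⟨_, _, h1, by rw [← h1, ← R.pair_sref_sref 0, RS.sref_sref], 0, by
        simp [RS.coroot_sref, RS.pair_simple_simple, hc, cG2, RS.coroot_simple]⟩)) realG2.R (congrFun₂ hC)
  obtain ⟨A, ⟨Q⟩⟩ := realG2.exists_split (algebraMap F (Univ F))
  exact AL.cg_split Q ((MonoidHom.ker_eq_bot_iff _).1 (ker_torus_G2 _)) (w0_simple_G2 (R := realG2.R) hC) hF h1 h2 hi

end CL.E7m
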