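/-
Subgroups of `E₇(2)`: the basic data of the module of dimension `56`, and the final counting argument.
-/
import Cfsg.Agent.Inv.E7m0
import Cfsg.Agent.S1054
import Cfsg.Agent.S1064

set_option autoImplicit false

namespace CL.E7m

open Module CL.E8s Cfsg.Lie CL.Chev CL.AltEx Matrix Subgroup
open scoped Pointwise

theorem fin_simple : IsSimpleGroup GE := (Cfsg.Agent.S1054.result chevE7 (by simp)).1

theorem fin_card : Nat.card GE = 7997476042075799759100487262680802918400 := by
  have := Cfsg.Agent.S1064.result (F := ZMod 2) (q := 2) rfl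
  norm_num at this
  exact this

theorem fin_c1 : ∀ b : Fin 56, ∃ r ∈ [93, 78, 73, 69, 66, 64, 63, 32, 47, 52, 56, 59, 61, 62], ∃ a : Fin 56,
    ∀ i : Fin 7, w56 a i = w56 b i + 2 * Cert.auxE7.rt r i := by decide +kernel
theorem fin_c2 : ∀ a : Fin 56, ∃ b : Fin 56, ∀ i : Fin 7, w56 b i = -w56 a i := by decide +kernel
theorem fin_c3 : ∀ a b : Fin 56, (∀ i : Fin 7, w56 a i = w56 b i) → a = b := by decide +kernel

theorem fin_nofix {ρ : GE →* Matrix (Fin 56) (Fin 56) (ZMod 2)} (hρ : IsRho (ZMod 2) ρ) : ¬ HasFix (sig ρ) := by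
  rintro ⟨v, h0, hv⟩
  refine h0 (funext fun b => ?_)
  obtain ⟨r, hr, a, ha⟩ := fin_c1 b
  have hr' : r < chevE7.nroots := by
    show r < 126
    simp only [List.mem_cons, List.not_mem_nil, or_false] at hr
    omega
  have h1 := hv ((realE7.Sg (ZMod 2)).x ⟨r, hr'⟩ 1)
  rw [sig_apply, hρ, one_smul, add_mulVec, one_mulVec, add_eq_left] at h1
  have h2 := congrFun h1 a
  rw [mulVec, dotProduct, Finset.sum_eq_single b] at h2
  · simpa [eM, ha] using h2
  · intro c _ hc
    rw [eM, of_apply, if_neg, zero_mul]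
    exact fun e => hc (fin_c3 c b fun i => add_right_cancel ((e i).symm.trans (ha i)))
  · simp

theorem basic {ρ : GE →* Matrix (Fin 56) (Fin 56) (ZMod 2)} (hρ : IsRho (ZMod 2) ρ) :
    Basic (sig ρ) (adj chevE7 (ZMod 2)) ∧ Function.Injective ρ ∧ ¬ HasFix (sig ρ) := by
  have nf := fin_nofix hρ
  have hs := fin_simple
  have inj : Function.Injective ρ := (MonoidHom.ker_eq_bot_iff ρ).1 (ρ.normal_ker.eq_bot_or_eq_top.resolve_right
    fun e => nf ⟨1, one_ne_zero, fun g => by rw [sig_apply, (e.ge (mem_top g) : ρ g = 1), one_mulVec]⟩)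
  choose n hn using fin_c2
  have nn : Function.Involutive n := fun a => fin_c3 _ _ fun i => by rw [hn, hn, neg_neg]
  let P : Matrix (Fin 56) (Fin 56) (ZMod 2) := Matrix.of fun a b => if b = n a then 1 else 0
  have hP : ∀ v u, Matrix.toBilin' P v u = ∑ a, v a * u (n a) := fun v u => by
    simp [Matrix.toBilin'_apply, P]
  have sym : ∀ v u, Matrix.toBilin' P v u = Matrix.toBilin' P u v := fun v u => by
    rw [hP, hP, ← Equiv.sum_comp nn.toPerm]
    exact Finset.sum_congr rfl fun a _ => by rw [Function.Involutive.coe_toPerm, nn a, mul_comm]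
  have adjE : ∀ r v u, Matrix.toBilin' P (eM _ r *ᵥ v) u = Matrix.toBilin' P v (eM _ r *ᵥ u) := fun r v u => by
    simp only [hP, mulVec, dotProduct, Finset.sum_mul, Finset.mul_sum]
    rw [Finset.sum_comm]
    refine Finset.sum_congr rfl fun b _ => ?_
    rw [← Equiv.sum_comp nn.toPerm]
    refine Finset.sum_congr rfl fun a _ => ?_
    rw [Function.Involutive.coe_toPerm, nn a, mul_comm _ (v b), mul_assoc]
    simp only [eM, of_apply, hn]
    congr 3
    exact propext (forall_congr' fun i => ⟨fun e => by omega, fun e => by omega⟩)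
  refine ⟨⟨by rw [finrank_fintype_fun_eq_card, Fintype.card_fin],
    by rw [finrank_fintype_fun_eq_card, Fintype.card_sum, Fintype.card_fin, Fintype.card_fin]; rfl,
    (Matrix.toLinAlgEquiv' : Matrix (Fin 56) (Fin 56) (ZMod 2) ≃ₐ[ZMod 2] _).injective.comp inj,
    Matrix.toBilin' P, sym, fun v h => funext fun a => ?_, fun g => ?_⟩, inj, nf⟩
  · have := h (Pi.single (n a) 1)
    rw [hP, Finset.sum_eq_single a] at this
    · simpa using this
    · intro b _ hb
      rw [Pi.single_eq_of_ne (nn.injective.ne hb), mul_zero]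
    · simp
  · let K : Subgroup GE :=
      { carrier := {g | ∀ v w, Matrix.toBilin' P (sig ρ g v) (sig ρ g w) = Matrix.toBilin' P v w}
        one_mem' := fun v w => by rw [map_one]; rfl
        mul_mem' := fun {a b} h h' v w => by rw [map_mul, Module.End.mul_apply, Module.End.mul_apply, h, h']
        inv_mem' := fun {a} h v w => by
          rw [← h, ← Module.End.mul_apply, ← Module.End.mul_apply, ← map_mul, mul_inv_cancel, map_one]; rfl }
    refine ((realE7.full (ZMod 2)).top.ge.trans ((realE7.Sg (ZMod 2)).XS_le_iff.2 fun r _ t v w => ?_) : ⊤ ≤ K)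
      (mem_top g)
    have two : ∀ x : ZMod 2, x + x = 0 := by decide
    have e : eM (ZMod 2) r * eM (ZMod 2) r = 0 := by
      have h1 := congrArg ρ ((realE7.Sg (ZMod 2)).x_add r 1 1)
      rw [two, (realE7.Sg (ZMod 2)).x_zero, map_one, map_mul, hρ, one_smul, add_mul, one_mul, mul_add, mul_one,
        add_assoc, ← add_assoc (eM _ _), show eM (ZMod 2) r + eM (ZMod 2) r = 0 from Matrix.ext fun _ _ => two _,
        zero_add] at h1
      exact (add_eq_left.1 h1.symm)
    simp only [sig_apply, hρ r t, add_mulVec, one_mulVec, smul_mulVec, map_add, map_smul, LinearMap.add_apply,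
      LinearMap.smul_apply, adjE, mulVec_mulVec, e, zero_mulVec, map_zero, smul_zero, add_zero]
    rw [add_assoc, two, add_zero]

theorem fin_gen {G V : Type*} [Group G] [Finite G] [IsSimpleGroup G] [AddCommGroup V] [Finite V] [DistribMulAction G V]
    (h2 : ∀ v : V, v + v = 0) (nf : ∀ v : V, (∀ g : G, g • v = v) → v = 0) (hG : 6 < Nat.card G) (H : Subgroup G)
    (hH : IsCoatom H) (L : Subgroup H) [L.Normal] {v : V} (h0 : v ≠ 0) (hv : ∀ g : H, g ∈ L → g • v = v)
    (hi : L.index ∣ 12) : H.index ≤ Nat.card V ∨ ¬ L.index ∣ 4 ∧ H.index ≤ Nat.card V * Nat.card V := by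
  have fixv : ∀ u : V, u ≠ 0 → (∀ g : H, g • u = u) → H.index ≤ Nat.card V := fun u hu h => by
    have e : MulAction.stabilizer G u = H := ((hH.le_iff.1 fun g hg => h ⟨g, hg⟩).resolve_left fun e =>
      hu (nf u fun g => e.ge (mem_top g)))
    rw [← e, MulAction.index_stabilizer]
    exact Set.ncard_le_card _
  let W : SubMulAction H V := ⟨{v | ∀ g : H, g ∈ L → g • v = v}, fun h v hv g hg => by
    rw [← mul_smul, show g * h = h * (h⁻¹ * g * h⁻¹⁻¹) by group, mul_smul, hv _ (Normal.conj_mem ‹_› g hg _)]⟩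
  let W' : AddSubgroup V := ⟨⟨⟨{v | ∀ g : H, g ∈ L → g • v = v}, fun h h' g hg => by rw [smul_add, h g hg, h' g hg]⟩,
    fun g _ => smul_zero g⟩, fun h g hg => by rw [smul_neg, h g hg]⟩
  have hW : 2 ∣ Nat.card W := by
    have := W'.addOrderOf_dvd_natCard (show v ∈ W' from hv)
    rwa [addOrderOf_eq_prime (by rw [two_nsmul, h2]) h0] at this
  obtain ⟨P⟩ : Nonempty (Sylow 2 H) := inferInstance
  obtain ⟨a, ha, a0⟩ := P.isPGroup'.exists_fixed_point_of_prime_dvd_card_of_fixed_point W hW
    (a := ⟨0, fun g _ => smul_zero g⟩) fun g => Subtype.ext (smul_zero g)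
  have a1 : (a : V) ≠ 0 := fun e => a0 (Subtype.ext e.symm)
  have i1 : (MulAction.stabilizer H (a : V)).index ∣ L.index := index_dvd_of_le a.2
  have i2 : ¬ 2 ∣ (MulAction.stabilizer H (a : V)).index := fun e => P.not_dvd_index (e.trans (index_dvd_of_le
    fun g hg => congrArg Subtype.val (ha ⟨g, hg⟩)))
  have i3 : (MulAction.stabilizer H (a : V)).index = 1 ∨ (MulAction.stabilizer H (a : V)).index = 3 := by
    have h1 := i1.trans hi
    have h3 := Nat.le_of_dvd (by decide) h1
    generalize (MulAction.stabilizer H (a : V)).index = k at *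
    interval_cases k <;> omega
  rcases i3 with i3 | i3
  · exact Or.inl (fixv a a1 fun g => (index_eq_one.1 i3).ge (mem_top g))
  have i4 : ¬ L.index ∣ 4 := fun e => absurd (i3 ▸ i1.trans e) (by decide)
  rw [MulAction.index_stabilizer] at i3
  obtain ⟨x, y, z, xy, xz, yz, hO⟩ := Set.ncard_eq_three.1 i3
  have st : H ≤ MulAction.stabilizer G ({x, y, z} : Set V) := fun g hg => hO ▸ MulAction.smul_orbit (⟨g, hg⟩ : H) (a : V)
  have mv : ∀ g ∈ MulAction.stabilizer G ({x, y, z} : Set V), ∀ p ∈ ({x, y, z} : Set V), g • p ∈ ({x, y, z} : Set V) :=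
    fun g hg p hp => (MulAction.mem_stabilizer_iff.1 hg).le (Set.smul_mem_smul_set hp)
  by_cases hu : x + y + z = 0
  · refine Or.inr ⟨i4, ?_⟩
    have e : MulAction.stabilizer G ({x, y, z} : Set V) = H := (hH.le_iff.1 st).resolve_left fun e => by
      have h1 : (MulAction.stabilizer G (a : V)).index ≤ 3 := by
        rw [MulAction.index_stabilizer, ← i3, hO]
        refine Set.ncard_le_ncard ?_
        rintro _ ⟨g, rfl⟩
        exact mv g (e.ge (mem_top g)) _ (hO ▸ MulAction.mem_orbit_self _)
      have h3 : (MulAction.stabilizer G (a : V)).normalCore = ⊥ := (normalCore_normal _).eq_bot_or_eq_top.resolve_right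
        fun e => a1 (nf a fun g => normalCore_le _ (e.ge (mem_top g)))
      rw [normalCore_eq_ker, MonoidHom.ker_eq_bot_iff] at h3
      have h4 := Nat.card_le_card_of_injective _ h3
      rw [Nat.card_perm] at h4
      have h5 := Nat.factorial_le h1
      exact absurd (h4.trans h5) (by simpa [Nat.factorial] using hG)
    rw [← e, MulAction.index_stabilizer, ← Nat.card_prod, ← Set.ncard_univ]
    refine (Set.ncard_le_ncard ?_).trans (Set.ncard_image_le (f := fun p : V × V => ({p.1, p.2, p.1 + p.2} : Set V)))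
    rintro _ ⟨g, rfl⟩
    refine ⟨(g • x, g • y), trivial, ?_⟩
    simp only [Set.smul_set_insert, Set.smul_set_singleton]
    rw [← smul_add, eq_neg_of_add_eq_zero_left hu, neg_eq_of_add_eq_zero_left (h2 z)]
  · refine Or.inl (fixv _ hu fun g => ?_)
    have h1 := mv g (st g.2) x (by simp)
    have h3 := mv g (st g.2) y (by simp)
    have h4 := mv g (st g.2) z (by simp)
    have e1 : (g : G) • x ≠ (g : G) • y := (MulAction.injective (g : G)).ne xy
    have e2 : (g : G) • x ≠ (g : G) • z := (MulAction.injective (g : G)).ne xz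
    have e3 : (g : G) • y ≠ (g : G) • z := (MulAction.injective (g : G)).ne yz
    show (g : G) • (x + y + z) = _
    rw [smul_add, smul_add]
    generalize (g : G) • x = p, (g : G) • y = q, (g : G) • z = r at *
    rcases h1 with rfl | rfl | rfl <;> rcases h3 with rfl | rfl | rfl <;> rcases h4 with rfl | rfl | rfl <;>
      first | contradiction | abel

theorem final {σ : Representation (ZMod 2) GE (Fin 56 → ZMod 2)} (h : Top σ) (H : Subgroup GE) (hH : IsCoatom H)
    (L : Subgroup H) [L.Normal] (hL : ∃ v, v ≠ 0 ∧ ∀ g : H, g ∈ L → σ g v = v)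
    (hi : L.index ∣ 12 ∧ Nat.card L ≤ 10 ^ 5 ∨ L.index ∣ 4 ∧ Nat.card L ≤ 10 ^ 9) : False := by
  have hs := fin_simple
  have hc := fin_card
  have : Finite GE := Nat.finite_of_card_ne_zero (by rw [hc]; decide)
  let : DistribMulAction GE (Fin 56 → ZMod 2) := DistribMulAction.compHom _ σ
  obtain ⟨v, h0, hv⟩ := hL
  have two : ∀ x : ZMod 2, x + x = 0 := by decide
  have i1 : L.index ∣ 12 := hi.elim And.left fun e => e.1.trans (by decide)
  have key := fin_gen (V := Fin 56 → ZMod 2) (fun v => funext fun i => two _) (fun v e => by_contra fun e' => h.nofix ⟨v, e', e⟩)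
    (by rw [hc]; decide) H hH L h0 hv i1
  have e1 := H.card_mul_index
  rw [← L.card_mul_index, hc] at e1
  rw [show Nat.card (Fin 56 → ZMod 2) = 2 ^ 56 by simp] at key
  have i2 := Nat.le_of_dvd (by decide) i1
  rcases key with k | ⟨k1, k⟩
  · have := Nat.mul_le_mul (Nat.mul_le_mul (show Nat.card L ≤ 10 ^ 9 by omega) i2) k
    rw [e1] at this
    exact absurd this (by decide)
  · have := Nat.mul_le_mul (Nat.mul_le_mul (hi.resolve_right fun e => k1 e.1).2 i2) k
    rw [e1] at this
    exact absurd this (by decide)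

end CL.E7m
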