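/-
Subgroups of `E₇(2)`: a subgroup `L₂(27)` fixes a nonzero vector of the module of dimension `56`.
-/
import Cfsg.Agent.Inv.E7m2
import Cfsg.Agent.Cls.SLnBasic

set_option autoImplicit false
set_option linter.unusedSectionVars false

namespace CL.E7m

open Module CL.E8s Finset Matrix MatrixGroups

namespace L27

variable {F : Type*} [Field F]

/-- The upper transvections. -/
def u : Multiplicative F →* SL(2, F) := MonoidHom.mk' (fun c => ⟨!![1, c.toAdd; 0, 1], by simp⟩) fun a b =>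
  Subtype.ext (show _ = !![1, a.toAdd; 0, 1] * !![1, b.toAdd; 0, 1] by simp [add_comm])

/-- The diagonal elements. -/
def d : Fˣ →* SL(2, F) := MonoidHom.mk' (fun a => ⟨!![a.1, 0; 0, a.1⁻¹], by simp⟩) fun a b =>
  Subtype.ext (show _ = !![a.1, 0; 0, a.1⁻¹] * !![b.1, 0; 0, b.1⁻¹] by simp [mul_comm])

/-- The Weyl element. -/
def t : SL(2, F) := ⟨!![0, 1; -1, 0], by simp⟩

theorem uv (c : Multiplicative F) : (u c).1 = !![1, c.toAdd; 0, 1] := rfl
theorem dv (a : Fˣ) : (d a).1 = !![a.1, 0; 0, a.1⁻¹] := rfl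
theorem tv : (t : SL(2, F)).1 = !![0, 1; -1, 0] := rfl
theorem mv (a b : SL(2, F)) : (a * b).1 = a.1 * b.1 := rfl

theorem d_u (a : Fˣ) (c : F) : d a * u (.ofAdd c) = u (.ofAdd (a.1 ^ 2 * c)) * d a :=
  Subtype.ext (by rw [mv, mv, uv, uv, dv]; simp; field_simp)

theorem t_d (a : Fˣ) : t * d a = d a⁻¹ * t := Subtype.ext (by rw [mv, mv, tv, dv, dv]; simp)

theorem t_t : (t * t : SL(2, F)) = d (-1) := Subtype.ext (by rw [mv, tv, dv]; simp)

theorem tut (c : Fˣ) : t * (u (.ofAdd c.1) * t) = u (.ofAdd (-c.1⁻¹)) * (t * (d (-c) * u (.ofAdd (-c.1⁻¹)))) :=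
  Subtype.ext (by rw [mv, mv, mv, mv, mv, tv, uv, uv, dv]; simp)

theorem gen (H : Subgroup SL(2, F)) (h1 : ∀ c, u c ∈ H) (h2 : ∀ c, t * u c * t⁻¹ ∈ H) : H = ⊤ := by
  refine CL.SLn.eq_top_of_transvection_mem H fun i j hij c => ?_
  fin_cases i <;> fin_cases j
  · exact absurd rfl hij
  · convert h1 (.ofAdd c) using 1
    exact Subtype.ext (by
      rw [uv]; ext i j; fin_cases i <;> fin_cases j <;> simp [SpecialLinearGroup.transvection_coe])
  · convert h2 (.ofAdd (-c)) using 1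
    refine eq_mul_inv_of_mul_eq (Subtype.ext ?_)
    rw [mv, mv, tv, uv]
    ext i j; fin_cases i <;> fin_cases j <;>
      simp [SpecialLinearGroup.transvection_coe, Matrix.mul_apply, Fin.sum_univ_two]
  · exact absurd rfl hij

theorem neg_mem : (d (-1) : SL(2, F)) ∈ Subgroup.center SL(2, F) := Subgroup.mem_center_iff.2 fun g =>
  Subtype.ext (by
    rw [mv, mv, dv]; ext i j; fin_cases i <;> fin_cases j <;> simp [Matrix.mul_apply, Fin.sum_univ_two])

theorem u_not_mem : (u (.ofAdd 1) : SL(2, F)) ∉ Subgroup.center SL(2, F) := fun h => by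
  have := congrArg (fun x : SL(2, F) => x.1 0 0) (Subgroup.mem_center_iff.1 h t)
  simp only [mv, uv, tv] at this
  simp at this

theorem d_not_mem {a : Fˣ} (ha : a ^ 2 ≠ 1) : d a ∉ Subgroup.center SL(2, F) := fun h => ha (by
  have := congrArg (fun x : SL(2, F) => x.1 0 1) (Subgroup.mem_center_iff.1 h (u (.ofAdd 1)))
  simp only [mv, uv, dv] at this
  simp at this
  exact Units.ext (by rw [Units.val_pow_eq_pow_val, sq]; nth_rw 1 [← this]; simp))

variable [Fintype F] (hF : Fintype.card F = 27)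
include hF

theorem three : (3 : F) = 0 := by
  have := FiniteField.cast_card_eq_zero F
  rw [hF, show (27 : ℕ) = 3 ^ 3 from rfl, Nat.cast_pow] at this
  exact_mod_cast pow_eq_zero_iff (by decide) |>.1 this

theorem p13 (a : Fˣ) : a ^ 13 = 1 ∨ a ^ 13 = -1 := by
  classical
  have := pow_card_eq_one (x := a)
  rw [Fintype.card_units, hF, show 27 - 1 = 13 * 2 from rfl, pow_mul, Units.ext_iff, Units.val_pow_eq_pow_val,
    Units.val_one, sq_eq_one_iff] at this
  simpa [Units.ext_iff] using this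

theorem u3 (c : Multiplicative F) : c ^ 3 = 1 :=
  Multiplicative.toAdd.injective (by simp [three hF])

theorem ex : ∃ a : Fˣ, a ^ 2 ≠ 1 := by
  classical
  obtain ⟨a, ha⟩ := IsCyclic.exists_ofOrder_eq_natCard (α := Fˣ)
  rw [Nat.card_eq_fintype_card, Fintype.card_units, hF] at ha
  exact ⟨a, fun e => absurd (ha ▸ orderOf_dvd_of_pow_eq_one e) (by decide)⟩

variable {V : Type*} [AddCommGroup V] [Module (ZMod 2) V] [FiniteDimensional (ZMod 2) V]
  {ρ : Representation (ZMod 2) SL(2, F) V} (hm : ρ (d (-1)) = 1)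

theorem dimA (hV : finrank (ZMod 2) V = 56) (h3 : fx (ρ (u (.ofAdd 1))) ∈ [32, 2, 14, 20]) :
    finrank (ZMod 2) (fixS (ρ.comp u) ⊤) = 4 := by
  classical
  have h1 := g1 (p := 2) Nat.prime_three (by decide) (ρ.comp u) (u3 hF)
  have h2 : ∀ c ∈ univ.erase (1 : Multiplicative F), fx ((ρ.comp u) c) = fx (ρ (u (.ofAdd 1))) := fun c hc => by
    obtain ⟨a, ha⟩ : ∃ a : Fˣ, a.1 = c.toAdd := ⟨Units.mk0 _ fun e => ne_of_mem_erase hc e, rfl⟩
    have e := d_u (a ^ 7) (1 : F)
    rw [← fx_conj ρ _ (d (a ^ 7)), e, mul_inv_cancel_right, mul_one, ← Units.val_pow_eq_pow_val, ← pow_mul,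
      show 7 * 2 = 13 + 1 from rfl, pow_succ]
    rcases p13 hF a with e | e
    · rw [e, one_mul, ha]; rfl
    · rw [e, ← fx_inv, neg_one_mul, Units.val_neg, ha]; rfl
  rw [← add_sum_erase _ _ (mem_univ 1), sum_congr rfl h2, sum_const, card_erase_of_mem (mem_univ _), card_univ,
    Fintype.card_multiplicative, hF, map_one, hV, smul_eq_mul, fx, sub_self, LinearMap.ker_zero, finrank_top, hV] at h1
  simp only [List.mem_cons, List.not_mem_nil, or_false] at h3
  omega

include hm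

theorem d13 (a : Fˣ) : ρ (d a) ^ 13 = 1 := by
  rw [← map_pow, ← map_pow]
  rcases p13 hF a with e | e <;> rw [e]
  exacts [by rw [map_one, map_one], hm]

theorem dfix (hA : finrank (ZMod 2) (fixS (ρ.comp u) ⊤) = 4) (a : Fˣ) {v : V} (hv : v ∈ fixS (ρ.comp u) ⊤) :
    ρ (d a) v = v := by
  have h1 := modp (p := 13) (by decide) (U := fixS (ρ.comp u) ⊤) (x := ρ (d a)) (fun v hv c _ => by
    have e := d_u a ((a.1 ^ 2)⁻¹ * c.toAdd)
    rw [mul_inv_cancel_left₀ (pow_ne_zero _ a.ne_zero)] at e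
    change ρ (u (.ofAdd c.toAdd)) _ = _
    rw [← rep_mul, ← e, rep_mul]
    exact congrArg _ (hv _ trivial)) fun v _ => by rw [d13 hF hm, End.one_apply]
  have h2 := (fU_le (fixS (ρ.comp u) ⊤) (ρ (d a))).2
  rw [hA] at h1 h2
  have h3 : fU (fixS (ρ.comp u) ⊤) (ρ (d a)) = 4 := by
    generalize fU (fixS (ρ.comp u) ⊤) (ρ (d a)) = n at h1 h2
    interval_cases n <;> first | rfl | exact absurd h1 (by decide)
  exact (mem_fix.1 ((Submodule.eq_of_le_of_finrank_eq inf_le_left (h3.trans hA.symm)).ge hv)).2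

theorem sfix (hA : finrank (ZMod 2) (fixS (ρ.comp u) ⊤) = 4) {v : V} (hv : v ∈ fixS (ρ.comp u) ⊤) (g : SL(2, F)) :
    ρ g (v + ∑ c, ρ (u c) (ρ t v)) = v + ∑ c, ρ (u c) (ρ t v) := by
  classical
  have h1 : ∀ b, ρ (u b) (v + ∑ c, ρ (u c) (ρ t v)) = v + ∑ c, ρ (u c) (ρ t v) := fun b => by
    rw [map_add, map_sum, show ρ (u b) v = v from hv b trivial]
    exact congrArg _ (Fintype.sum_equiv (Equiv.mulLeft b) _ _ fun c => by simp)
  have h2 : ρ t (v + ∑ c, ρ (u c) (ρ t v)) = v + ∑ c, ρ (u c) (ρ t v) := by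
    let e : Multiplicative F ≃ Multiplicative F := Function.Involutive.toPerm (fun c => .ofAdd (-c.toAdd⁻¹))
      fun c => by simp
    have h3 : ∀ c ∈ univ.erase (1 : Multiplicative F), ρ t (ρ (u c) (ρ t v)) = ρ (u (e c)) (ρ t v) := fun c hc => by
      obtain ⟨a, rfl⟩ : ∃ a : Fˣ, .ofAdd a.1 = c := ⟨Units.mk0 c.toAdd fun e => ne_of_mem_erase hc e, rfl⟩
      rw [← rep_mul ρ (u _), ← rep_mul, tut, rep_mul, rep_mul, rep_mul, show ρ (u _) v = v from hv _ trivial,
        dfix hF hm hA _ hv]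
      rfl
    conv_rhs => rw [← e.sum_comp, ← add_sum_erase _ _ (mem_univ 1), ← sum_congr rfl h3]
    rw [map_add, map_sum, ← add_sum_erase _ _ (mem_univ 1), show e 1 = 1 by simp [e], map_one, map_one,
      End.one_apply, ← rep_mul, t_t, hm, End.one_apply, add_left_comm]
  have h3 : ∀ {S : Set SL(2, F)} {z : V}, (∀ g ∈ S, ρ g z = z) → ∀ g ∈ Subgroup.closure S, ρ g z = z :=
    fun h => mem_fixS_closure.2 h
  have h4 : ∀ c, u c ∈ Subgroup.closure (insert t (Set.range (u (F := F)))) := fun c =>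
    Subgroup.subset_closure (.inr ⟨c, rfl⟩)
  have h5 : t ∈ Subgroup.closure (insert t (Set.range (u (F := F)))) := Subgroup.subset_closure (.inl rfl)
  refine h3 ?_ g ((gen _ h4 fun c => mul_mem (mul_mem h5 (h4 c)) (inv_mem h5)).ge trivial)
  rintro _ (rfl | ⟨c, rfl⟩)
  exacts [h2, h1 c]

theorem core (hA : finrank (ZMod 2) (fixS (ρ.comp u) ⊤) = 4) {a : Fˣ} (ha : fx (ρ (d a)) = 8)
    {B : LinearMap.BilinForm (ZMod 2) V} (b1 : ∀ v w, B v w = B w v) (b2 : ∀ v, (∀ w, B v w = 0) → v = 0)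
    (b3 : ∀ g v w, B (ρ g v) (ρ g w) = B v w) : HasFix ρ := by
  classical
  by_contra h0
  have h1 : ∀ v, (∀ g, ρ g v = v) → v = 0 := fun v hv => by_contra fun e => h0 ⟨v, e, hv⟩
  set A := fixS (ρ.comp u) ⊤ with hA'
  have tt : ∀ v, ρ t (ρ t v) = v := fun v => by rw [← rep_mul, t_t, hm, End.one_apply]
  have b4 : ∀ g v w, ρ g w = w → B (ρ g v) w = B v w := fun g v w e => by rw [← b3 g v w, e]
  have h2 : A ⊓ A.map (ρ t) = ⊥ := eq_bot_iff.2 fun v ⟨hv, w, hw, e⟩ => h1 v fun g => by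
    refine (mem_fixS_closure (S := Set.range u ∪ Set.range fun c => t * u c * t⁻¹)).2 ?_ g
      ((gen _ (fun c => Subgroup.subset_closure (.inl ⟨c, rfl⟩)) fun c => Subgroup.subset_closure (.inr ⟨c, rfl⟩)).ge
        trivial)
    rintro _ (⟨c, rfl⟩ | ⟨c, rfl⟩)
    · exact hv c trivial
    · rw [← e, ← rep_mul, inv_mul_cancel_right, rep_mul]
      exact congrArg _ (hw c trivial)
  have h3 : A ⊔ A.map (ρ t) ≤ LinearMap.ker (ρ (d a) - 1) := sup_le (fun v hv => mem_ker.2 (dfix hF hm hA a hv)) (by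
    rintro _ ⟨v, hv, rfl⟩
    rw [mem_ker, ← rep_mul, ← inv_inv a, ← t_d, rep_mul, dfix hF hm hA _ hv])
  have h4 := Submodule.finrank_sup_add_finrank_inf_eq A (A.map (ρ t))
  rw [h2, finrank_bot, add_zero, ← LinearEquiv.finrank_eq (Submodule.equivMapOfInjective (ρ t)
    (Function.LeftInverse.injective tt) A), hA] at h4
  have h5 := Submodule.eq_of_le_of_finrank_eq h3 (h4.trans ha.symm)
  have h6 : ∀ v ∈ A, ∀ w ∈ A, B (v + ρ t v) w = 0 := fun v hv w hw => by
    have e := congrArg (B · w) (h1 _ (sfix hF hm hA hv))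
    simp only [map_add, map_sum, LinearMap.add_apply, LinearMap.sum_apply, map_zero, LinearMap.zero_apply] at e
    rw [sum_congr rfl fun c _ => b4 (u c) _ w (hw c trivial), sum_const, card_univ, Fintype.card_multiplicative, hF,
      odd_smul (by decide)] at e
    rw [map_add, LinearMap.add_apply, e]
  have h7 : A = ⊥ := eq_bot_iff.2 fun v hv => by
    have hz : ρ (d a) (v + ρ t v) = v + ρ t v :=
      mem_ker.1 (h3 (Submodule.add_mem_sup hv ⟨v, hv, rfl⟩))
    have e1 : ∀ w ∈ LinearMap.ker (ρ (d a) - 1), B (v + ρ t v) w = 0 := fun w hw => by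
      obtain ⟨x, hx, _, ⟨y, hy, rfl⟩, rfl⟩ := Submodule.mem_sup.1 (h5.ge hw)
      rw [map_add, h6 v hv x hx, zero_add, ← b3 t, tt, map_add, tt, add_comm, h6 v hv y hy]
    have e2 : v + ρ t v = 0 := b2 _ fun y => by
      have e3 := e1 (∑ i ∈ range 13, (ρ (d a) ^ i) y) (mem_ker.2 (by
        have := sum_range_succ (fun i => (ρ (d a) ^ i) y) 13
        rw [sum_range_succ', d13 hF hm, pow_zero, add_left_inj] at this
        rw [map_sum, ← this]
        exact sum_congr rfl fun i _ => by rw [pow_succ', End.mul_apply]))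
      rw [map_sum, sum_congr rfl fun i _ => by rw [b1, ← map_pow, b4 _ _ _ (by rw [map_pow, pow_fix hz])], sum_const,
        card_range, odd_smul (by decide)] at e3
      rw [b1, e3]
    exact h2.le ⟨hv, v, hv, by rw [← add_right_inj v, e2, add_self]⟩
  rw [h7, finrank_bot] at hA
  exact absurd hA (by decide)

end L27

theorem fixL27 {F : Type*} [Field F] [Fintype F] (hF : Fintype.card F = 27) {V W : Type*} [AddCommGroup V]
    [Module (ZMod 2) V] [AddCommGroup W] [Module (ZMod 2) W]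
    {σ : Representation (ZMod 2) (Matrix.ProjectiveSpecialLinearGroup (Fin 2) F) V}
    {τ : Representation (ZMod 2) (Matrix.ProjectiveSpecialLinearGroup (Fin 2) F) W} (h : Good σ τ) : HasFix σ := by
  have := h.finV
  let π : SL(2, F) →* Matrix.ProjectiveSpecialLinearGroup (Fin 2) F := QuotientGroup.mk' _
  have e : ∀ g, π g = 1 ↔ g ∈ Subgroup.center SL(2, F) := QuotientGroup.eq_one_iff
  have hm : (σ.comp π) (L27.d (-1)) = 1 := by rw [MonoidHom.comp_apply, (e _).2 L27.neg_mem, map_one]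
  obtain ⟨a, ha⟩ := L27.ex hF
  obtain ⟨B, b1, b2, b3⟩ := h.form
  have h3 := h.three (π (L27.u (.ofAdd 1))) (by rw [← map_pow, ← map_pow, L27.u3 hF, map_one, map_one])
    (mt (e _).1 L27.u_not_mem)
  obtain ⟨v, h1, h2⟩ := L27.core hF hm (L27.dimA hF h.dimV (by
    simp only [tab3, List.mem_cons, Prod.mk.injEq, List.not_mem_nil, or_false, MonoidHom.comp_apply] at h3 ⊢
    tauto)) (h.thirteen (π (L27.d a)) (h.inj (by rw [map_pow, map_one]; exact L27.d13 hF hm a))
      (mt (e _).1 (L27.d_not_mem ha))) b1 b2 fun g => b3 (π g)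
  exact ⟨v, h1, fun g => by obtain ⟨g, rfl⟩ := QuotientGroup.mk'_surjective _ g; exact h2 g⟩

end CL.E7m
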