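/-
Subgroups of `E₇(2)`: the configurations in `L₂(19)`, `L₃(4)`, `L₄(3)` and `U₃(4)`.
-/
import Cfsg.Agent.Inv.E7mPA1

set_option autoImplicit false

namespace CL.E7m

theorem t255_L219 {F : Type*} [Field F] [Fintype F] (hF : Fintype.card F = 19) :
    T255 (Matrix.ProjectiveSpecialLinearGroup (Fin 2) F) := PA.t255_equiv PA.L219.main (Std.L219.iso hF).some

theorem t255_L34 {F : Type*} [Field F] [Fintype F] (hF : Fintype.card F = 4) :
    T255 (Matrix.ProjectiveSpecialLinearGroup (Fin 3) F) := PA.t255_equiv PA.L34.main (Std.L34.iso hF).some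

theorem t255_L43 : T255 (Matrix.ProjectiveSpecialLinearGroup (Fin 4) (ZMod 3)) :=
  PA.t255_equiv PA.L43.main (Std.L43.iso (ZMod.card 3)).some

theorem cu34 {F : Type*} [Field F] [Fintype F] (hF : Fintype.card F = 16) : CU34 (Cfsg.PSU 3 F 4) :=
  PA.cu34_equiv PA.U34.main (Std.U34.iso hF).some

end CL.E7m
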