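/-
Subgroups of `E₇(2)`: configurations from relations between words.
-/
import Cfsg.Agent.Inv.E7m0
import Cfsg.Agent.Spor.PGCtx

set_option autoImplicit false

namespace CL.E7m.PA

open Subgroup CL.PG

variable {G : Type*} [Group G] {gs : List G} {l : List (List ℕ)} {m : ℕ}

theorem clos {x y : ℕ} (ub : UB (subW gs l) m) (lb : LB (subW gs [[x], [y]]) m) (hx : letG gs x ∈ subW gs l)
    (hy : letG gs y ∈ subW gs l) : closure {(⟨_, hx⟩ : subW gs l), ⟨_, hy⟩} = ⊤ := by
  have e := ub.eq_of_lb lb (subW_le.2 (by simp [hx, hy]))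
  rw [← map_subtype_inj, MonoidHom.map_closure, ← MonoidHom.range_eq_map, range_subtype]
  refine Eq.trans (congrArg Subgroup.closure (Set.ext fun g => ?_)) e
  simp [eq_comm]

/-- the relations of a `(2, 5, 5)`-triple -/
def R255 (x y : ℕ) : List (List ℕ × List ℕ) :=
  [([x, x], []), ([y, y, y, y, y], []), ([x, y, x, y, x, y, x, y, x, y], [])]

theorem t255_of {x y : ℕ} (ub : UB (subW gs l) m) (lb : LB (subW gs [[x], [y]]) m)
    (le : subW gs [[x], [y]] ≤ subW gs l) (R : Rels gs (R255 x y)) (n1 : wordG gs [y] ≠ 1) (n2 : wordG gs [x, y] ≠ 1) :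
    T255 (subW gs l) := by
  have k := subW_le.1 le
  simp only [Rels, R255, List.forall_mem_cons, wordG_cons, wordG_nil, mul_one] at R k n1 n2
  exact ⟨⟨_, k.1⟩, ⟨_, k.2.1⟩, Subtype.ext (by simpa [pow_succ] using R.1),
    Subtype.ext (by simpa [pow_succ, mul_assoc] using R.2.1), Subtype.ext (by simpa [pow_succ, mul_assoc] using R.2.2.1),
    fun e => n1 (congrArg Subtype.val e), fun e => n2 (congrArg Subtype.val e), clos ub lb _ _⟩

/-- the relations of the configuration in `U₃(4)` -/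
def R34 (x z a s t g : ℕ) : List (List ℕ × List ℕ) :=
  [([x, x], []), ([x, z, x, z, x, z, x, z, x, z, x, z, x, z, x, z, x, z, x, z, x, z, x, z, x, z], []),
    ([s, s, s, s, s], []), ([t, t, t, t, t], []), ([z, z, z], []), ([t, z, t, z], []), ([s, t], [t, s]),
    ([s, z], [z, s]), ([g, a], [x, g]), ([s, a], [a, s]), ([z, a, z, a], [a, z, z])]

theorem cu34_of {x z a s t g : ℕ} (ub : UB (subW gs l) m) (lb : LB (subW gs [[x], [z]]) m)
    (le : subW gs [[x], [z], [a], [s], [t], [g]] ≤ subW gs l) (R : Rels gs (R34 x z a s t g))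
    (n1 : wordG gs [x, z] ≠ 1) (n2 : wordG gs [z] ≠ 1) (n3 : wordG gs [t] ≠ 1) (m0 : wordG gs [s] ≠ 1)
    (m1 : wordG gs [s, t] ≠ 1) (m2 : wordG gs [s, t, t] ≠ 1) (m3 : wordG gs [s, t, t, t] ≠ 1)
    (m4 : wordG gs [s, t, t, t, t] ≠ 1) : CU34 (subW gs l) := by
  have k := subW_le.1 le
  simp only [Rels, R34, List.forall_mem_cons, wordG_cons, wordG_nil, mul_one] at R k n1 n2 n3 m0 m1 m2 m3 m4
  obtain ⟨k1, k2, k3, k4, k5, k6, -⟩ := k
  obtain ⟨r1, r2, r3, r4, r5, r6, r7, r8, r9, r10, r11, -⟩ := R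
  refine ⟨⟨_, k1⟩, ⟨_, k2⟩, ⟨_, k3⟩, ⟨_, k4⟩, ⟨_, k5⟩, Subtype.ext (by simpa [pow_succ] using r1),
    Subtype.ext (by simpa [pow_succ, mul_assoc] using r2), fun e => n1 (congrArg Subtype.val e), clos ub lb _ _,
    ⟨Subtype.ext (by simpa [pow_succ, mul_assoc] using r3), Subtype.ext (by simpa [pow_succ, mul_assoc] using r4),
      Subtype.ext (by simpa [pow_succ, mul_assoc] using r5), Subtype.ext (by simpa [pow_succ, mul_assoc] using r6),
      Subtype.ext r7, Subtype.ext r8, fun e => n2 (congrArg Subtype.val e), fun e => n3 (congrArg Subtype.val e),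
      fun i hi e => ?_⟩, isConj_iff.2 ⟨⟨_, k6⟩, Subtype.ext (mul_inv_eq_iff_eq_mul.2 r9)⟩, Subtype.ext r10,
    Subtype.ext ?_⟩
  · have e' := congrArg Subtype.val e
    interval_cases i
    exacts [m0 (by simpa using e'), m1 (by simpa using e'), m2 (by simpa [pow_succ] using e'),
      m3 (by simpa [pow_succ, mul_assoc] using e'), m4 (by simpa [pow_succ, mul_assoc] using e')]
  · simp only [coe_mul, coe_inv]
    generalize letG gs z = z at r11
    generalize letG gs a = a at r11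
    calc a * (z * a * z⁻¹) = z⁻¹ * (z * (a * (z * a))) * z⁻¹ := by group
      _ = _ := by rw [r11]; group

variable {H : Type*} [Group H]

theorem clos_map (f : G ≃* H) {x y : G} (h : closure {x, y} = ⊤) : closure {f x, f y} = ⊤ := by
  have := congrArg (map f.toMonoidHom) h
  rwa [MonoidHom.map_closure, Set.image_pair, map_top_of_surjective _ f.surjective] at this

theorem t255_equiv (h : T255 G) (f : G ≃* H) : T255 H :=
  let ⟨x, y, h1, h2, h3, h4, h5, h6⟩ := h
  ⟨f x, f y, by rw [← map_pow, h1, map_one], by rw [← map_pow, h2, map_one], by rw [← map_mul, ← map_pow, h3, map_one],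
    f.map_ne_one_iff.2 h4, map_mul f x y ▸ f.map_ne_one_iff.2 h5, clos_map f h6⟩

theorem cu34_equiv (h : CU34 G) (f : G ≃* H) : CU34 H :=
  let ⟨x, z, a, s, t, h1, h2, h3, h4, ⟨k1, k2, k3, k4, k5, k6, k7, k8, k9⟩, h5, h6, h7⟩ := h
  ⟨f x, f z, f a, f s, f t, by rw [← map_pow, h1, map_one], by rw [← map_mul, ← map_pow, h2, map_one],
    map_mul f x z ▸ f.map_ne_one_iff.2 h3, clos_map f h4,
    ⟨by rw [← map_pow, k1, map_one], by rw [← map_pow, k2, map_one], by rw [← map_pow, k3, map_one],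
      by rw [← map_mul, ← map_pow, k4, map_one], k5.map f, k6.map f, f.map_ne_one_iff.2 k7, f.map_ne_one_iff.2 k8,
      fun i hi => by rw [← map_pow, ← map_mul]; exact f.map_ne_one_iff.2 (k9 i hi)⟩,
    f.toMonoidHom.map_isConj h5, h6.map f, by simpa using congrArg f h7⟩

end CL.E7m.PA
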