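/-
Subgroups of `E₇(2)`: the configurations in `J₂`, `G₂(4)` and `Sz(8)`.
-/
import Cfsg.Agent.Inv.E7m0
import Cfsg.Agent.Inv.E7mPBSz
import Cfsg.Agent.Spor.StdJ2
import Cfsg.Agent.Spor.StdG24c
import Cfsg.Agent.Chev.SzInst
import Cfsg.Agent.Chev.SzCard

set_option autoImplicit false

namespace CL.E7m.PB

open CL.PG Subgroup Matrix

theorem cj2_map {G H : Type*} [Group G] [Group H] (φ : G →* H) (hφ : Function.Injective φ) (h : CJ2 G) : CJ2 H := by
  obtain ⟨s, t, z, u, v, ⟨h1, h2, h3, h4, h5, h6, h7, h8, h9⟩, k1, k2, k3, k4, k5⟩ := h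
  have e : ∀ g : G, φ g = 1 ↔ g = 1 := fun g => map_eq_one_iff _ hφ
  refine ⟨φ s, φ t, φ z, φ u, φ v, ⟨?_, ?_, ?_, ?_, h5.map φ, h6.map φ, mt (e z).1 h7, mt (e t).1 h8, fun i hi => ?_⟩,
    ?_, ?_, k3.map φ, k4.map φ, ?_⟩
  · rw [← map_pow, h1, map_one]
  · rw [← map_pow, h2, map_one]
  · rw [← map_pow, h3, map_one]
  · rw [← map_mul, ← map_pow, h4, map_one]
  · rw [← map_pow, ← map_mul]; exact mt (e _).1 (h9 i hi)
  · rw [← map_pow, k1, map_one]
  · rw [← map_pow, k2, map_one]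
  · rw [← map_mul, k5, map_mul, map_mul]

theorem cj2_sub {G : Type*} [Group G] {H : Subgroup G} {s t z u v : G} (hs : s ∈ H) (ht : t ∈ H) (hz : z ∈ H)
    (hu : u ∈ H) (hv : v ∈ H) (h : FiveA5 s t z) (k1 : u ^ 3 = 1) (k2 : v ^ 3 = 1) (k3 : Commute z u)
    (k4 : Commute z v) (k5 : u * v = v * u * z) : CJ2 H := by
  obtain ⟨h1, h2, h3, h4, h5, h6, h7, h8, h9⟩ := h
  exact ⟨⟨s, hs⟩, ⟨t, ht⟩, ⟨z, hz⟩, ⟨u, hu⟩, ⟨v, hv⟩, ⟨Subtype.ext h1, Subtype.ext h2, Subtype.ext h3, Subtype.ext h4,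
    Subtype.ext h5, Subtype.ext h6, fun e => h7 (congrArg Subtype.val e), fun e => h8 (congrArg Subtype.val e),
    fun i hi e => h9 i hi (congrArg Subtype.val e)⟩, Subtype.ext k1, Subtype.ext k2, Subtype.ext k3, Subtype.ext k4,
    Subtype.ext k5⟩

/-- The relations of the configuration. -/
noncomputable def relL (s t z u v : List ℕ) : List (List ℕ × List ℕ) :=
  [(powW s 5, []), (powW t 5, []), (powW z 3, []), (powW (app t z) 2, []), (app s t, app t s), (app s z, app z s),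
    (powW u 3, []), (powW v 3, []), (app z u, app u z), (app z v, app v z), (app u v, app (app v u) z)]

theorem cj2_of {G X : Type*} [Group G] [MulAction G X] {P : Par} {e : ℕ → X} {gs : List G} {ns : List Net}
    {D : List (ℕ × List ℕ)} {chk : List (List ℕ × List ℕ) → Bool} (c : Ctx P e gs ns D chk) (l : List (List ℕ))
    (s t z u v : List ℕ) (p : ℕ) (hm : leB D [s, t, z, u, v] l = true) (hr : chk (relL s t z u v) = true)
    (hz : movB P.n P.N ns z p = true) (ht : movB P.n P.N ns t p = true)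
    (hn : allN (fun i => movB P.n P.N ns (app s (powW t i)) p) 5 = true) : CJ2 (subW gs l) := by
  have hM := subW_le.mp (c.le hm)
  have R : ∀ v' w', (v', w') ∈ relL s t z u v → wordG gs v' = wordG gs w' := fun v' w' h => c.rels _ hr _ h
  simp only [relL, List.mem_cons, List.not_mem_nil, or_false, Prod.mk.injEq] at R
  have r1 := R _ _ (Or.inl ⟨rfl, rfl⟩)
  have r2 := R _ _ (.inr (.inl ⟨rfl, rfl⟩))
  have r3 := R _ _ (.inr (.inr (.inl ⟨rfl, rfl⟩)))
  have r4 := R _ _ (.inr (.inr (.inr (.inl ⟨rfl, rfl⟩))))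
  have r5 := R _ _ (.inr (.inr (.inr (.inr (.inl ⟨rfl, rfl⟩)))))
  have r6 := R _ _ (.inr (.inr (.inr (.inr (.inr (.inl ⟨rfl, rfl⟩))))))
  have r7 := R _ _ (.inr (.inr (.inr (.inr (.inr (.inr (.inl ⟨rfl, rfl⟩)))))))
  have r8 := R _ _ (.inr (.inr (.inr (.inr (.inr (.inr (.inr (.inl ⟨rfl, rfl⟩))))))))
  have r9 := R _ _ (.inr (.inr (.inr (.inr (.inr (.inr (.inr (.inr (.inl ⟨rfl, rfl⟩)))))))))
  have r10 := R _ _ (.inr (.inr (.inr (.inr (.inr (.inr (.inr (.inr (.inr (.inl ⟨rfl, rfl⟩))))))))))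
  have r11 := R _ _ (.inr (.inr (.inr (.inr (.inr (.inr (.inr (.inr (.inr (.inr ⟨rfl, rfl⟩))))))))))
  simp only [wordG_powW, wordG_app, wordG_nil] at r1 r2 r3 r4 r5 r6 r7 r8 r9 r10 r11
  refine cj2_sub (hM s (by simp)) (hM t (by simp)) (hM z (by simp)) (hM u (by simp)) (hM v (by simp))
    ⟨r1, r2, r3, r4, r5, r6, c.ne_one hz, c.ne_one ht, fun i hi => ?_⟩ r7 r8 r9 r10 r11
  have := c.ne_one (allN_spec hn i hi)
  rwa [wordG_app, wordG_powW] at this

theorem cj2_stdJ2 : CJ2 (subW CL.Std.J2.gs1 [[0], [2], [4], [6]]) :=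
  cj2_of CL.Std.J2.c1 _ (W (nat_lit 0x64170540d03c0900409)) (W (nat_lit 0x1905c15048100301800c11))
    (W (nat_lit 0x19034170280a)) (W (nat_lit 0x1905c0d03c0a)) (W (nat_lit 0x541202c18)) 1
    (by decide +kernel) (by decide +kernel) (by decide +kernel) (by decide +kernel) (by decide +kernel)

theorem cj2_stdG24 : CJ2 (subW CL.Std.G24c.gs1 [[0], [2]]) :=
  cj2_of CL.Std.G24c.c1 _ (W (nat_lit 0x140480d048090300301c16)) (W (nat_lit 0x1203811024150240704c0105805))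
    (W (nat_lit 0x150500f0240c04809)) (W (nat_lit 0x14048090480d)) (W (nat_lit 0x17050120380c)) 1
    (by decide +kernel) (by decide +kernel) (by decide +kernel) (by decide +kernel) (by decide +kernel)

/-- The codes of the antidiagonal matrix. -/
noncomputable def wm : ℕ → ℕ → ℕ := look [[0, 0, 0, 1], [0, 0, 1, 0], [0, 1, 0, 0], [1, 0, 0, 0]]
/-- The first indices of the pairs. -/
noncomputable def p1 : ℕ → ℕ := nth 0 [0, 0, 1, 2]
/-- The second indices of the pairs. -/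
noncomputable def p2 : ℕ → ℕ := nth 0 [1, 2, 3, 3]

/-- Membership in the Suzuki group, on codes. -/
noncomputable def szB (T : Tab) (m : ℕ) (A : ℕ → ℕ → ℕ) : Bool :=
  bnd (meqB 4 (T.mm 4 (T.mm 4 (trM A) wm) A) wm)
    (meqB 4 (fun p r => T.mul (A (p1 p) (p1 r)) (A (p2 p) (p2 r)))
      fun p r => T.add (T.pow (A p r) m) (T.mul (A (p2 p) (p1 r)) (A (p1 p) (p2 r))))

theorem mem_sz {T : Tab} {F : Type*} [Field F] {el : ℕ → F} (h : FC T el) {m : ℕ}
    {p : List (List ℕ) × List (List ℕ)} (hp : T.invB 4 p = true) (hs : szB T m (look p.1) = true) :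
    glF el (Fin.val : Fin 4 → ℕ) p ∈ Cfsg.Lie.Sz F m := by
  obtain ⟨h1, h2⟩ := bnd_iff.mp hs
  have hA := Tab.invB_bdd hp
  have hw : matF el (Fin.val : Fin 4 → ℕ) wm = CL.Chev.Sz.Tits.Wm F := by
    ext i j
    fin_cases i <;> fin_cases j <;> first | exact h.zero | exact h.one
  have hb : Bdd T.q 4 wm := fun i hi j hj => by
    have := h.two
    have h0 : wm i j ≤ 1 := by interval_cases i <;> interval_cases j <;> decide
    omega
  have q1 : ∀ r : Fin 4, p1 r = ((Cfsg.Lie.pairOf r).1 : ℕ) := by decide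
  have q2 : ∀ r : Fin 4, p2 r = ((Cfsg.Lie.pairOf r).2 : ℕ) := by decide
  refine subset_closure ⟨CL.Chev.Sz.Tits.mem_Sp4_iff.2 ?_, ?_⟩
  · rw [coe_glF h (ix_fin 4) hp, ← hw, ← matF_tr, ← matF_mm h (ix_fin 4) hA.tr hb,
      ← matF_mm h (ix_fin 4) (h.bdd_mm hA.tr hb) hA]
    exact matF_congr (ix_fin 4) h1
  · rw [coe_glF h (ix_fin 4) hp]
    ext a r
    have e := congrArg el (Nat.eq_of_beq_eq_true (allN_spec (allN_spec h2 a a.2) r r.2))
    have b := fun i j : Fin 4 => hA i i.2 j j.2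
    simp only [q1, q2] at e
    rw [(h.mul _ (b _ _) _ (b _ _)).2, (h.add _ (h.pow (b _ _) m).1 _ (h.mul _ (b _ _) _ (b _ _)).1).2,
      (h.pow (b _ _) m).2, (h.mul _ (b _ _) _ (b _ _)).2] at e
    simp only [Cfsg.Lie.star4, matF, Matrix.of_apply, Matrix.map_apply]
    rw [e, add_sub_cancel_right]

theorem sz_ms : allL (fun p => szB t8 4 (look p.1)) Sz.ms = true := by decide +kernel

theorem t245_sub {G : Type*} [Group G] {H : Subgroup G} {x y : G} (hH : closure {x, y} = H) (h1 : x ^ 2 = 1)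
    (h2 : y ^ 4 = 1) (h3 : (x * y) ^ 5 = 1) (h4 : x * y ≠ 1) : T245 H := by
  have hx : x ∈ H := hH ▸ subset_closure (by simp)
  have hy : y ∈ H := hH ▸ subset_closure (by simp)
  refine ⟨⟨x, hx⟩, ⟨y, hy⟩, Subtype.ext h1, Subtype.ext h2, Subtype.ext h3, fun e => h4 (congrArg Subtype.val e), ?_⟩
  apply Subgroup.map_injective H.subtype_injective
  rw [MonoidHom.map_closure, Set.image_pair, ← MonoidHom.range_eq_map, range_subtype]
  exact hH

end CL.E7m.PB

namespace CL.E7m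

open CL.PG Subgroup

theorem cj2_J2 : CJ2 Cfsg.Spor.J2 :=
  PB.cj2_map CL.Std.J2.iso.some.toMonoidHom CL.Std.J2.iso.some.injective PB.cj2_stdJ2

theorem cj2_G24 {F : Type*} [Field F] [Fintype F] (hF : Fintype.card F = 4) : CJ2 (Cfsg.Lie.chevG2.group F) :=
  PB.cj2_map (CL.Std.G24c.iso hF).some.toMonoidHom (CL.Std.G24c.iso hF).some.injective PB.cj2_stdG24

theorem t245_Sz8 {F : Type*} [Field F] [Fintype F] (hF : Fintype.card F = 8) : T245 (Cfsg.Lie.Sz F 4) := by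
  obtain ⟨el, h⟩ := t8.exists_fc t8_field F hF
  have c := PB.Sz.c1 h
  have hle : ∀ g ∈ List.map (glF el (Fin.val : Fin 4 → ℕ)) PB.Sz.ms, g ∈ Cfsg.Lie.Sz F 4 := fun g hg => by
    obtain ⟨p, hp, rfl⟩ := List.mem_map.mp hg
    exact PB.mem_sz h (allL_spec PB.Sz.hinv p hp) (allL_spec PB.sz_ms p hp)
  have hc : Nat.card (Cfsg.Lie.Sz F 4) = 29120 := by
    have := (CL.Chev.Sz.modelLie (F := F) (m := 1) le_rfl (by rw [hF]; norm_num)).card_G
    rw [Nat.card_eq_fintype_card (α := F), hF] at this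
    exact this
  have hb := PB.Sz.G_lb c
  have r2 := PB.Sz.r2 c
  have r4 := PB.Sz.r4 c
  have r5 := PB.Sz.r5 c
  have hn := PB.Sz.ne c
  have hm := mem_of_mem_ext hle PB.Sz.ws
  generalize ext (List.map (glF el (Fin.val : Fin 4 → ℕ)) PB.Sz.ms) PB.Sz.ws = gs at hb r2 r4 r5 hn hm
  have he := (UB.of_card hc (by norm_num)).eq_of_lb hb (subW_le.mpr fun w _ => wordG_mem hm w)
  simp only [wordG_cons, wordG_nil, mul_one] at r2 r4 r5 hn
  refine PB.t245_sub (x := letG gs 0) (y := letG gs 2) ?_ ?_ ?_ ?_ hn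
  · rw [← he, subW]
    congr 1
    ext g
    simp [eq_comm]
  · rw [← r2, pow_two]
  · rw [← r4]; simp only [pow_succ', pow_zero, mul_one]
  · rw [← r5]; simp only [pow_succ', pow_zero, mul_one, mul_assoc]

end CL.E7m
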