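/-
The configurations of elementary abelian subgroups of order `81` in `U₄(3)`, `Ω₇(3)` and `G₂(3)`.
The words were found with tools/pg.
-/
import Cfsg.Agent.Inv.E7m0
import Cfsg.Agent.Spor.StdU43
import Cfsg.Agent.Spor.StdO73
import Cfsg.Agent.Spor.StdG23

set_option autoImplicit false
set_option maxRecDepth 200000

namespace CL.E7m

open CL.PG

section Map

variable {G H : Type*} [Group G] [Group H]

theorem Cls.comp {F : H → ℕ} (hF : Cls F) (φ : G →* H) : Cls (fun g => F (φ g)) := fun g h => by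
  simp only [map_mul, map_inv]; exact hF _ _

theorem E4.map {x y z w : G} (h : E4 x y z w) (φ : G →* H) : E4 (φ x) (φ y) (φ z) (φ w) := by
  obtain ⟨a, b, c, d, e, f, g, i, j, k⟩ := h
  have p : ∀ u : G, u ^ 3 = 1 → φ u ^ 3 = 1 := fun u hu => by rw [← map_pow, hu, map_one]
  exact ⟨p _ a, p _ b, p _ c, p _ d, e.map φ, f.map φ, g.map φ, i.map φ, j.map φ, k.map φ⟩

theorem O3.map {a : G} (h : O3 a) {φ : G →* H} (hφ : Function.Injective φ) : O3 (φ a) :=
  ⟨by rw [← map_pow, h.1, map_one], fun e => h.2 ((map_eq_one_iff φ hφ).1 e)⟩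

theorem CU43.map (h : CU43 G) {φ : G →* H} (hφ : Function.Injective φ) : CU43 H := by
  obtain ⟨x, y, z, w, a, b, c, h4, ha, hb, hc, hs⟩ := h
  refine ⟨φ x, φ y, φ z, φ w, φ a, φ b, φ c, h4.map φ, ha.map hφ, hb.map hφ, hc.map hφ, fun F hF => ?_⟩
  simpa only [S4, map_mul, map_pow, map_one] using hs _ (hF.comp φ)

theorem CG23.map (h : CG23 G) {φ : G →* H} (hφ : Function.Injective φ) : CG23 H := by
  obtain ⟨x, y, z, w, a, b, c, d, e, h4, ha, hb, hc, hd, he, hs⟩ := h
  refine ⟨φ x, φ y, φ z, φ w, φ a, φ b, φ c, φ d, φ e, h4.map φ, ha.map hφ, hb.map hφ, hc.map hφ, hd.map hφ,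
    he.map hφ, fun F hF => ?_⟩
  simpa only [S2, S3, S4, map_mul, map_pow, map_one] using hs _ (hF.comp φ)

end Map

namespace PC

section Gen

variable {G : Type*} [Group G]

/-- The position of a product. -/
def ix (i j k l : ℕ) : ℕ := 27 * i + 9 * j + 3 * k + l

/-- The word of a product. -/
noncomputable def pw (x y z w : List ℕ) (t : ℕ) : List ℕ :=
  app (app (app (powW x (t / 27)) (powW y (t / 9 % 3))) (powW z (t / 3 % 3))) (powW w (t % 3))

/-- The relations that say that every product is conjugate to a representative. -/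
noncomputable def clsR (x y z w : List ℕ) (r : List (List ℕ)) (L : List ℕ) (T : List (List ℕ)) :
    List (List ℕ × List ℕ) :=
  mapL (fun t => (app (pw x y z w t) (nth [] T t), app (nth [] T t) (nth [] r (nth 0 L t)))) (List.range 81)

/-- The relations of `3⁴` and the cubes of the representatives. -/
noncomputable def e4R (x y z w : List ℕ) (r : List (List ℕ)) : List (List ℕ × List ℕ) :=
  app [(powW x 3, []), (powW y 3, []), (powW z 3, []), (powW w 3, []), (app x y, app y x), (app x z, app z x),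
    (app x w, app w x), (app y z, app z y), (app y w, app w y), (app z w, app w z)]
    (mapL (fun u => (powW u 3, [])) r)

variable {gs : List G} {x y z w : List ℕ} {r : List (List ℕ)} {L : List ℕ} {T : List (List ℕ)}

theorem cls_eq (h : Rels gs (clsR x y z w r L T)) {F : G → ℕ} (hF : Cls F) (i j k l : Fin 3) :
    F (wordG gs x ^ i.val * wordG gs y ^ j.val * wordG gs z ^ k.val * wordG gs w ^ l.val) =
      F (wordG gs (nth [] r (nth 0 L (ix i j k l)))) := by
  have hi := i.2; have hj := j.2; have hk := k.2; have hl := l.2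
  have e := h _ (by
    rw [clsR, mapL_eq]
    exact List.mem_map.2 ⟨ix i j k l, List.mem_range.2 (by unfold ix; omega), rfl⟩)
  simp only [pw, wordG_app, wordG_powW] at e
  rw [show ix i j k l / 27 = i by unfold ix; omega, show ix i j k l / 9 % 3 = j by unfold ix; omega,
    show ix i j k l / 3 % 3 = k by unfold ix; omega, show ix i j k l % 3 = l by unfold ix; omega] at e
  rw [eq_mul_inv_of_mul_eq e, hF]

theorem e4_of (h : Rels gs (e4R x y z w r)) : E4 (wordG gs x) (wordG gs y) (wordG gs z) (wordG gs w) ∧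
    ∀ u ∈ r, wordG gs u ^ 3 = 1 := by
  have p : ∀ u, (powW u 3, []) ∈ e4R x y z w r → wordG gs u ^ 3 = 1 := fun u hu => by
    simpa only [wordG_powW, wordG_nil] using h _ hu
  have c : ∀ u v, (app u v, app v u) ∈ e4R x y z w r → Commute (wordG gs u) (wordG gs v) := fun u v hu => by
    have := h _ hu
    rwa [wordG_app, wordG_app] at this
  refine ⟨⟨p _ ?_, p _ ?_, p _ ?_, p _ ?_, c _ _ ?_, c _ _ ?_, c _ _ ?_, c _ _ ?_, c _ _ ?_, c _ _ ?_⟩,
    fun u hu => p _ ?_⟩
  all_goals rw [e4R, app_eq, List.mem_append]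
  on_goal 11 => exact Or.inr (by rw [mapL_eq]; exact List.mem_map.2 ⟨u, hu, rfl⟩)
  all_goals exact Or.inl (by simp)

/-- The letters as elements of the group generated by the first two. -/
theorem exists_lift (g0 : List G) (ws : List (List ℕ)) (h2 : g0.length = 2) :
    ∃ hs : List (subW (ext g0 ws) [[0], [2]]), (∀ R, Rels (ext g0 ws) R → Rels hs R) ∧
      ∀ u, wordG (ext g0 ws) u ≠ 1 → wordG hs u ≠ 1 := by
  have e : subW (ext g0 ws) [[0], [2]] = Subgroup.closure {g | g ∈ g0} := by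
    rw [← subW_ext_gensW g0 ws, h2]; rfl
  have hm : ∀ g ∈ ext g0 ws, g ∈ subW (ext g0 ws) [[0], [2]] := e ▸ mem_closure_of_mem_ext g0 ws
  obtain ⟨hs, hh⟩ : ∃ hs : List (subW (ext g0 ws) [[0], [2]]), hs.map (Subgroup.subtype _) = ext g0 ws :=
    ⟨(ext g0 ws).pmap Subtype.mk hm, by simp [List.map_pmap]⟩
  have k : ∀ u, ((wordG hs u : subW (ext g0 ws) [[0], [2]]) : G) = wordG (ext g0 ws) u := fun u => by
    have := map_wordG (Subgroup.subtype _) hs u
    rwa [hh] at this
  refine ⟨hs, fun R hR p hp => Subtype.ext ?_, fun u hu e => hu ?_⟩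
  · rw [k, k]; exact hR p hp
  · rw [← k, e]; rfl

theorem cu43_of {a b c : List ℕ} (h1 : Rels gs (clsR x y z w [[], a, b, c] L T))
    (h2 : Rels gs (e4R x y z w [[], a, b, c])) (ha : wordG gs a ≠ 1) (hb : wordG gs b ≠ 1) (hc : wordG gs c ≠ 1)
    (hL : ∀ f : ℕ → ℕ, ∑ i : Fin 3, ∑ j : Fin 3, ∑ k : Fin 3, ∑ l : Fin 3, f (nth 0 L (ix i j k l)) =
      f 0 + 20 * f 1 + 30 * f 2 + 30 * f 3) : CU43 G := by
  obtain ⟨h4, h3⟩ := e4_of h2
  refine ⟨_, _, _, _, _, _, _, h4, ⟨h3 a (by simp), ha⟩, ⟨h3 b (by simp), hb⟩, ⟨h3 c (by simp), hc⟩,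
    fun F hF => ?_⟩
  simp only [S4, cls_eq h1 hF]
  exact hL fun m => F (wordG gs (nth [] [[], a, b, c] m))

theorem cg23_of {a b c d e : List ℕ} (h1 : Rels gs (clsR x y z w [[], a, b, c, d, e] L T))
    (h2 : Rels gs (e4R x y z w [[], a, b, c, d, e])) (ha : wordG gs a ≠ 1) (hb : wordG gs b ≠ 1)
    (hc : wordG gs c ≠ 1) (hd : wordG gs d ≠ 1) (he : wordG gs e ≠ 1)
    (hL : ∀ f : ℕ → ℕ, ∑ k : Fin 3, ∑ l : Fin 3, f (nth 0 L (ix 0 0 k l)) = f 0 + 8 * f 1 ∧
      ∑ i : Fin 3, ∑ j : Fin 3, f (nth 0 L (ix i j 0 0)) = f 0 + 8 * f 2 ∧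
      ∑ i : Fin 3, ∑ j : Fin 3, ∑ l : Fin 3, f (nth 0 L (ix i j 0 l)) = f 0 + 2 * f 1 + 8 * f 2 + 16 * f 3 ∧
      ∑ j : Fin 3, ∑ k : Fin 3, ∑ l : Fin 3, f (nth 0 L (ix 0 j k l)) = f 0 + 8 * f 1 + 2 * f 2 + 16 * f 3 ∧
      ∑ i : Fin 3, ∑ j : Fin 3, ∑ k : Fin 3, ∑ l : Fin 3, f (nth 0 L (ix i j k l)) =
        f 0 + 8 * f 1 + 8 * f 2 + 28 * f 3 + 18 * f 4 + 18 * f 5) : CG23 G := by
  obtain ⟨h4, h3⟩ := e4_of h2
  refine ⟨_, _, _, _, _, _, _, _, _, h4, ⟨h3 a (by simp), ha⟩, ⟨h3 b (by simp), hb⟩, ⟨h3 c (by simp), hc⟩,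
    ⟨h3 d (by simp), hd⟩, ⟨h3 e (by simp), he⟩, fun F hF => ?_⟩
  have k := cls_eq h1 hF
  have k1 := fun k' l => k 0 0 k' l
  have k2 := fun i j => k i j 0 0
  have k3 := fun i j l => k i j 0 l
  have k4 := fun j k' l => k 0 j k' l
  simp only [Fin.val_zero, pow_zero, one_mul, mul_one] at k1 k2 k3 k4
  simp only [S2, S3, S4, k1, k2, k3, k4, k]
  exact hL fun m => F (wordG gs (nth [] [[], a, b, c, d, e] m))

end Gen

noncomputable def ux : List ℕ := W (nat_lit 0x1602413)
noncomputable def uy : List ℕ := W (nat_lit 0x1502813)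
noncomputable def uz : List ℕ := W (nat_lit 0x540f)
noncomputable def uw : List ℕ := [17]
noncomputable def ur1 : List ℕ := W (nat_lit 0x1602811)
noncomputable def ur2 : List ℕ := [17]
noncomputable def ur3 : List ℕ := W (nat_lit 0x540f)
def uL : List ℕ := [0, 2, 2, 3, 2, 3, 3, 3, 2, 3, 3, 2, 2, 3, 3, 2, 1, 2, 3, 2, 3, 2, 2, 1, 2, 3, 3, 2, 1, 2, 2, 2, 1, 3, 1, 1, 2, 3, 3, 2, 1, 2, 3, 3, 2, 3, 3, 2, 3, 1, 1, 1, 3, 1, 2, 2, 1, 3, 1, 1, 2, 1, 2, 3, 2, 3, 1, 1, 3, 3, 1, 1, 2, 3, 3, 3, 2, 3, 2, 2, 1]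
noncomputable def uT : List (List ℕ) :=
  [[],
  [],
  W (nat_lit 0x903c0802c0105804),
  [],
  W (nat_lit 0x150240f04c0704c0105804),
  W (nat_lit 0x580a0480b02c050040b00407),
  W (nat_lit 0x540903c1302c0502c060040b00407),
  W (nat_lit 0x540a0440704c0100c02),
  W (nat_lit 0xa03c1102c070140100c02),
  W (nat_lit 0x1302c0501c0403804),
  W (nat_lit 0x1402c060200203002),
  W (nat_lit 0x580a044060040b00407),
  W (nat_lit 0x150280f0440b02c080380303c02),
  W (nat_lit 0x28120300503005),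
  W (nat_lit 0x1504c070380200804),
  W (nat_lit 0xf04c0c01c0300c07),
  [],
  W (nat_lit 0x580903c0b014080140300c07),
  W (nat_lit 0x1603c0704c0105804),
  W (nat_lit 0x241402c0b014080140403804),
  W (nat_lit 0x160281302c050040b00407),
  W (nat_lit 0x5409050050040b00407),
  W (nat_lit 0x240f0300503005),
  W (nat_lit 0x903c0b02c070140200804),
  W (nat_lit 0x1603c1302c080500100c02),
  W (nat_lit 0x5409040070480100c02),
  W (nat_lit 0x150280702c0300c07),
  W (nat_lit 0x580904c0b020050040c00804),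
  W (nat_lit 0x160280f0440b014070580101c0d),
  W (nat_lit 0xa04c0503005),
  W (nat_lit 0x240b0140702c0300c07),
  W (nat_lit 0x28120300701c0100c02),
  W (nat_lit 0x150241302c0704c0105804),
  W (nat_lit 0x502c050040b00407),
  W (nat_lit 0x160241001c0b0040e),
  W (nat_lit 0x540b020050040c00804),
  W (nat_lit 0x150241302c0802c0105804),
  W (nat_lit 0x540f01c0403804),
  W (nat_lit 0x480b0140b0200203002),
  W (nat_lit 0xa03c0b02c0704c0100c02),
  W (nat_lit 0x150280f02c0b01c160040104807),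
  W (nat_lit 0x1504c0b02c080500200804),
  W (nat_lit 0x16028070040c00804),
  W (nat_lit 0xb02c0503005),
  W (nat_lit 0x541202c0704c0100c02),
  W (nat_lit 0x540f0440c0140702c0300c07),
  W (nat_lit 0x1604005030050040b00407),
  W (nat_lit 0x540903c130140b0200303c02),
  W (nat_lit 0x150241402c0b018070040c00804),
  W (nat_lit 0x2811030070180203002),
  W (nat_lit 0x580902c080380101c0e),
  W (nat_lit 0x580c0200303c02),
  W (nat_lit 0x580f030070180203002),
  W (nat_lit 0x150440b018070040c00804),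
  W (nat_lit 0xc0200303c02),
  W (nat_lit 0x5812030060200203002),
  W (nat_lit 0xa0400802c0103801),
  W (nat_lit 0x90440501c0b0040c00804),
  W (nat_lit 0x3c0b02c070140202c02),
  W (nat_lit 0x280c01c0601010),
  W (nat_lit 0x160240b014080540403804),
  W (nat_lit 0x1502412030070400303c02),
  W (nat_lit 0x90500b02c0704c0200804),
  W (nat_lit 0x281102c060040b00407),
  W (nat_lit 0x540904c070340200804),
  W (nat_lit 0x160500b02c0502c05),
  W (nat_lit 0x580a0500b02c080540103006),
  W (nat_lit 0x15028100140b0180100c07),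
  W (nat_lit 0x3c1102c070140100c02),
  W (nat_lit 0x580a02c070580203002),
  W (nat_lit 0x58090440b02c0704c0200c07),
  W (nat_lit 0x541401c0300c07),
  W (nat_lit 0x160400b02c060040b00407),
  W (nat_lit 0x581002c05020050040c00804),
  W (nat_lit 0x240f044060040b00407),
  W (nat_lit 0x160240f0440c0140b0040b00407),
  W (nat_lit 0x281202c070140200804),
  W (nat_lit 0xa04c0802c0100c02),
  W (nat_lit 0x160480601c0403804),
  W (nat_lit 0xf0440802c0100c02),
  W (nat_lit 0xa04c0b02c050040b00407)]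

theorem u1 : CL.Std.U43.chk (clsR ux uy uz uw [[], ur1, ur2, ur3] uL uT) = true := by decide +kernel
theorem u2 : CL.Std.U43.chk (e4R ux uy uz uw [[], ur1, ur2, ur3]) = true := by decide +kernel
theorem um1 : movB CL.Std.U43.P.n CL.Std.U43.P.N CL.Std.U43.ns ur1 1 = true := by decide +kernel
theorem um2 : movB CL.Std.U43.P.n CL.Std.U43.P.N CL.Std.U43.ns ur2 1 = true := by decide +kernel
theorem um3 : movB CL.Std.U43.P.n CL.Std.U43.P.N CL.Std.U43.ns ur3 1 = true := by decide +kernel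

theorem uH : CU43 (subW CL.Std.U43.gs1 [[0], [2]]) := by
  obtain ⟨hs, h1, h2⟩ := exists_lift CL.Std.U43.gs0 CL.Std.U43.ws rfl
  refine cu43_of (h1 _ (CL.Std.U43.c1.rels _ u1)) (h1 _ (CL.Std.U43.c1.rels _ u2))
    (h2 _ (CL.Std.U43.c1.ne_one um1)) (h2 _ (CL.Std.U43.c1.ne_one um2)) (h2 _ (CL.Std.U43.c1.ne_one um3)) fun f => ?_
  simp only [Fin.sum_univ_three, nth_eq, ix, uL]
  norm_num
  omega

noncomputable def ox : List ℕ := W (nat_lit 0x2d07c160241101817)
noncomputable def oy : List ℕ := W (nat_lit 0xb4230941604009084060181800409)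
noncomputable def oz : List ℕ := W (nat_lit 0x310b41f0941503c2b0241701c0e00409)
noncomputable def ow : List ℕ := W (nat_lit 0x2d09c230580d044090380501c010201f)
noncomputable def or1 : List ℕ := W (nat_lit 0xb4230941604009084060181800409)
noncomputable def or2 : List ℕ := W (nat_lit 0x2d09c230580d044090380501c010201f)
noncomputable def or3 : List ℕ := W (nat_lit 0x310b41f0941503c2b0241701c0e00409)
def oL : List ℕ := [0, 2, 2, 3, 2, 3, 3, 3, 2, 1, 3, 1, 1, 1, 3, 2, 3, 3, 1, 1, 3, 2, 3, 3, 1, 3, 1, 2, 1, 2, 3, 3, 2, 2, 3, 3, 3, 3, 2, 2, 3, 3, 2, 1, 2, 1, 2, 2, 1, 3, 1, 2, 2, 1, 2, 2, 1, 2, 3, 3, 3, 2, 3, 1, 2, 2, 2, 1, 2, 1, 1, 3, 3, 2, 3, 2, 2, 1, 2, 3, 3]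
noncomputable def oT : List (List ℕ) :=
  [[],
  [],
  W (nat_lit 0xc42d09c1d0940d0400a04c090140a0540308401),
  [],
  W (nat_lit 0x310b41d0480b0ac0501c1d004010100d),
  W (nat_lit 0xb41d094150341502c2b014090480101012),
  W (nat_lit 0x310b4250540d0540b04c07030010180a),
  W (nat_lit 0x2d0580f06009040070bc010280c),
  W (nat_lit 0x3108c250580d0240b09c05028160040102402),
  [],
  W (nat_lit 0x2707c25034150240709c010040d),
  W (nat_lit 0x31074250540d0440b04c050240f00808),
  W (nat_lit 0x9c1d0580f060090240b0140f00431),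
  W (nat_lit 0x310b4270940f0240f0180c00802),
  W (nat_lit 0x310b42309415034150240902c050580102802),
  W (nat_lit 0x310b42707c2505811028130240703c0100404),
  W (nat_lit 0xc42d02419014050240100c15),
  W (nat_lit 0x3109c1f03c18028160140806c0102c2d),
  W (nat_lit 0x9c2309415028070180101c21),
  W (nat_lit 0x9c1f0580f0ac090340901c2f),
  W (nat_lit 0x310b427074250540f0ac0905c0501c18004030280a),
  W (nat_lit 0x8c1603416024120280501c05004030280a),
  W (nat_lit 0x310b41f0341102812018190140102c2d),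
  W (nat_lit 0x2707c250540d0240b09c070380102027),
  W (nat_lit 0xb42707c250140d0040a),
  W (nat_lit 0x2d07c1002409030080180101012),
  W (nat_lit 0xb4230580d044050200101401),
  W (nat_lit 0xb42708c25034150240f02c060640101012),
  W (nat_lit 0xc4270940f0600a064050580100c05),
  W (nat_lit 0xc42d08c2503c180280c0140502c0308401),
  W (nat_lit 0xb425034110240b0600709c0100c05),
  W (nat_lit 0x1f0540d0140506c0203003),
  W (nat_lit 0xb42708c0f0600909c070480100415),
  W (nat_lit 0x8c2503c0a060050141900802),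
  W (nat_lit 0x2d07425034100280e01c06028010180a),
  W (nat_lit 0x8c250540f0600a09c080380101411),
  W (nat_lit 0x3108c250580f0ac090240c0140a054010040d),
  W (nat_lit 0x1f0580c01c060280102802),
  W (nat_lit 0x31074250580d05809044080540108407),
  W (nat_lit 0x2d09c150240e030050640102c10),
  W (nat_lit 0x3109c250540d0240d0140506c0102802),
  W (nat_lit 0x8c2503c2b02412028060380100404),
  W (nat_lit 0x2d074250580d044090240b0140f0580101411),
  W (nat_lit 0x1d094150240d0140e03c0100404),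
  W (nat_lit 0x27074150341102417014080300103001),
  W (nat_lit 0x310b41f05411024130280701c0102802),
  W (nat_lit 0xc42d0941102c210200a00403),
  W (nat_lit 0x3109c1f094150341102413014050380101012),
  W (nat_lit 0x240b028070340204404),
  W (nat_lit 0x2d09c1f0941603c180281302405028080040100c02),
  W (nat_lit 0x2503c1802819014070300103c2d),
  W (nat_lit 0xc427094160341102812014070740206402),
  W (nat_lit 0x310741503c0b03805020010242b),
  W (nat_lit 0x2707c1603c2b0240d024070bc03),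
  W (nat_lit 0xc42d0740f06009064080240102c2d),
  W (nat_lit 0x3108c2503415028120180b01007),
  W (nat_lit 0x540f0ac0902c0a01c090ac0101801),
  W (nat_lit 0x3109c250580d058080280102003),
  W (nat_lit 0x1f0440a038070bc0103411),
  W (nat_lit 0xc42d09c25054110240f02c050201700819),
  W (nat_lit 0x310b4230540d02c2b0140903c0101012),
  W (nat_lit 0xb42708c1603c090140f0200205404),
  W (nat_lit 0xc42d09c1f09416034110240f02c070280203003),
  W (nat_lit 0x3107c0d02419014080600101801),
  W (nat_lit 0xb41d03c0902c180140f0200108404),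
  W (nat_lit 0x310580d028130140d0540102405),
  W (nat_lit 0x7c250580f0ac0b0840503c0401011),
  W (nat_lit 0x2703c0a064050140f0040d),
  W (nat_lit 0x7c250580f0ac0c01c0c0040f),
  W (nat_lit 0xc41f0941604809048050201b004030280a),
  W (nat_lit 0x8c250580f060090480a0140f0440101012),
  W (nat_lit 0xc4270741503c180140a0200100c05),
  W (nat_lit 0xb4270540d0440a0140d0540106001),
  W (nat_lit 0x2707c250341602c130141001005),
  W (nat_lit 0xb42707c250580d0580905c050200c004030280a),
  W (nat_lit 0x310b42707c250580d0580a0600501c1d0040f),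
  W (nat_lit 0x2d07c15034150241101c0d004030280a),
  W (nat_lit 0x7c150480903407038010040d),
  W (nat_lit 0x2d09c1f094160440a09c0705c0103001),
  W (nat_lit 0x8c16034110240b060070580102802),
  W (nat_lit 0x310b425054110281201407030010280c)]

theorem o1 : CL.Std.O73.chk (clsR ox oy oz ow [[], or1, or2, or3] oL oT) = true := by decide +kernel
theorem o2 : CL.Std.O73.chk (e4R ox oy oz ow [[], or1, or2, or3]) = true := by decide +kernel
theorem om1 : movB CL.Std.O73.P.n CL.Std.O73.P.N CL.Std.O73.ns or1 0 = true := by decide +kernel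
theorem om2 : movB CL.Std.O73.P.n CL.Std.O73.P.N CL.Std.O73.ns or2 0 = true := by decide +kernel
theorem om3 : movB CL.Std.O73.P.n CL.Std.O73.P.N CL.Std.O73.ns or3 0 = true := by decide +kernel

theorem oH : CU43 (subW CL.Std.O73.gs1 [[0], [2]]) := by
  obtain ⟨hs, h1, h2⟩ := exists_lift CL.Std.O73.gs0 CL.Std.O73.ws rfl
  refine cu43_of (h1 _ (CL.Std.O73.c1.rels _ o1)) (h1 _ (CL.Std.O73.c1.rels _ o2))
    (h2 _ (CL.Std.O73.c1.ne_one om1)) (h2 _ (CL.Std.O73.c1.ne_one om2)) (h2 _ (CL.Std.O73.c1.ne_one om3)) fun f => ?_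
  simp only [Fin.sum_univ_three, nth_eq, ix, oL]
  norm_num
  omega

noncomputable def gx : List ℕ := W (nat_lit 0x260742106c1301408)
noncomputable def gy : List ℕ := W (nat_lit 0x941104c0b01807)
noncomputable def gz : List ℕ := W (nat_lit 0x941e0881b0441301417)
noncomputable def gw : List ℕ := [32]
noncomputable def gr1 : List ℕ := W (nat_lit 0x941e0881b0441301417)
noncomputable def gr2 : List ℕ := W (nat_lit 0x260742106c1301408)
noncomputable def gr3 : List ℕ := W (nat_lit 0x250881104c0b01807)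
noncomputable def gr4 : List ℕ := W (nat_lit 0x841b04408)
noncomputable def gr5 : List ℕ := W (nat_lit 0x260742106c1101405)
def gL : List ℕ := [0, 1, 1, 1, 1, 1, 1, 1, 1, 2, 3, 3, 3, 3, 3, 3, 3, 3, 2, 3, 3, 3, 3, 3, 3, 3, 3, 2, 3, 3, 5, 5, 5, 4, 4, 4, 2, 3, 3, 5, 5, 5, 4, 4, 4, 2, 3, 3, 5, 5, 5, 4, 4, 4, 2, 3, 3, 4, 4, 4, 5, 5, 5, 2, 3, 3, 4, 4, 4, 5, 5, 5, 2, 3, 3, 4, 4, 4, 5, 5, 5]
noncomputable def gT : List (List ℕ) :=
  [[],
  W (nat_lit 0x941e0841b054050540100c16),
  W (nat_lit 0x981e0881102c0400405),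
  [],
  W (nat_lit 0x260741b01408004030041b),
  W (nat_lit 0x981d0841302c0500407),
  W (nat_lit 0x1e0881b0180100c0102414),
  W (nat_lit 0x2506c1101c0200c16),
  W (nat_lit 0x250741b02c08),
  W (nat_lit 0x1d0841102c050140200c16),
  W (nat_lit 0x1e04c150141500805),
  [],
  W (nat_lit 0x2506c1105c0502c0400405),
  W (nat_lit 0x74220180200c16),
  W (nat_lit 0x981d0881104c0b0180100c1a),
  W (nat_lit 0x941e06c150140101011),
  W (nat_lit 0x981b04c1502c080040301823),
  W (nat_lit 0x782206c1502c050280100c16),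
  W (nat_lit 0x1e088130540502c0100c16),
  W (nat_lit 0x1e0841b0540b0141500805),
  W (nat_lit 0x841105c06),
  W (nat_lit 0x2202c0502c0400405),
  W (nat_lit 0x250742206c0b0140200c16),
  W (nat_lit 0x941b044140180100c1a),
  W (nat_lit 0x26074220200101011),
  W (nat_lit 0x981b050080040301823),
  W (nat_lit 0x1e08413054050280100c16),
  [],
  W (nat_lit 0x250782106c110500b),
  W (nat_lit 0x941d06c110140a00405),
  W (nat_lit 0x250742106c1105c0b),
  W (nat_lit 0x782206c1401415),
  W (nat_lit 0x1b0440700407),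
  W (nat_lit 0x250742106c1105c0b),
  W (nat_lit 0x2506c0b01405),
  W (nat_lit 0x1d0841105c06),
  W (nat_lit 0x941e06c0b0140a00405),
  W (nat_lit 0x2104c150140a00405),
  W (nat_lit 0x2606c130540800805),
  W (nat_lit 0x260782204c150141700805),
  W (nat_lit 0x981e06c110141500407),
  W (nat_lit 0x2206c110141700407),
  W (nat_lit 0x250742106c110140b00805),
  W (nat_lit 0x1d0841b0540b0140a00805),
  W (nat_lit 0x2104c150141700805),
  W (nat_lit 0x1e0841302c0500805),
  W (nat_lit 0x742106c1301417),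
  W (nat_lit 0x88110500b0141500805),
  W (nat_lit 0x260782106c110500b01807),
  W (nat_lit 0x981b0441702c0800805),
  W (nat_lit 0x260742206c1105c0b01415),
  W (nat_lit 0x742206c1105c0b01415),
  W (nat_lit 0x260782106c14),
  W (nat_lit 0x741105008),
  W (nat_lit 0x742206c1102c0502c0201015),
  W (nat_lit 0x1e0881402c06),
  W (nat_lit 0x941e06c0b0140a00405),
  [],
  W (nat_lit 0x260841102c06),
  W (nat_lit 0x941d06c1101405),
  [],
  W (nat_lit 0x981d0881b04408),
  W (nat_lit 0x250782206c130540b01415),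
  W (nat_lit 0x9821044130200100c13),
  W (nat_lit 0x980b),
  W (nat_lit 0x98130141700805),
  W (nat_lit 0x942101415),
  W (nat_lit 0x250781302c08),
  W (nat_lit 0x260782106c130540b),
  W (nat_lit 0x941e06c1102c0700805),
  W (nat_lit 0x782106c150141500805),
  W (nat_lit 0x981d0880800805),
  W (nat_lit 0x250782204c0b01c01),
  W (nat_lit 0x2204c150141700405),
  W (nat_lit 0x1e088110500700805),
  W (nat_lit 0x942106c0b0140b00805),
  W (nat_lit 0x1e0881b0540b0141700805),
  W (nat_lit 0x1d04c150140a00805),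
  W (nat_lit 0x941b0540b0141700805),
  W (nat_lit 0x260742206c0b0141700407),
  W (nat_lit 0x1e06c0b0141500407)]

theorem g1 : CL.Std.G23.chk (clsR gx gy gz gw [[], gr1, gr2, gr3, gr4, gr5] gL gT) = true := by decide +kernel
theorem g2 : CL.Std.G23.chk (e4R gx gy gz gw [[], gr1, gr2, gr3, gr4, gr5]) = true := by decide +kernel
theorem gm1 : movB CL.Std.G23.P.n CL.Std.G23.P.N CL.Std.G23.ns gr1 1 = true := by decide +kernel
theorem gm2 : movB CL.Std.G23.P.n CL.Std.G23.P.N CL.Std.G23.ns gr2 1 = true := by decide +kernel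
theorem gm3 : movB CL.Std.G23.P.n CL.Std.G23.P.N CL.Std.G23.ns gr3 1 = true := by decide +kernel
theorem gm4 : movB CL.Std.G23.P.n CL.Std.G23.P.N CL.Std.G23.ns gr4 1 = true := by decide +kernel
theorem gm5 : movB CL.Std.G23.P.n CL.Std.G23.P.N CL.Std.G23.ns gr5 1 = true := by decide +kernel

theorem gH : CG23 (subW CL.Std.G23.gs1 [[0], [2]]) := by
  obtain ⟨hs, h1, h2⟩ := exists_lift CL.Std.G23.gs0 CL.Std.G23.ws rfl
  refine cg23_of (h1 _ (CL.Std.G23.c1.rels _ g1)) (h1 _ (CL.Std.G23.c1.rels _ g2))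
    (h2 _ (CL.Std.G23.c1.ne_one gm1)) (h2 _ (CL.Std.G23.c1.ne_one gm2)) (h2 _ (CL.Std.G23.c1.ne_one gm3)) (h2 _ (CL.Std.G23.c1.ne_one gm4)) (h2 _ (CL.Std.G23.c1.ne_one gm5)) fun f => ?_
  simp only [Fin.sum_univ_three, nth_eq, ix, gL]
  norm_num
  omega

end PC

theorem cu43_U43 {F : Type*} [Field F] [Fintype F] (hF : Fintype.card F = 9) : CU43 (Cfsg.PSU 4 F 3) := by
  obtain ⟨e⟩ := CL.Std.U43.iso hF
  exact PC.uH.map (φ := e.toMonoidHom) e.injective

theorem cu43_O73 : CU43 (Cfsg.Omega (ZMod 3) (Cfsg.quadFormOdd 3 (ZMod 3))) := by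
  have hF : Fintype.card (ZMod 3) = 3 := ZMod.card 3
  obtain ⟨f, h1, -, h3⟩ := CL.Std.O73.hom hF
  obtain ⟨el, h⟩ := Tab.exists_fc (tabP 3) (by decide +kernel) (ZMod 3) hF
  have hc : Nat.card (Cfsg.Omega (ZMod 3) (Cfsg.quadFormOdd 3 (ZMod 3))) = 4585351680 :=
    card_om_odd (CL.Cls.qfOdd 3 (ZMod 3)) (CL.Cls.nondeg_qfOdd (h.two_ne (by decide +kernel)))
      (h.two_ne (by decide +kernel)) (by simp) (o := 18341406720)
      (card_o_odd hF (h.two_ne (by decide +kernel)) 3 (by decide +kernel)) (by decide +kernel)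
  have : Finite (Cfsg.Omega (ZMod 3) (Cfsg.quadFormOdd 3 (ZMod 3))) :=
    Nat.finite_of_card_ne_zero (by rw [hc]; norm_num)
  have hb : Function.Bijective f.rangeRestrict :=
    (Nat.bijective_iff_surjective_and_card _).2 ⟨f.rangeRestrict_surjective, by rw [hc, h1, h3]⟩
  let e := (MulEquiv.subgroupCongr h1.symm).trans (MulEquiv.ofBijective _ hb).symm
  exact PC.oH.map (φ := e.toMonoidHom) e.injective

theorem cg23 : CG23 (Cfsg.Lie.chevG2.group (ZMod 3)) := by
  obtain ⟨e⟩ := CL.Std.G23.iso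
  exact PC.gH.map (φ := e.toMonoidHom) e.injective

end CL.E7m
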