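/-
The representation of degree `56` of `E₇(K)` in characteristic `2` (job E7M-RHO).
-/
import Cfsg.Agent.Inv.E7m0
import Cfsg.Agent.Perm.CTMin
import Cfsg.Agent.Perm.CTAmalg
import Cfsg.Agent.Known.StbForm
import Cfsg.Agent.Known.StbPres
import Cfsg.Agent.Chev.TwE6
import Cfsg.Agent.Chev.TwOver2

set_option autoImplicit false

namespace CL.E7m

open Cfsg.Lie CL.Chev CL.AltEx Matrix
open scoped commutatorElement

namespace Rho

theorem min_h {K A : Type*} [Field K] [Ring A] [Algebra K A] {e f : A} (he : e * e = 0) (hf : f * f = 0)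
    (h1 : e * f * e = e) (h2 : f * e * f = f) {t : K} (ht : t ≠ 0) :
    (1 + t • e) * (1 + (-t⁻¹) • f) * (1 + t • e) * ((1 + (-1 : K) • e) * (1 + (-(-1 : K)⁻¹) • f) * (1 + (-1 : K) • e)) =
      1 - e * f - f * e + t • (e * f) + t⁻¹ • (f * e) := by
  have n : ∀ t : K, t ≠ 0 → (1 + t • e) * (1 + (-t⁻¹) • f) * (1 + t • e) = 1 - e * f - f * e + t • e - t⁻¹ • f :=
    fun t ht => by
      rw [neg_smul, ← sub_eq_add_neg, min_n (by simp [he]) (by
        simp only [smul_mul_smul_comm, h1, mul_inv_cancel₀ ht, one_mul])]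
      simp only [smul_mul_smul_comm, mul_inv_cancel₀ ht, inv_mul_cancel₀ ht, one_smul]
  have he' : ∀ z, e * (e * z) = 0 := fun z => by rw [← mul_assoc, he, zero_mul]
  have hf' : ∀ z, f * (f * z) = 0 := fun z => by rw [← mul_assoc, hf, zero_mul]
  rw [mul_assoc e] at h1
  rw [mul_assoc f] at h2
  rw [n t ht, n (-1) (by simp)]
  simp only [inv_neg, inv_one, neg_smul, one_smul, mul_add, add_mul, mul_sub, sub_mul, mul_one, one_mul, mul_neg,
    smul_mul_assoc, mul_assoc, he, hf, he', hf', h1, h2, mul_zero, smul_zero]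
  abel

variable {ι Φ κ : Type} [Fintype ι] [DecidableEq ι] (R : RS ι Φ) (L : κ → ι → ℤ)

/-- Twice the value of a weight on a coroot. -/
def p (r : Φ) (j : κ) : ℤ := R.pairv (R.coroot r) (L j)

/-- `L` is twice a minuscule family of weights. -/
structure Mn : Prop where
  inj : Function.Injective L
  sl : R.SimplyLaced
  m : ∀ r j, (p R L r j = -2 ∨ p R L r j = 0 ∨ p R L r j = 2) ∧
    (p R L r j = -2 → ∃ a, L a = L j + (2 : ℤ) • R.root r)

variable {R L}

theorem p_simple (i : ι) (j : κ) : p R L (R.simple i) j = ∑ l, R.cartan i l * L j l := by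
  rw [p, R.coroot_simple, R.pairv_single_left]

theorem p_neg (r : Φ) (j : κ) : p R L (R.neg r) j = -p R L r j := by rw [p, R.coroot_neg, R.pairv_neg_left, p]

theorem p_step {r : Φ} {a b : κ} (e : L a = L b + (2 : ℤ) • R.root r) (s : Φ) :
    p R L s a = p R L s b + 2 * R.pair s r := by rw [p, e, R.pairv_add_right, R.pairv_smul_right]; rfl

theorem mn (hL : Cl R L) (sl : R.SimplyLaced)
    (h : ∀ i j, ∑ l, R.cartan i l * L j l = -2 ∨ ∑ l, R.cartan i l * L j l = 0 ∨ ∑ l, R.cartan i l * L j l = 2) :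
    Mn R L := by
  refine ⟨hL.1, sl, R.root_induction (fun i j => ?_) fun i r ih j => ?_⟩
  · obtain ⟨a, e⟩ := hL.2 i j
    rw [p_simple]
    exact ⟨h i j, fun e' => ⟨a, by rw [e, e', R.root_simple, neg_smul, sub_neg_eq_add]⟩⟩
  have h2 : R.pairv (Pi.single i 1) (Pi.single i 1) = 2 := by
    simpa only [RS.pair, R.coroot_simple, R.root_simple] using R.pair_self (R.simple i)
  obtain ⟨j', e⟩ := hL.2 i j
  rw [← R.pairv_single_left] at e
  have e1 : p R L (R.sref i r) j = p R L r j' := by
    rw [p, p, e, R.coroot_sref, R.pairv_sub_left, R.pairv_sub_right, R.pairv_smul_left, R.pairv_smul_right, RS.pair,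
      R.coroot_simple, R.root_simple, mul_comm]
  refine e1 ▸ ⟨(ih j').1, fun e2 => ?_⟩
  obtain ⟨a', e3⟩ := (ih j').2 e2
  obtain ⟨a, e4⟩ := hL.2 i a'
  refine ⟨a, ?_⟩
  rw [e4, ← R.pairv_single_left, e3, e, R.root_sref, RS.pair, R.coroot_simple, R.root_simple, R.pairv_add_right,
    R.pairv_sub_right, R.pairv_smul_right, R.pairv_smul_right, h2]
  module

variable (R L) (K : Type*) [Field K]

open Classical in
/-- The root vectors. -/
noncomputable def E (r : Φ) : Matrix κ κ K := of fun a b => if L a = L b + (2 : ℤ) • R.root r then 1 else 0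

/-- The torus elements. -/
def D (r : Φ) (t : K) (a : κ) : K := if p R L r a = 2 then t else if p R L r a = -2 then t⁻¹ else 1

variable {R L K}

theorem E_pos {r : Φ} {a b : κ} (e : L a = L b + (2 : ℤ) • R.root r) : E R L K r a b = 1 := if_pos e
theorem E_neg {r : Φ} {a b : κ} (e : ¬ L a = L b + (2 : ℤ) • R.root r) : E R L K r a b = 0 := if_neg e
theorem E_ne {r : Φ} {a b : κ} (e : E R L K r a b ≠ 0) : L a = L b + (2 : ℤ) • R.root r := of_not_not (mt E_neg e)

variable [Fintype κ] [DecidableEq κ]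

namespace Mn

variable (h : Mn R L)
include h

omit [Fintype κ] [DecidableEq κ] in
theorem step {r : Φ} {a b : κ} (e : L a = L b + (2 : ℤ) • R.root r) : p R L r a = 2 ∧ p R L r b = -2 := by
  have := p_step e r
  have := (h.m r a).1
  have := (h.m r b).1
  have := R.pair_self r
  omega

omit [DecidableEq κ] in
theorem E_mul (r s : Φ) (a b : κ) : (E R L K r * E R L K s) a b = if p R L s b = -2 ∧
    p R L r b + 2 * R.pair r s = -2 ∧ L a = L b + (2 : ℤ) • (R.root r + R.root s) then 1 else 0 := by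
  rw [mul_apply]
  by_cases e : p R L s b = -2
  · obtain ⟨c, hc⟩ := (h.m s b).2 e
    have e' : L c + (2 : ℤ) • R.root r = L b + (2 : ℤ) • (R.root r + R.root s) := by rw [hc]; module
    rw [Finset.sum_eq_single c (fun d _ hd => by rw [E_neg (a := d) fun e => hd (h.inj (e.trans hc.symm)), mul_zero])
      (by simp), E_pos hc, mul_one, ← e', ← p_step hc]
    split_ifs with e1
    exacts [E_pos e1.2.2, E_neg fun e2 => e1 ⟨e, (h.step e2).2, e2⟩]
  · rw [if_neg fun e' => e e'.1]
    exact Finset.sum_eq_zero fun d _ => by rw [E_neg (a := d) fun e' => e (h.step e').2, mul_zero]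

omit [DecidableEq κ] in
theorem E_sq (r : Φ) : E R L K r * E R L K r = 0 := by
  ext a b
  rw [h.E_mul, if_neg fun e => by have := R.pair_self r; omega]; rfl

omit [DecidableEq κ] in
theorem E_comm {r s : Φ} (e : 0 ≤ R.pair r s) : E R L K r * E R L K s = E R L K s * E R L K r := by
  ext a b
  have := (h.m r b).1
  have := (h.m s b).1
  rw [h.E_mul, h.E_mul, add_comm (R.root s), R.pair_comm_of_len (h.sl s r)]
  exact if_congr (by rw [← and_assoc, ← and_assoc]; exact and_congr_left' (by omega)) rfl rfl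

omit [DecidableEq κ] in
theorem E_refl {r s : Φ} (e : R.pair r s = -1) :
    E R L K (R.refl r s) = E R L K r * E R L K s + E R L K s * E R L K r := by
  ext a b
  have e' := (R.pair_comm_of_len (h.sl s r)).trans e
  rw [Matrix.add_apply, h.E_mul, h.E_mul, add_comm (R.root s), ← RS.root_refl_of_neg_one e, e, e']
  by_cases e1 : L a = L b + (2 : ℤ) • R.root (R.refl r s)
  · have e2 := (h.step e1).2
    rw [p, R.coroot_refl, R.pairv_sub_left, R.pairv_smul_left, e', ← p, ← p] at e2
    have := (h.m r b).1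
    rw [E_pos e1]
    rcases (h.m s b).1 with e3 | e3 | e3
    · rw [if_pos ⟨e3, by omega, e1⟩, if_neg (by omega), add_zero]
    · rw [if_neg (by omega), if_pos ⟨by omega, by omega, e1⟩, zero_add]
    · omega
  · rw [E_neg e1, if_neg fun e => e1 e.2.2, if_neg fun e => e1 e.2.2, add_zero]

omit [DecidableEq κ] in
theorem E_tri {r s : Φ} (e : R.pair r s ≠ -2) : E R L K r * E R L K s * E R L K r = 0 := by
  ext a b
  by_contra e1
  obtain ⟨c, e2, e3⟩ := exists_of_mul_ne_zero e1
  obtain ⟨d, e4, e5⟩ := exists_of_mul_ne_zero e2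
  have := (h.step (E_ne e3)).1
  have := (h.step (E_ne e4)).2
  have := p_step (E_ne e5) r
  omega

theorem E_mul_neg (r : Φ) :
    E R L K r * E R L K (R.neg r) = diagonal fun a => if p R L r a = 2 then 1 else 0 := by
  ext a b
  rw [h.E_mul, R.root_neg, add_neg_cancel, smul_zero, add_zero, p_neg, R.pair_neg_right, R.pair_self]
  by_cases e : a = b
  · rw [e, diagonal_apply_eq]
    exact if_congr ⟨fun e => by omega, fun e => ⟨by omega, by omega, rfl⟩⟩ rfl rfl
  · rw [diagonal_apply_ne _ e, if_neg fun e' => e (h.inj e'.2.2)]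

theorem E_neg_E (r : Φ) : E R L K r * E R L K (R.neg r) * E R L K r = E R L K r := by
  ext a b
  rw [h.E_mul_neg, diagonal_mul]
  split_ifs with e
  exacts [one_mul _, (zero_mul _).trans (E_neg fun e' => e (h.step e').1).symm]

/-- The root elements. -/
noncomputable def y (r : Φ) (t : K) : (Matrix κ κ K)ˣ :=
  ⟨1 + t • E R L K r, 1 - t • E R L K r, by simp [add_mul, mul_sub, h.E_sq], by simp [sub_mul, mul_add, h.E_sq]⟩

theorem y_add (r : Φ) (t u : K) : h.y r (t + u) = h.y r t * h.y r u := Units.ext (by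
  simp only [y, Units.val_mul, mul_add, add_mul, smul_mul_smul_comm, h.E_sq, add_smul, mul_one, one_mul, smul_zero]; abel)

theorem y_comm {r s : Φ} (e : R.pair r s ≠ -2) (t u : K) : ((⁅h.y r t, h.y s u⁆ : (Matrix κ κ K)ˣ) : Matrix κ κ K) =
    1 + (t * u) • (E R L K r * E R L K s - E R L K s * E R L K r) := by
  have e1 := h.E_tri (K := K) e
  have e2 := h.E_tri (K := K) (R.pair_comm_of_len (h.sl r s) ▸ e)
  refine (min_comm (a := t • E R L K r) (c := u • E R L K s) (by simp [h.E_sq]) (by simp [h.E_sq])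
    (by simp only [smul_mul_smul_comm, e1, zero_mul, smul_zero])
    (by simp only [smul_mul_smul_comm, e2, zero_mul, smul_zero])).trans ?_
  simp only [smul_mul_smul_comm, e1, e2, smul_zero, neg_zero, add_zero, mul_one, smul_sub, mul_comm u t]

theorem y_h (r : Φ) {t : K} (ht : t ≠ 0) : ((h.y r t * h.y (R.neg r) (-t⁻¹) * h.y r t *
    (h.y r (-1) * h.y (R.neg r) (-(-1 : K)⁻¹) * h.y r (-1)) : (Matrix κ κ K)ˣ) : Matrix κ κ K) =
      diagonal (D R L K r t) := by
  have e1 := h.E_neg_E (K := K) (R.neg r)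
  have e2 := h.E_mul_neg (K := K) (R.neg r)
  rw [R.neg_neg] at e1 e2
  refine (min_h (h.E_sq r) (h.E_sq _) (h.E_neg_E r) e1 ht).trans ?_
  rw [e2, h.E_mul_neg, ← diagonal_one, ← diagonal_smul, ← diagonal_smul, diagonal_sub, diagonal_sub, diagonal_add,
    diagonal_add]
  congr 1
  ext a
  simp only [D, p_neg, neg_eq_iff_eq_neg, Pi.smul_apply, smul_eq_mul]
  split_ifs <;> first | omega | ring

omit [Fintype κ] [DecidableEq κ] in
theorem D_sq (r : Φ) (t : Kˣ) (a : κ) : D R L K r t a ^ 2 = (t ^ p R L r a : Kˣ) := by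
  rcases (h.m r a).1 with e | e | e <;> simp [D, e, zpow_ofNat]

theorem exists_rho [Finite Φ] [CharP K 2] {G : Type*} [Group G] {S : StSys R K G} (hS : S.Full) (hR : R.Irred)
    (hι : 2 ≤ Fintype.card ι) (hi : Function.Injective hS.hMul.torus) : ∃ ρ : G →* Matrix κ κ K,
    (∀ r t, ρ (S.x r t) = 1 + t • E R L K r) ∧ ∀ (hM : S.HMul) (c : ι → Kˣ), ∃ d : κ → K,
      ρ (hM.torus c) = diagonal d ∧ ∀ j, d j ^ 2 = (chr R (L j) c : Kˣ) := by
  have hU := hS.faithful.uFaithful
  let P : S.Pre (MonoidHom.snd (Matrix κ κ K)ˣ G) :=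
    { y := fun r t => (h.y r t, S.x r t), y_add := fun r t u => Prod.ext (h.y_add r t u) (S.x_add r t u)
      map_y := fun _ _ => rfl
      comm_mem := fun r s t u a b => by
        have e0 := RS.pair_mem_of_len (h.sl r s) a b
        have e1 := h.y_comm (r := r) (s := s) (by omega) t u
        by_cases e : R.pair r s = -1
        · refine Subgroup.subset_closure ⟨R.refl r s, t * u, R.comb_of_add (RS.root_refl_of_neg_one e),
            Prod.ext (Units.ext (e1.trans ?_)) ((hU.comm_A2 h.sl.noG2 e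
              ((R.pair_comm_of_len (h.sl s r)).trans e) t u).trans ?_)⟩
          · rw [sub_eq_add_neg, show -(E R L K s * E R L K r) = E R L K s * E R L K r from
              Matrix.ext fun _ _ => CharTwo.neg_eq _, ← h.E_refl e]; rfl
          · rcases S.η_sign r s with e | e <;> simp [e, CharTwo.neg_eq]
        · rw [h.E_comm (by omega), sub_self, smul_zero, add_zero] at e1
          exact (show ⁅(h.y r t, S.x r t), (h.y s u, S.x s u)⁆ = 1 from Prod.ext (Units.ext e1) (commutatorElement_eq_one_iff_commute.2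
            (S.commute_of_pair_nonneg h.sl (r := r) (s := s) (by omega) t u))) ▸ one_mem _ }
  obtain ⟨f, hf⟩ := StSys.exists_hom_of_universal (P.sys_map hU hR hι) hS.faithful hS.top hS.hMul
    (fun r t u ht hu => Prod.ext (Units.ext ((h.y_h r (mul_ne_zero ht hu)).trans (Eq.trans (by
      rw [diagonal_mul_diagonal]
      congr 1
      ext a
      simp only [D]
      split_ifs
      exacts [rfl, mul_inv t u, (mul_one _).symm]) (congrArg₂ (· * ·) (h.y_h r ht) (h.y_h r hu)).symm)))
      (hS.hMul r t u ht hu)) hi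
  replace hf : ∀ r t, f (S.x r t) = h.y r t := hf
  refine ⟨(Units.coeHom _).comp f, fun r t => congrArg Units.val (hf r t), fun hM c => ?_⟩
  induction c using Pi.mulSingle_induction with
  | one => exact ⟨fun _ => 1, by simp, by simp⟩
  | mul a b ha hb =>
    obtain ⟨d, e1, e2⟩ := ha
    obtain ⟨d', e3, e4⟩ := hb
    exact ⟨fun j => d j * d' j, by rw [map_mul, map_mul, e1, e3, diagonal_mul_diagonal],
      fun j => by rw [mul_pow, e2, e4, map_mul, Units.val_mul]⟩
  | mulSingle i t =>
    refine ⟨D R L K (R.simple i) t, ?_, fun j => ?_⟩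
    · rw [hM.torus_mulSingle, ← h.y_h _ t.ne_zero]
      simp only [StSys.h, StSys.n, MonoidHom.comp_apply, map_mul f, hf, Units.coeHom_apply]
    · simp only [h.D_sq, p_simple, chr_apply, RS.chi_mulSingle, RS.pair_simple_simple, zpow_finset_sum,
        _root_.zpow_mul]

end Mn

end Rho

open Rho

theorem rhoEx : RhoEx := fun K _ _ => by
  have hC : realE7.R.cartanM = CL.Cox.cE7 := realE7.cartanM_eq.trans datCartan_E7
  have h0 : ∀ i j, realE7.R.cartan i j = CL.Cox.cE7 i j := fun i j => congrFun (congrFun hC i) j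
  have h : Mn realE7.R fun (j : Fin 56) (i : Fin 7) => w56 j i := mn (cl56 hC)
    (RS.simplyLaced_of_symm realE7.irred fun i j => by
      rw [h0, h0]; exact sub_eq_zero.1 ((by decide : ∀ i j : Fin 7, CL.Cox.cE7 i j - CL.Cox.cE7 j i = 0) i j)) fun i j => by
      simp only [h0]
      exact (by decide +kernel : ∀ (i : Fin 7) (j : Fin 56), ∑ l : Fin 7, CL.Cox.cE7 i l * w56 j l = -2 ∨
        ∑ l : Fin 7, CL.Cox.cE7 i l * w56 j l = 0 ∨ ∑ l : Fin 7, CL.Cox.cE7 i l * w56 j l = 2) i j
  obtain ⟨ρ, h1, h2⟩ := h.exists_rho (realE7.full K) realE7.irred realE7.two_le_card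
    ((injective_iff_map_eq_one _).2 fun z hz => funext fun i => by
      have h3 := congrFun (pow_eq_one_of_matPow (e := 2) (inv_E7.trans (by rw [smul_one_eq_diagonal]))
        (((realE7.full K).hMul.torus_eq_one_iff (realE7.full _).faithful.uFaithful (realE7.full _).adjoint hC z).1 hz)) i
      exact Units.ext ((sq_eq_one_iff.1 (congrArg Units.val h3 : (z i : K) ^ 2 = 1)).elim id (·.trans (CharTwo.neg_eq 1))))
  refine ⟨ρ, fun r t => (h1 r t).trans ?_, h2⟩
  congr 2
  ext a b
  have : ((fun i : Fin chevE7.rank => w56 a i) = (fun i : Fin chevE7.rank => w56 b i) + (2 : ℤ) • realE7.R.root r) ↔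
      ∀ i : Fin 7, w56 a i = w56 b i + 2 * Cert.auxE7.rt r i :=
    funext_iff.trans (forall_congr' fun i => by rw [← tabE7.root realE7 r i]; rfl)
  by_cases e : ∀ i : Fin 7, w56 a i = w56 b i + 2 * Cert.auxE7.rt r i
  exacts [(E_pos (this.2 e)).trans (if_pos e).symm, (E_neg (mt this.1 e)).trans (if_neg e).symm]

end CL.E7m
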