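/-
Subgroups of `E₇(2)`: the finite checks over the points of the alcove.
-/
import Cfsg.Agent.Inv.E7m0

set_option autoImplicit false

namespace CL.E7m.Tab

open CL.Chev CL.Chev.Cert CL.AltEx

/-- The number of members of `L` that vanish on the `m`-th power. -/
def cnt (n : ℕ) (L : ℕ → ℕ → ℤ) (s : ℕ) (m : ℕ) (a : List ℤ) : ℕ :=
  hsum (fun z => cond (beqZ (z % s) 0) 1 0) (listTo n fun j => m * dot (listTo 7 (L j)) a)

theorem th7_pos : ∀ i < 7, 0 < th7 i := by decide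

theorem rat3 : ratOK 7 56 w56 th7 3 2
    (fun a k => decide ((k, 7 + cnt 126 auxE7.rt 3 1 a) ∈ (56, 133) :: tab3)) = true := by decide +kernel

theorem rat5 : ratOK 7 56 w56 th7 5 2 (fun _ k => Nat.beq k 16 || Nat.beq k 56) = true := by decide +kernel

theorem rat13 : ratOK 7 56 w56 th7 13 2 (fun _ k => Nat.beq k 8 || Nat.beq k 56) = true := by decide +kernel

theorem rat9 : ratOK 7 126 auxE7.rt th7 9 2 (fun a _ =>
    decide ((cnt 56 w56 9 1 a, cnt 56 w56 9 3 a) ∈ tab9) || Nat.beq (cnt 56 w56 9 3 a) 56) = true := by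
  decide +kernel

/-- The part of the check with the last coordinate in `[u, u + k)`. -/
def ratSl (l n : ℕ) (L : ℕ → ℕ → ℤ) (θ : ℕ → ℕ) (s g : ℕ) (Q : List ℤ → ℕ → Bool) (u k : ℕ) : Bool :=
  forceZM (listTo n fun j => listTo (l + 1) (L j)) fun T => allLt k fun v' => force (Nat.add u v') fun v =>
    force (Nat.sub s (Nat.mul (θ l) v)) fun s' => allAlc (listTo l θ) s' fun a =>
      forceZL (T.map fun m => dot m (Int.ofNat v :: a) % s) fun w =>
        !(Nat.beq (hsum (fun z => 256 ^ (g * z % s).toNat) w) (hsum (fun z => 256 ^ z.toNat) w)) ||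
          Q (Int.ofNat v :: a) (hsum (fun z => cond (beqZ z 0) 1 0) w)

theorem allAlc_succ (l : ℕ) (θ : ℕ → ℕ) (s : ℕ) (f : List ℤ → Bool) :
    allAlc (listTo (l + 1) θ) s f = allLt (Nat.succ (Nat.div s (θ l))) fun v =>
      force (Nat.sub s (Nat.mul (θ l) v)) fun s' => allAlc (listTo l θ) s' fun a => f (Int.ofNat v :: a) := rfl

theorem ratOK_of_sl {l n : ℕ} {L : ℕ → ℕ → ℤ} {θ : ℕ → ℕ} {s g : ℕ} {Q : List ℤ → ℕ → Bool}
    (h : ∀ v ≤ s / θ l, ∃ u k, u ≤ v ∧ v < u + k ∧ ratSl l n L θ s g Q u k = true) :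
    ratOK (l + 1) n L θ s g Q = true := by
  rw [ratOK, forceZM_eq, allAlc_succ, allLt_iff]
  intro v hv
  obtain ⟨u, k, h1, h2, h3⟩ := h v (Nat.le_of_lt_succ hv)
  rw [ratSl, forceZM_eq, allLt_iff] at h3
  have h4 := h3 (v - u) (by omega)
  rwa [force_eq, show Nat.add u (v - u) = v from Nat.add_sub_cancel' h1] at h4

/-- The test for order `15`. -/
def q15 (a : List ℤ) (k : ℕ) : Bool :=
  decide ((k, cnt 56 w56 15 5 a, 7 + cnt 126 auxE7.rt 15 5 a) ∈ tab15) || Nat.beq (cnt 56 w56 15 5 a) 56 ||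
    Nat.beq (cnt 56 w56 15 3 a) 56

theorem rat15a : ratSl 6 56 w56 th7 15 2 q15 0 1 = true := by decide +kernel
theorem rat15b : ratSl 6 56 w56 th7 15 2 q15 1 2 = true := by decide +kernel
theorem rat15c : ratSl 6 56 w56 th7 15 2 q15 3 13 = true := by decide +kernel

theorem rat15 : ratOK 7 56 w56 th7 15 2 q15 = true := ratOK_of_sl fun v hv => by
  have h : v ≤ 15 := hv
  by_cases h1 : v < 1
  · exact ⟨0, 1, by omega, by omega, rat15a⟩
  by_cases h2 : v < 3
  · exact ⟨1, 2, by omega, by omega, rat15b⟩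
  · exact ⟨3, 13, by omega, by omega, rat15c⟩

end CL.E7m.Tab
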