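/-
Subgroups of `E₇(2)`: the fixed dimensions of the elements of order `3, 5, 13, 9, 15`.
-/
import Cfsg.Agent.Inv.E7mTab0
import Cfsg.Agent.Inv.E8sG2

set_option autoImplicit false

namespace CL.E7m

open Cfsg Cfsg.Lie CL.E8s CL.Chev CL.Chev.Cert CL.AltEx CL.AltSec CL.Chev.Alg Module Matrix Finset

namespace Tab

/-- The universal domain. -/
abbrev Om2 : Type := Univ (ZMod 2)
/-- The root system. -/
noncomputable abbrev R7 : RS (Fin 7) (Fin 126) := realE7.R

theorem root_E7 : realE7.R.root = fun (j : Fin 126) (i : Fin 7) => auxE7.rt j i :=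
  funext fun j => funext fun i => tabE7.root _ j i

theorem cl7 : Cl R7 fun (j : Fin 126) (i : Fin 7) => auxE7.rt j i := root_E7 ▸ cl_root _

theorem cl56' : Cl R7 fun (j : Fin 56) (i : Fin 7) => w56 j i := cl56 (realE7.cartanM_eq.trans datCartan_E7)

theorem cz_pow {n : ℕ} (L : ℕ → ℕ → ℤ) {s : ℕ} {ζ : Om2ˣ} (hζ : orderOf ζ = s) {y : Fin 7 → ℤ}
    {a : ℕ → ℕ} (ha : ∀ i : Fin 7, R7.evr y (R7.simple i) = a i) (m : ℕ) :
    cz R7 (fun (j : Fin n) (i : Fin 7) => L j i) ((fun i => ζ ^ y i) ^ m) =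
      cnt n L s m (listTo 7 fun i => (a i : ℤ)) := by
  classical
  rw [cz_eq, cnt, hsum_listTo, card_filter]
  refine sum_congr rfl fun j _ => ?_
  rw [map_pow, chr_zpow, ← zpow_natCast, ← _root_.zpow_mul, dot_listTo,
    ← Fin.sum_univ_eq_sum_range fun i => L j i * a i, mul_comm]
  simp only [← orderOf_dvd_iff_zpow_eq_one, hζ, ha]
  by_cases h' : (s : ℤ) ∣ m * ∑ i : Fin 7, L j i * a i <;> simp [h', beqZ]

variable {A : (realE7.Sg Om2).FrobSys} (P : A.Split (realE7.Sg (ZMod 2)))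
include P

theorem charP : CharP Om2 2 := charP_of_injective_ringHom P.f.injective 2

theorem sq_eq_one {x : Om2} (h : x ^ 2 = 1) : x = 1 := by
  have := charP P
  rcases sq_eq_one_iff.1 h with h | h
  exacts [h, h.trans (CharTwo.neg_eq 1)]

theorem tor_inj : Function.Injective A.hMul.torus := (injective_iff_map_eq_one _).2 fun z hz => by
  have h := ((realE7.full Om2).hMul.torus_eq_one_iff (realE7.full _).faithful.uFaithful (realE7.full _).adjoint
    realE7.cartanM_eq z).1 hz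
  have h2 := pow_eq_one_of_matPow (e := 2) (datCartan_E7 ▸ inv_E7.trans (smul_one_eq_diagonal _)) h
  exact funext fun i => Units.ext (sq_eq_one P (by simpa using congrArg Units.val (congrFun h2 i)))

theorem exists_ord {n : ℕ} (hn : n.Coprime 2) : ∃ ζ : Om2ˣ, orderOf ζ = n := by
  have := charP P
  exact exists_orderOf_units (by
    rw [Ne, CharP.cast_eq_zero_iff Om2 2]; exact (Nat.Prime.coprime_iff_not_dvd Nat.prime_two).1 hn.symm)

variable {ρ : GE →* Matrix (Fin 56) (Fin 56) (ZMod 2)} {ρ' : chevE7.group Om2 →* Matrix (Fin 56) (Fin 56) Om2}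

theorem rho_psi (hρ : IsRho (ZMod 2) ρ) (hρ' : IsRho Om2 ρ') (g : GE) : ρ' (P.ψ g) = (ρ g).map P.f := by
  have key : ∀ r t, (ρ'.comp P.ψ).toHomUnits ((realE7.Sg (ZMod 2)).x r t) =
      (P.f.mapMatrix.toMonoidHom.comp ρ).toHomUnits ((realE7.Sg (ZMod 2)).x r t) := fun r t => Units.ext <| by
    change ρ' (P.ψ _) = P.f.mapMatrix (ρ _)
    rw [P.ψ_x, hρ, hρ', map_add, map_one]
    congr 1
    ext a b
    simp only [eM, Matrix.smul_apply, Matrix.of_apply, RingHom.mapMatrix_apply, Matrix.map_apply, smul_eq_mul,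
      map_mul]
    split_ifs <;> simp
  exact congrArg Units.val (DFunLike.congr_fun
    ((realE7.Sg (ZMod 2)).hom_ext_top P.top (fun _ => key _) fun _ => key _) g)

variable {P} {g : GE} {c : Fin 7 → Om2ˣ}

theorem fx_adj (h : TorA P g c) : fx (adj chevE7 (ZMod 2) g) =
    7 + cz R7 (fun (j : Fin 126) (i : Fin 7) => auxE7.rt j i) c := by
  have h1 := fx_map (RingHom.id _) ((g : GL chevE7.Idx (ZMod 2)) : Matrix chevE7.Idx chevE7.Idx (ZMod 2))
  have h2 := fx_map P.f ((g : GL chevE7.Idx (ZMod 2)) : Matrix chevE7.Idx chevE7.Idx (ZMod 2))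
  rw [← val_psiA] at h2
  exact (add_right_cancel (h1.trans h2.symm)).trans (root_E7 ▸ TorA.fx_eq h)

theorem fx_sig (hR : RhoEx) (hρ : IsRho (ZMod 2) ρ) (h : TorA P g c) : fx (sig ρ g) =
    cz R7 (fun (j : Fin 56) (i : Fin 7) => w56 j i) c := by
  classical
  have := charP P
  obtain ⟨ρ', hρ', ht⟩ := hR Om2
  obtain ⟨d, h3, h4⟩ := ht A.hMul c
  have h1 := fx_map (RingHom.id _) (ρ g)
  have h2 := fx_map P.f (ρ g)
  rw [← rho_psi P hρ hρ'] at h2
  refine (add_right_cancel (h1.trans h2.symm)).trans ?_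
  have h5 := finrank_eigen_conj (sig ρ') h 1
  rw [finrank_eigenspace_of_basis (Pi.basisFun Om2 (Fin 56)) (μ := d) (f := sig ρ' (A.hMul.torus c))
    fun i => by simp [sig_apply, h3, ← Pi.single_smul'], End.eigenspace_def, one_smul] at h5
  refine h5.trans ?_
  rw [cz_eq]
  refine congrArg card (filter_congr fun j _ => ⟨fun e => Units.ext ?_, fun e => sq_eq_one P ?_⟩)
  · exact (h4 j).symm.trans (by rw [e, one_pow, Units.val_one])
  · exact (h4 j).trans (congrArg Units.val e)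

omit P in
/-- The normal form of a semisimple element. -/
theorem normal (hR : RhoEx) (hρ : IsRho (ZMod 2) ρ) {g : GE} {s : ℕ} (hs : s.Coprime 2) (h : g ^ s = 1) {n : ℕ}
    {L : ℕ → ℕ → ℤ} (hL : Cl R7 fun (j : Fin n) (i : Fin 7) => L j i) {Q : List ℤ → ℕ → Bool}
    (hQ : ratOK 7 n L th7 s 2 Q = true) : ∃ a, Q a (cnt n L s 1 a) = true ∧ ∀ m,
      fx (sig ρ (g ^ m)) = cnt 56 w56 s m a ∧ fx (adj chevE7 (ZMod 2) (g ^ m)) = 7 + cnt 126 auxE7.rt s m a := by
  obtain ⟨A, ⟨P⟩⟩ := realE7.exists_split (algebraMap (ZMod 2) Om2)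
  obtain ⟨ζ, hζ⟩ := exists_ord P hs
  obtain ⟨y, h1, h2, w, hw, h3⟩ := exists_alcoveA P (tor_inj P) (realE7.std _) hs h hζ
  obtain ⟨a, h4, h5⟩ := ratOK_sound hL th7_pos root_th7 hQ hζ h1 hw h3
  refine ⟨_, ?_, fun m => ⟨(fx_sig hR hρ (h2.pow m)).trans (cz_pow _ hζ h4 m),
    (fx_adj (h2.pow m)).trans (congrArg _ (cz_pow _ hζ h4 m))⟩⟩
  rwa [← cz_pow L hζ h4 1, pow_one]

omit P in
theorem eq_one_of_fx_sig {G : Type*} [Group G] {ρ : G →* Matrix (Fin 56) (Fin 56) (ZMod 2)}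
    (hi : Function.Injective ρ) {g : G} (e : fx (sig ρ g) = 56) : g = 1 := by
  have := eq_one_of_fx (x := sig ρ g) (by rw [e, finrank_fintype_fun_eq_card, Fintype.card_fin])
  refine hi ((Matrix.toLinAlgEquiv' : Matrix (Fin 56) (Fin 56) (ZMod 2) ≃ₐ[ZMod 2] _).injective ?_)
  exact this.trans (map_one (sig ρ)).symm

end Tab

open Tab in
theorem tabs (h : RhoEx) {ρ : GE →* Matrix (Fin 56) (Fin 56) (ZMod 2)} (hρ : IsRho (ZMod 2) ρ)
    (hi : Function.Injective ρ) : Tabs (sig ρ) (adj chevE7 (ZMod 2)) := by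
  have h56 : ∀ {g : GE}, g ≠ 1 → fx (sig ρ g) ≠ 56 := fun hg e => hg (eq_one_of_fx_sig hi e)
  refine ⟨fun g a b => ?_, fun g a b => ?_, fun g a b => ?_, fun g a b => ?_, fun g a b c => ?_⟩
  · obtain ⟨x, h1, h2⟩ := normal h hρ (by decide) a cl56' Tab.rat3
    rw [decide_eq_true_eq, ← (h2 1).1, ← (h2 1).2, pow_one, List.mem_cons] at h1
    exact h1.resolve_left fun e => h56 b (congrArg Prod.fst e)
  · obtain ⟨x, h1, h2⟩ := normal h hρ (by decide) a cl56' Tab.rat5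
    rw [Bool.or_eq_true, Nat.beq_eq, Nat.beq_eq, ← (h2 1).1, pow_one] at h1
    exact h1.resolve_right (h56 b)
  · obtain ⟨x, h1, h2⟩ := normal h hρ (by decide) a cl56' Tab.rat13
    rw [Bool.or_eq_true, Nat.beq_eq, Nat.beq_eq, ← (h2 1).1, pow_one] at h1
    exact h1.resolve_right (h56 b)
  · obtain ⟨x, h1, h2⟩ := normal h hρ (by decide) a cl7 Tab.rat9
    rw [Bool.or_eq_true, Nat.beq_eq, decide_eq_true_eq, ← (h2 1).1, ← (h2 3).1, pow_one] at h1
    exact h1.resolve_right (h56 b)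
  · obtain ⟨x, h1, h2⟩ := normal h hρ (by decide) a cl56' Tab.rat15
    rw [q15, Bool.or_eq_true, Bool.or_eq_true, Nat.beq_eq, Nat.beq_eq, decide_eq_true_eq, ← (h2 1).1, ← (h2 3).1,
      ← (h2 5).1, ← (h2 5).2, pow_one] at h1
    exact (h1.resolve_right (h56 b)).resolve_right (h56 c)

end CL.E7m
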