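/-
Simple modules of `SL₂(q)` in the defining characteristic embed into the homogeneous functions on `F²`.
-/
import Cfsg.Agent.Perm.Module

set_option autoImplicit false
set_option linter.unusedSectionVars false

open Module Matrix

namespace CL.E8s.A

variable {F : Type*} [Field F] {K : Type*} [Field K]

/-- `SL₂(F)` -/
abbrev SL (F : Type*) [Field F] := Matrix.SpecialLinearGroup (Fin 2) F

/-- the upper unitriangular matrices -/
def up (b : F) : SL F := ⟨!![1, b; 0, 1], by simp [Matrix.det_fin_two_of]⟩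

/-- the second kind of elements -/
def lw (j : F) : SL F := ⟨!![j, -1; 1, 0], by simp [Matrix.det_fin_two_of]⟩

/-- the split torus -/
def dd (a : Fˣ) : SL F := ⟨!![(a : F), 0; 0, (a⁻¹ : Fˣ)], by simp [Matrix.det_fin_two_of]⟩

theorem cmul (g h : SL F) : (g * h).1 = g.1 * h.1 := rfl

/-- the unitriangular group -/
def uh : Multiplicative F →* SL F where
  toFun b := up b.toAdd
  map_one' := by ext i j; fin_cases i <;> fin_cases j <;> simp [up]
  map_mul' a b := Subtype.ext (Eq.trans (by ext i j; fin_cases i <;> fin_cases j <;> simp [up, add_comm]) (cmul _ _).symm)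

theorem dd_mul (a b : Fˣ) : dd (a * b) = dd a * dd b := by
  refine Subtype.ext (Eq.trans ?_ (cmul _ _).symm)
  ext i j; fin_cases i <;> fin_cases j <;> simp [dd, mul_comm]

theorem dd_one : dd (1 : Fˣ) = 1 := by
  ext i j; fin_cases i <;> fin_cases j <;> simp [dd]

theorem dd_pow (a : Fˣ) (n : ℕ) : dd (a ^ n) = dd a ^ n := by
  induction n with
  | zero => simpa using dd_one
  | succ n ih => rw [pow_succ, pow_succ, dd_mul, ih]

theorem up_mul_dd (b : F) (a : Fˣ) : up b * dd a = dd a * up (b * ((a⁻¹ * a⁻¹ : Fˣ) : F)) := by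
  refine Subtype.ext ((cmul _ _).trans (Eq.trans ?_ (cmul _ _).symm))
  ext i j; fin_cases i <;> fin_cases j <;> simp [dd, up]
  field_simp

theorem row_mul (g h : SL F) : (g * h).1 1 = g.1 1 ᵥ* h.1 := Matrix.mul_apply_eq_vecMul _ _ _

theorem exists_up {g h : SL F} (e : g.1 1 = h.1 1) : ∃ b, g = up b * h := by
  have e1 : (g * h⁻¹).1 1 = (1 : SL F).1 1 := by rw [row_mul, e, ← row_mul, mul_inv_cancel]
  have e2 := (g * h⁻¹).2
  refine ⟨(g * h⁻¹).1 0 1, mul_inv_eq_iff_eq_mul.1 ?_⟩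
  generalize g * h⁻¹ = u at e1 e2
  have k0 : u.1 1 0 = 0 := by simpa using congrFun e1 0
  have k1 : u.1 1 1 = 1 := by simpa using congrFun e1 1
  rw [det_fin_two, k0, k1, mul_one, mul_zero, sub_zero] at e2
  ext i j; fin_cases i <;> fin_cases j <;> simp [up, k0, k1, e2]

theorem exists_row {v : Fin 2 → F} (hv : v ≠ 0) : ∃ g : SL F, g.1 1 = v := by
  by_cases h1 : v 1 = 0
  · have h0 : v 0 ≠ 0 := fun h => hv (by ext i; fin_cases i <;> simp [h, h1])
    exact ⟨⟨!![0, -(v 0)⁻¹; v 0, v 1], by simp [Matrix.det_fin_two_of, h0]⟩, by ext i; fin_cases i <;> simp⟩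
  · exact ⟨⟨!![(v 1)⁻¹, 0; v 0, v 1], by simp [Matrix.det_fin_two_of, h1]⟩, by ext i; fin_cases i <;> simp⟩

theorem row_ne (g : SL F) : g.1 1 ≠ 0 := fun h => by
  have := g.2
  rw [det_fin_two, congrFun h 0, congrFun h 1] at this
  simp at this

theorem pow_eigen {W : Type*} [AddCommGroup W] [Module K W] (f : End K W) {v : W} {μ : K} (h : f v = μ • v) (k : ℕ) :
    (f ^ k) v = μ ^ k • v := by
  induction k with
  | zero => simp
  | succ k ih => rw [pow_succ', End.mul_apply, ih, map_smul, h, smul_smul, pow_succ]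

/-- simple modules -/
def Simp {G W : Type*} [Group G] [AddCommGroup W] [Module K W] (ρ : Representation K G W) : Prop :=
  Nontrivial W ∧ ∀ U : Submodule K W, (∀ g, ∀ x ∈ U, ρ g x ∈ U) → U = ⊥ ∨ U = ⊤

variable [Fintype F] (c : F →+* K) (p : ℕ) [hp : Fact p.Prime] [CharP K p]
variable {W : Type*} [AddCommGroup W] [Module K W] [FiniteDimensional K W]

theorem coef_zero {k : ℕ} (hk : k < Fintype.card F) (a : Fin (k + 1) → K) (h : ∀ j : F, ∑ i, a i * c j ^ (i : ℕ) = 0) :
    a = 0 := by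
  obtain ⟨e⟩ := Function.Embedding.nonempty_of_card_le (α := Fin (k + 1)) (β := F) (by simpa using hk)
  exact Matrix.eq_zero_of_forall_index_sum_mul_pow_eq_zero (c.injective.comp e.injective) fun j => h _

include c p

omit [FiniteDimensional K W] in
theorem exists_fix [Nontrivial W] (σ : Representation K (SL F) W) : ∃ x, x ≠ 0 ∧ ∀ b, σ (up b) x = x := by
  have : CharP F p := c.charP c.injective p
  obtain ⟨v, -, h0, hv⟩ := CL.Perm.exists_ne_zero_fixed_of_isPGroup (p := p) (P := Multiplicative F)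
    (fun g => ⟨1, by rw [pow_one, ← ofAdd_toAdd g, ← ofAdd_nsmul, nsmul_eq_mul, CharP.cast_eq_zero, zero_mul]; rfl⟩)
    (σ.comp uh) ⊤ (fun _ _ _ => Submodule.mem_top) top_ne_bot
  exact ⟨v, h0, fun b => hv (Multiplicative.ofAdd b)⟩

theorem exists_phi [IsAlgClosed K] [Nontrivial W] (σ : Representation K (SL F) W) :
    ∃ (φ : Dual K W) (k : ℕ), φ ≠ 0 ∧ 1 ≤ k ∧ k < Fintype.card F ∧ (∀ b w, φ (σ (up b) w) = φ w) ∧
      ∀ (a : Fˣ) w, φ (σ (dd a⁻¹) w) = c a ^ k * φ w := by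
  classical
  have h2 : 1 < Fintype.card F := Fintype.one_lt_card
  have : NeZero (Fintype.card F - 1) := ⟨by omega⟩
  obtain ⟨a₀, ha₀⟩ := IsCyclic.exists_monoid_generator (α := Fˣ)
  have ho : orderOf a₀ = Fintype.card F - 1 := by
    rw [orderOf_eq_card_of_forall_mem_powers ha₀, Nat.card_eq_fintype_card, Fintype.card_units]
  have hr : IsPrimitiveRoot (c a₀) (Fintype.card F - 1) :=
    (IsPrimitiveRoot.coe_units_iff.2 (ho ▸ IsPrimitiveRoot.orderOf a₀)).map_of_injective c.injective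
  obtain ⟨ψ, h0, hψ⟩ := exists_fix c p σ.dual
  let E : Submodule K (Dual K W) := ⨅ b, LinearMap.ker (σ.dual (up b) - 1)
  have mE : ∀ φ, φ ∈ E ↔ ∀ b, σ.dual (up b) φ = φ := fun φ => by simp only [E, Submodule.mem_iInf, LinearMap.mem_ker,
    LinearMap.sub_apply, End.one_apply, sub_eq_zero]
  have hE : ∀ φ ∈ E, σ.dual (dd a₀) φ ∈ E := fun φ h => (mE _).2 fun b => by
    rw [← End.mul_apply, ← map_mul, up_mul_dd, map_mul, End.mul_apply, (mE _).1 h]
  have : Nontrivial E := ⟨⟨⟨ψ, (mE _).2 hψ⟩, 0, fun e => h0 (congrArg Subtype.val e)⟩⟩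
  obtain ⟨μ, hμ⟩ := End.exists_eigenvalue (K := K) (V := E) ((σ.dual (dd a₀)).restrict hE)
  obtain ⟨φ, hφ⟩ := hμ.exists_hasEigenvector
  have e1 : σ.dual (dd a₀) φ = μ • (φ : Dual K W) := congrArg Subtype.val hφ.apply_eq_smul
  have n0 : (φ : Dual K W) ≠ 0 := fun e => hφ.2 (Subtype.ext e)
  have e2 : ∀ n : ℕ, σ.dual (dd (a₀ ^ n)) φ = μ ^ n • (φ : Dual K W) := fun n => by
    rw [dd_pow, map_pow, pow_eigen _ e1]
  have e3 : μ ^ (Fintype.card F - 1) = 1 := by
    have := e2 (Fintype.card F - 1)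
    rw [← ho, pow_orderOf_eq_one, dd_one, map_one, End.one_apply, ho] at this
    exact smul_left_injective K n0 (this.symm.trans (one_smul K _).symm)
  obtain ⟨k, hk1, hk2, hk⟩ : ∃ k, 1 ≤ k ∧ k < Fintype.card F ∧ c a₀ ^ k = μ := by
    obtain ⟨i, hi, e⟩ := hr.eq_pow_of_pow_eq_one e3
    rcases i.eq_zero_or_pos with rfl | h
    · exact ⟨Fintype.card F - 1, by omega, by omega, by rw [← e, pow_zero, hr.pow_eq_one]⟩
    · exact ⟨i, h, by omega, e⟩
  refine ⟨φ, k, n0, hk1, hk2, fun b w => ?_, fun a w => ?_⟩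
  · conv_lhs => rw [← (mE _).1 φ.2 b]
    rw [Representation.dual_apply, Dual.transpose_apply, LinearMap.comp_apply, ← End.mul_apply, ← map_mul,
      inv_mul_cancel, map_one, End.one_apply]
  · obtain ⟨n, rfl⟩ := ha₀ a
    have := LinearMap.congr_fun (e2 n) w
    rw [Representation.dual_apply, Dual.transpose_apply, LinearMap.comp_apply,
      ← eq_inv_of_mul_eq_one_left ((dd_mul _ _).symm.trans (by rw [inv_mul_cancel, dd_one]))] at this
    rw [this, ← hk, Units.val_pow_eq_pow_val, map_pow, ← pow_mul, ← pow_mul, mul_comm n]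
    rfl

theorem exists_Phi [IsAlgClosed K] (σ : Representation K (SL F) W) (hs : Simp σ) :
    ∃ (Φ : W →ₗ[K] ((Fin 2 → F) → K)) (k : ℕ), Function.Injective Φ ∧ 1 ≤ k ∧ k < Fintype.card F ∧
      (∀ g w v, Φ (σ g w) v = Φ w (v ᵥ* g.1)) ∧ ∀ w (a : F) v, Φ w (a • v) = c a ^ k * Φ w v := by
  classical
  have := hs.1
  obtain ⟨φ, k, n0, hk1, hk2, hu, hd⟩ := exists_phi c p σ
  let Φ : W →ₗ[K] ((Fin 2 → F) → K) :=
    LinearMap.pi fun v => if h : ∃ g : SL F, g.1 1 = v then φ ∘ₗ σ h.choose else 0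
  have r : ∀ (g : SL F) w, Φ w (g.1 1) = φ (σ g w) := fun g w => by
    have h : ∃ g' : SL F, g'.1 1 = g.1 1 := ⟨g, rfl⟩
    obtain ⟨b, hb⟩ := exists_up h.choose_spec
    simp only [Φ, LinearMap.pi_apply, dif_pos h, LinearMap.comp_apply]
    rw [hb, map_mul, End.mul_apply, hu]
  have z : ∀ w, Φ w 0 = 0 := fun w => by
    simp only [Φ, LinearMap.pi_apply, dif_neg fun (⟨g, h⟩ : ∃ g : SL F, g.1 1 = 0) => row_ne g h, LinearMap.zero_apply]
  have q : ∀ g w v, Φ (σ g w) v = Φ w (v ᵥ* g.1) := fun g w v => by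
    by_cases hv : v = 0
    · rw [hv, zero_vecMul, z, z]
    · obtain ⟨h, rfl⟩ := exists_row hv
      rw [← row_mul, r, r, map_mul, End.mul_apply]
  refine ⟨Φ, k, LinearMap.ker_eq_bot.1 ((hs.2 _ fun g x hx => ?_).resolve_right fun e => n0 ?_), hk1, hk2, q,
    fun w a v => ?_⟩
  · exact funext fun v => by rw [q, LinearMap.mem_ker.1 hx]; rfl
  · refine LinearMap.ext fun w => ?_
    have := r 1 w
    rw [LinearMap.mem_ker.1 (e.ge Submodule.mem_top), map_one] at this
    exact this.symm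
  by_cases ha : a = 0
  · rw [ha, zero_smul, z, map_zero, zero_pow (by omega), zero_mul]
  by_cases hv : v = 0
  · rw [hv, smul_zero, z, mul_zero]
  obtain ⟨h, rfl⟩ := exists_row hv
  have e : a • h.1 1 = (dd (Units.mk0 a ha)⁻¹ * h).1 1 := by
    rw [row_mul]
    ext i
    simp [dd, vecMul, dotProduct]
  rw [e, r, r, map_mul, End.mul_apply, hd]
  rfl

theorem exists_top (σ : Representation K (SL F) W) [Nontrivial W]
    {Φ : W →ₗ[K] ((Fin 2 → F) → K)} {k : ℕ} (hΦ : Function.Injective Φ) (hk1 : 1 ≤ k) (hk2 : k < Fintype.card F)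
    (q : ∀ g w v, Φ (σ g w) v = Φ w (v ᵥ* g.1)) (hh : ∀ w (a : F) v, Φ w (a • v) = c a ^ k * Φ w v) :
    (fun v => c (v 0) ^ k) ∈ LinearMap.range Φ ∨ ∃ w, w ≠ 0 ∧ ∀ g, σ g w = w := by
  classical
  obtain ⟨w, w0, hu⟩ := exists_fix c p σ
  have z0 : c 0 ^ k = 0 := by rw [map_zero, zero_pow (by omega)]
  obtain ⟨α, hα⟩ : ∃ α, α = Φ w ![0, 1] := ⟨_, rfl⟩
  obtain ⟨β, hβ⟩ : ∃ β, β = Φ w ![1, 0] := ⟨_, rfl⟩
  obtain ⟨ε, hε⟩ : ∃ ε, ε = ∑ t : F, c t ^ k := ⟨_, rfl⟩
  have f : ∀ v, Φ w v = c (v 0) ^ k * β + if v 0 = 0 then c (v 1) ^ k * α else 0 := fun v => by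
    split_ifs with h
    · rw [h, z0, zero_mul, zero_add, hα, ← hh]
      exact congrArg _ (by ext i; fin_cases i <;> simp [h])
    · rw [add_zero, hβ, ← hh, ← congrArg (Φ · v) (hu (-(v 1 / v 0))), q]
      refine congrArg _ ?_
      ext i; fin_cases i <;> simp [up, vecMul, dotProduct]
      field_simp
      ring
  have sc : ∀ (x : W) (γ : K), γ ≠ 0 → (∀ v, Φ x v = c (v 0) ^ k * γ) → (fun v => c (v 0) ^ k) ∈ LinearMap.range Φ :=
    fun x γ h e => ⟨γ⁻¹ • x, funext fun v => by rw [map_smul, Pi.smul_apply, e, smul_eq_mul]; field_simp⟩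
  by_cases h1 : α = 0
  · refine Or.inl (sc w β (fun h => w0 (hΦ (funext fun v => ?_))) fun v => by simp [f, h1])
    simp [f, h, h1]
  by_cases h2 : ε * β + (-1) ^ k * α = 0
  · have hk : k = Fintype.card F - 1 := by
      by_contra h
      have := FiniteField.sum_pow_lt_card_sub_one (K := F) k (by omega)
      rw [hε, ← Finset.sum_congr rfl fun t _ => map_pow c t k, ← map_sum, this] at h2
      simp [h1] at h2
    have o : ∀ t : F, c t ^ k = 1 - if t = 0 then 1 else 0 := fun t => by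
      split_ifs with h
      · rw [h, z0, sub_self]
      · rw [← map_pow, hk, FiniteField.pow_card_sub_one_eq_one t h, map_one, sub_zero]
    have e0 : (Fintype.card F : K) = 0 := by rw [← map_natCast c, FiniteField.cast_card_eq_zero, map_zero]
    have e1 : ε = -1 := by simp [hε, o, e0]
    have e2 : β = α := by
      have := o (-1)
      rw [if_neg (by simp), map_neg, map_one, sub_zero] at this
      rw [e1, this] at h2
      linear_combination -h2
    have f2 : ∀ v, v ≠ 0 → Φ w v = α := fun v hv => by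
      rw [f, o, o, e2]
      split_ifs with a b
      · exact absurd (by ext i; fin_cases i <;> simp [a, b]) hv
      all_goals ring
    refine Or.inr ⟨w, w0, fun g => hΦ (funext fun v => ?_)⟩
    by_cases hv : v = 0
    · rw [q, hv, zero_vecMul]
    · obtain ⟨h, rfl⟩ := exists_row hv
      rw [q, ← row_mul, f2 _ (row_ne _), f2 _ hv]
  refine Or.inl (sc (∑ j, σ (lw j) w) _ h2 fun v => ?_)
  have e : ∀ j, Φ (σ (lw j) w) v = c (v 0 * j + v 1) ^ k * β +
      if v 0 * j + v 1 = 0 then c (-v 0) ^ k * α else 0 := fun j => by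
    rw [q, f]
    simp [lw, vecMul, dotProduct]
  rw [map_sum, Finset.sum_apply, Finset.sum_congr rfl fun j _ => e j]
  by_cases h : v 0 = 0
  · have e0 : (Fintype.card F : K) = 0 := by rw [← map_natCast c, FiniteField.cast_card_eq_zero, map_zero]
    simp [h, show k ≠ 0 by omega, e0]
  have e3 : ε = c (v 0) ^ k * ε := by
    rw [hε, Finset.mul_sum, ← Equiv.sum_comp (Equiv.mulLeft₀ (v 0) h)]
    simp [mul_pow]
  refine (Equiv.sum_comp ((Equiv.mulLeft₀ (v 0) h).trans (Equiv.addRight (v 1))) fun t => c t ^ k * β +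
      if t = 0 then c (-v 0) ^ k * α else 0).trans ?_
  rw [Finset.sum_add_distrib, ← Finset.sum_mul, ← hε, Finset.sum_ite_eq',
    if_pos (Finset.mem_univ _), map_neg, neg_pow]
  linear_combination β * e3

end CL.E8s.A
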