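/-
Eigenvalues on the modules of `SL₂(q)` in the defining characteristic.
-/
import Cfsg.Agent.Inv.E8sA1
import Cfsg.Agent.Char.GreenLift

set_option autoImplicit false
set_option linter.unusedSectionVars false

open Module Matrix Polynomial

namespace CL.E8s

/-- the weights of the socle of the `k`-th symmetric power -/
def wts (p k : ℕ) : Multiset ℤ :=
  ((Multiset.range (k + 1)).filter fun i => ¬ p ∣ k.choose i).map fun i => (k : ℤ) - 2 * (i : ℕ)

namespace A

variable {F : Type*} [Field F] {K : Type*} [Field K]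

theorem roots_of_basis {W ι : Type*} [AddCommGroup W] [Module K W] [FiniteDimensional K W] [Fintype ι]
    (b : Basis ι K W) {T : End K W} (μ : ι → K) (h : ∀ i, T (b i) = μ i • b i) :
    T.charpoly.roots = Finset.univ.val.map μ := by
  classical
  have e : LinearMap.toMatrix b b T = diagonal μ := by
    ext i j
    rw [LinearMap.toMatrix_apply, h, map_smul, b.repr_self, diagonal_apply]
    split_ifs with e
    · simp [e]
    · simp [Ne.symm e]
  rw [← LinearMap.charpoly_toMatrix _ b, e, charpoly_diagonal, ← roots_multiset_prod_X_sub_C (Finset.univ.val.map μ),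
    Multiset.map_map]
  rfl

theorem exists_eig (A : Matrix (Fin 2) (Fin 2) K) (l : Kˣ) (h2 : l ^ 2 ≠ 1) (hd : A.det = 1)
    (ht : A.trace = l + l⁻¹.val) : ∃ u v : Fin 2 → K, A *ᵥ u = l.val • u ∧ A *ᵥ v = l⁻¹.val • v ∧
      ∀ a, ∃ s t : K, a = s • u + t • v := by
  have ex : ∀ m n : K, m * n = 1 → A.trace = m + n → ∃ u : Fin 2 → K, u ≠ 0 ∧ A *ᵥ u = m • u := fun m n e1 e2 => by
    obtain ⟨u, h0, hu⟩ := (exists_mulVec_eq_zero_iff (M := A - m • 1)).2 (by
      rw [det_fin_two] at hd ⊢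
      rw [trace_fin_two] at e2
      simp
      linear_combination hd - m * e2 - e1)
    exact ⟨u, h0, by rwa [sub_mulVec, sub_eq_zero, smul_mulVec, one_mulVec] at hu⟩
  obtain ⟨u, u0, hu⟩ := ex l l⁻¹.val l.mul_inv ht
  obtain ⟨v, v0, hv⟩ := ex l⁻¹.val l l.inv_mul (by rw [ht, add_comm])
  have ne : l.val ≠ l⁻¹.val := fun e => h2 (by rw [pow_two, ← mul_inv_cancel l, ← Units.ext e])
  have li := End.eigenvectors_linearIndependent' (f := A.mulVecLin) ![l.val, l⁻¹.val]
    (fun i j e => by fin_cases i <;> fin_cases j <;> simp_all) ![u, v] fun i => by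
      fin_cases i
      exacts [⟨End.mem_eigenspace_iff.2 hu, u0⟩, ⟨End.mem_eigenspace_iff.2 hv, v0⟩]
  refine ⟨u, v, hu, hv, fun a => ?_⟩
  obtain ⟨c, hc⟩ := (Submodule.mem_span_range_iff_exists_fun K).1
    ((li.span_eq_top_of_card_eq_finrank' (by simp)).ge (Submodule.mem_top (x := a)))
  exact ⟨c 0, c 1, by simpa using hc.symm⟩

variable (c : F →+* K)

/-- linear forms -/
def lin : (Fin 2 → K) →ₗ[K] ((Fin 2 → F) → K) where
  toFun a v := c (v 0) * a 0 + c (v 1) * a 1
  map_add' a b := by ext v; simp; ring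
  map_smul' s a := by ext v; simp; ring

variable (K) in
/-- the action on functions -/
def ac (g : SL F) : ((Fin 2 → F) → K) →ₐ[K] ((Fin 2 → F) → K) where
  toFun f v := f (v ᵥ* g.1)
  map_one' := rfl
  map_mul' _ _ := rfl
  map_zero' := rfl
  map_add' _ _ := rfl
  commutes' _ := rfl

theorem ac_lin (g : SL F) (a : Fin 2 → K) : ac K g (lin c a) = lin c (g.1.map c *ᵥ a) := by
  ext v
  change c ((v ᵥ* g.1) 0) * a 0 + c ((v ᵥ* g.1) 1) * a 1 = c (v 0) * _ + c (v 1) * _
  simp [vecMul, mulVec, dotProduct]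
  ring

/-- the span of the powers -/
def Mk (k : ℕ) : Submodule K ((Fin 2 → F) → K) := Submodule.span K (Set.range fun a => lin c a ^ k)

theorem pow_mem_Mk (k : ℕ) (a : Fin 2 → K) : lin c a ^ k ∈ Mk c k := Submodule.subset_span ⟨a, rfl⟩

/-- the exponents that occur -/
abbrev Ix (p k : ℕ) : Type := ↥((Finset.range (k + 1)).filter fun i => ¬ p ∣ k.choose i)

variable [Fintype F] (p : ℕ) [hp : Fact p.Prime] [CharP K p]

theorem pow_mem_span {B : Type*} [CommRing B] [Algebra K B] (x y : B) (s t : K) (k : ℕ) :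
    (s • x + t • y) ^ k ∈ Submodule.span K (Set.range fun i : Ix p k => x ^ (k - i) * y ^ (i : ℕ)) := by
  rw [add_comm (s • x), add_pow]
  refine Submodule.sum_mem _ fun i hi => ?_
  by_cases h : p ∣ k.choose i
  · rw [← map_natCast (algebraMap K B), (CharP.cast_eq_zero_iff K p _).2 h, map_zero, mul_zero]
    exact zero_mem _
  · rw [mul_comm, ← nsmul_eq_mul, _root_.smul_pow, _root_.smul_pow, smul_mul_smul_comm, mul_comm (y ^ i)]
    refine nsmul_mem (Submodule.smul_mem _ _ (Submodule.subset_span ?_)) _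
    exact ⟨⟨i, Finset.mem_filter.2 ⟨hi, h⟩⟩, rfl⟩

theorem mon_mem {B : Type*} [CommRing B] [Algebra K B] {k : ℕ} (hk : k < Fintype.card F) {N : Submodule K B} {x y : B}
    (h : ∀ t : F, (x + c t • y) ^ k ∈ N) (i : Ix p k) : x ^ (k - i) * y ^ (i : ℕ) ∈ N := by
  obtain ⟨i, hi⟩ := i
  obtain ⟨h1, h2⟩ := Finset.mem_filter.1 hi
  refine (Subspace.forall_mem_dualAnnihilator_apply_eq_zero_iff _ _).1 fun ψ hψ => ?_
  have := congrFun (coef_zero c hk (fun i => (k.choose i : K) * ψ (x ^ (k - i) * y ^ (i : ℕ))) fun j => ?_)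
    ⟨i, Finset.mem_range.1 h1⟩
  · exact (mul_eq_zero.1 this).resolve_left fun h => h2 ((CharP.cast_eq_zero_iff K p _).1 h)
  · rw [← (Submodule.mem_dualAnnihilator ψ).1 hψ _ (h j), add_comm x, add_pow, Finset.sum_range, map_sum]
    refine Finset.sum_congr rfl fun i _ => ?_
    rw [mul_comm _ (k.choose i : B), ← nsmul_eq_mul (α := B), map_nsmul, _root_.smul_pow, smul_mul_assoc, map_smul, mul_comm (y ^ _),
      nsmul_eq_mul, smul_eq_mul]
    ring

theorem Mk_eq {k : ℕ} (hk : k < Fintype.card F) {u v : Fin 2 → K} (h : ∀ a, ∃ s t : K, a = s • u + t • v) :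
    Mk c k = Submodule.span K (Set.range fun i : Ix p k => lin c u ^ (k - i) * lin c v ^ (i : ℕ)) := by
  refine le_antisymm (Submodule.span_le.2 ?_) (Submodule.span_le.2 ?_)
  · rintro _ ⟨a, rfl⟩
    obtain ⟨s, t, rfl⟩ := h a
    simp only [map_add, map_smul]
    exact pow_mem_span p _ _ s t k
  · rintro _ ⟨i, rfl⟩
    exact mon_mem c p hk (N := Mk c k) (fun t => by rw [← map_smul, ← map_add]; exact pow_mem_Mk c k _) i

theorem std (a : Fin 2 → K) : ∃ s t : K, a = s • ![1, 0] + t • ![0, 1] :=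
  ⟨a 0, a 1, by ext i; fin_cases i <;> simp⟩

theorem finrank_Mk {k : ℕ} (hk : k < Fintype.card F) : finrank K (Mk c k) = Fintype.card (Ix p k) := by
  classical
  rw [Mk_eq c p hk std]
  refine finrank_span_eq_card (Fintype.linearIndependent_iff.2 fun a ha i => ?_)
  let e : Ix p k → Fin (k + 1) := fun i => ⟨i, Finset.mem_range.1 (Finset.mem_filter.1 i.2).1⟩
  have := congrFun (coef_zero c hk (fun j => ∑ i with e i = j, a i) fun t => ?_) (e i)
  · rw [Finset.sum_eq_single i (fun j hj ne => (ne (Subtype.ext (congrArg Fin.val (Finset.mem_filter.1 hj).2))).elim)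
      (by simp)] at this
    exact this
  · have h := congrFun ha ![1, t]
    rw [Finset.sum_apply, ← Finset.sum_fiberwise _ e] at h
    refine (Finset.sum_congr rfl fun j _ => ?_).trans h
    rw [Finset.sum_mul]
    refine Finset.sum_congr rfl fun i hi => ?_
    rw [← (Finset.mem_filter.1 hi).2]
    simp [lin, e]

theorem simple_spec [IsAlgClosed K] {W : Type*} [AddCommGroup W] [Module K W] [FiniteDimensional K W]
    (σ : Representation K (SL F) W) (hs : Simp σ) : ∃ k, k < Fintype.card F ∧ (σ (-1) = 1 → (-1 : K) ^ k = 1) ∧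
      ∀ (g : SL F) (l : Kˣ), l ^ 2 ≠ 1 → c (g : Matrix (Fin 2) (Fin 2) F).trace = l + l⁻¹.val →
        (σ g).charpoly.roots = (wts p k).map fun e => ((l ^ e : Kˣ) : K) := by
  classical
  have := hs.1
  obtain ⟨Φ, k, hΦ, hk1, hk2, q, hh⟩ := exists_Phi c p σ hs
  rcases exists_top c p σ hΦ hk1 hk2 q hh with ⟨x, hx⟩ | ⟨x, x0, hx⟩
  swap
  · have e : Submodule.span K {x} = ⊤ := (hs.2 _ fun g y hy => by
      obtain ⟨a, rfl⟩ := Submodule.mem_span_singleton.1 hy
      rwa [map_smul, hx]).resolve_left (by simpa using x0)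
    refine ⟨0, Fintype.card_pos, fun _ => pow_zero _, fun g l _ _ => ?_⟩
    rw [roots_of_basis (Basis.mk (v := fun _ : Unit => x) (linearIndependent_unique_iff.2 x0) (by simp [e]))
      (fun _ => 1) fun _ => by simp [hx]]
    simp [wts, Multiset.filter_singleton, hp.out.ne_one]
  have q' : ∀ g w, Φ (σ g w) = ac K g (Φ w) := fun g w => funext (q g w)
  have hx' : Φ x = lin c ![1, 0] ^ k := hx.trans (funext fun v => by simp [lin])
  have hr : LinearMap.range Φ = Mk c k := by
    refine le_antisymm (LinearMap.range_le_iff_comap.2 ((hs.2 _ fun g y hy => ?_).resolve_left fun e => ?_)) ?_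
    · rw [Submodule.mem_comap, q']
      refine (Submodule.span_le (p := (Mk c k).comap (ac K g).toLinearMap)).2 ?_ hy
      rintro _ ⟨a, rfl⟩
      change ac K g (lin c a ^ k) ∈ Mk c k
      rw [map_pow, ac_lin]
      exact pow_mem_Mk c k _
    · have : x = 0 := e.le (show Φ x ∈ Mk c k from hx' ▸ pow_mem_Mk c k _)
      have := congrFun (this ▸ hx) ![1, 0]
      simp at this
    · rw [Mk_eq c p hk2 (u := ![0, 1]) (v := ![1, 0]) fun a => ⟨a 1, a 0, by ext i; fin_cases i <;> simp⟩,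
        Submodule.span_le]
      rintro _ ⟨i, rfl⟩
      refine mon_mem c p hk2 (N := LinearMap.range Φ) (fun t => ⟨σ (lw t) x, ?_⟩) i
      rw [q', hx', map_pow, ac_lin, ← map_smul, ← map_add]
      congr 2
      ext i
      fin_cases i <;> simp [lw, mulVec, dotProduct]
  refine ⟨k, hk2, fun e => ?_, fun g l h2 ht => ?_⟩
  · have h1 := q (-1) x ![1, 0]
    rw [e, End.one_apply, hx] at h1
    simpa [vecMul, dotProduct] using h1.symm
  obtain ⟨u, v, hu, hv, huv⟩ := exists_eig (g.1.map c) l h2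
    (by rw [← RingHom.mapMatrix_apply, ← RingHom.map_det, g.2, map_one]) (by rw [← ht, AddMonoidHom.map_trace])
  have e := Mk_eq c p hk2 huv
  have hm : ∀ i : Ix p k, lin c u ^ (k - i) * lin c v ^ (i : ℕ) ∈ LinearMap.range Φ := fun i => by
    rw [hr, e]
    exact Submodule.subset_span ⟨i, rfl⟩
  choose w hw using hm
  have top : ⊤ ≤ Submodule.span K (Set.range w) := fun y _ => by
    have h1 : Φ y ∈ (Submodule.span K (Set.range w)).map Φ := by
      rw [Submodule.map_span, ← Set.range_comp, show Φ ∘ w = _ from funext hw, ← e, ← hr]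
      exact ⟨y, rfl⟩
    obtain ⟨z, hz, e⟩ := h1
    exact hΦ e ▸ hz
  rw [roots_of_basis (basisOfTopLeSpanOfCardEqFinrank w top (by
      rw [← finrank_Mk c p hk2, ← hr, LinearMap.finrank_range_of_inj hΦ]))
    (fun i => ((l ^ ((k : ℤ) - 2 * (i : ℕ)) : Kˣ) : K)) fun i => hΦ ?_]
  · rw [wts, Multiset.map_map]
    exact Multiset.attach_map_val' ((Multiset.range (k + 1)).filter fun i => ¬ p ∣ k.choose i)
      fun i : ℕ => ((l ^ ((k : ℤ) - 2 * (i : ℕ)) : Kˣ) : K)
  · have hi := Nat.lt_succ_iff.1 (Finset.mem_range.1 (Finset.mem_filter.1 i.2).1)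
    rw [q', map_smul, coe_basisOfTopLeSpanOfCardEqFinrank, hw, map_mul, map_pow, map_pow, ac_lin, ac_lin, hu, hv,
      map_smul, map_smul, _root_.smul_pow, _root_.smul_pow, smul_mul_smul_comm, ← Units.val_pow_eq_pow_val,
      ← Units.val_pow_eq_pow_val, ← Units.val_mul, inv_pow, ← _root_.zpow_natCast, ← _root_.zpow_natCast, ← _root_.zpow_sub,
      Nat.cast_sub hi]
    congr 3
    ring

end A

theorem sl2_spec {F Ω : Type*} [Field F] [Fintype F] [Field Ω] [IsAlgClosed Ω] (f : F →+* Ω) (p : ℕ) [Fact p.Prime]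
    [CharP Ω p] {V : Type*} [AddCommGroup V] [Module Ω V] [FiniteDimensional Ω V]
    (ρ : Representation Ω (Matrix.SpecialLinearGroup (Fin 2) F) V) :
    ∃ K : Multiset ℕ, (∀ k ∈ K, k < Fintype.card F ∧ (ρ (-1) = 1 → (-1 : Ω) ^ k = 1)) ∧
      ∀ (g : Matrix.SpecialLinearGroup (Fin 2) F) (l : Ωˣ), l ^ 2 ≠ 1 →
        f (g : Matrix (Fin 2) (Fin 2) F).trace = l + l⁻¹.val →
        (ρ g).charpoly.roots = K.bind fun k => (wts p k).map fun e => ((l ^ e : Ωˣ) : Ω) := by
  induction' hn : finrank Ω V using Nat.strong_induction_on with n ih generalizing V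
  subst hn
  rcases subsingleton_or_nontrivial V with h0 | h0
  · refine ⟨0, by simp, fun g l _ _ => ?_⟩
    rw [(LinearMap.charpoly_monic _).natDegree_eq_zero.1 (by rw [LinearMap.charpoly_natDegree, finrank_zero_of_subsingleton])]
    simp
  by_cases hs : A.Simp ρ
  · obtain ⟨k, h1, h2, h3⟩ := A.simple_spec f p ρ hs
    exact ⟨{k}, by simpa using ⟨h1, h2⟩, fun g l a b => by rw [h3 g l a b, Multiset.singleton_bind]⟩
  simp only [A.Simp, h0, true_and, not_forall, not_or] at hs
  obtain ⟨U, hU, u0, u1⟩ := hs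
  obtain ⟨K₁, a1, a2⟩ := ih _ (Submodule.finrank_lt u1) (CL.Green.subHom ρ U hU) rfl
  obtain ⟨K₂, b1, b2⟩ := ih _ (by
    have := U.finrank_quotient_add_finrank
    have := Submodule.finrank_eq_zero.not.2 u0
    omega) (CL.Green.quotHom ρ U hU) rfl
  refine ⟨K₁ + K₂, fun k hk => (Multiset.mem_add.1 hk).elim (fun h => ⟨(a1 k h).1, fun e => (a1 k h).2 ?_⟩)
    fun h => ⟨(b1 k h).1, fun e => (b1 k h).2 ?_⟩, fun g l a b => ?_⟩
  · ext x
    simp [CL.Green.subHom, e]
  · ext x
    simp [CL.Green.quotHom, e]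
  · rw [CL.Green.charpoly_eq_mul U _ (hU g),
      roots_mul (mul_ne_zero (LinearMap.charpoly_monic _).ne_zero (LinearMap.charpoly_monic _).ne_zero),
      Multiset.add_bind, ← a2 g l a b, ← b2 g l a b]
    rfl

end CL.E8s
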