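/-
`E₈(3)` has no subgroup `L₂(243)`, `L₂(729)`, `L₂(41)`.
-/
import Cfsg.Agent.Inv.E8sC3
import Cfsg.Agent.Inv.E8sA2
import Cfsg.Agent.Known.GL2Tori

set_option autoImplicit false

namespace CL.E8s

open Cfsg CL.GL2 Module Polynomial Matrix Subgroup

theorem exists_hom_center {G₀ G : Type*} [Group G₀] [Group G] {H : Subgroup G₀} (e : H ≃* G ⧸ center G) :
    ∃ φ : G →* G₀, ∀ g, φ g = 1 ↔ g ∈ center G :=
  ⟨H.subtype.comp (e.symm.toMonoidHom.comp (QuotientGroup.mk' _)), fun g => by simp⟩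

variable {F : Type*} [Field F]

theorem sq_of_center {z : SL2 F} (hz : z ∈ center (SL2 F)) : z ^ 2 = 1 := by
  obtain ⟨r, h1, h2⟩ := Matrix.SpecialLinearGroup.mem_center_iff.1 hz
  refine Subtype.ext ?_
  rw [Matrix.SpecialLinearGroup.coe_pow, ← h2, ← map_pow, show r ^ 2 = 1 by simpa using h1, map_one,
    Matrix.SpecialLinearGroup.coe_one]

theorem neg_one_center : (-1 : SL2 F) ∈ center (SL2 F) := mem_center_iff.2 fun g => by simp

theorem orderOf_of_odd {G₀ : Type*} [Group G₀] {φ : SL2 F →* G₀} (hφ : ∀ g, φ g = 1 ↔ g ∈ center (SL2 F)) {g : SL2 F}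
    (h : Odd (orderOf g)) : orderOf (φ g) = orderOf g := by
  refine Nat.dvd_antisymm (orderOf_map_dvd φ g) ?_
  have := sq_of_center ((hφ (g ^ orderOf (φ g))).1 (by rw [map_pow, pow_orderOf_eq_one]))
  rw [← pow_mul, ← orderOf_dvd_iff_pow_eq_one] at this
  exact (Nat.coprime_two_right.2 h).dvd_of_dvd_mul_right this

theorem exists_eigenvalue (f : F →+* Om) {g : SL2 F} {r : ℕ} (hr : r.Prime) (h3 : r ≠ 3) (hg : orderOf g = r) :
    ∃ l : Omˣ, orderOf l = r ∧ f (g : Matrix (Fin 2) (Fin 2) F).trace = l + l⁻¹.val := by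
  have := Fact.mk hr
  set t := f (g : Matrix (Fin 2) (Fin 2) F).trace with ht
  obtain ⟨l, hl⟩ := IsAlgClosed.exists_root (X ^ 2 - C t * X + 1 : Om[X]) (by
    rw [show (X ^ 2 - C t * X + 1 : Om[X]).degree = 2 by compute_degree!]; decide)
  replace hl : l * (t - l) = 1 := by simp at hl; linear_combination -hl
  let u : Omˣ := Units.mkOfMulEqOne l _ hl
  let A := (g : Matrix (Fin 2) (Fin 2) F).map f
  have hA : ∀ n, A ^ n = 1 ↔ g ^ n = 1 := fun n => by
    have e : A ^ n = ((g ^ n : SL2 F) : Matrix (Fin 2) (Fin 2) F).map f := by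
      rw [Matrix.SpecialLinearGroup.coe_pow]; exact (map_pow f.mapMatrix _ n).symm
    rw [e]
    exact ⟨fun h => Subtype.ext (Matrix.map_injective f.injective (h.trans (map_one f.mapMatrix).symm)),
      fun h => by rw [h]; exact map_one f.mapMatrix⟩
  have hd : A 0 0 * A 1 1 - A 0 1 * A 1 0 = 1 := by
    have := congrArg f g.det_coe
    rw [det_fin_two] at this
    simpa [A] using this
  have ht' : t = A 0 0 + A 1 1 := by simp [A, ht, trace_fin_two]
  have h1 : A * (A - (t - l) • 1) = l • (A - (t - l) • 1) := by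
    ext i j
    fin_cases i <;> fin_cases j <;> simp [Matrix.mul_apply, Fin.sum_univ_two]
    · linear_combination hl - hd - A 0 0 * ht'
    · linear_combination (-A 0 1) * ht'
    · linear_combination (-A 1 0) * ht'
    · linear_combination hl - hd - A 1 1 * ht'
  have h2 : ∀ n : ℕ, A ^ n * (A - (t - l) • 1) = l ^ n • (A - (t - l) • 1) := fun n => by
    induction n with
    | zero => simp
    | succ n ih => rw [pow_succ, mul_assoc, h1, Matrix.mul_smul, ih, smul_smul, pow_succ']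
  have h4 := (hA r).2 (hg ▸ pow_orderOf_eq_one g)
  refine ⟨u, orderOf_eq_prime (Units.ext ?_) fun h => ?_, show t = l + (t - l) by ring⟩
  · change l ^ r = 1
    by_cases h5 : A - (t - l) • (1 : Matrix (Fin 2) (Fin 2) Om) = 0
    · rw [sub_eq_zero.1 h5, _root_.smul_pow, one_pow] at h4
      have h6 : (t - l) ^ r = 1 := by simpa using congrFun (congrFun h4 0) 0
      rw [← mul_one (l ^ r), ← h6, ← mul_pow, hl, one_pow, h6]
    · have h6 := h2 r
      rw [h4, one_mul, eq_comm, ← sub_eq_zero] at h6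
      nth_rewrite 2 [← one_smul Om (A - _)] at h6
      rw [← sub_smul, smul_eq_zero, sub_eq_zero] at h6
      exact h6.resolve_right h5
  · have h5 : l = 1 := congrArg Units.val h
    rw [h5, one_mul] at hl
    rw [h5, hl, one_smul, one_smul, ← sub_eq_zero, ← sub_one_mul] at h1
    have h6 : A ^ 3 = 1 := by
      have := sub_pow_char_of_commute (p := 3) (Commute.one_right A)
      rw [pow_succ, sq, h1, zero_mul, one_pow, eq_comm, sub_eq_zero] at this
      exact this
    have := orderOf_dvd_of_pow_eq_one ((hA 3).1 h6)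
    rw [hg] at this
    exact h3 ((Nat.prime_dvd_prime_iff_eq hr Nat.prime_three).1 this)

variable [Fintype F]

theorem exists_spc {n : ℕ} (hF : Fintype.card F = 3 ^ n) {φ : SL2 F →* G3}
    (hφ : ∀ g, φ g = 1 ↔ g ∈ center (SL2 F)) : ∃ (f : F →+* Om) (K : Multiset ℕ), (∀ k ∈ K, k < 3 ^ n ∧ Even k) ∧
      ∀ (g : SL2 F) (l : Omˣ), l ^ 2 ≠ 1 → f (g : Matrix (Fin 2) (Fin 2) F).trace = l + l⁻¹.val →
        (rho (φ g)).charpoly.roots = spc K l := by
  have : CharP F 3 := charP_of_card_eq_prime_pow hF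
  letI := ZMod.algebra F 3
  let f := (IsAlgClosed.lift : F →ₐ[ZMod 3] Om).toRingHom
  obtain ⟨K, h1, h2⟩ := sl2_spec f 3 (rho.comp φ)
  refine ⟨f, K, fun k hk => ⟨hF ▸ (h1 k hk).1, ?_⟩, h2⟩
  have h3 := (h1 k hk).2 (by rw [MonoidHom.comp_apply, (hφ _).2 neg_one_center, map_one])
  have : Fact (2 < 3) := ⟨by decide⟩
  exact (neg_one_pow_eq_one_iff_even (CharP.neg_one_ne_one Om 3)).1 h3

theorem exists_diag (f : F →+* Om) {n : ℕ} (h : n ∣ Fintype.card F - 1) : ∃ (g : SL2 F) (l : Omˣ), orderOf g = n ∧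
    orderOf l = n ∧ f (g : Matrix (Fin 2) (Fin 2) F).trace = l + l⁻¹.val ∧ (n = 4 → g ^ 2 = -1) := by
  classical
  obtain ⟨a, ha⟩ := IsCyclic.exists_ofOrder_eq_natCard (α := Fˣ)
  rw [Nat.card_eq_fintype_card, Fintype.card_units] at ha
  have h1 := orderOf_pow_orderOf_div (orderOf_pos a).ne' (ha ▸ h)
  generalize a ^ (orderOf a / n) = b at h1
  refine ⟨diagSL b, Units.map f.toMonoidHom b, (orderOf_injective _ (splitSL F).inj b).trans h1,
    (orderOf_injective _ (Units.map_injective f.injective) b).trans h1, by simp [diagSL, trace_fin_two], ?_⟩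
  rintro rfl
  have h2 : b ^ 2 = -1 := by
    have h3 : (b ^ 2) ^ 2 = 1 := by rw [← pow_mul, show 2 * 2 = orderOf b from h1.symm, pow_orderOf_eq_one]
    rw [Units.ext_iff, Units.val_pow_eq_pow_val, Units.val_one, sq_eq_one_iff] at h3
    refine Units.ext (h3.resolve_left fun h4 => ?_)
    have := orderOf_dvd_of_pow_eq_one (Units.ext h4 : b ^ 2 = 1)
    rw [h1] at this
    exact absurd this (by decide)
  rw [← map_pow, h2]
  exact Subtype.ext (by ext i j; fin_cases i <;> fin_cases j <;> simp [diagSL])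

theorem noL243 (hF : Fintype.card F = 243) (H : Subgroup G3) : IsEmpty (H ≃* SL2 F ⧸ center (SL2 F)) := ⟨fun e => by
  obtain ⟨φ, hφ⟩ := exists_hom_center e
  obtain ⟨f, K, h1, h2⟩ := exists_spc (n := 5) hF hφ
  obtain ⟨g, l, h3, h4, h5, -⟩ := exists_diag f (n := 121) (by rw [hF]; decide)
  exact no243 ((orderOf_of_odd hφ (by rw [h3]; decide)).trans h3) h4 h1 (h2 g l (fun h => by
    have := orderOf_dvd_of_pow_eq_one h; rw [h4] at this; exact absurd this (by decide)) h5)⟩

theorem noL729 (hF : Fintype.card F = 729) (H : Subgroup G3) : IsEmpty (H ≃* SL2 F ⧸ center (SL2 F)) := ⟨fun e => by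
  classical
  obtain ⟨φ, hφ⟩ := exists_hom_center e
  obtain ⟨f, K, h1, h2⟩ := exists_spc (n := 6) hF hφ
  obtain ⟨t, ι, h3, h4, h5, h6⟩ := exists_diag f (n := 4) (by rw [hF]; decide)
  obtain ⟨𝔢⟩ := nonemptyEll (F := F)
  have := Fact.mk (by norm_num : Nat.Prime 73)
  have := Fact.mk Nat.prime_five
  obtain ⟨a, ha⟩ := exists_prime_orderOf_dvd_card' (G := 𝔢.K) 5 (by rw [𝔢.card_K, hF]; decide)
  obtain ⟨b, hb⟩ := exists_prime_orderOf_dvd_card' (G := 𝔢.K) 73 (by rw [𝔢.card_K, hF]; decide)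
  have h7 : orderOf (𝔢.embSL (a * b)) = 365 := by
    rw [orderOf_injective _ 𝔢.embSL_injective, (Commute.all a b).orderOf_mul_eq_mul_orderOf_of_coprime
      (by rw [ha, hb]; decide), ha, hb]
  generalize 𝔢.embSL (a * b) = y at h7
  obtain ⟨l, h8, h9⟩ := exists_eigenvalue f (g := y ^ 5) (r := 73) (by norm_num) (by decide)
    (by rw [orderOf_pow_of_dvd (by norm_num) (by rw [h7]; decide), h7])
  refine no729 (g := φ y) (t := φ t) ((orderOf_of_odd hφ (by rw [h7]; decide)).trans h7)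
    (orderOf_eq_prime (by rw [← map_pow, h6 rfl, (hφ _).2 neg_one_center]) fun h => ?_) h8 h4 h1
    (map_pow φ y 5 ▸ h2 _ l (fun h => ?_) h9) (h2 t ι (fun h => ?_) h5)
  · have := orderOf_dvd_of_pow_eq_one (sq_of_center ((hφ t).1 h)); rw [h3] at this; exact absurd this (by decide)
  · have := orderOf_dvd_of_pow_eq_one h; rw [h8] at this; exact absurd this (by decide)
  · have := orderOf_dvd_of_pow_eq_one h; rw [h4] at this; exact absurd this (by decide)⟩

theorem noL41 (hF : Fintype.card F = 41) (H : Subgroup G3) : IsEmpty (H ≃* SL2 F ⧸ center (SL2 F)) := ⟨fun e => by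
  obtain ⟨φ, hφ⟩ := exists_hom_center e
  have := Fact.mk (by norm_num : Nat.Prime 41)
  have : CharP F 41 := charP_of_card_eq_prime hF
  have h2 : (2 : F) ≠ 0 := fun h => absurd ((CharP.cast_eq_zero_iff F 41 2).1 h) (by decide)
  have h1 : ∀ n : ℕ, A.up (1 : F) ^ n = A.up (n : F) := fun n => by
    have := map_pow A.uh (Multiplicative.ofAdd (1 : F)) n
    rw [← ofAdd_nsmul, nsmul_one] at this
    exact this.symm
  have h3 : orderOf (A.up (1 : F)) = 41 := orderOf_eq_prime (by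
    rw [h1, CharP.cast_eq_zero]; exact map_one A.uh) fun h => by
      simpa [A.up] using congrArg (fun g : SL2 F => g.1 0 1) h
  refine no41 (x := φ (A.up 1)) ((orderOf_of_odd hφ (by rw [h3]; decide)).trans h3) ?_
  rw [← map_pow]
  refine φ.map_isConj (isConj_iff.2 ⟨(A.dd (Units.mk0 2 h2))⁻¹, ?_⟩)
  rw [h1, inv_inv, mul_assoc, A.up_mul_dd, inv_mul_cancel_left]
  congr 1
  simp only [Units.val_mul, Units.val_inv_eq_inv_val, Units.val_mk0]
  field_simp; norm_num⟩

end CL.E8s
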