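/-
`L₂(32)` is not a subgroup of `E₈(3)`.
-/
import Cfsg.Agent.Inv.E8sF
import Cfsg.Agent.Known.SL2Irr

set_option autoImplicit false
set_option linter.unusedSectionVars false

namespace CL.E8s

open Cfsg CL.Char CL.Blk CL.Blk.Rk CL.GL2 Module Matrix

namespace L

theorem sum_const {G R : Type*} [Group G] [CommRing R] (L : Subgroup G) [Fintype L] (f : G → R) (c : R)
    (h : ∀ g ∈ L, g ≠ 1 → f g = c) : ∑ g : L, f g = f 1 + (Nat.card L - 1) * c := by
  classical
  rw [← Finset.add_sum_erase _ _ (Finset.mem_univ (1 : L)), Finset.sum_congr rfl (g := fun _ => c) fun (g : L) hg =>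
    h g g.2 fun e => Finset.ne_of_mem_erase hg (Subtype.ext e), Finset.sum_const,
    Finset.card_erase_of_mem (Finset.mem_univ _), Finset.card_univ, nsmul_eq_mul, Nat.cast_sub Fintype.card_pos,
    Nat.card_eq_fintype_card, Nat.cast_one, OneMemClass.coe_one]

theorem card_range {A G : Type*} [Group A] [Group G] {φ : A →* G} (h : Function.Injective φ) :
    Nat.card φ.range = Nat.card A := (Nat.card_congr (MonoidHom.ofInjective h).toEquiv).symm

theorem pow_card {G : Type*} [Group G] {L : Subgroup G} {g : G} (hg : g ∈ L) : g ^ Nat.card L = 1 :=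
  congrArg Subtype.val (pow_card_eq_one' (x := (⟨g, hg⟩ : L)))

variable {F : Type*} [Field F] [Fintype F] [DecidableEq F]

/-- the unipotent elements -/
def up : Multiplicative F →* SL2 F where
  toFun b := upSL 1 b.toAdd (one_mul 1)
  map_one' := upSL_zero
  map_mul' a b := ext_SL (by apply ext2 <;> simp [add_comm])

theorem up_inj : Function.Injective (up : Multiplicative F → SL2 F) := fun a b e => by
  simpa [up] using congrArg (fun x : SL2 F => (x : M2 F) 0 1) e

theorem diag_inj : Function.Injective (diagSL : Fˣ → SL2 F) := fun a b e => by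
  simpa [Units.ext_iff] using congrArg (fun x : SL2 F => (x : M2 F) 0 0) e

/-- the basic unipotent element -/
def u1 : SL2 F := upSL 1 1 (one_mul 1)

/-- the Weyl element -/
def w : SL2 F := mkSL !![0, 1; -1, 0] (by simp)

theorem w_diag (a : Fˣ) : w * diagSL a = diagSL a⁻¹ * w := ext_SL (by apply ext2 <;> simp [w])

variable (hF : Fintype.card F = 32)
include hF

theorem two : (2 : F) = 0 := by_contra fun h => absurd (hF ▸ odd_of_two_ne_zero h) (by decide)

theorem pow31 (a : Fˣ) : a ^ 31 = 1 := by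
  have := pow_card_eq_one (x := a)
  rwa [Fintype.card_units, hF] at this

theorem sq (a : Fˣ) : ∃ b : Fˣ, b * b = a := ⟨a ^ 16, by
  rw [← pow_add, show 16 + 16 = 31 + 1 from rfl, pow_succ, pow31 hF, one_mul]⟩

theorem ww : (w * w : SL2 F) = 1 := ext_SL (by
  apply ext2 <;> simp [w] <;> linear_combination -two hF)

theorem cls {R : Type*} {f : SL2 F → R} (hf : ∀ g h, f (h * g * h⁻¹) = f g) :
    ∀ g ∈ (up (F := F)).range, g ≠ 1 → f g = f u1 := by
  rintro _ ⟨b, rfl⟩ hb
  obtain ⟨a, ha⟩ := sq hF (Units.mk0 b.toAdd fun e => hb (by rw [show b = 1 from e, map_one]))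
  have e : (a : F) * a = b.toAdd := congrArg Units.val ha
  rw [← hf u1 (diagSL a)]
  refine congrArg f (eq_mul_inv_of_mul_eq (ext_SL ?_))
  apply ext2 <;> simp [up, u1, ← e]

theorem card_up : Nat.card (up (F := F)).range = 32 := by
  rw [card_range up_inj, Nat.card_eq_fintype_card, Fintype.card_multiplicative, hF]

theorem ord_u1 : orderOf (u1 : SL2 F) = 2 := orderOf_eq_prime
  (ext_SL (by rw [pow_two]; apply ext2 <;> simp [u1]; linear_combination two hF)) fun e => by
    simpa [u1] using congrArg (fun x : SL2 F => (x : M2 F) 0 1) e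

/-- The fixed space of an element of order eleven in an ordinary irreducible module. -/
theorem le_three (𝔢 : Ell F) {z : 𝔢.K} (hz : orderOf z = 11) {χ : SL2 F → ℂ} (hχ : IsIrrCharacter (SL2 F) χ) {N : ℕ}
    [Fintype ((Subgroup.zpowers z).map 𝔢.embSL)]
    (hN : ∑ g : (Subgroup.zpowers z).map 𝔢.embSL, χ g = 11 * N) : N ≤ 3 := by
  classical
  have := Fintype.ofFinite (Subgroup.zpowers z)
  have c : Nat.card (Subgroup.zpowers z) = 11 := by rw [Nat.card_zpowers, hz]
  rw [← Fintype.sum_equiv ((Subgroup.zpowers z).equivMapOfInjective _ 𝔢.embSL_injective).toEquiv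
    (fun x => χ (𝔢.embSL x)) _ fun _ => rfl] at hN
  have h2 : ∀ x ∈ Subgroup.zpowers z, x ≠ 1 → x ^ 2 ≠ 1 := fun x hx h1 h2 => h1 (by
    have h3 : x ^ 11 = 1 := c ▸ pow_card hx
    rw [← h3, show 11 = 2 * 5 + 1 from rfl, pow_succ, pow_mul, h2, one_pow, one_mul])
  have h3 : ∀ x ∈ Subgroup.zpowers z, x ≠ 1 →
      nroots (𝔢.embSL x : M2 F).trace (𝔢.embSL x : M2 F).det = 0 := fun x hx h1 => by
    have := 𝔢.torSL.roots x fun e => h2 x hx h1 ((𝔢.torSL.isScal_SL_iff' x).1 e)
    rw [Ell.torSL_ε, add_neg_cancel] at this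
    exact_mod_cast this
  have key : ∀ n : ℕ, n ≤ 33 → (n : ℂ) = 11 * N → N ≤ 3 := fun n h1 h2 => by
    have : n = 11 * N := by exact_mod_cast h2
    omega
  rcases SL_irr_cases 𝔢 hχ hχ.isCharacter.cast_charDegree.symm with h | h | h | h | h | h
  · rw [h.2, sum_const _ (fun _ => (1 : ℂ)) 1 fun _ _ _ => rfl, c] at hN
    exact key 11 (by norm_num) (by rw [← hN]; norm_num)
  · rw [h.2, sum_const _ (fun x => StSL F (𝔢.embSL x)) (-1) fun x hx h1 => st0_of_isEll (isEll_of_nroots (h3 x hx h1)),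
      c, map_one, StSL_one, hF] at hN
    exact key 22 (by norm_num) (by rw [← hN]; norm_num)
  · obtain ⟨-, lam, -, rfl⟩ := h
    rw [sum_const _ (fun x => (splitSL F).chi lam (𝔢.embSL x)) 0 fun x hx h1 => Torus.chi_of_nroots _ _ (by
      rw [ambSL_toM, h3 x hx h1]; simp), c, map_one, Torus.chi_one, hF] at hN
    exact key 33 (by norm_num) (by rw [← hN]; norm_num)
  · obtain ⟨-, θ, -, rfl⟩ := h
    have h4 := sum_const (Subgroup.zpowers z) (fun x => 𝔢.torSL.chi θ (𝔢.embSL x) + θ x + θ⁻¹ x) 0 fun x hx h1 => by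
      rw [← Ell.torSL_emb, Torus.chi_emb_reg _ _ (h2 x hx h1)]; simp
    have h5 : ∀ θ : 𝔢.K →* ℂˣ, ∃ n : ℕ, ∑ x : Subgroup.zpowers z, (θ x : ℂ) = n := fun θ =>
      ⟨_, sum_hom_units ((Units.coeHom ℂ).comp (θ.comp (Subgroup.zpowers z).subtype))⟩
    obtain ⟨n, h6⟩ := h5 θ
    obtain ⟨m, h7⟩ := h5 θ⁻¹
    rw [Finset.sum_add_distrib, Finset.sum_add_distrib, hN, h6, h7, map_one, map_one, map_one, Torus.chi_one, hF,
      Ell.torSL_ε] at h4
    have : 11 * N + n + m = 33 := by
      have : (11 * N + n + m : ℂ) = 33 := by rw [h4]; norm_num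
      exact_mod_cast this
    omega
  · omega
  · omega

end L

open L in
theorem noL32 {M : Ideal AlgInt} (hM : IsPModular 3 M) {F : Type*} [Field F] [Fintype F] (hF : Fintype.card F = 32)
    {V : Type*} [AddCommGroup V] [Module (resField M) V]
    (σ : Representation (resField M) (Matrix.SpecialLinearGroup (Fin 2) F) V)
    (t : Matrix.SpecialLinearGroup (Fin 2) F → ℤ) (h : Good σ t) (hker : ∀ g, σ g = 1 ↔ g ∈ Subgroup.center _) :
    False := by
  classical
  have := h.fin
  have h2 := two hF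
  have k1 : ∀ g, σ g = 1 → g = 1 := fun g hg => by
    obtain ⟨r, h1, h3⟩ := Matrix.SpecialLinearGroup.mem_center_iff.1 ((hker g).1 hg)
    have : r = 1 := by
      rw [Fintype.card_fin] at h1
      exact sub_eq_zero.1 (pow_eq_zero_iff two_ne_zero |>.1 (by linear_combination h1 + (1 - r) * h2))
    exact ext_SL (by rw [← h3, this, map_one]; rfl)
  have s31 : ∀ a : Fˣ, σ (diagSL a) ^ 31 = 1 := fun a => by rw [← map_pow, ← map_pow, pow31 hF, map_one, map_one]
  have t31 : ∀ g ∈ (diagSL (F := F)).range, g ≠ 1 → t g = 0 := by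
    rintro _ ⟨a, rfl⟩ ha
    exact h.thirtyone _ (s31 a) (mt (k1 _) ha)
  have cT : Nat.card (diagSL (F := F)).range = 31 := by
    rw [card_range diag_inj, Nat.card_eq_fintype_card, Fintype.card_units, hF]
  have sT := sum_const _ t 0 t31
  have e1 := h.sum (diagSL (F := F)).range (by rw [← Nat.card_eq_fintype_card, cT]; decide) (by
    rintro _ ⟨a, rfl⟩; exact Or.inr (Or.inr (Or.inr (s31 a))))
  rw [sT, ← Nat.card_eq_fintype_card, cT, h.one] at e1
  have tw : ∀ a : Fˣ, t (diagSL a * w) = t w := fun a => by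
    obtain ⟨b, rfl⟩ := sq hF a
    rw [← h.conj w (diagSL b), ← map_inv, mul_assoc, w_diag, inv_inv, map_mul, mul_assoc]
  have dw : ∀ a : Fˣ, diagSL a * w * (diagSL a * w) = 1 := fun a => by
    rw [mul_assoc, ← mul_assoc w, w_diag, mul_assoc, ww hF, mul_one, ← map_mul, mul_inv_cancel, map_one]
  have e2 := h.sum_list (Subgroup.closure (Set.range diagSL ∪ {w}))
    ((Finset.univ.toList.map diagSL) ++ Finset.univ.toList.map fun a : Fˣ => diagSL a * w)
    (List.Nodup.append ((Finset.nodup_toList _).map diag_inj)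
      ((Finset.nodup_toList _).map fun a b e => diag_inj (mul_right_cancel e)) (by
        simp only [List.disjoint_left, List.mem_map, Finset.mem_toList, Finset.mem_univ, true_and, not_exists]
        rintro _ ⟨a, rfl⟩ b e
        simpa [w] using congrArg (fun x : SL2 F => (x : M2 F) 0 1) e))
    (mem_closure_iff_list _ _ (by simpa using Or.inl ⟨1, map_one _⟩) (by
      simp only [List.mem_append, List.mem_map, Finset.mem_toList, Finset.mem_univ, true_and]
      rintro _ (⟨a, rfl⟩ | ⟨a, rfl⟩) _ (⟨b, rfl⟩ | rfl)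
      · exact Or.inl ⟨a * b, map_mul _ _ _⟩
      · exact Or.inr ⟨a, rfl⟩
      · exact Or.inr ⟨a * b⁻¹, by rw [mul_assoc, w_diag, map_mul, mul_assoc]⟩
      · exact Or.inl ⟨a, by rw [mul_assoc, ww hF, mul_one]⟩) (by
      simp only [List.mem_append, List.mem_map, Finset.mem_toList, Finset.mem_univ, true_and]
      rintro _ (⟨a, rfl⟩ | ⟨a, rfl⟩)
      · exact Subgroup.subset_closure (Or.inl ⟨a, rfl⟩)
      · exact mul_mem (Subgroup.subset_closure (Or.inl ⟨a, rfl⟩)) (Subgroup.subset_closure (Or.inr rfl))))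
    (by simp [Fintype.card_units, hF]) (by
      simp only [List.mem_append, List.mem_map, Finset.mem_toList, Finset.mem_univ, true_and]
      rintro _ (⟨a, rfl⟩ | ⟨a, rfl⟩)
      · exact Or.inr (Or.inr (Or.inr (s31 a)))
      · exact Or.inl (by rw [← map_pow, show 8 = 2 * 4 from rfl, pow_mul, pow_two, dw, one_pow, map_one]))
  have e3 : ∑ a : Fˣ, t (diagSL a) = 248 := by
    rw [Finset.sum_eq_single 1 (fun a _ ha => t31 _ ⟨a, rfl⟩ fun e => ha (diag_inj (e.trans (map_one _).symm))) (by simp),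
      map_one, h.one]
  have e4 := Submodule.finrank_mono (fixS_anti σ (K := (diagSL (F := F)).range)
    (L := Subgroup.closure (Set.range diagSL ∪ {w})) fun _ hg => Subgroup.subset_closure (Or.inl hg))
  simp only [List.map_append, List.map_map, List.sum_append, Finset.sum_map_toList, Function.comp_def, tw, e3,
    Finset.sum_const, Finset.card_univ, Fintype.card_units, hF, List.length_append, List.length_map,
    Finset.length_toList, nsmul_eq_mul] at e2
  have tu : t w = t u1 := h.of_conj (c := mkSL !![1, 0; 1, 1] (by simp)) (map_one σ) (ext_SL (by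
    apply ext2 <;> simp [w, u1] <;> first | linear_combination h2 | linear_combination -h2))
  have uu : (u1 : SL2 F) ^ 2 = 1 := orderOf_dvd_iff_pow_eq_one.1 (ord_u1 hF).dvd
  have u1' : (u1 : SL2 F) ≠ 1 := fun e => by simpa [e] using ord_u1 hF
  have e5 : t u1 = -8 := (h.two u1 (by rw [← map_pow, uu, map_one]) (mt (k1 _) u1')).resolve_left fun e => by
    rw [tu, e] at e2; omega
  have e6 := h.sum (up (F := F)).range (by rw [← Nat.card_eq_fintype_card, card_up hF]; decide) (by
    rintro _ ⟨b, rfl⟩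
    refine Or.inl ?_
    rw [← map_pow, ← map_pow, show b ^ 8 = 1 from ?_, map_one, map_one]
    change 8 • b.toAdd = 0
    rw [nsmul_eq_mul]; push_cast; linear_combination 4 * b.toAdd * h2)
  rw [sum_const _ t _ (cls hF h.conj), ← Nat.card_eq_fintype_card, card_up hF, h.one, e5] at e6
  obtain ⟨𝔢⟩ := nonemptyEll (F := F)
  have := Fact.mk (by norm_num : Nat.Prime 11)
  obtain ⟨z, hz⟩ := exists_prime_orderOf_dvd_card' (G := 𝔢.K) 11 (by rw [Ell.card_K, hF]; norm_num)
  obtain ⟨Y, hY⟩ : ∃ Y, Y = (Subgroup.zpowers z).map 𝔢.embSL := ⟨_, rfl⟩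
  have cY : Nat.card Y = 11 := by rw [hY, Subgroup.card_map_of_injective 𝔢.embSL_injective, Nat.card_zpowers, hz]
  have s11 : ∀ g ∈ Y, σ g ^ 11 = 1 := fun g hg => by
    rw [← map_pow, ← cY, pow_card hg, map_one]
  have e7 := h.sum Y (by rw [← Nat.card_eq_fintype_card, cY]; decide) fun g hg => Or.inr (Or.inr (Or.inl (s11 g hg)))
  rw [sum_const _ t 6 fun g hg h1 => h.eleven g (s11 g hg) (mt (k1 _) h1), ← Nat.card_eq_fintype_card, cY, h.one] at e7
  have rk' : ∀ (j : Sim M (SL2 F)) {L : Subgroup (SL2 F)}, ¬ 3 ∣ Nat.card L →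
      rk (j.alg (redG M (avgIdem L))) = finrank (resField M) (fixS j.rep L) := fun j L hL => by
    rw [← j.asAlgebraHom_rep, rk_avgIdem hM _ hL]
  have key : ∀ {L : Subgroup (SL2 F)}, ¬ 3 ∣ Nat.card L → finrank (resField M) (fixS σ L) =
      ∑ j : Sim M (SL2 F), finrank (resField M) (fixS j.rep L) * mult σ j := fun hL => by
    rw [← rk_avgIdem hM _ hL, rk_rep_eq_sum σ (avgIdem_mem_OG hM hL) (idem_avgIdem _)]
    simp only [rk' _ hL]
  have nU : ¬ 3 ∣ Nat.card (up (F := F)).range := by rw [card_up hF]; decide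
  have nY : ¬ 3 ∣ Nat.card Y := by rw [cY]; decide
  have f0 : 248 = ∑ j : Sim M (SL2 F), mult σ j * j.dim := by
    have := congrFun (br_eq_sum hM σ) 1
    simp only [br_one hM.1, h.dim, Finset.sum_apply, Pi.smul_apply, smul_eq_mul, Sim.ibr_one hM.1] at this
    exact_mod_cast this
  have f1 := key nU
  rw [show finrank (resField M) (fixS σ (up (F := F)).range) = 0 by omega, eq_comm, Finset.sum_eq_zero_iff] at f1
  have f2 := key nY
  rw [show finrank (resField M) (fixS σ Y) = 28 by omega] at f2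
  have f3 : ∀ j : Sim M (SL2 F), mult σ j ≠ 0 → 31 ≤ j.dim := fun j hj => by
    have a1 := sum_br hM j.rep _ nU
    have a2 := sum_br hM j.rep (Subgroup.zpowers u1) (by rw [Nat.card_zpowers, ord_u1 hF]; decide)
    rw [sum_const _ _ _ (cls hF (isClassFunction_br j.rep)), (mul_eq_zero.1 (f1 j (Finset.mem_univ j))).resolve_right hj,
      card_up hF, br_one hM.1, finrank_fin_fun] at a1
    rw [sum_const _ _ (br 3 j.rep u1) fun g hg h1 => by
        obtain ⟨n, rfl⟩ := hg
        have uu' : (u1 : SL2 F) ^ (2 : ℤ) = 1 := by exact_mod_cast uu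
        rcases Int.even_or_odd' n with ⟨k, rfl | rfl⟩
        · exact absurd (by simp [_root_.zpow_mul, uu']) h1
        · simp [_root_.zpow_add, _root_.zpow_mul, uu'],
      Nat.card_zpowers, ord_u1 hF, br_one hM.1, finrank_fin_fun] at a2
    have a3 : 30 * j.dim = 62 * finrank (resField M) (fixS j.rep (Subgroup.zpowers u1)) := by
      have : (30 * j.dim : ℂ) = 62 * finrank (resField M) (fixS j.rep (Subgroup.zpowers u1)) := by
        push_cast at a1 a2; linear_combination 31 * a2 - a1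
      exact_mod_cast this
    have := j.dim_pos
    omega
  have f4 : ∀ j : Sim M (SL2 F), finrank (resField M) (fixS j.rep Y) ≤ 3 := fun j => by
    obtain ⟨χ, hχ⟩ := j.exists_dec_ne_zero
    have a1 := evalFun_idem_eq_sum χ.2.isCharacter (avgIdem_mem_OG hM nY) (idem_avgIdem Y)
    simp only [rk' _ nY] at a1
    rw [evalFun_avgIdem, cY, inv_mul_eq_iff_eq_mul₀ (by norm_num)] at a1
    have a2 : ∑ i : Sim M (SL2 F), finrank (resField M) (fixS i.rep Y) * dec (χ : SL2 F → ℂ) i ≤ 3 := by
      subst hY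
      exact le_three hF 𝔢 hz χ.2 (by rw [a1]; push_cast; rfl)
    exact ((Nat.le_mul_of_pos_right _ (Nat.pos_of_ne_zero hχ)).trans (Finset.single_le_sum
      (f := fun i : Sim M (SL2 F) => finrank (resField M) (fixS i.rep Y) * dec (χ : SL2 F → ℂ) i)
      (fun _ _ => Nat.zero_le _) (Finset.mem_univ j))).trans a2
  have f5 : 31 * 28 ≤ 3 * 248 := by
    rw [f2, f0, Finset.mul_sum, Finset.mul_sum]
    refine Finset.sum_le_sum fun j _ => ?_
    by_cases hj : mult σ j = 0
    · simp [hj]
    · have := Nat.mul_le_mul (f4 j) (f3 j hj)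
      nlinarith
  omega

end CL.E8s
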