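/-
Tables of `2`-subgroups on codes: polycyclic enumeration, labels and conjugators.
-/
import Cfsg.Agent.Inv.E8s0

set_option autoImplicit false

namespace CL.E8s

open Module Subgroup

/-- Natural numbers as codes of group elements. -/
structure Cod (G : Type*) [Group G] where
  ok : ℕ → Prop
  okb : ℕ → Bool
  el : ℕ → G
  mul : ℕ → ℕ → ℕ
  one : ℕ
  ok_of : ∀ a, okb a = true → ok a
  ok_one : ok one
  el_one : el one = 1
  ok_mul : ∀ a b, ok a → ok b → ok (mul a b)
  el_mul : ∀ a b, ok a → ok b → el (mul a b) = el a * el b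
  inj : ∀ a b, ok a → ok b → el a = el b → a = b

/-- Membership test. -/
def memb (a : ℕ) (l : List ℕ) : Bool := l.any fun b => Nat.beq a b

theorem memb_iff {a : ℕ} {l : List ℕ} : memb a l = true ↔ a ∈ l := by simp [memb]

/-- The elements of a `2`-group from a polycyclic sequence (last generator first). -/
def pcL (mul : ℕ → ℕ → ℕ) (one : ℕ) : List ℕ → List ℕ
  | [] => [one]
  | g :: gs => pcL mul one gs ++ (pcL mul one gs).map fun c => mul c g

/-- The check of a polycyclic sequence. -/
def pcChk (okb : ℕ → Bool) (mul : ℕ → ℕ → ℕ) (one : ℕ) : List ℕ → Bool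
  | [] => true
  | g :: gs => pcChk okb mul one gs && okb g && !memb g (pcL mul one gs) &&
      (g :: gs).all fun s => memb (mul g s) (pcL mul one (g :: gs))

/-- The check of labels and conjugators. -/
def tabChk (okb : ℕ → Bool) (mul : ℕ → ℕ → ℕ) (R : ℕ → ℕ) : List ℕ → List (ℕ × ℕ) → Bool
  | [], [] => true
  | c :: L, x :: D => okb x.2 && Nat.beq (mul c x.2) (mul x.2 (R x.1)) && tabChk okb mul R L D
  | _, _ => false

theorem length_pcL (mul : ℕ → ℕ → ℕ) (one : ℕ) (gs : List ℕ) : (pcL mul one gs).length = 2 ^ gs.length := by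
  induction gs with
  | nil => rfl
  | cons g gs ih => simp [pcL, ih, pow_succ, mul_two]

theorem sum_count (v : ℕ → ℤ) (N : ℕ) (l : List ℕ) (h : ∀ x ∈ l, x < N) :
    (l.map v).sum = ∑ n ∈ Finset.range N, (l.count n : ℤ) * v n := by
  induction l with
  | nil => simp
  | cons a l ih =>
    rw [List.map_cons, List.sum_cons, ih fun x hx => h x (List.mem_cons_of_mem _ hx)]
    simp only [List.count_cons, Nat.cast_add, add_mul, Finset.sum_add_distrib, beq_iff_eq, Nat.cast_ite, Nat.cast_one,
      Nat.cast_zero, ite_mul, one_mul, zero_mul, Finset.sum_ite_eq, Finset.mem_range, h a List.mem_cons_self, if_true]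
    ring

namespace Cod

variable {G : Type*} [Group G] (C : Cod G)

theorem pc [Finite G] {gs : List ℕ} (h : pcChk C.okb C.mul C.one gs = true) :
    (∀ g ∈ gs, C.ok g) ∧ (∀ c ∈ pcL C.mul C.one gs, C.ok c) ∧ ((pcL C.mul C.one gs).map C.el).Nodup ∧
      ∀ x, x ∈ closure {y | y ∈ gs.map C.el} ↔ x ∈ (pcL C.mul C.one gs).map C.el := by
  induction gs with
  | nil => simp [pcL, C.ok_one, C.el_one]
  | cons g gs ih =>
    simp only [pcChk, Bool.and_eq_true, Bool.not_eq_true', ← Bool.not_eq_true, memb_iff, List.all_eq_true] at h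
    obtain ⟨⟨⟨h1, h2⟩, h3⟩, h4⟩ := h
    obtain ⟨a1, a2, a3, a4⟩ := ih h1
    have g0 := C.ok_of g h2
    have b1 : ∀ s ∈ g :: gs, C.ok s := List.forall_mem_cons.2 ⟨g0, a1⟩
    have e : (pcL C.mul C.one (g :: gs)).map C.el =
        (pcL C.mul C.one gs).map C.el ++ ((pcL C.mul C.one gs).map C.el).map (· * C.el g) := by
      rw [pcL, List.map_append, List.map_map, List.map_map]
      exact congrArg _ (List.map_congr_left fun c hc => C.el_mul c g (a2 c hc) g0)
    have m : ∀ x, x ∈ (pcL C.mul C.one (g :: gs)).map C.el ↔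
        x ∈ closure {y | y ∈ gs.map C.el} ∨ ∃ k ∈ closure {y | y ∈ gs.map C.el}, k * C.el g = x := fun x => by
      rw [e, List.mem_append, List.mem_map (f := (· * C.el g))]; simp only [a4]
    refine ⟨b1, fun c hc => ?_, ?_, mem_closure_iff_list _ _ ((m 1).2 (.inl (one_mem _))) (fun x hx s hs => ?_)
      fun x hx => ?_⟩
    · rcases List.mem_append.1 hc with k | k
      · exact a2 c k
      · obtain ⟨c, k', rfl⟩ := List.mem_map.1 k
        exact C.ok_mul c g (a2 c k') g0
    · rw [e]
      refine List.Nodup.append a3 (a3.map (mul_left_injective _)) fun x h5 h6 => ?_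
      obtain ⟨k, k1, rfl⟩ := List.mem_map.1 h6
      obtain ⟨c, c1, c2⟩ := List.mem_map.1 ((a4 _).1 ((mul_mem_cancel_left ((a4 k).2 k1)).1 ((a4 _).2 h5)))
      exact h3 (C.inj c g (a2 c c1) g0 c2 ▸ c1)
    · obtain ⟨s, s1, rfl⟩ := List.mem_map.1 hs
      rcases (m x).1 hx with k | ⟨k, k1, rfl⟩
      · rcases List.mem_cons.1 s1 with rfl | s2
        · exact (m _).2 (.inr ⟨x, k, rfl⟩)
        · exact (m _).2 (.inl (mul_mem k (subset_closure (List.mem_map_of_mem s2))))
      · have := (m _).1 (List.mem_map_of_mem (f := C.el) (h4 s s1))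
        rw [C.el_mul g s g0 (b1 s s1)] at this
        rw [mul_assoc]
        rcases this with k2 | ⟨k', k2, k3⟩
        · exact (m _).2 (.inl (mul_mem k1 k2))
        · exact (m _).2 (.inr ⟨k * k', mul_mem k1 k2, by rw [mul_assoc, k3]⟩)
    · have i : closure {y | y ∈ gs.map C.el} ≤ closure {y | y ∈ (g :: gs).map C.el} :=
        closure_mono fun y hy => List.mem_cons_of_mem _ hy
      rcases (m x).1 hx with k | ⟨k, k1, rfl⟩
      exacts [i k, mul_mem (i k1) (subset_closure List.mem_cons_self)]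

theorem conj {c d r : ℕ} (hc : C.ok c) (hd : C.ok d) (hr : C.ok r) (e : C.mul c d = C.mul d r) :
    C.el c = C.el d * C.el r * (C.el d)⁻¹ := by
  rw [← C.el_mul d r hd hr, ← e, C.el_mul c d hc hd, mul_inv_cancel_right]

theorem tab {β : Type*} (P : G → β) (hP : ∀ g x, P (x * g * x⁻¹) = P g) {R : ℕ → ℕ} (hR : ∀ r, C.ok (R r))
    {L : List ℕ} {D : List (ℕ × ℕ)} (hL : ∀ c ∈ L, C.ok c) (h : tabChk C.okb C.mul R L D = true) :
    (L.map C.el).map P = (D.map Prod.fst).map fun r => P (C.el (R r)) := by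
  induction L generalizing D with
  | nil => cases D <;> simp_all [tabChk]
  | cons c L ih =>
    cases D with
    | nil => simp [tabChk] at h
    | cons x D =>
      simp only [tabChk, Bool.and_eq_true, Nat.beq_eq] at h
      simp only [List.map_cons]
      rw [ih (fun c hc => hL c (List.mem_cons_of_mem _ hc)) h.2,
        C.conj (hL c List.mem_cons_self) (C.ok_of _ h.1.1) (hR _) h.1.2, hP]

variable {k V : Type*} [Field k] [AddCommGroup V] [Module k V] {σ : Representation k G V} {t : G → ℤ}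

/-- The sum formula for a tabulated `2`-group. -/
theorem sum [Finite G] (h : Good σ t) {R : ℕ → ℕ} (hR : ∀ r, C.ok (R r)) (h8 : ∀ r, σ (C.el (R r) ^ 8) = 1)
    {gs : List ℕ} {D : List (ℕ × ℕ)} (h1 : pcChk C.okb C.mul C.one gs = true)
    (h2 : tabChk C.okb C.mul R (pcL C.mul C.one gs) D = true) (N : ℕ) (hN : ∀ x ∈ D.map Prod.fst, x < N) :
    ∑ n ∈ Finset.range N, ((D.map Prod.fst).count n : ℤ) * t (C.el (R n)) =
      2 ^ gs.length * (finrank k (fixS σ (closure {y | y ∈ gs.map C.el})) : ℤ) := by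
  obtain ⟨-, a2, a3, a4⟩ := C.pc h1
  have b := C.tab (fun g => σ (g ^ 8) = 1) (fun g x => by
    rw [conj_pow, ← MonoidHom.mem_ker, ← MonoidHom.mem_ker, eq_iff_iff, Normal.mem_comm_iff inferInstance,
      inv_mul_cancel_left]) hR a2 h2
  have := h.sum_list _ _ a3 a4 (by
    rw [List.length_map, length_pcL]
    exact fun e => absurd (Nat.prime_three.dvd_of_dvd_pow e) (by decide)) fun g hg => .inl (by
      obtain ⟨r, -, e⟩ := List.mem_map.1 (b ▸ List.mem_map_of_mem (f := fun g => σ (g ^ 8) = 1) hg)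
      rw [← map_pow, ← e]
      exact h8 r)
  rw [C.tab t h.conj hR a2 h2, sum_count _ N _ hN, List.length_map, length_pcL] at this
  exact_mod_cast this

end Cod

end CL.E8s
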