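/-
`U₄(3)` is not a subgroup of `E₈(3)`: matrices by codes and the table lemma.
-/
import Cfsg.Agent.Inv.E8s0
import Cfsg.Agent.Spor.U43Mod

set_option autoImplicit false

namespace CL.E8s.U

open CL.U43 CL.TC CL.Amg Matrix Module

/-! ### Combinators -/

noncomputable def frc {α : Type} (x : ℕ) (k : ℕ → α) : α :=
  Nat.rec (motive := fun _ => α) (k 0) (fun n _ => k (Nat.succ n)) x

theorem frc_eq {α : Type} (x : ℕ) (k : ℕ → α) : frc x k = k x := by cases x <;> rfl

noncomputable def frcL (l : List ℕ) : (List ℕ → Bool) → Bool :=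
  List.rec (fun k => k []) (fun x _ ih k => frc x fun a => ih fun t => k (a :: t)) l

theorem frcL_eq : ∀ (l : List ℕ) (k : List ℕ → Bool), frcL l k = k l
  | [], _ => rfl
  | x :: l, k => (frc_eq x fun a => frcL l fun t => k (a :: t)).trans (frcL_eq l _)

noncomputable def memB (a : ℕ) (l : List ℕ) : Bool :=
  List.rec false (fun x _ ih => Bool.rec ih true (Nat.beq a x)) l

theorem memB_iff {a : ℕ} : ∀ {l : List ℕ}, memB a l = true ↔ a ∈ l
  | [] => by simp [memB]
  | x :: l => by
    change (Bool.rec (memB a l) true (Nat.beq a x) : Bool) = true ↔ _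
    rw [List.mem_cons, ← memB_iff, ← Nat.beq_eq]
    cases Nat.beq a x <;> simp

noncomputable def ndB (l : List ℕ) : Bool := List.rec true (fun x t ih => Bool.rec ih false (memB x t)) l

theorem ndB_spec : ∀ {l : List ℕ}, ndB l = true → l.Nodup
  | [], _ => List.nodup_nil
  | x :: l, h => by
    change (Bool.rec (ndB l) false (memB x l) : Bool) = true at h
    cases e : memB x l <;> rw [e] at h
    · exact List.nodup_cons.2 ⟨fun h' => by simp [memB_iff.2 h'] at e, ndB_spec h⟩
    · cases h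

theorem sum_count {M : Type*} [AddCommMonoid M] (n : ℕ) (f : ℕ → M) (l : List ℕ) (h : ∀ i ∈ l, i < n) :
    (l.map f).sum = ∑ i ∈ Finset.range n, l.count i • f i := by
  rw [Finset.sum_list_map_count]
  exact Finset.sum_subset (fun i hi => Finset.mem_range.2 (h i (List.mem_toFinset.1 hi))) fun i _ hi => by
    rw [List.count_eq_zero_of_not_mem fun e => hi (List.mem_toFinset.2 e), zero_smul]

theorem mem_closure_iff_left {G : Type*} [Group G] [Finite G] (S : Set G) (l : List G)
    (h1 : (1 : G) ∈ l) (hm : ∀ g ∈ l, ∀ s ∈ S, s * g ∈ l)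
    (hl : ∀ g ∈ l, g ∈ Subgroup.closure S) (g : G) : g ∈ Subgroup.closure S ↔ g ∈ l := by
  refine ⟨fun hg => ?_, hl g⟩
  induction hg using Subgroup.closure_induction_left with
  | one => exact h1
  | mul_left y hy x _ ih => exact hm x ih y hy
  | inv_mul_cancel y hy x _ ih =>
    have : ∀ n : ℕ, y ^ n * x ∈ l := fun n => by
      induction n with
      | zero => simpa using ih
      | succ n ih' => rw [pow_succ', mul_assoc]; exact hm _ ih' y hy
    have h2 : y⁻¹ = y ^ (orderOf y - 1) := by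
      rw [inv_eq_iff_mul_eq_one, ← pow_succ', Nat.sub_add_cancel (orderOf_pos y), pow_orderOf_eq_one]
    rw [h2]; exact this _

/-! ### Codes of matrices -/

abbrev GU : Type := Cfsg.SU 4 F9 3

/-- the code of a column -/
def col (c j : ℕ) : ℕ := Nat.mod (Nat.div c (Nat.pow 6561 j)) 6561
/-- the code of an entry -/
def ent (c n : ℕ) : ℕ := Nat.mod (Nat.div (col c (Nat.mod n 4)) (Nat.pow 9 (Nat.div n 4))) 9
/-- the code of the product -/
def mulc (a b : ℕ) : ℕ :=
  Nat.add (ap (ent a) (col b 0)) (Nat.mul 6561 (Nat.add (ap (ent a) (col b 1)) (Nat.mul 6561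
    (Nat.add (ap (ent a) (col b 2)) (Nat.mul 6561 (ap (ent a) (col b 3)))))))

theorem ent_lt (c n : ℕ) : ent c n < 9 := Nat.mod_lt _ (by decide)

theorem mat_ent (c : ℕ) (i j : Fin 4) : mat (ent c) i j = ve0 (col c j) i := by
  have e : ∀ n, ent c n = col c (n % 4) / 9 ^ (n / 4) % 9 := fun _ => rfl
  fin_cases i <;> fin_cases j <;> simp [mat, ve0, e]

/-- `c` is the code of `x` -/
def R (c : ℕ) (x : GU) : Prop := c < 1853020188851841 ∧ x.1.1 = mat (ent c)

theorem col_eq (c j : ℕ) : col c j = c / 6561 ^ j % 6561 := rfl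

theorem R.inj {c c' : ℕ} {x : GU} (h : R c x) (h' : R c' x) : c = c' := by
  have k : ∀ j : Fin 4, col c j = col c' j := fun j => ve_inj _ (Nat.mod_lt _ (by decide)) _ (Nat.mod_lt _ (by decide))
    (funext fun i => (mat_ent c i j).symm.trans (by rw [← h.2, h'.2]; exact mat_ent c' i j))
  have h0 := k 0
  have h1 := k 1
  have h2 := k 2
  have h3 := k 3
  have := h.1
  have := h'.1
  simp only [col_eq, Fin.isValue, Fin.val_zero, Fin.val_one, Fin.val_two, show ((3 : Fin 4) : ℕ) = 3 from rfl,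
    Nat.reducePow] at h0 h1 h2 h3
  omega

theorem R.ext {c : ℕ} {x y : GU} (h : R c x) (h' : R c y) : x = y := Subtype.ext (Subtype.ext (h.2.trans h'.2.symm))

theorem R.mul {a b : ℕ} {x y : GU} (h : R a x) (h' : R b y) : R (mulc a b) (x * y) := by
  have k := fun j => ap_spec (ent_lt a) (col b j)
  have e : mulc a b = ap (ent a) (col b 0) + 6561 * (ap (ent a) (col b 1) + 6561 *
    (ap (ent a) (col b 2) + 6561 * ap (ent a) (col b 3))) := rfl
  have h0 := (k 0).1
  have h1 := (k 1).1
  have h2 := (k 2).1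
  have h3 := (k 3).1
  refine ⟨by omega, Matrix.ext fun i j => ?_⟩
  have e2 : col (mulc a b) j = ap (ent a) (col b j) := by
    fin_cases j <;> simp only [col_eq (mulc a b), Nat.reducePow] <;> omega
  change (x.1.1 * y.1.1) i j = _
  rw [mat_ent, e2, ← (k j).2, h.2, h'.2, Matrix.mul_apply]
  simp only [mat_ent b, Matrix.mulVec, dotProduct]

/-- the letters: `0` is the scalar `i`, `1, …, 4` the Pauli matrices, `0, …, 7` generate a Sylow `2`-subgroup of
the normaliser, `8` has order `5` -/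
def gL : List ℕ := [
  617683856814300, 2541913658100, 411789237817150, 22908173521140, 411785751091798, 283593393729, 282818555667,
  282826522989, 648934844836816, 669402283329856, 93895231871952, 444050288806960]

/-- the code of a letter -/
def gc (i : ℕ) : ℕ := gL.getD i 205894618938100

theorem gc_ok : ∀ i < 13, gc i < 1853020188851841 ∧ (mat (ent (gc i))).det = 1 ∧
    (mat (ent (gc i)))ᵀ * (mat (ent (gc i))).map star = 1 := by
  simp only [mat, Matrix.det_succ_row_zero]
  decide +kernel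

theorem gc_min (i : ℕ) : gc (min i 12) = gc i := by
  rcases le_total i 12 with h | h
  · rw [min_eq_left h]
  · rw [min_eq_right h, gc, gc, List.getD_eq_default _ _ (show gL.length ≤ i from h)]; rfl

/-- the letters -/
def g (i : ℕ) : GU :=
  ⟨⟨mat (ent (gc (min i 12))), (gc_ok _ (by omega)).2.1⟩, mem_SU_of (gc_ok _ (by omega)).2.2⟩

theorem R_g (i : ℕ) : R (gc i) (g i) := gc_min i ▸ ⟨(gc_ok _ (by omega)).1, rfl⟩

theorem R_one : R 205894618938100 1 := ⟨by decide, by
  change (1 : Matrix (Fin 4) (Fin 4) F9) = _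
  decide +kernel⟩

/-- the code of a word -/
noncomputable def evc (w : List ℕ) : ℕ := List.rec 205894618938100 (fun i _ ih => frc ih fun c => mulc (gc i) c) w

theorem R_ev : ∀ w : List ℕ, R (evc w) (ev g w)
  | [] => R_one
  | i :: w => by
    rw [ev_cons, show evc (i :: w) = mulc (gc i) (evc w) from frc_eq _ _]
    exact (R_g i).mul (R_ev w)

/-- equality of words -/
noncomputable def eqw (u w : List ℕ) : Bool := Nat.beq (evc u) (evc w)

theorem eqw_iff {u w : List ℕ} : eqw u w = true ↔ ev g u = ev g w :=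
  ⟨fun h => (R_ev u).ext (Nat.eq_of_beq_eq_true h ▸ R_ev w), fun h => Nat.beq_eq ▸ (R_ev u).inj (h ▸ R_ev w)⟩

theorem ev_rep (n i : ℕ) : ev g (List.replicate n i) = g i ^ n := by simp [ev]

theorem ev_pow (n : ℕ) (w : List ℕ) : ev g (List.replicate n w).flatten = ev g w ^ n := by
  induction n with
  | zero => simp
  | succ n ih => rw [List.replicate_succ, List.flatten_cons, ev_append, ih, pow_succ']

theorem z_cen : g 0 ∈ Subgroup.center GU := (CL.Uni.mem_center_SU (n := 4) card_F9 (by decide) _).2 ⟨cf 3, by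
  rw [(R_g 0).2]; decide +kernel⟩

theorem z_four : g 0 ^ 4 = 1 := (ev_rep 4 0).symm.trans (eqw_iff.1 (by decide +kernel : eqw _ [] = true))

/-! ### The table lemma -/

/-- a word, a conjugating word, the number of a class and the exponent of a scalar -/
abbrev Ent : Type := List ℕ × List ℕ × ℕ × ℕ

/-- representatives of the classes -/
def rep (i : ℕ) : List ℕ :=
  [[], [9, 9, 9, 9], [10, 10], [9, 9], [11], [10], [9], [8], [8, 8], [8, 8, 8]].getD i []

/-- the words with all scalars -/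
def w4 (T : List Ent) : List (List ℕ) := T.flatMap fun e => [e.1, 0 :: e.1, 0 :: 0 :: e.1, 0 :: 0 :: 0 :: e.1]

/-- the list is a subgroup -/
noncomputable def grpB (S : List ℕ) (T : List Ent) : Bool := frcL ((w4 T).map evc) fun L => ndB L &&
  (memB 205894618938100 L && PG.allL (fun e => PG.allL (fun i => memB i S) e.1 &&
    frc (evc e.1) fun c => PG.allL (fun i => frc (mulc (gc i) c) fun d => memB d L) S) T)

/-- the labels are correct -/
noncomputable def labB (T : List Ent) : Bool :=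
  PG.allL (fun e => Nat.blt e.2.2.1 10 && eqw (e.1 ++ e.2.1) (e.2.1 ++ rep e.2.2.1 ++ List.replicate e.2.2.2 0)) T

/-- the subgroup generated by the scalars and some letters -/
def gp (S : List ℕ) : Subgroup GU := Subgroup.closure (g '' {i | i ∈ 0 :: S})

theorem mem_gp {S : List ℕ} {i : ℕ} (h : i ∈ 0 :: S) : g i ∈ gp S := Subgroup.subset_closure ⟨i, h, rfl⟩

theorem ev_mem' {K : Subgroup GU} : ∀ w : List ℕ, (∀ i ∈ w, g i ∈ K) → ev g w ∈ K
  | [], _ => K.one_mem
  | i :: w, h => ev_cons g i w ▸ mul_mem (h i List.mem_cons_self) (ev_mem' w fun j hj => h j (List.mem_cons_of_mem _ hj))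

theorem gp_mono {S S' : List ℕ} (h : ∀ i ∈ S, i ∈ S') : gp S ≤ gp S' :=
  Subgroup.closure_mono (Set.image_mono fun i hi => List.mem_cons.2 ((List.mem_cons.1 hi).imp_right (h i)))

theorem grpB_spec {S : List ℕ} {T : List Ent} (h : grpB S T = true) :
    ((w4 T).map (ev g)).Nodup ∧ ∀ x, x ∈ gp S ↔ x ∈ (w4 T).map (ev g) := by
  simp only [grpB, frcL_eq, Bool.and_eq_true, memB_iff] at h
  obtain ⟨h1, h2, h3⟩ := h
  have k : ∀ {c x}, R c x → c ∈ (w4 T).map evc → x ∈ (w4 T).map (ev g) := fun hc e => by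
    obtain ⟨w, hw, rfl⟩ := List.mem_map.1 e
    exact List.mem_map.2 ⟨w, hw, (R_ev w).ext hc⟩
  have m : ∀ x, x ∈ (w4 T).map (ev g) ↔ ∃ e ∈ T, ∃ n < 4, x = g 0 ^ n * ev g e.1 := fun x => by
    simp only [w4, List.mem_map, List.mem_flatMap, List.mem_cons, List.not_mem_nil, or_false]
    constructor
    · rintro ⟨_, ⟨e, he, rfl | rfl | rfl | rfl⟩, rfl⟩
      exacts [⟨e, he, 0, by decide, by simp⟩, ⟨e, he, 1, by decide, by simp⟩,
        ⟨e, he, 2, by decide, by simp [pow_succ, mul_assoc]⟩, ⟨e, he, 3, by decide, by simp [pow_succ, mul_assoc]⟩]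
    · rintro ⟨e, he, n, hn, rfl⟩
      interval_cases n
      exacts [⟨_, ⟨e, he, .inl rfl⟩, by simp⟩, ⟨_, ⟨e, he, .inr (.inl rfl)⟩, by simp⟩,
        ⟨_, ⟨e, he, .inr (.inr (.inl rfl))⟩, by simp [pow_succ, mul_assoc]⟩,
        ⟨_, ⟨e, he, .inr (.inr (.inr rfl))⟩, by simp [pow_succ, mul_assoc]⟩]
  have hz : ∀ n, ∀ x ∈ (w4 T).map (ev g), g 0 ^ n * x ∈ (w4 T).map (ev g) := fun n x hx => by
    obtain ⟨e, he, j, -, rfl⟩ := (m x).1 hx
    exact (m _).2 ⟨e, he, (n + j) % 4, Nat.mod_lt _ (by decide), by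
      rw [← mul_assoc, ← pow_add, ← pow_eq_pow_mod _ z_four]⟩
  have h4 := fun e he => Bool.and_eq_true_iff.1 (PG.allL_spec h3 e he)
  refine ⟨List.pairwise_map.2 ((List.pairwise_map.1 (ndB_spec h1)).imp fun hne e =>
    hne (Nat.eq_of_beq_eq_true (eqw_iff.2 e))), mem_closure_iff_left _ _ (k R_one h2) (fun x hx => ?_) fun x hx => ?_⟩
  · rintro _ ⟨i, hi, rfl⟩
    rcases List.mem_cons.1 hi with rfl | hi
    · simpa using hz 1 x hx
    obtain ⟨e, he, j, -, rfl⟩ := (m x).1 hx
    have h5 := (h4 e he).2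
    rw [frc_eq] at h5
    have h6 := PG.allL_spec h5 i hi
    rw [frc_eq, memB_iff] at h6
    rw [← mul_assoc, Subgroup.mem_center_iff.1 (pow_mem z_cen j), mul_assoc]
    exact hz j _ (k ((R_g i).mul (R_ev _)) h6)
  · obtain ⟨e, he, j, -, rfl⟩ := (m x).1 hx
    exact mul_mem (pow_mem (mem_gp List.mem_cons_self) j) (ev_mem' _ fun i hi =>
      mem_gp (List.mem_cons_of_mem _ (memB_iff.1 (PG.allL_spec (h4 e he).1 i hi))))

variable {k V : Type*} [Field k] [AddCommGroup V] [Module k V] {σ : Representation k GU V} {t : GU → ℤ}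

theorem sm_conj {a b c : GU} (e : σ a = σ (c * b * c⁻¹)) (h : Sm (σ b)) : Sm (σ a) := by
  have k : ∀ n, σ b ^ n = 1 → σ a ^ n = 1 := fun n hn => by
    rw [e, ← map_pow, conj_pow, map_mul, map_mul, map_pow, hn, mul_one, ← map_mul, mul_inv_cancel, map_one]
  exact h.imp (k _) (Or.imp (k _) (Or.imp (k _) (k _)))

theorem table (h : Good σ t) (hz : σ (g 0) = 1) (hs : ∀ i < 10, Sm (σ (ev g (rep i)))) {S : List ℕ} {T : List Ent}
    (h1 : grpB S T = true) (h2 : labB T = true) (h3 : ¬ 3 ∣ T.length) :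
    ∑ i ∈ Finset.range 10, (T.map fun e => e.2.2.1).count i • t (ev g (rep i)) =
      T.length * (finrank k (fixS σ (gp S)) : ℤ) := by
  obtain ⟨h4, h5⟩ := grpB_spec h1
  have h6 : ∀ e ∈ T, e.2.2.1 < 10 ∧ t (ev g e.1) = t (ev g (rep e.2.2.1)) ∧ Sm (σ (ev g e.1)) := fun e he => by
    obtain ⟨a, b⟩ := Bool.and_eq_true_iff.1 (PG.allL_spec h2 e he)
    rw [eqw_iff, ev_append, ev_append, ev_append, ev_rep] at b
    have c : σ (g 0 ^ e.2.2.2) = 1 := by rw [map_pow, hz, one_pow]
    refine ⟨Nat.blt_eq ▸ a, h.of_conj c b, sm_conj (c := ev g e.2.1) ?_ (hs _ (Nat.blt_eq ▸ a))⟩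
    rw [eq_mul_inv_of_mul_eq b]
    simp only [map_mul, c, mul_one]
  have hl : ∀ T : List Ent, (w4 T).length = 4 * T.length := fun T => by
    induction T with
    | nil => rfl
    | cons e T ih => rw [w4, List.flatMap_cons, List.length_append, ← w4, ih, List.length_cons (as := T)]; simp; ring
  have ht : ∀ x, t (g 0 * x) = t x := fun x => h.congr (by rw [map_mul, hz, one_mul])
  have hσ : ∀ x, σ (g 0 * x) = σ x := fun x => by rw [map_mul, hz, one_mul]
  have h7 : ∀ T : List Ent, (((w4 T).map (ev g)).map t).sum = 4 * (T.map fun e => t (ev g e.1)).sum := fun T => by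
    induction T with
    | nil => rfl
    | cons e T ih =>
      rw [w4, List.flatMap_cons, List.map_append, List.map_append, List.sum_append, ← w4, ih]
      simp only [List.map_cons, List.map_nil, List.sum_cons, List.sum_nil, ev_cons, ht]
      ring
  have h8 := h.sum_list _ _ h4 h5 (by
    rw [List.length_map, hl]; exact fun e => h3 ((Nat.Coprime.dvd_mul_left (by decide)).1 e)) (by
    simp only [w4, List.mem_map, List.mem_flatMap, List.mem_cons, List.not_mem_nil, or_false]
    rintro _ ⟨_, ⟨e, he, rfl | rfl | rfl | rfl⟩, rfl⟩ <;> simpa only [ev_cons, hσ] using (h6 e he).2.2)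
  rw [h7, List.length_map, hl, List.map_congr_left fun e he => (h6 e he).2.1] at h8
  rw [← sum_count 10 (fun i => t (ev g (rep i))) _ (by
    simp only [List.mem_map]; rintro _ ⟨e, he, rfl⟩; exact (h6 e he).1), List.map_map]
  push_cast at h8
  exact mul_left_cancel₀ (by decide : (4 : ℤ) ≠ 0) (h8.trans (mul_assoc _ _ _))

end CL.E8s.U
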