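/-
`U₄(3)` is not a subgroup of `E₈(3)`.
-/
import Cfsg.Agent.Inv.E8sU1

set_option autoImplicit false

namespace CL.E8s

open CL.U43 CL.TC CL.Amg Module

namespace U

/-- two words and five cosets with words in the Sylow subgroup -/
abbrev Rl : Type := List ℕ × List ℕ × List (ℕ × List ℕ)

def tE : List Ent := [
  ([],[],0,0), ([1],[8,5],1,0), ([2],[9,6],1,2), ([3],[5],1,2), ([4],[8,8],1,0), ([1,2],[7,10],1,3),
  ([1,3],[6,10],1,0), ([1,4],[9,8],1,0), ([2,3],[8],1,2), ([2,4],[7,8,8],1,2), ([3,4],[],1,1), ([1,2,3],[5,10],1,1),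
  ([1,2,4],[8,10],1,1), ([1,3,4],[10],1,1), ([2,3,4],[6],1,3), ([1,2,3,4],[8,6],1,2)]

def tS : List Ent := [
  ([],[],0,0), ([1],[8,5],1,0), ([2],[9,6],1,2), ([3],[5],1,2), ([4],[8,8],1,0), ([5],[9,9,11],2,0),
  ([1,2],[7,10],1,3), ([1,3],[6,10],1,0), ([1,4],[9,8],1,0), ([1,5],[1,8,11,6],4,3), ([2,3],[8],1,2),
  ([2,4],[7,8,8],1,2), ([2,5],[3,11,8],2,3), ([3,4],[],1,1), ([3,5],[11,5],4,3), ([4,5],[1,11,8],2,3),
  ([5,1],[8,11,6],4,3), ([5,3],[3,11,5],4,3), ([1,2,3],[5,10],1,1), ([1,2,4],[8,10],1,1), ([1,3,4],[10],1,1),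
  ([1,3,5],[1,7,8,8],3,0), ([1,4,5],[8,1,11,6],4,0), ([1,5,3],[9,9,5],3,0), ([2,3,4],[6],1,3),
  ([2,3,5],[1,11,5],4,2), ([2,4,5],[11,8],2,2), ([2,5,3],[1,3,11,5],4,2), ([3,5,1],[7,8,8],3,0),
  ([4,5,1],[3,8,11,6],4,2), ([5,1,3],[1,9,9,5],3,0), ([1,2,3,4],[8,6],1,2)]

def tF : List Ent := [
  ([],[],0,0), ([1],[8,5],1,0), ([2],[9,6],1,2), ([3],[5],1,2), ([4],[8,8],1,0), ([8],[],7,0), ([1,2],[7,10],1,3),
  ([1,3],[6,10],1,0), ([1,4],[9,8],1,0), ([1,8],[7,7],7,1), ([2,3],[8],1,2), ([2,4],[7,8,8],1,2), ([2,8],[8,4],7,3),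
  ([3,4],[],1,1), ([3,8],[2,4],7,3), ([4,8],[1,2,4],7,0), ([8,1],[1,7,7],7,1), ([8,2],[1,3],7,3), ([8,4],[1,2],7,0),
  ([8,8],[],8,0), ([1,2,3],[5,10],1,1), ([1,2,4],[8,10],1,1), ([1,2,8],[1,4],7,2), ([1,3,4],[10],1,1),
  ([1,3,8],[3],7,2), ([1,8,1],[1],7,0), ([1,8,4],[8,1],7,3), ([1,8,8],[2,3],8,3), ([2,3,4],[6],1,3),
  ([2,4,8],[3,4],7,1), ([2,8,1],[4],7,2), ([2,8,2],[2],7,0), ([2,8,8],[1,2],8,3), ([3,8,8],[3,4],8,1),
  ([4,8,8],[2],8,2), ([8,1,8],[4],8,3), ([8,2,4],[2,3],7,1), ([8,2,8],[3],8,3), ([8,4,8],[1,4],8,2),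
  ([8,8,1],[8,4],8,3), ([8,8,2],[1],8,3), ([8,8,4],[2,4],8,2), ([8,8,8],[],9,0), ([1,2,3,4],[8,6],1,2),
  ([1,2,8,8],[1,3],8,0), ([1,8,1,8],[7,7],8,2), ([1,8,4,8],[1,7,7],8,1), ([1,8,8,8],[7,9],8,1),
  ([2,8,1,8],[1,2,4],8,2), ([2,8,8,8],[1],9,1), ([3,8,8,2],[8,1],8,0), ([3,8,8,8],[4],9,3), ([4,8,8,8],[7,9,1],8,2),
  ([8,1,8,8],[2,7,9],8,1), ([8,2,8,8],[7,4,9],8,1), ([8,4,8,8],[7,7],9,2), ([8,8,1,8],[7,9,3],8,1),
  ([8,8,2,8],[1,7,9,1],8,1), ([8,8,4,8],[4,7,9],8,2), ([8,8,8,1],[1,7,9],8,1), ([8,8,8,2],[3,7,9],8,1),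
  ([8,8,8,4],[2],9,2), ([8,8,8,8],[7,9,4],7,0), ([1,8,4,8,8],[7,9,2],8,1), ([1,8,8,8,2],[3],9,0),
  ([1,8,8,8,8],[4,7,9],7,3), ([2,8,8,8,8],[2,7,9],7,1), ([3,8,8,8,8],[1,4,7,9],7,1), ([4,8,8,8,8],[3,7,9],7,0),
  ([8,1,8,8,8],[6,11,6],7,3), ([8,2,8,8,8],[7,9,3],7,1), ([8,4,8,8,8],[1,2,7,9],7,0), ([8,8,1,8,8],[7,9,2],7,3),
  ([8,8,2,8,8],[1,7,9],7,1), ([8,8,4,8,8],[7,3,9],7,0), ([8,8,8,1,8],[7,9,1],7,3), ([8,8,8,2,8],[7,1,9],7,1),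
  ([8,8,8,4,8],[7,4,9],7,0), ([8,8,8,8,2],[7,9],7,1), ([8,8,8,8,4],[1,7,9,1],7,0)]

def tP : List Ent := [
  ([],[],0,0), ([1],[8,5],1,0), ([2],[9,6],1,2), ([3],[5],1,2), ([4],[8,8],1,0), ([5],[9,9,11],2,0),
  ([6],[9,10,10],4,0), ([7],[3,5,8,9],4,0), ([1,2],[7,10],1,3), ([1,3],[6,10],1,0), ([1,4],[9,8],1,0),
  ([1,5],[1,8,11,6],4,3), ([1,6],[8,6,8],2,3), ([1,7],[10,5,9],2,3), ([2,3],[8],1,2), ([2,4],[7,8,8],1,2),
  ([2,5],[3,11,8],2,3), ([2,6],[3,9,10,10],4,0), ([2,7],[5,8,9],4,0), ([3,4],[],1,1), ([3,5],[11,5],4,3),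
  ([3,6],[8,6,5],4,1), ([3,7],[1,11,7],4,1), ([4,5],[1,11,8],2,3), ([4,6],[7,8,5,6],4,3), ([4,7],[3,11,7],4,1),
  ([5,1],[8,11,6],4,3), ([5,3],[3,11,5],4,3), ([5,6],[8,8],3,1), ([5,7],[7,10,9,8],6,3), ([6,1],[1,8,6,8],2,3),
  ([6,3],[1,11,10,8],4,3), ([6,5],[5,8,8],3,1), ([6,7],[1,9,10,8],2,0), ([7,1],[1,10,5,9],2,3), ([7,3],[10,7,6],4,2),
  ([7,4],[11,7],4,1), ([7,5],[6,9,6,11],6,3), ([7,6],[9,10,8],2,2), ([7,7],[6],1,3), ([1,2,3],[5,10],1,1),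
  ([1,2,4],[8,10],1,1), ([1,2,6],[3,8,6,8],2,3), ([1,2,7],[1,10,10,7],2,1), ([1,3,4],[10],1,1),
  ([1,3,5],[1,7,8,8],3,0), ([1,3,6],[8,8,6],3,3), ([1,3,7],[6,9,6],3,3), ([1,4,5],[8,1,11,6],4,0),
  ([1,4,6],[7,8,6,8],2,0), ([1,4,7],[9,6],3,3), ([1,5,3],[9,9,5],3,0), ([1,5,6],[10,6],2,1),
  ([1,5,7],[1,5,11,10,9],5,1), ([1,6,1],[1,9,10,10],4,0), ([1,6,3],[3,8,8,6],3,3), ([1,6,5],[3,10,5],2,1),
  ([1,6,7],[8,9],4,2), ([1,7,1],[3,6,11,7],4,0), ([1,7,3],[1,9,6],3,3), ([1,7,4],[3,9,6],3,3),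
  ([1,7,5],[1,8,6,8],5,2), ([1,7,6],[1,8,9],4,0), ([1,7,7],[8,6],1,2), ([2,3,5],[1,11,5],4,2), ([2,4,5],[11,8],2,2),
  ([2,5,3],[1,3,11,5],4,2), ([2,5,7],[1,8,8,6],6,1), ([2,6,7],[1,9,8,7],2,0), ([2,7,1],[10,10,7],2,1),
  ([2,7,5],[3,10,9,8],6,3), ([2,7,6],[9,8,7],2,0), ([3,4,6],[11,10,8],4,0), ([3,4,7],[6,11,7],4,0),
  ([3,5,1],[7,8,8],3,0), ([3,5,6],[9,5,8],4,3), ([3,5,7],[4,8,8,6],6,3), ([3,6,1],[9,6,11],3,3),
  ([3,6,5],[3,9,7,6],4,0), ([3,7,5],[4,9,6,11],6,1), ([4,5,1],[3,8,11,6],4,2), ([4,5,6],[1,8,8],3,3),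
  ([4,5,7],[6,8,8,6],6,2), ([4,6,3],[8,5,6],4,2), ([4,6,5],[3,8,8],3,1), ([4,6,7],[5,9,6],3,0),
  ([4,7,5],[4,10,9,8],6,0), ([4,7,6],[1,5,9,6],3,2), ([5,1,3],[1,9,9,5],3,0), ([5,1,7],[9,7,8,7],5,0),
  ([5,3,6],[9,7,6],4,3), ([5,3,7],[3,8,8,6],6,1), ([5,6,1],[10,5],2,1), ([5,6,3],[3,9,5,8],4,3),
  ([5,7,1],[5,11,10,9],5,1), ([5,7,3],[5,9,6,11],6,3), ([5,7,4],[5,10,9,8],6,2), ([5,7,5],[4,8,9],4,0),
  ([5,7,6],[11,10,9],5,2), ([6,1,3],[3,9,6,11],3,3), ([6,1,7],[4,5,11,7],4,2), ([6,5,1],[3,10,6],2,1),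
  ([6,5,7],[1,11,10,9],5,2), ([6,7,4],[1,8,9,10],3,0), ([7,1,6],[5,11,7],4,2), ([7,3,5],[9,6,11],6,3),
  ([7,4,5],[10,9,8],6,2), ([7,4,6],[8,9,10],3,0), ([7,5,1],[8,6,8],5,2), ([7,5,3],[9,2,6,11],6,1),
  ([7,5,6],[5,8,6,8],5,3), ([7,5,7],[3,8,9,8],4,2), ([1,2,7,6],[8,1,9],4,2), ([1,3,6,5],[7,11,5],4,3),
  ([1,3,7,5],[3,8,6,8],5,0), ([1,4,5,7],[7,11,10,9],5,2), ([1,4,7,5],[8,4,6,8],5,1), ([1,4,7,6],[6,8,9],4,1),
  ([1,5,3,6],[3,7,11,5],4,2), ([1,5,3,7],[11,10,7,8],5,1), ([1,5,6,3],[8,9,8],4,2), ([1,5,7,3],[8,11,10,8],5,3),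
  ([1,5,7,4],[7,8,6,8],5,0), ([1,5,7,6],[3,9,6,11],6,3), ([1,7,3,5],[3,11,10,9],5,2), ([1,7,4,5],[8,1,6,8],5,1),
  ([1,7,4,6],[4,6,8,9],4,3), ([1,7,5,6],[8,8,6],6,1)]

def nW : List (List (List ℕ)) := [
  [[0],[1],[2],[3],[4]], [[0],[1],[2,0,0],[3],[4]], [[0],[1,0,0],[2],[3],[4]], [[0],[1],[2],[3],[4,0,0]],
  [[0],[1],[2],[3,0,0],[4]], [[0],[1,2,0],[2,0,0],[3,4,0],[4,0,0]], [[0],[1,2,4,0,0,0],[2,0,0],[2,3,0,0],[4,0,0]],
  [[0],[1,2,3,4],[2,0,0],[2,3,0,0],[2,4]], [[0],[3,0,0],[1,2,3,4,0,0],[1,2,0],[2,3,0,0]],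
  [[0],[1,2,3,4,0,0],[2,3,4,0,0,0],[1,3,0,0],[1,4,0,0]], [[0],[2],[1,4],[2,3,0,0],[4,0,0]],
  [[0],[1,0,0],[1,2,0,0,0],[4],[3,0,0]]]

def uW : List (List ℕ) := [
  [], [8], [9], [10], [11], [5,8], [5,9], [5,10], [5,11], [6,8], [6,9], [6,10], [6,11], [7,8], [7,9], [7,10], [7,11],
  [8,8], [8,9], [8,10], [8,11], [9,8], [9,9], [10,8], [10,9], [10,10], [10,11], [11,8], [11,9], [11,10], [5,6,9],
  [5,6,10], [5,7,9], [5,7,11], [5,8,9], [5,8,10], [6,7,8], [6,8,8], [6,11,9], [7,8,8], [8,6,8], [8,8,8], [8,10,9],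
  [8,11,8], [5,7,8,8]]

def r1 : List Rl := [
  ([11,9],[],[(28,[]),(30,[5,7]),(31,[1,6,3,0,0,0]),(9,[5,7,5,0,0]),(29,[3,7,5,0,0,0])]),
  ([9,8,10],[],[(15,[1,6,5,0,0]),(39,[2,5,7]),(13,[1,7,3,5]),(12,[5,6,3]),(11,[1,4,7,6,0,0,0])]),
  ([5,7],[7,8],[(5,[2,4,0]),(30,[1,7,5,6,0]),(43,[3,5,6,0,0,0]),(17,[5,0,0]),(31,[3,5,7,0,0])]),
  ([8,5],[5,8],[(17,[0,0]),(19,[1,4,5,7,0,0,0]),(32,[4,5,0,0,0]),(40,[5,7,1,0,0,0]),(34,[4,7,0,0,0])]),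
  ([6,11],[9],[(38,[]),(43,[1,7,5,0,0,0]),(31,[4,6,3,0,0,0]),(16,[5,7,0,0]),(15,[7,3])]),
  ([9,10,5],[7,8],[(1,[2,7,6,0,0]),(20,[3,7,0,0,0]),(24,[7,5]),(5,[3,7,0]),(25,[7,5,0,0,0])]),
  ([10,5],[11],[(37,[3,5,0,0,0]),(16,[1,3,7,0,0]),(26,[7,5,6,0,0]),(41,[1,2,7]),(0,[7,5,3,0,0])]),
  ([8,6],[6,9],[(18,[1,2,3,0,0]),(8,[1,3,6]),(35,[2,4,0,0,0]),(0,[5,3,7,0]),(11,[6,1,3,0,0,0])])]

def r2 : List Rl := [
  ([10],[9],[(24,[]),(32,[1,7,4,0,0]),(29,[2,7,5,0,0]),(0,[1,2,7,6,0,0,0]),(1,[3,4,6,0,0])]),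
  ([11,10],[7,8],[(41,[4,7,6]),(16,[4,6,5,0]),(39,[1,7,7,0]),(30,[1,7,6]),(15,[1,5,6])]),
  ([5,11],[5,9],[(12,[5,7,3]),(10,[7,3,5,0]),(17,[5,6,0,0,0]),(5,[1,2,7]),(20,[3,4,6,0])]),
  ([9,10,5],[5,9],[(10,[2,5,7,0]),(11,[3,5,6,0]),(37,[7,6]),(31,[1,4,7,5]),(30,[5,0])]),
  ([7,11],[],[(16,[]),(31,[4,5,1,0,0]),(26,[1,6,3,0,0]),(8,[2,5,3,0,0,0]),(14,[4,5,6,0,0,0])]),
  ([11],[6,9],[(10,[4,5,1,0]),(5,[2,4]),(40,[5,7,1,0,0]),(25,[1,4,7,5,0,0,0]),(31,[4,5,1,0,0])]),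
  ([11],[6,11],[(13,[4,5,1]),(38,[1,4,0,0,0]),(15,[2,3,0,0,0]),(14,[1,7,3,5,0,0,0]),(9,[1,7,4,6,0])]),
  ([7,5],[10],[(19,[2,7,0,0]),(11,[1,4,7,0,0]),(34,[2,3,5,0]),(28,[1,2,4,0,0]),(43,[2,3,5,0,0])]),
  ([10,5,9],[11],[(14,[6,5,1,0,0,0]),(35,[4,7,5]),(17,[2,7,6]),(18,[1,2,7,6,0,0,0]),(43,[2,3,5,0,0])])]

theorem gE : grpB [1, 2, 3, 4] tE = true := by decide +kernel
theorem gS : grpB [1, 2, 3, 4, 5] tS = true := by decide +kernel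
theorem gF : grpB [1, 2, 3, 4, 8] tF = true := by decide +kernel
theorem gP : grpB [1, 2, 3, 4, 5, 6, 7] tP = true := by decide +kernel
theorem lE : labB tE = true := by decide +kernel
theorem lS : labB tS = true := by decide +kernel
theorem lF : labB tF = true := by decide +kernel
theorem lP : labB tP = true := by decide +kernel

/-- the conjugate of a generator of `E` by a letter -/
def nw (i e : ℕ) : List ℕ := (nW.getD i []).getD e []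

theorem nw_ok : ∀ i < 12, ∀ e < 5, (eqw [e, i] (i :: nw i e) && ltB 5 (nw i e)) = true := by decide +kernel

/-- the coset representatives -/
def uw (j : ℕ) : List ℕ := uW.getD j []
/-- the `i`-th coset of a relation -/
def jj (r : Rl) (i : ℕ) : ℕ × List ℕ := r.2.2.getD i (0, [])

theorem rel_ok : ∀ r ∈ r1 ++ r2, ltB 12 r.2.1 = true ∧ ∀ i < 5,
    (eqw (r.1 ++ (List.replicate i 8 ++ r.2.1)) (uw (jj r i).1 ++ (jj r i).2) && ltB 8 (jj r i).2) = true := by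
  decide +kernel

/-- the cosets with multiplicities -/
def cs : List ℕ := (r1 ++ r2 ++ r2).flatMap fun r => (List.range 5).map fun i => (jj r i).1

theorem cs_ok : (∀ j ∈ cs, j < 45) ∧ ∀ j < 45, cs.count j % 3 = if j = 0 then 1 else 0 := by decide +kernel

theorem num1 : ∀ p ∈ tab4, ∀ q ∈ tab4, ∀ r ∈ tab4, p.1 = 24 → q.1 = 24 →
    (608 + 4 * r.1 + 4 * p.2 + 8 * q.2) % 32 ≠ 0 := by decide

theorem num2 : ∀ p ∈ tab4, ∀ q ∈ tab4, ∀ r ∈ tab4, ∀ u ∈ tab8, p.1 = -8 → q.1 = -8 → u.1 = p.2 →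
    128 + 20 * r.1 + 20 * p.2 + 40 * q.2 + 16 * r.2 + 16 * u.2 ≠ 0 := by decide +kernel

variable {k V : Type*} [Field k] [AddCommGroup V] [Module k V] {σ : Representation k GU V}

theorem pow_one' (hz : σ (g 0) = 1) (w : List ℕ) (n m : ℕ)
    (h : eqw (List.replicate n w).flatten (List.replicate m 0) = true := by decide +kernel) : σ (ev g w) ^ n = 1 := by
  rw [← map_pow, ← ev_pow, eqw_iff.1 h, ev_rep, map_pow, hz, one_pow]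

theorem pow_ne (hker : ∀ g, σ g = 1 ↔ g ∈ Subgroup.center _) (w : List ℕ) (n i : ℕ)
    (h : eqw (i :: (List.replicate n w).flatten) ((List.replicate n w).flatten ++ [i]) = false := by decide +kernel) :
    σ (ev g w) ^ n ≠ 1 := fun e => by
  rw [← map_pow, ← ev_pow, hker] at e
  rw [eqw_iff.2 (by rw [ev_cons, ev_append, Subgroup.mem_center_iff.1 e]; simp)] at h
  cases h

theorem stable {v : V} (hv : v ∈ fixS σ (gp [1, 2, 3, 4])) : ∀ y : List ℕ, (∀ i ∈ y, i < 12) →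
    σ (ev g y) v ∈ fixS σ (gp [1, 2, 3, 4])
  | [], _ => by simpa using hv
  | i :: y, hy => by
    have ih := stable hv y fun j hj => hy j (List.mem_cons_of_mem _ hj)
    refine mem_fixS_closure.2 ?_
    rintro _ ⟨e, he, rfl⟩
    have h5 : ∀ e, e ∈ [0, 1, 2, 3, 4] ↔ e < 5 := fun e => by simp; omega
    obtain ⟨a, b⟩ := Bool.and_eq_true_iff.1 (nw_ok i (hy i List.mem_cons_self) e ((h5 e).1 he))
    have c : g e * g i = g i * ev g (nw i e) := by simpa using eqw_iff.1 a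
    rw [ev_cons, map_mul, End.mul_apply, ← End.mul_apply (σ (g e)), ← map_mul, c, map_mul, End.mul_apply,
      ih _ (ev_mem' _ fun j hj => mem_gp ((h5 j).2 (ltB_spec b j hj)))]

theorem sum_five (h5 : σ (g 8) ^ 5 = 1) (h0 : fixS σ (gp [1, 2, 3, 4, 8]) = ⊥) {v : V}
    (hv : v ∈ fixS σ (gp [1, 2, 3, 4])) : ((List.range 5).map fun i => σ (g 8 ^ i) v).sum = 0 := by
  refine (Submodule.mem_bot k).1 (h0 ▸ mem_fixS_closure.2 ?_)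
  have h1 : ((List.range 5).map fun i => σ (g 8 ^ i) v).sum ∈ fixS σ (gp [1, 2, 3, 4]) :=
    list_sum_mem fun u hu => by
      obtain ⟨i, -, rfl⟩ := List.mem_map.1 hu
      exact ev_rep i 8 ▸ stable hv _ fun j hj => by rw [List.eq_of_mem_replicate hj]; decide
  rintro _ ⟨e, he, rfl⟩
  by_cases h8 : e = 8
  · subst h8
    have h2 : ∀ i, σ (g 8) (σ (g 8 ^ i) v) = σ (g 8 ^ (i + 1)) v := fun i => by
      rw [← End.mul_apply, ← map_mul, pow_succ']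
    have h3 : σ (g 8 ^ (4 + 1)) v = σ (g 8 ^ 0) v := by rw [map_pow, map_pow, h5, pow_zero]
    simp only [List.range_succ, List.range_zero, List.nil_append, List.cons_append, List.map_cons, List.map_nil,
      List.sum_cons, List.sum_nil, map_add, h2, h3, add_zero]
    abel
  · exact h1 _ (mem_gp (by simp at he ⊢; omega))

theorem fix_P [CharP k 3] (h5 : σ (g 8) ^ 5 = 1) (h0 : fixS σ (gp [1, 2, 3, 4, 8]) = ⊥) :
    fixS σ (gp [1, 2, 3, 4, 5, 6, 7]) = ⊥ := by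
  refine (Submodule.eq_bot_iff _).2 fun w hw => ?_
  have hE := fixS_anti σ (gp_mono (S := [1, 2, 3, 4]) (by decide)) hw
  have h1 : ∀ r ∈ r1 ++ r2, (((List.range 5).map fun i => (jj r i).1).map fun j => σ (ev g (uw j)) w).sum = 0 := by
    intro r hr
    obtain ⟨a, b⟩ := rel_ok r hr
    have h2 := congrArg (σ (ev g r.1)) (sum_five h5 h0 (stable hE _ (ltB_spec a)))
    rw [map_zero, map_list_sum, List.map_map] at h2
    rw [List.map_map, ← h2]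
    refine congrArg List.sum (List.map_congr_left fun i hi => ?_)
    obtain ⟨c, d⟩ := Bool.and_eq_true_iff.1 (b i (List.mem_range.1 hi))
    rw [eqw_iff, ev_append, ev_append, ev_append, ev_rep] at c
    simp only [Function.comp_apply]
    rw [← End.mul_apply, ← End.mul_apply, ← map_mul, ← map_mul, mul_assoc, c, map_mul, End.mul_apply,
      hw _ (ev_mem' (jj r i).2 fun j hj => mem_gp (by have := ltB_spec d j hj; simp; omega))]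
  have h2 : ∀ l : List Rl, (∀ r ∈ l, r ∈ r1 ++ r2) → ((l.flatMap fun r => (List.range 5).map fun i => (jj r i).1).map
      fun j => σ (ev g (uw j)) w).sum = 0 := fun l hl => by
    induction l with
    | nil => rfl
    | cons r l ih =>
      rw [List.flatMap_cons, List.map_append, List.sum_append, h1 r (hl r List.mem_cons_self),
        ih fun r hr => hl r (List.mem_cons_of_mem _ hr), add_zero]
  have h3 := h2 (r1 ++ r2 ++ r2) fun r hr => (List.mem_append.1 hr).elim id (List.mem_append_right _)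
  have h4 : ∀ v : V, 3 • v = 0 := fun v => by
    rw [← Nat.cast_smul_eq_nsmul k, CharP.cast_eq_zero, zero_smul]
  rw [← cs, sum_count 45 _ _ cs_ok.1, Finset.sum_eq_single 0 (fun j hj h0 => by
    rw [nsmul_eq_mod_nsmul _ (h4 _), cs_ok.2 j (Finset.mem_range.1 hj), if_neg h0, zero_smul]) (by simp),
    nsmul_eq_mod_nsmul _ (h4 _), cs_ok.2 0 (by decide), if_pos rfl, one_smul] at h3
  simpa [uw, uW] using h3

end U

open U in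
/-- `U₄(3)` does not act on the adjoint module of `E₈(3)`. -/
theorem noSU4 {k V : Type*} [Field k] [CharP k 3] [AddCommGroup V] [Module k V]
    (σ : Representation k (Cfsg.SU 4 CL.U43.F9 3) V) (t : Cfsg.SU 4 CL.U43.F9 3 → ℤ) (h : Good σ t)
    (hker : ∀ g, σ g = 1 ↔ g ∈ Subgroup.center _) : False := by
  have := h.fin
  have hz := (hker _).2 z_cen
  have hs : ∀ i < 10, Sm (σ (ev g (rep i))) := fun i hi => by
    interval_cases i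
    exacts [.inl (pow_one' hz _ 8 0), .inl (pow_one' hz _ 8 0), .inl (pow_one' hz _ 8 0), .inl (pow_one' hz _ 8 0),
      .inl (pow_one' hz _ 8 0), .inl (pow_one' hz _ 8 0), .inl (pow_one' hz _ 8 0), .inr (.inl (pow_one' hz _ 5 0)),
      .inr (.inl (pow_one' hz _ 5 0)), .inr (.inl (pow_one' hz _ 5 0))]
  have tb : ∀ {S T} (c : List ℕ), grpB S T = true → labB T = true → ¬ 3 ∣ T.length →
      (∀ i < 10, (T.map fun e => e.2.2.1).count i = c.getD i 0) →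
      ∑ i ∈ Finset.range 10, c.getD i 0 • t (ev g (rep i)) = T.length * (finrank k (fixS σ (gp S)) : ℤ) :=
    fun c h1 h2 h3 h4 => (Finset.sum_congr rfl fun i hi => by rw [h4 i (Finset.mem_range.1 hi)]).trans
      (table h hz hs h1 h2 h3)
  have sE := tb [1, 15] gE lE (by decide) (by decide +kernel)
  have sS := tb [1, 15, 4, 4, 8] gS lS (by decide) (by decide +kernel)
  have sF := tb [1, 15, 0, 0, 0, 0, 0, 32, 26, 6] gF lF (by decide +kernel) (by decide +kernel)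
  have sP := tb [1, 15, 20, 20, 40, 16, 16] gP lP (by decide +kernel) (by decide +kernel)
  rw [show tE.length = 16 from rfl] at sE
  rw [show tS.length = 32 from rfl] at sS
  rw [show tF.length = 80 from rfl] at sF
  rw [show tP.length = 128 from rfl] at sP
  have sq : ∀ w, ev g w ^ 2 = ev g (w ++ w) := fun w => by rw [ev_append, sq]
  have h0 : t (ev g (rep 0)) = 248 := h.one
  have h1 := h.two (ev g (rep 1)) (pow_one' hz _ 2 0) (pow_one (σ _) ▸ pow_ne hker _ 1 3)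
  have h3 := h.four (ev g (rep 3)) (pow_one' hz _ 4 0) (pow_ne hker _ 2 3)
  have h4 := h.four (ev g (rep 4)) (pow_one' hz _ 4 2) (pow_ne hker _ 2 3)
  have h5 := h.four (ev g (rep 5)) (pow_one' hz _ 4 2) (pow_ne hker _ 2 3)
  have h6 := h.eight (ev g (rep 6)) (pow_one' hz _ 8 0) (pow_ne hker _ 4 3)
  have f5 := pow_one' hz (rep 7) 5 0
  have h7 := h.five (ev g (rep 7)) f5 (pow_one (σ _) ▸ pow_ne hker _ 1 3)
  have e7 : ∀ i j n, eqw (rep i) (List.replicate n (rep 7)).flatten = true →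
      eqw (rep 7) (List.replicate j (rep i)).flatten = true → t (ev g (rep i)) = t (ev g (rep 7)) :=
    fun i j n a b => h.gen _ _ n j (by rw [eqw_iff.1 a, ev_pow, map_pow]) (by rw [eqw_iff.1 b, ev_pow, map_pow])
  have h8 := e7 8 3 2 (by decide +kernel) (by decide +kernel)
  have h9 := e7 9 2 3 (by decide +kernel) (by decide +kernel)
  have e4 : t (ev g (rep 4 ++ rep 4)) = t (ev g (rep 1)) := h.congr (by
    rw [eqw_iff.1 (by decide +kernel : eqw (rep 4 ++ rep 4) (0 :: rep 1) = true), ev_cons, map_mul, hz, one_mul])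
  rw [sq] at h3 h4 h5 h6
  rw [e4] at h4
  change (t (ev g (rep 1)), _) ∈ _ at h3
  change (t (ev g (rep 2)), _) ∈ _ at h5
  change (t (ev g (rep 3)), _) ∈ _ at h6
  simp only [Finset.sum_range_succ, Finset.sum_range_zero, List.getD_cons_zero, List.getD_cons_succ, List.getD_nil,
    nsmul_eq_mul, h0, h8, h9] at sE sS sF sP
  have m := Submodule.finrank_mono (fixS_anti σ (gp_mono (S := [1, 2, 3, 4]) (S' := [1, 2, 3, 4, 8]) (by decide)))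
  push_cast at sE sS sF sP
  have e1 : t (ev g (rep 1)) = -8 := h1.resolve_left fun e => num1 _ h3 _ h4 _ h5 e e (by dsimp only; omega)
  have n0 : finrank k (fixS σ (gp [1, 2, 3, 4, 8])) = 0 := by omega
  rw [fix_P (by simpa [rep] using f5) (Submodule.finrank_eq_zero.1 n0), finrank_bot] at sP
  exact num2 _ h3 _ h4 _ h5 _ h6 e1 e1 rfl (by dsimp only; omega)

end CL.E8s
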