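/-
Frobenius' conjecture: reduction to simple groups (Zemlin) and counting tools.
-/
import Cfsg.Agent.Fgs.FrobSol
import Cfsg.Agent.Grp.Hall
import Cfsg.Agent.Grp.Cores
import Cfsg.Agent.Grp.MinNormal
import Cfsg.Agent.Inv.Small1

set_option autoImplicit false

namespace CL.InvA.Frob

open Subgroup

universe u

variable {G : Type*} [Group G] {m n : ℕ} {x : G}

/-- The solutions of `x ^ n = 1`. -/
def L (G : Type*) [Group G] (n : ℕ) : Set G := {x | x ^ n = 1}

theorem mem_L : x ∈ L G n ↔ orderOf x ∣ n := orderOf_dvd_iff_pow_eq_one.symm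

theorem one_mem_L : (1 : G) ∈ L G n := one_pow n

theorem conj_mem_L (hx : x ∈ L G n) (g : G) : g * x * g⁻¹ ∈ L G n := by
  rw [L, Set.mem_ofPred_eq, conj_pow, hx, mul_one, mul_inv_cancel]

theorem ncard_L_inter (T : Subgroup G) (n : ℕ) : (L G n ∩ T).ncard = (L T n).ncard := by
  rw [← Set.ncard_image_of_injective (L T n) Subtype.val_injective]
  congr 1
  ext x
  exact ⟨fun h => ⟨⟨x, h.2⟩, Subtype.ext h.1, rfl⟩, by rintro ⟨y, hy, rfl⟩; exact ⟨congrArg Subtype.val hy, y.2⟩⟩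

theorem normal_of_eq_L {H : Subgroup G} (h : (H : Set G) = L G n) : H.Normal :=
  ⟨fun _ hx g => h.ge (conj_mem_L (h.le hx) g)⟩

/-- Frobenius' conjecture for a simple group. -/
def Good (G : Type*) [Group G] : Prop := ∀ n, n ∣ Nat.card G → (L G n).ncard = n → n = 1 ∨ n = Nat.card G

theorem Good.of_equiv {H : Type*} [Group H] (h : Good H) (e : G ≃* H) : Good G := fun n h1 h2 => by
  rw [Nat.card_congr e.toEquiv] at h1 ⊢
  refine h n h1 ((Set.ncard_congr (fun y _ => e y) (fun x hx => ?_) (fun _ _ _ _ h => e.injective h)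
    fun y hy => ⟨e.symm y, ?_, by simp⟩).symm.trans h2)
  · rw [mem_L] at hx ⊢; rwa [MulEquiv.orderOf_eq]
  · rw [mem_L] at hy ⊢; rwa [MulEquiv.orderOf_eq]

variable [Finite G]

theorem dvd_L (h : n ∣ Nat.card G) : n ∣ (L G n).ncard := CL.Fgs.dvd_card_pow_eq_one h

theorem L_pos : 0 < (L G n).ncard := (Set.ncard_pos (Set.toFinite _)).2 ⟨1, one_mem_L⟩

theorem le_L (h : n ∣ Nat.card G) : n ≤ (L G n).ncard := Nat.le_of_dvd L_pos (dvd_L h)

theorem eq_L (hc : (L G n).ncard = n) {H : Subgroup G} (hH : Nat.card H = n) : (H : Set G) = L G n :=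
  Set.eq_of_subset_of_ncard_le (fun _ hx => mem_L.2 (hH ▸ orderOf_dvd_natCard H hx)) (by rw [hc, ← hH]; rfl)

theorem step (hn : n ∣ Nat.card G) (hc : (L G n).ncard = n) (N : Subgroup G) [N.Normal] :
    ∃ u, n = n.gcd (Nat.card N) * u ∧ u ∣ Nat.card (G ⧸ N) ∧ (L (G ⧸ N) u).ncard = u ∧
      (∀ x ∈ L G n, (x : G ⧸ N) ∈ L (G ⧸ N) u) ∧ (L N (n.gcd (Nat.card N))).ncard = n.gcd (Nat.card N) := by
  classical
  have := Fintype.ofFinite G
  have := Fintype.ofFinite (G ⧸ N)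
  obtain ⟨u, hu⟩ := Nat.gcd_dvd_left n (Nat.card N)
  obtain ⟨v, hv⟩ := Nat.gcd_dvd_right n (Nat.card N)
  have hN : L G n ∩ N = L G (n.gcd (Nat.card N)) ∩ N := Set.ext fun x => and_congr_left fun hx => by
    rw [mem_L, mem_L, Nat.dvd_gcd_iff, and_iff_left (orderOf_dvd_natCard N hx)]
  rw [← ncard_L_inter, ← hN]
  have hd0 : 0 < n.gcd (Nat.card N) := Nat.gcd_pos_of_pos_right _ Nat.card_pos
  have huv := Nat.coprime_div_gcd_div_gcd hd0
  generalize n.gcd (Nat.card N) = d at *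
  rw [hu, hv, Nat.mul_div_cancel_left _ hd0, Nat.mul_div_cancel_left _ hd0] at huv
  have hu1 : u ∣ Nat.card (G ⧸ N) := by
    rw [card_eq_card_quotient_mul_card_subgroup N, hu, hv, mul_left_comm] at hn
    exact huv.dvd_of_dvd_mul_right (Nat.dvd_of_mul_dvd_mul_left hd0 hn)
  let c : G ⧸ N → ℕ := fun y => (L G n ∩ {x | (x : G ⧸ N) = y}).ncard
  have h1 : ∀ y, d ∣ c y := fun y => (Nat.dvd_iff_prime_pow_dvd_dvd _ _).2 fun p k hp hk => by
    have := Fact.mk hp
    obtain ⟨H, hH⟩ := Sylow.exists_subgroup_card_pow_prime (G := N) p (hk.trans ⟨v, hv⟩)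
    rw [← hH, ← card_subtype N H]
    refine CL.Fgs.card_dvd_ncard_inter _ _ (fun h _ x hx => conj_mem_L hx h) (fun U hU x hx hxU w hw => ?_) _
      fun h hh x hx => ?_
    · obtain ⟨t, -, ht⟩ := CL.Fgs.brauer_pow_conj_of_dvd U hxU hw (n := n)
        ((card_dvd_of_le hU).trans (by rw [card_subtype, hH]; exact hk.trans ⟨u, hu⟩))
      rw [L, Set.mem_ofPred_eq, ht, hx, mul_one, inv_mul_cancel]
    · have := (QuotientGroup.eq_one_iff h).2 (map_subtype_le H hh)
      simp only [Set.mem_ofPred_eq, QuotientGroup.mk_mul, this, one_mul, mul_one] at hx ⊢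
      exact ⟨hx, hx⟩
  have h2 : ∀ y, (if y ∈ L (G ⧸ N) u then d else 0) ≤ c y := fun y => by
    split_ifs with hy
    · obtain ⟨x, rfl⟩ := QuotientGroup.mk_surjective y
      obtain ⟨a, -, ha⟩ := Nat.exists_mul_mod_eq_of_coprime 1 huv.symm (Nat.pos_of_dvd_of_pos hu1 Nat.card_pos).ne'
      refine Nat.le_of_dvd ((Set.ncard_pos (Set.toFinite _)).2 ⟨x ^ (v * a), ?_, ?_⟩) (h1 _)
      · have h3 := orderOf_dvd_iff_pow_eq_one.1 (orderOf_dvd_natCard N ((QuotientGroup.eq_one_iff (x ^ u)).1 hy))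
        rw [L, Set.mem_ofPred_eq, ← pow_mul, show v * a * n = u * Nat.card N * a by rw [hu, hv]; ring, pow_mul, pow_mul,
          h3, one_pow]
      · rw [Set.mem_ofPred_eq, QuotientGroup.mk_pow, pow_eq_pow_mod _ hy, ha, ← pow_eq_pow_mod _ hy, pow_one]
    · exact Nat.zero_le _
  have h3 : ∑ y, c y = n := by
    rw [← hc, Set.ncard_eq_toFinset_card' (L G n), Finset.card_eq_sum_card_fiberwise
      (f := (QuotientGroup.mk : G → G ⧸ N)) (t := Finset.univ) (by simp)]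
    exact Finset.sum_congr rfl fun y _ => by
      simp only [c, Set.ncard_eq_toFinset_card']
      congr 1
      ext; simp
  have h4 : ∑ y, (if y ∈ L (G ⧸ N) u then d else 0) = d * (L (G ⧸ N) u).ncard := by
    rw [← Finset.sum_filter, Finset.sum_const, smul_eq_mul, mul_comm, Set.ncard_eq_toFinset_card']
    congr 2
    ext; simp
  have h5 := Finset.sum_le_sum fun y (_ : y ∈ Finset.univ) => h2 y
  have h6 : (L (G ⧸ N) u).ncard = u :=
    le_antisymm (Nat.le_of_mul_le_mul_left (by rwa [h4, h3, hu] at h5) hd0) (le_L hu1)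
  have h7 := (Finset.sum_eq_sum_iff_of_le fun y (_ : y ∈ Finset.univ) => h2 y).1 (by rw [h4, h3, h6, hu])
  refine ⟨u, hu, hu1, h6, fun x hx => by_contra fun hn => ?_, ?_⟩
  · have := h7 x (Finset.mem_univ _)
    rw [if_neg hn] at this
    exact ((Set.ncard_pos (s := L G n ∩ {y | (y : G ⧸ N) = x}) (Set.toFinite _)).2 ⟨x, hx, rfl⟩).ne this
  · have := h7 1 (Finset.mem_univ _)
    rw [if_pos one_mem_L] at this
    simp only [c, QuotientGroup.eq_one_iff] at this
    exact this.symm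

omit [Finite G] in
/-- All composition factors satisfy Frobenius' conjecture. -/
def CF (G : Type u) [Group G] : Prop :=
  ∀ H : Subgroup G, H.IsSubnormal → ∀ (S : Type u) [Group S] (f : H →* S), Function.Surjective f →
    IsSimpleGroup S → Good S

theorem CF.sub {G : Type u} [Group G] (h : CF G) (N : Subgroup G) [hN : N.Normal] : CF N := fun H hH S _ f hf =>
  h _ (hH.trans' hN.isSubnormal) S (f.comp (H.equivMapOfInjective _ N.subtype_injective).symm.toMonoidHom)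
    (hf.comp (MulEquiv.surjective _))

theorem CF.quot {G : Type u} [Group G] (h : CF G) (N : Subgroup G) [N.Normal] : CF (G ⧸ N) := fun H hH S _ f hf =>
  h _ (hH.comap (QuotientGroup.mk' N)) S (f.comp ((QuotientGroup.mk' N).subgroupComap H))
    (hf.comp (MonoidHom.subgroupComap_surjective_of_surjective _ _ (QuotientGroup.mk'_surjective N)))

theorem reduce (G : Type u) [Group G] [Finite G] :
    CF G → ∀ n, n ∣ Nat.card G → (L G n).ncard = n → ∃ H : Subgroup G, Nat.card H = n := by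
  refine CL.Grp.induction_on_card (P := fun G _ _ => CF G → ∀ n, n ∣ Nat.card G → (L G n).ncard = n →
    ∃ H : Subgroup G, Nat.card H = n) (fun G _ _ ih h n hn hc => ?_) G
  have key : ∀ (N : Subgroup G) [N.Normal], N ≠ ⊥ → ∃ (u : ℕ) (M : Subgroup G), n = n.gcd (Nat.card N) * u ∧ M.Normal ∧
      L G n ⊆ M ∧ Nat.card M = Nat.card N * u := fun N _ h0 => by
    obtain ⟨u, h1, h2, h3, h4, -⟩ := step hn hc N
    obtain ⟨H, hH⟩ := ih _ (CL.Grp.card_quotient_lt h0) (h.quot N) u h2 h3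
    have := normal_of_eq_L (eq_L h3 hH)
    exact ⟨u, H.comap (QuotientGroup.mk' N), h1, inferInstance, fun x hx => (eq_L h3 hH).ge (h4 x hx), by
      rw [CL.Grp.card_comap_mk', hH]⟩
  have sub : ∀ (M : Subgroup G) [M.Normal], M ≠ ⊤ → ∀ k, k ∣ Nat.card M → (L M k).ncard = k →
      ∃ H : Subgroup G, H ≤ M ∧ Nat.card H = k := fun M _ hM k h1 h2 => by
    obtain ⟨H, hH⟩ := ih M (card_top (G := G) ▸ CL.Grp.card_lt_card_of_lt hM.lt_top) (h.sub M) k h1 h2
    exact ⟨H.map M.subtype, map_subtype_le _, by rw [card_subtype, hH]⟩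
  by_cases hs : ∃ N : Subgroup G, N.Normal ∧ N ≠ ⊥ ∧ N ≠ ⊤
  · obtain ⟨N, hN, h0, h1⟩ := hs
    obtain ⟨u, M, h2, hM, h3, h4⟩ := key N h0
    by_cases hMt : M = ⊤
    swap
    · obtain ⟨H, -, hH⟩ := sub M hMt n (by rw [h4, h2]; exact Nat.mul_dvd_mul_right (Nat.gcd_dvd_right _ _) u)
        (by rw [← ncard_L_inter, Set.inter_eq_left.2 h3, hc])
      exact ⟨H, hH⟩
    obtain ⟨-, -, -, -, -, h5⟩ := step hn hc N
    obtain ⟨K, hKN, hK⟩ := sub N h1 _ (Nat.gcd_dvd_right _ _) h5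
    by_cases hK0 : K = ⊥
    · rw [hK0, card_bot] at hK
      rw [← hK, one_mul] at h2
      rw [hMt, card_top, ← N.card_mul_index] at h4
      have h6 := Nat.eq_of_mul_eq_mul_left Nat.card_pos h4
      obtain ⟨H, hH⟩ := exists_right_complement'_of_coprime (N := N) (by rw [h6, ← h2]; exact Nat.Coprime.symm hK.symm)
      exact ⟨H, by rw [← hH.symm.index_eq_card, h6, h2]⟩
    have hKL : (K : Set G) = L G (Nat.card K) ∩ N := Set.eq_of_subset_of_ncard_le
      (fun x hx => ⟨mem_L.2 (orderOf_dvd_natCard K hx), hKN hx⟩) (by rw [ncard_L_inter, hK, h5, ← hK]; rfl)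
    have : K.Normal := ⟨fun x hx g => hKL.ge ⟨conj_mem_L (hKL.le hx).1 g, hN.conj_mem x (hKN hx) g⟩⟩
    obtain ⟨w, M', h6, -, -, h7⟩ := key K hK0
    exact ⟨M', by rw [h7, h6, Nat.gcd_eq_right (hK ▸ Nat.gcd_dvd_left _ _)]⟩
  rcases subsingleton_or_nontrivial G with hG | hG
  · exact ⟨⊥, by rw [card_bot]; exact (Nat.dvd_one.1 (Nat.card_unique (α := G) ▸ hn)).symm⟩
  have : IsSimpleGroup G := ⟨fun N hN => by by_contra hc; exact hs ⟨N, hN, not_or.1 hc⟩⟩
  rcases h ⊤ IsSubnormal.top G (⊤ : Subgroup G).subtype (fun x => ⟨⟨x, mem_top x⟩, rfl⟩) this n hn hc with e | e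
  · exact ⟨⊥, by rw [card_bot, e]⟩
  · exact ⟨⊤, by rw [card_top, e]⟩

/-! ### Counting -/

/-- The number of non-trivial solutions of `x ^ a = 1`. -/
noncomputable def cnt (G : Type*) [Group G] (a : ℕ) : ℕ := (L G a \ {1}).ncard

theorem cnt_add_one (a : ℕ) : cnt G a + 1 = (L G a).ncard := Set.ncard_sdiff_singleton_add_one one_mem_L

theorem dc {S : Set G} {a k : ℕ} (hS : S ⊆ L G a \ {1}) (h : ∀ z ∈ S, {g | g * z * g⁻¹ ∈ S}.ncard ≤ k) :
    S.ncard * Nat.card G ≤ k * cnt G a := by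
  classical
  have := Fintype.ofFinite G
  have := Finset.card_le_mul_card_image_of_maps_to (s := S.toFinset ×ˢ (Finset.univ : Finset G))
    (t := (L G a \ {1}).toFinset) (f := fun p => p.2 * p.1 * p.2⁻¹) (fun p hp => by
      have := hS (Set.mem_toFinset.1 (Finset.mem_product.1 hp).1)
      exact Set.mem_toFinset.2 ⟨conj_mem_L this.1 _, fun e => this.2 (by simpa using e)⟩) k fun x _ => by
    rcases Finset.eq_empty_or_nonempty ((S.toFinset ×ˢ (Finset.univ : Finset G)).filter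
      fun p => p.2 * p.1 * p.2⁻¹ = x) with e | ⟨⟨z, g⟩, hp⟩
    · simp [e]
    simp only [Finset.mem_filter, Finset.mem_product, Set.mem_toFinset, Finset.mem_univ, and_true] at hp
    refine le_trans ?_ (h z hp.1)
    rw [Set.ncard_eq_toFinset_card']
    refine Finset.card_le_card_of_injOn (fun p => p.2⁻¹ * g) (fun p hp' => ?_) fun p hp1 q hq1 e => ?_
    · simp only [Finset.coe_filter, Finset.mem_product, Set.mem_toFinset, Finset.mem_univ, and_true, Set.mem_ofPred_eq,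
        Set.coe_toFinset] at hp' ⊢
      rw [show p.2⁻¹ * g * z * (p.2⁻¹ * g)⁻¹ = p.2⁻¹ * (g * z * g⁻¹) * p.2 by group, hp.2, ← hp'.2]
      simpa [mul_assoc] using hp'.1
    · have e1 : p.2 = q.2 := inv_injective (mul_right_cancel e)
      have e2 := (Finset.mem_filter.1 hp1).2.trans (Finset.mem_filter.1 hq1).2.symm
      rw [e1] at e2
      exact Prod.ext (by simpa using e2) e1
  rwa [Finset.card_product, Finset.card_univ, ← Set.ncard_eq_toFinset_card', ← Set.ncard_eq_toFinset_card',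
    ← Nat.card_eq_fintype_card] at this

/-- Counting with a TI-subgroup. -/
theorem ti (T : Subgroup G) {a s k : ℕ} (hs : s ≤ (L T a).ncard)
    (h : ∀ z ∈ T, z ≠ 1 → ∃ K : Subgroup G, Nat.card K ≤ k ∧ ∀ g, g * z * g⁻¹ ∈ T → g ∈ K) :
    s * Nat.card G ≤ k * cnt G a + Nat.card G := by
  have h1 := dc (S := (L G a ∩ T) \ {1}) (a := a) (k := k) (fun x hx => ⟨hx.1.1, hx.2⟩) fun z hz => by
    obtain ⟨K, h1, h2⟩ := h z hz.1.2 hz.2
    exact le_trans (Set.ncard_le_ncard fun g hg => h2 g hg.1.2) h1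
  have h2 := Set.ncard_sdiff_singleton_add_one (s := L G a ∩ T) (a := 1) ⟨one_mem_L, T.one_mem⟩
  rw [ncard_L_inter] at h2
  calc s * Nat.card G ≤ (((L G a ∩ T) \ {1}).ncard + 1) * Nat.card G := Nat.mul_le_mul_right _ (h2 ▸ hs)
    _ ≤ _ := by rw [add_mul, one_mul]; omega

omit [Finite G] in
theorem ncard_L_of_forall (T : Subgroup G) {a : ℕ} (h : ∀ z ∈ T, z ^ a = 1) : Nat.card T ≤ (L T a).ncard := by
  rw [Set.eq_univ_of_forall (s := L T a) fun z => Subtype.ext (h z z.2), Set.ncard_univ]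

theorem card_le_cnt {a : ℕ} (hx : x ^ a = 1) (h1 : x ≠ 1) :
    Nat.card G ≤ Nat.card (centralizer ({x} : Set G)) * cnt G a := by
  simpa using dc (S := {x}) (a := a) (k := Nat.card (centralizer ({x} : Set G))) (by rintro _ rfl; exact ⟨hx, h1⟩) (by
    rintro y rfl
    refine le_of_le_of_eq (Set.ncard_le_ncard (t := (centralizer ({y} : Set G) : Subgroup G)) fun g hg => ?_) rfl
    exact mem_centralizer_singleton_iff.2 (mul_inv_eq_iff_eq_mul.1 hg))

theorem cnt_add_le {a b : ℕ} (h : a.Coprime b) : cnt G a + cnt G b ≤ cnt G (a * b) := by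
  rw [cnt, cnt, ← Set.ncard_union_eq (Set.disjoint_left.2 fun x h1 h2 => h1.2 (orderOf_eq_one_iff.1
    (Nat.eq_one_of_dvd_coprimes h (mem_L.1 h1.1) (mem_L.1 h2.1))))]
  exact Set.ncard_le_ncard (Set.union_subset (fun x hx => ⟨mem_L.2 ((mem_L.1 hx.1).mul_right _), hx.2⟩)
    fun x hx => ⟨mem_L.2 ((mem_L.1 hx.1).mul_left _), hx.2⟩)

theorem cnt_mono {a b : ℕ} (h : a ∣ b) : cnt G a ≤ cnt G b :=
  Set.ncard_le_ncard fun _ hx => ⟨mem_L.2 ((mem_L.1 hx.1).trans h), hx.2⟩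

end CL.InvA.Frob
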