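/-
Frobenius' conjecture for `L₂(q)` and `Sz(q)`.
-/
import Cfsg.Agent.Inv.Frob1
import Cfsg.Agent.Cls.SL2NormD
import Cfsg.Agent.Cls.SL2PSL
import Cfsg.Agent.Chev.SzSub2
import Cfsg.Agent.Chev.SzPart
import Cfsg.Agent.Perm.FCGroup

set_option autoImplicit false

namespace CL.InvA.Frob

open Subgroup MulAction CL.SL2
open scoped MatrixGroups

theorem dvd_gcd_mul {n x y : ℕ} {z : ℕ} (h : n ∣ x * y * z) : n ∣ n.gcd x * n.gcd y * n.gcd z := by
  have h1 := (Nat.gcd_eq_left h).ge.antisymm (Nat.gcd_eq_left h).le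
  exact h1.dvd.trans ((Nat.gcd_mul_right_dvd_mul_gcd _ _ _).trans
    (Nat.mul_dvd_mul_right (Nat.gcd_mul_right_dvd_mul_gcd _ _ _) _))

theorem cancel_le {k x y z : ℕ} (hk : 0 < k) (h : x * (k * z) ≤ k * y + k * z) : x * z ≤ y + z :=
  Nat.le_of_mul_le_mul_left (by rw [mul_add, mul_left_comm]; exact h) hk

theorem arithL2 {n q d A B a b a' b' ca cb cp : ℕ} (hq : 4 ≤ q) (hA : q = A * d + 1) (hB : q + 1 = B * d)
    (ha : A = a * a') (hb : B = b * b') (Ta : a * (q * (q + 1)) ≤ 2 * ca + q * (q + 1))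
    (Tb : b * (q * (A * d)) ≤ 2 * cb + q * (A * d)) (Tp : q * (q + 1) ≤ cp + (q + 1)) (h : cp + (ca + cb) + 1 ≤ n)
    (hn : n ≤ q * d * a * b) : q * d * A * B ≤ n := by
  have h9 : q * d * a * b * (a' + b') ≤ 2 * n := by
    have e1 : q * d * a * b * (a' + b') = a * (q * (q + 1)) + b * (q * (A * d)) := by rw [hB, ha, hb]; ring
    have e2 : q * (A * d) + 2 * q = q * (q + 1) := by rw [show A * d = q - 1 by omega, mul_comm 2, ← mul_add]; congr 1; omega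
    omega
  have h10 : a' + b' ≤ 2 := Nat.le_of_mul_le_mul_left (h9.trans (by omega)) (by omega : 0 < q * d * a * b)
  have : a' ≠ 0 := by rintro rfl; simp [ha] at hA; omega
  have : b' ≠ 0 := by rintro rfl; simp [hb] at hB
  obtain rfl : a' = 1 := by omega
  obtain rfl : b' = 1 := by omega
  rw [ha, hb, mul_one, mul_one]; omega

theorem arithL2' {n q d A a b ca cb : ℕ} (hq : 4 ≤ q) (hA : q = A * d + 1) (hd : d ≤ 2) (hb : d * b ≤ q + 1)
    (ha0 : 0 < a) (hb0 : 0 < b) (Ta : a * (q * (q + 1)) ≤ 2 * ca + q * (q + 1))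
    (Tb : b * (q * (A * d)) ≤ 2 * cb + q * (A * d)) (h : ca + cb + 1 ≤ n) (hn : n ≤ d * a * b) : a = 1 ∧ b = 1 := by
  obtain rfl : a = 1 := by
    by_contra h
    obtain ⟨a, rfl⟩ : ∃ k, a = k + 2 := ⟨a - 2, by omega⟩
    have : (a + 1) * (4 * (q + 1)) ≤ (a + 1) * (q * (q + 1)) := by gcongr
    have : (a + 2) * (d * b) ≤ (a + 2) * (q + 1) := Nat.mul_le_mul_left _ hb
    nlinarith
  refine ⟨rfl, by_contra fun h => ?_⟩
  obtain ⟨b, rfl⟩ : ∃ k, b = k + 2 := ⟨b - 2, by omega⟩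
  have : (b + 1) * (4 * 3) ≤ (b + 1) * (q * (A * d)) := by gcongr; omega
  have : d * (b + 2) ≤ 2 * (b + 2) := Nat.mul_le_mul_right _ hd
  nlinarith

theorem arithSz {n A B C a b c a' b' c' ca cb cc c4 : ℕ} (hA : 0 < A) (hB : 0 < B) (hC : 0 < C)
    (e1 : B * C = (A + 1) ^ 2 + 1) (e4 : B + C = 2 * (A + 1) + 2) (ha : A = a * a') (hb : B = b * b') (hc : C = c * c')
    (Ta : a * ((A + 1) ^ 2 * (B * C)) ≤ 2 * ca + (A + 1) ^ 2 * (B * C))
    (Tb : b * ((A + 1) ^ 2 * (A * C)) ≤ 4 * cb + (A + 1) ^ 2 * (A * C))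
    (Tc : c * ((A + 1) ^ 2 * (A * B)) ≤ 4 * cc + (A + 1) ^ 2 * (A * B))
    (T4 : (A + 1) ^ 2 * (B * C) ≤ c4 + B * C) (h : c4 + (ca + (cb + cc)) + 1 ≤ n)
    (hn : n ≤ (A + 1) ^ 2 * a * (b * c)) : (A + 1) ^ 2 * A * (B * C) ≤ n := by
  have h9 : (A + 1) ^ 2 * a * (b * c) * (2 * b' * c' + a' * c' + a' * b') ≤ 4 * n := by
    have f1 : (A + 1) ^ 2 * a * (b * c) * (2 * b' * c' + a' * c' + a' * b') = 2 * (a * ((A + 1) ^ 2 * (B * C))) +
        b * ((A + 1) ^ 2 * (A * C)) + c * ((A + 1) ^ 2 * (A * B)) := by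
      generalize (A + 1) ^ 2 = Q
      rw [ha, hb, hc]; ring
    have f2 : (A + 1) ^ 2 * (A * C) + (A + 1) ^ 2 * (A * B) + 4 * (B * C) = 2 * ((A + 1) ^ 2 * (B * C)) + 4 := by
      rw [← mul_add, ← mul_add, add_comm C, e4, e1]; ring
    omega
  have h10 : 2 * b' * c' + a' * c' + a' * b' ≤ 4 :=
    Nat.le_of_mul_le_mul_left (h9.trans (by omega)) (by omega : 0 < (A + 1) ^ 2 * a * (b * c))
  have : 0 < a' := Nat.pos_of_mul_pos_left (ha ▸ hA)
  have : 0 < b' := Nat.pos_of_mul_pos_left (hb ▸ hB)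
  have : 0 < c' := Nat.pos_of_mul_pos_left (hc ▸ hC)
  obtain rfl : a' = 1 := by nlinarith
  obtain rfl : b' = 1 := by nlinarith
  obtain rfl : c' = 1 := by nlinarith
  rw [mul_one] at ha hb hc
  subst ha hb hc
  omega

theorem arithSz' {n Q A B C a b c ca cb cc : ℕ} (hA : 0 < A) (hQ : 64 ≤ Q) (ha : 0 < a) (hb : 0 < b) (hc : 0 < c)
    (hB : b ≤ B) (hC : c ≤ C) (Ta : a * (Q * (B * C)) ≤ 2 * ca + Q * (B * C))
    (Tb : b * (Q * (A * C)) ≤ 4 * cb + Q * (A * C)) (Tc : c * (Q * (A * B)) ≤ 4 * cc + Q * (A * B))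
    (h : ca + (cb + cc) + 1 ≤ n) (hn : n ≤ 2 * a * (b * c)) : n ≤ 2 := by
  obtain rfl : a = 1 := by
    by_contra h
    obtain ⟨a, rfl⟩ : ∃ k, a = k + 2 := ⟨a - 2, by omega⟩
    have : (a + 1) * (64 * (b * c)) ≤ (a + 1) * (Q * (B * C)) := by gcongr
    nlinarith
  obtain rfl : b = 1 := by
    by_contra h
    obtain ⟨b, rfl⟩ : ∃ k, b = k + 2 := ⟨b - 2, by omega⟩
    have : (b + 1) * (64 * (1 * c)) ≤ (b + 1) * (Q * (A * C)) := by gcongr; exact hA
    nlinarith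
  obtain rfl : c = 1 := by
    by_contra h
    obtain ⟨c, rfl⟩ : ∃ k, c = k + 2 := ⟨c - 2, by omega⟩
    have : (c + 1) * (64 * (1 * 1)) ≤ (c + 1) * (Q * (A * B)) := by gcongr; exact hA
    nlinarith
  exact hn

variable {G : Type*} [Group G] [Finite G]

theorem ti_cyclic (t : G) {a k : ℕ} (ha : a ∣ orderOf t)
    (h : ∀ z ∈ zpowers t, z ≠ 1 → Nat.card (normalizer (zpowers z : Set G)) ≤ k) :
    a * Nat.card G ≤ k * cnt G a + Nat.card G :=
  ti (zpowers t) (le_L (by rwa [Nat.card_zpowers])) fun z hz h1 => ⟨_, h z hz h1, fun g hg => by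
    have e : g * z * g⁻¹ ∈ zpowers z := by
      obtain ⟨k, hk⟩ := CL.Perm.mem_zpowers_of_isCyclic_of_orderOf_dvd (x := (⟨z, hz⟩ : zpowers t)) (y := ⟨_, hg⟩) (by
        rw [← orderOf_coe, ← orderOf_coe]
        exact ((MulAut.conj g).orderOf_eq z).dvd)
      exact ⟨k, congrArg Subtype.val hk⟩
    refine mem_normalizer_fintype (S := (zpowers z : Set G)) ?_
    rintro _ ⟨k, rfl⟩
    rw [← conj_zpow]
    exact zpow_mem e k⟩

theorem good_psl {F : Type*} [Field F] [Fintype F] (h4 : 4 ≤ Fintype.card F) : Good PSL(2, F) := by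
  intro n hn hc
  obtain ⟨p, _, f, hp, hf⟩ := FiniteField.card' F
  have := Fact.mk hp
  have hN := card_psl_mul (F := F)
  have hB := card_stabilizer_psl_mul (F := F) pinf
  have hQ := card_Q_psl (F := F) p pinf
  have hnorm := fun x => normalizer_psl (F := F) p (x := x)
  obtain ⟨ψA, hψA⟩ := exists_dihedral_sub_one (F := F) h4
  obtain ⟨ψB, hψB⟩ := exists_dihedral_add_one (F := F)
  have hpA := not_dvd_card_sub_one (F := F) p
  have hpB := not_dvd_card_add_one (F := F) p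
  rw [Nat.card_eq_fintype_card (α := F)] at hQ
  have hd : (Nat.gcd 2 (Fintype.card F - 1) = 1 ∧ Fintype.card F % 2 = 0) ∨
      (Nat.gcd 2 (Fintype.card F - 1) = 2 ∧ Fintype.card F % 2 = 1) := by
    rcases Nat.mod_two_eq_zero_or_one (Fintype.card F) with h | h
    · exact .inl ⟨Nat.coprime_two_left.2 (Nat.odd_iff.2 (by omega)), h⟩
    · exact .inr ⟨Nat.gcd_eq_left (by omega), h⟩
  have oA := (orderOf_injective ψA hψA (.r 1)).trans DihedralGroup.orderOf_r_one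
  have oB := (orderOf_injective ψB hψB (.r 1)).trans DihedralGroup.orderOf_r_one
  generalize ψA (.r 1) = s at oA
  generalize ψB (.r 1) = t at oB
  clear hψA hψB ψA ψB
  generalize Fintype.card F = q at *
  generalize Nat.gcd 2 (q - 1) = d at *
  obtain ⟨A, hA⟩ : ∃ A, q = A * d + 1 := ⟨(q - 1) / d, by rcases hd with ⟨rfl, h⟩ | ⟨rfl, h⟩ <;> omega⟩
  obtain ⟨B, hB'⟩ : ∃ B, q + 1 = B * d := ⟨(q + 1) / d, by rcases hd with ⟨rfl, h⟩ | ⟨rfl, h⟩ <;> omega⟩
  have hd0 : 0 < d := by omega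
  have hA1 : q - 1 = A * d := by omega
  rw [hA1, Nat.mul_div_cancel _ hd0] at oA
  rw [hB', Nat.mul_div_cancel _ hd0] at oB
  rw [hA1] at hpA hB hnorm
  rw [hB'] at hpB hnorm
  replace hB := Nat.eq_of_mul_eq_mul_right hd0 (hB.trans (mul_assoc _ _ _).symm)
  replace hN : Nat.card PSL(2, F) = q * d * A * B := Nat.eq_of_mul_eq_mul_right hd0 (by
    rw [hN, show q ^ 2 - 1 = (q + 1) * (q - 1) from Nat.sq_sub_sq q 1, hA1, hB']; ring)
  have hAB : A.Coprime B := by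
    rcases hd with ⟨rfl, h⟩ | ⟨rfl, h⟩
    · rw [show B = 2 + A by omega, Nat.coprime_add_self_right, Nat.coprime_two_right, Nat.odd_iff]; omega
    · rw [show B = 1 + A by omega, Nat.coprime_add_self_right]; exact Nat.coprime_one_right _
  have cA : p.Coprime A := hp.coprime_iff_not_dvd.2 fun h => hpA (h.mul_right _)
  have cB : p.Coprime B := hp.coprime_iff_not_dvd.2 fun h => hpB (h.mul_right _)
  have key : ∀ (u : PSL(2, F)) (C D : ℕ), orderOf u = C → p.Coprime C → C.Coprime D → (∀ k, k = B ∨ k = A → k = C ∨ k = D) →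
      n.gcd C * Nat.card PSL(2, F) ≤ 2 * C * cnt PSL(2, F) (n.gcd C) + Nat.card PSL(2, F) := fun u C D hu h1 h2 h3 =>
    ti_cyclic u (hu ▸ Nat.gcd_dvd_right _ _) fun z hz z1 => by
      have h5 := hu ▸ orderOf_dvd_of_mem_zpowers hz
      obtain ⟨k, k1, k2, ⟨e⟩⟩ := hnorm z fun e =>
        z1 (orderOf_eq_one_iff.1 (Nat.eq_one_of_dvd_coprimes h1 (orderOf_dvd_of_pow_eq_one e) h5))
      rw [Nat.card_congr e.toEquiv, DihedralGroup.nat_card]
      rcases h3 k (k2.imp (Nat.eq_of_mul_eq_mul_right hd0) (Nat.eq_of_mul_eq_mul_right hd0)) with rfl | rfl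
      · rfl
      · exact absurd (orderOf_eq_one_iff.1 (Nat.eq_one_of_dvd_coprimes h2 h5 k1)) z1
  have Ta := key s A B oA cA hAB fun k h => h.symm
  have Tb := key t B A oB cB hAB.symm fun k h => h
  have hA0 : 0 < A := oA ▸ orderOf_pos s
  have hB0 : 0 < B := oB ▸ orderOf_pos t
  have h1 := dvd_gcd_mul (hN ▸ hn)
  have hab : (n.gcd A).Coprime (n.gcd B) := (hAB.coprime_dvd_left (Nat.gcd_dvd_right _ _)).coprime_dvd_right
    (Nat.gcd_dvd_right _ _)
  have h2 := cnt_add_le (G := PSL(2, F)) hab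
  have h3 := hab.mul_dvd_of_dvd_of_dvd (Nat.gcd_dvd_left _ _) (Nat.gcd_dvd_left _ _)
  have h5 := (cnt_add_one n).trans hc
  have h6 : p.Coprime (n.gcd A * n.gcd B) :=
    (cA.coprime_dvd_right (Nat.gcd_dvd_right _ _)).mul_right (cB.coprime_dvd_right (Nat.gcd_dvd_right _ _))
  have hev : d = 2 → 2 ∣ n → 2 ≤ n.gcd A ∨ 2 ≤ n.gcd B := fun e h => by
    subst e
    rcases Nat.mod_two_eq_zero_or_one A with h' | h'
    · exact .inl (Nat.le_of_dvd (Nat.gcd_pos_of_pos_right _ hA0) (Nat.dvd_gcd h (by omega)))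
    · exact .inr (Nat.le_of_dvd (Nat.gcd_pos_of_pos_right _ hB0) (Nat.dvd_gcd h (by omega)))
  obtain ⟨a', ha⟩ := Nat.gcd_dvd_right n A
  obtain ⟨b', hb⟩ := Nat.gcd_dvd_right n B
  have ha0 := Nat.gcd_pos_of_pos_right n hA0
  have hb0 := Nat.gcd_pos_of_pos_right n hB0
  replace Ta := cancel_le (z := q * (q + 1)) (y := 2 * cnt PSL(2, F) (n.gcd A)) hA0 (by
    convert Ta using 2 <;> first | (rw [hN, hB']; ring) | ring)
  replace Tb := cancel_le (z := q * (A * d)) (y := 2 * cnt PSL(2, F) (n.gcd B)) hB0 (by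
    convert Tb using 2 <;> first | (rw [hN]; ring) | ring)
  generalize n.gcd A = a at *
  generalize n.gcd B = b at *
  by_cases hpn : p ∣ n
  · have Tp := ti ((uhyp_psl (F := F) p).Q pinf) (ncard_L_of_forall _ fun z hz => hz.2) fun z hz z1 =>
      ⟨stabilizer _ (pinf : P1 F), hB.le, fun g hg => (uhyp_psl p).eq_of_fix (g := g * z * g⁻¹) (by simpa using z1) hg.2
        ((uhyp_psl p).conj_mem_Q hz).1 hg.1⟩
    rw [hQ] at Tp
    replace Tp := cancel_le (x := q) (z := q + 1) (y := cnt PSL(2, F) p) (k := q * A) (by positivity) (by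
      convert Tp using 2 <;> (rw [hN, hB']; ring))
    have h7 := (cnt_add_le (G := PSL(2, F)) h6).trans (cnt_mono (h6.mul_dvd_of_dvd_of_dvd hpn h3))
    have h8 := Nat.le_of_dvd (by positivity) (h1.trans (Nat.mul_dvd_mul_right
      (Nat.mul_dvd_mul_right (Nat.gcd_dvd_right n (q * d)) a) b))
    exact .inr (le_antisymm (Nat.le_of_dvd Nat.card_pos hn) (hN.trans_le (arithL2 h4 hA hB' ha hb Ta Tb Tp (by omega) h8)))
  left
  have h7 := h2.trans (cnt_mono h3)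
  have h8 : n ∣ d * a * b := h1.trans (Nat.mul_dvd_mul_right (Nat.mul_dvd_mul_right (by
    rw [Nat.Coprime.gcd_mul_left_cancel_right _ (hf ▸ (hp.coprime_iff_not_dvd.2 hpn).pow_left _)]
    exact Nat.gcd_dvd_right _ _) a) b)
  have h9 := Nat.le_of_dvd (by positivity) h8
  have hb1 : d * b ≤ q + 1 := by rw [hB', mul_comm]; exact Nat.mul_le_mul_right _ (Nat.le_of_dvd hB0 ⟨b', hb⟩)
  obtain ⟨rfl, rfl⟩ := arithL2' h4 hA (by omega) hb1 ha0 hb0 Ta Tb (by omega) h9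
  rcases hd with ⟨rfl, -⟩ | ⟨rfl, -⟩
  · simpa using h8
  · exact ((Nat.dvd_prime Nat.prime_two).1 h8).resolve_right fun e => by have := hev rfl e.symm.dvd; omega

open CL.Chev.Sz in
theorem good_sz {F : Type*} [Field F] [Finite F] (M : Model G F) : Good G := by
  intro n hn hc
  obtain ⟨m, hm, hq⟩ := M.exists_card_field
  obtain ⟨z₁, z₂, h₁, h₂, k₁, k₂, -⟩ := M.exists_tori hm hq
  have key : ∀ (T : Subgroup G) (e : ℕ), (∀ a ∈ T, a ≠ 1 → centralizer {a} = T) →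
      Nat.card (normalizer (T : Set G)) = e * Nat.card T → n.gcd (Nat.card T) * Nat.card G ≤
        Nat.card T * (e * cnt G (n.gcd (Nat.card T))) + Nat.card G := fun T e h1 h2 => by
    rw [← mul_assoc, mul_comm _ e]
    exact ti T (le_L (Nat.gcd_dvd_right _ _)) fun z hz z1 => ⟨_, h2.le, fun g hg => inv_mem_iff.1
      (mem_normalizer_of_selfCentralizing h1 hz z1 (by rwa [inv_inv]))⟩
  have Ta := key M.H 2 (fun a => M.centralizer_of_mem_H) (by rw [M.card_normalizer_H, M.card_H])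
  have Tb := key _ 4 (fun a => h₁.centralizer_eq) (h₁.card_normalizer hm hq)
  have Tc := key _ 4 (fun a => h₂.centralizer_eq) (h₂.card_normalizer hm hq)
  have key2 : ∀ (T : Subgroup G) (a : ℕ), T ≤ M.U → (∀ z ∈ T, z ^ a = 1) →
      Nat.card T * Nat.card G ≤ Nat.card M.B * cnt G a + Nat.card G := fun T a h1 h2 =>
    ti T (ncard_L_of_forall T h2) fun z hz z1 => ⟨M.B, le_rfl, fun g hg => by
      simpa using M.mem_B_of_conj_mem (g := g⁻¹) (h1 hz) z1 (by rw [inv_inv]; exact M.U_le_B (h1 hg))⟩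
  have T4 := key2 M.U 4 le_rfl (by rintro _ ⟨a, b, rfl⟩; exact M.T_pow_four a b)
  have T2 := key2 M.Z 2 (by rintro _ ⟨b, rfl⟩; exact ⟨0, b, rfl⟩) (by
    rintro _ ⟨b, rfl⟩; rw [sq, M.T_mul]; simp [← two_mul, M.two])
  have hN := M.card_G
  have c1 := coprime_sub_one_sq_add_one m
  have c2 := coprime_nplus_nminus m
  have e1 := nplus_mul_nminus m
  have e2 := r_le m
  have e3 := eight_le_pow hm
  have o1 := odd_of_mem_torusOrders (m := m) (a := 2 ^ (2 * m + 1) - 1) (by simp [torusOrders])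
  have o2 := odd_of_mem_torusOrders (m := m) (a := 2 ^ (2 * m + 1) + 2 ^ (m + 1) + 1) (by simp [torusOrders])
  have o3 := odd_of_mem_torusOrders (m := m) (a := 2 ^ (2 * m + 1) - 2 ^ (m + 1) + 1) (by simp [torusOrders])
  have hg : ¬ 4 ∣ n → n.gcd ((2 ^ (2 * m + 1)) ^ 2) ≤ 2 := fun h => by
    obtain ⟨k, -, hk⟩ := (Nat.dvd_prime_pow Nat.prime_two).1 (pow_mul 2 _ 2 ▸ Nat.gcd_dvd_right n ((2 ^ (2 * m + 1)) ^ 2))
    rw [pow_mul] at hk
    have : k ≤ 1 := by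
      by_contra h'
      exact h (((pow_dvd_pow 2 (show 2 ≤ k by omega)).trans hk.symm.dvd).trans (Nat.gcd_dvd_left _ _))
    rw [hk]; exact Nat.pow_le_pow_right (n := 2) two_pos this
  rw [M.card_H, hq] at Ta
  rw [k₁] at Tb
  rw [k₂] at Tc
  rw [M.card_U, M.card_B, hq] at T4
  rw [M.card_Z, M.card_B, hq] at T2
  rw [hq, ← e1] at hN
  rw [← e1] at c1
  have e4 : 2 ^ (2 * m + 1) + 2 ^ (m + 1) + 1 + (2 ^ (2 * m + 1) - 2 ^ (m + 1) + 1) = 2 * 2 ^ (2 * m + 1) + 2 := by omega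
  generalize 2 ^ (2 * m + 1) + 2 ^ (m + 1) + 1 = B at *
  generalize 2 ^ (2 * m + 1) - 2 ^ (m + 1) + 1 = C at *
  generalize 2 ^ (2 * m + 1) = q at *
  obtain ⟨A, rfl⟩ : ∃ A, q = A + 1 := ⟨q - 1, by omega⟩
  rw [Nat.add_sub_cancel] at *
  have hA0 : 0 < A := by omega
  have hB0 := o2.pos
  have hC0 := o3.pos
  have h1 : n ∣ n.gcd ((A + 1) ^ 2) * n.gcd A * (n.gcd B * n.gcd C) :=
    (dvd_gcd_mul (hN ▸ hn)).trans (Nat.mul_dvd_mul_left _ (Nat.gcd_mul_right_dvd_mul_gcd _ _ _))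
  have g2 := Nat.gcd_dvd_right n
  have g1 := Nat.gcd_dvd_left n
  have hbc : (n.gcd B).Coprime (n.gcd C) := (c2.coprime_dvd_left (g2 _)).coprime_dvd_right (g2 _)
  have habc : (n.gcd A).Coprime (n.gcd B * n.gcd C) :=
    (c1.coprime_dvd_left (g2 _)).coprime_dvd_right (Nat.mul_dvd_mul (g2 _) (g2 _))
  have h2 := cnt_add_le (G := G) hbc
  have h3 := cnt_add_le (G := G) habc
  have h4 := habc.mul_dvd_of_dvd_of_dvd (g1 _) (hbc.mul_dvd_of_dvd_of_dvd (g1 _) (g1 _))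
  have h5 := (cnt_add_one n).trans hc
  have h6 : Nat.Coprime 2 (n.gcd A * (n.gcd B * n.gcd C)) := Nat.coprime_two_left.2
    ((o1.of_dvd_nat (g2 _)).mul ((o2.of_dvd_nat (g2 _)).mul (o3.of_dvd_nat (g2 _))))
  obtain ⟨a', ha⟩ := g2 A
  obtain ⟨b', hb⟩ := g2 B
  obtain ⟨c', hc'⟩ := g2 C
  have ha0 := Nat.gcd_pos_of_pos_right n hA0
  have hb0 := Nat.gcd_pos_of_pos_right n hB0
  have hc0 := Nat.gcd_pos_of_pos_right n hC0
  replace Ta := cancel_le (z := (A + 1) ^ 2 * (B * C)) hA0 (by convert Ta using 2 <;> (rw [hN]; ring))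
  replace Tb := cancel_le (z := (A + 1) ^ 2 * (A * C)) hB0 (by convert Tb using 2 <;> (rw [hN]; ring))
  replace Tc := cancel_le (z := (A + 1) ^ 2 * (A * B)) hC0 (by convert Tc using 2 <;> (rw [hN]; ring))
  replace T4 := cancel_le (by positivity) (hN ▸ T4)
  replace T2 := cancel_le (by positivity) (hN ▸ T2)
  have hQ := Nat.le_of_dvd (by positivity) (g2 ((A + 1) ^ 2))
  have h7 := Nat.le_of_dvd (by have := Nat.gcd_pos_of_pos_right n (by positivity : 0 < (A + 1) ^ 2); positivity) h1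
  generalize n.gcd A = a at *
  generalize n.gcd B = b at *
  generalize n.gcd C = c at *
  by_cases h4n : 4 ∣ n
  · have h8 := (cnt_add_le (G := G) (h6.pow_left 2)).trans (cnt_mono ((h6.pow_left 2).mul_dvd_of_dvd_of_dvd h4n h4))
    exact .inr (le_antisymm (Nat.le_of_dvd Nat.card_pos hn) (hN.trans_le (arithSz hA0 hB0 hC0 e1 e4 ha hb hc' Ta Tb Tc T4
      (by norm_num at h8; omega) (h7.trans (by gcongr)))))
  left
  have h8 := cnt_mono (G := G) h4
  have h9 : n ≤ 2 * a * (b * c) := h7.trans (by gcongr; exact hg h4n)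
  have h10 := arithSz' hA0 (Nat.pow_le_pow_left e3 2) ha0 hb0 hc0 (Nat.le_of_dvd hB0 ⟨b', hb⟩) (Nat.le_of_dvd hC0 ⟨c', hc'⟩)
    Ta Tb Tc (by omega) h9
  by_contra h
  obtain rfl : n = 2 := by omega
  have : 7 * (B * C) ≤ A * (B * C) := Nat.mul_le_mul_right _ (by omega)
  have := Nat.mul_pos hB0 hC0
  rw [add_mul] at T2
  omega

end CL.InvA.Frob
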