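/-
An element of order five acting on a normal 2-subgroup of a group of sectional 2-rank at most four:
it centralises the squares when it is inverted modulo the subgroup.
-/
import Cfsg.Agent.Fgs.SecRank
import Cfsg.Agent.Inv.WeakCl
import Cfsg.Agent.Grp.Primitive
import Cfsg.Agent.Grp.PGroupFrattini
import Cfsg.Agent.Grp.Frattini

set_option autoImplicit false

namespace CL.GH4F

open Subgroup Cfsg CL.Grp CL.Fgs
open scoped commutatorElement

universe u

variable {G : Type*} [Group G]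

theorem comm_eq_sq (x y : G) : x * y * x⁻¹ * y⁻¹ = x * x * (x⁻¹ * y * (x⁻¹ * y)) * (y⁻¹ * y⁻¹) := by group

theorem comm_of_sq {H : Subgroup G} (h : ∀ x ∈ H, x * x = 1) {x y : G} (hx : x ∈ H) (hy : y ∈ H) :
    x * y = y * x := by
  have := comm_eq_sq x y
  rw [h x hx, h _ (H.mul_mem (H.inv_mem hx) hy), h _ (H.inv_mem hy), mul_one, mul_one] at this
  calc x * y = x * y * x⁻¹ * y⁻¹ * (y * x) := by group
    _ = y * x := by rw [this, one_mul]

theorem ea_of_sq {H : Subgroup G} (h : ∀ x ∈ H, x * x = 1) : IsElementaryAbelian 2 H :=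
  ⟨⟨⟨fun a b => Subtype.ext (comm_of_sq h a.2 b.2)⟩⟩, fun a ha => by rw [pow_two]; exact h a ha⟩

theorem pg_of_sq {H : Subgroup G} (h : ∀ x ∈ H, x * x = 1) : IsPGroup 2 H :=
  fun x => ⟨1, Subtype.ext (by simpa [pow_two] using h x x.2)⟩

theorem comm_of_sq_comm {f y : G} (hf : f ^ 5 = 1) (h : f * f * y = y * (f * f)) : f * y = y * f := by
  have e : f = (f * f) ^ 3 := by
    rw [← pow_two, ← pow_mul, show 2 * 3 = 5 + 1 from rfl, pow_succ, hf, one_mul]
  rw [e]
  exact (Commute.pow_left h 3).eq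

variable [Finite G]

omit [Finite G] in
/-- The basic bound. -/
theorem sec (h4 : SectionalPRankLE 2 4 G) {H K : Subgroup G} (hK : K ≤ H) (hs : ∀ x ∈ H, x * x ∈ K) :
    Nat.card H ≤ 16 * Nat.card K := by
  have := secRank_iff.1 h4 H K ⟨hK, fun x hx y hy => by
    rw [commutatorElement_def, comm_eq_sq]
    exact K.mul_mem (K.mul_mem (hs x hx) (hs _ (H.mul_mem (H.inv_mem hx) hy))) (hs _ (H.inv_mem hy)),
    fun x hx => by rw [pow_two]; exact hs x hx⟩
  rw [card_eq_relIndex_mul_card hK]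
  exact Nat.mul_le_mul_right _ this

theorem modEq_cent {p : ℕ} (hp : p.Prime) {Q : Subgroup G} {f : G} (hf : f ^ p = 1)
    (h : ∀ x ∈ Q, f * x * f⁻¹ ∈ Q) :
    Nat.card Q ≡ Nat.card (Q ⊓ centralizer {f} : Subgroup G) [MOD p] := by
  have : Fact p.Prime := ⟨hp⟩
  have e : centralizer ({f} : Set G) = centralizer (zpowers f : Set G) := by
    rw [zpowers_eq_closure, centralizer_closure]
  rw [e]
  exact card_modEq_card_inf_centralizer (isPGroup_iff_pow_pow_eq_one.2 fun ⟨_, k, rfl⟩ => ⟨1, Subtype.ext (by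
    simp only [pow_one, SubmonoidClass.coe_pow, OneMemClass.coe_one]
    rw [← zpow_natCast, ← zpow_mul, mul_comm, zpow_mul, zpow_natCast, hf, one_zpow])⟩)
    (zpowers_le.2 (mem_normalizer_fintype (fun x hx => h x hx)))

theorem five0 (h4 : SectionalPRankLE 2 4 G) {H : Subgroup G} (hs : ∀ x ∈ H, x * x = 1) {f : G}
    (hf : f ^ 5 = 1) (hn : ∀ x ∈ H, f * x * f⁻¹ ∈ H) :
    (∀ x ∈ H, f * x = x * f) ∨ (Nat.card H = 16 ∧ ∀ x ∈ H, f * x = x * f → x = 1) := by
  have h16 : Nat.card H ≤ 16 := by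
    simpa using sec h4 (bot_le : ⊥ ≤ H) (fun x hx => by rw [hs x hx]; exact one_mem _)
  have hm := modEq_cent (by norm_num : Nat.Prime 5) hf hn
  obtain ⟨a, ha⟩ := (pg_of_sq hs).exists_card_eq
  obtain ⟨b, hb⟩ := ((pg_of_sq hs).to_le (inf_le_left : H ⊓ centralizer {f} ≤ H)).exists_card_eq
  have hle := card_le_of_le (inf_le_left : H ⊓ centralizer {f} ≤ H)
  by_cases hab : a = b
  · left
    have := eq_of_le_of_card_ge (inf_le_left : H ⊓ centralizer {f} ≤ H) (by rw [ha, hb, hab])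
    intro x hx
    rw [← this] at hx
    exact (mem_centralizer_singleton_iff.1 hx.2).symm
  · right
    rw [ha] at h16
    rw [ha, hb] at hm hle
    have h1 : a ≤ 4 := (Nat.pow_le_pow_iff_right (by norm_num)).1 (show 2 ^ a ≤ 2 ^ 4 from h16)
    have h2 : b ≤ a := (Nat.pow_le_pow_iff_right (by norm_num)).1 hle
    have h3 : a = 4 ∧ b = 0 := by
      interval_cases a <;> interval_cases b <;> simp_all [Nat.ModEq]
    refine ⟨by rw [ha, h3.1]; rfl, fun x hx hc => ?_⟩
    rw [h3.2, pow_zero, card_eq_one] at hb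
    have : x ∈ H ⊓ centralizer {f} := ⟨hx, mem_centralizer_singleton_iff.2 hc.symm⟩
    rwa [hb, mem_bot] at this

/-- An element of order five on an elementary abelian section `H / K`. -/
theorem five (h4 : SectionalPRankLE 2 4 G) {H K : Subgroup G} [K.Normal] (hK : K ≤ H)
    (hs : ∀ x ∈ H, x * x ∈ K) {f : G} (hf : f ^ 5 = 1) (hn : ∀ x ∈ H, f * x * f⁻¹ ∈ H) :
    (∀ x ∈ H, f * x * f⁻¹ * x⁻¹ ∈ K) ∨
      (Nat.card H = 16 * Nat.card K ∧ ∀ x ∈ H, f * x * f⁻¹ * x⁻¹ ∈ K → x ∈ K) := by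
  have key : ∀ x : G, f * x * f⁻¹ * x⁻¹ ∈ K ↔ (f : G ⧸ K) * x = x * f := fun x => by
    rw [← QuotientGroup.eq_one_iff]
    simp only [QuotientGroup.mk_mul, QuotientGroup.mk_inv]
    rw [mul_inv_eq_one, mul_inv_eq_iff_eq_mul]
  rcases five0 (secRank_of_surjective h4 _ (QuotientGroup.mk'_surjective K)) (H := H.map (QuotientGroup.mk' K))
    (f := (f : G ⧸ K)) (by
      rintro _ ⟨x, hx, rfl⟩
      rw [← map_mul]
      exact (QuotientGroup.eq_one_iff _).2 (hs x hx)) (by rw [← QuotientGroup.mk_pow, hf]; rfl) (by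
      rintro _ ⟨x, hx, rfl⟩
      exact ⟨_, hn x hx, rfl⟩) with h | ⟨h1, h2⟩
  · exact Or.inl fun x hx => (key x).2 (h _ ⟨x, hx, rfl⟩)
  · refine Or.inr ⟨?_, fun x hx hc => (QuotientGroup.eq_one_iff _).1 (h2 _ ⟨x, hx, rfl⟩ ((key x).1 hc))⟩
    rw [card_eq_relIndex_mul_card hK, ← card_map_mk', h1]

/-- Fixed-point-free action: every element is a commutator. -/
theorem surj {H : Subgroup G} {f : G} (hn : ∀ x ∈ H, f * x * f⁻¹ ∈ H) (hc : ∀ x ∈ H, f * x = x * f → x = 1) :
    ∀ y ∈ H, ∃ x ∈ H, x * f * x⁻¹ * f⁻¹ = y := by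
  let c : H → H := fun x => ⟨(x : G) * f * (x : G)⁻¹ * f⁻¹, by
    have := H.mul_mem x.2 (hn _ (H.inv_mem x.2))
    simpa only [mul_assoc] using this⟩
  have hi : Function.Injective c := fun x y h => by
    have h' : (x : G) * f * (x : G)⁻¹ * f⁻¹ = y * f * (y : G)⁻¹ * f⁻¹ := congrArg Subtype.val h
    have := hc ((y : G)⁻¹ * x) (H.mul_mem (H.inv_mem y.2) x.2) (by
      calc f * ((y : G)⁻¹ * x) = (y : G)⁻¹ * (y * f * (y : G)⁻¹ * f⁻¹) * f * x := by group
        _ = _ := by rw [← h']; group)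
    exact Subtype.ext (inv_mul_eq_one.1 this).symm
  intro y hy
  obtain ⟨x, hx⟩ := Finite.injective_iff_surjective.1 hi ⟨y, hy⟩
  exact ⟨x, x.2, congrArg Subtype.val hx⟩

/-- The Frattini subgroup of `Q` inside the ambient group. -/
abbrev Fr (Q : Subgroup G) : Subgroup G := (frattini Q).map Q.subtype

omit [Finite G] in
theorem Fr_le (Q : Subgroup G) : Fr Q ≤ Q := map_subtype_le _

theorem sq_mem_Fr {Q : Subgroup G} (hQ : IsPGroup 2 Q) {x : G} (hx : x ∈ Q) : x * x ∈ Fr Q := by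
  rw [← pow_two]
  exact ((map_subtype_frattini_le_iff hQ).1 le_rfl).2 x hx

theorem Fr_le_of {Q N : Subgroup G} (hQ : IsPGroup 2 Q) (h : ∀ x ∈ Q, x * x ∈ N) : Fr Q ≤ N :=
  (map_subtype_frattini_le_iff hQ).2 ⟨commutator_le.2 fun x hx y hy => by
    rw [commutatorElement_def, comm_eq_sq]
    exact N.mul_mem (N.mul_mem (h x hx) (h _ (Q.mul_mem (Q.inv_mem hx) hy))) (h _ (Q.inv_mem hy)),
    fun x hx => by rw [pow_two]; exact h x hx⟩

theorem exists_inv {H : Subgroup G} (hH : IsPGroup 2 H) (h : H ≠ ⊥) : ∃ z ∈ H, z ≠ 1 ∧ z * z = 1 := by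
  obtain ⟨n, hn⟩ := hH.exists_card_eq
  have h2 : 2 ∣ Nat.card H := by
    rw [hn]
    refine dvd_pow_self 2 fun h0 => h ?_
    rw [h0, pow_zero] at hn
    exact card_eq_one.1 hn
  obtain ⟨z, hz⟩ := exists_prime_orderOf_dvd_card' 2 h2
  refine ⟨z, z.2, fun h1 => ?_, ?_⟩
  · rw [show z = 1 from Subtype.ext h1] at hz
    simp at hz
  · have := pow_orderOf_eq_one z
    rw [hz, pow_two] at this
    exact congrArg Subtype.val this

/-- The involutions of `N` centralising `Q`, for `N ≤ Q`. -/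
def Om (Q N : Subgroup G) (h : N ≤ Q) : Subgroup G where
  carrier := {w | w ∈ N ∧ (∀ q ∈ Q, q * w = w * q) ∧ w * w = 1}
  one_mem' := ⟨N.one_mem, fun q _ => by simp, by simp⟩
  mul_mem' := by
    rintro a b ⟨ha, ha1, ha2⟩ ⟨hb, hb1, hb2⟩
    refine ⟨N.mul_mem ha hb, fun q hq => by rw [← mul_assoc, ha1 q hq, mul_assoc, hb1 q hq, mul_assoc], ?_⟩
    calc a * b * (a * b) = a * (b * a) * b := by group
      _ = a * a * (b * b) := by rw [ha1 b (h hb)]; group
      _ = 1 := by rw [ha2, hb2, one_mul]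
  inv_mem' := by
    rintro a ⟨ha, ha1, ha2⟩
    have e : a⁻¹ = a := inv_eq_of_mul_eq_one_right ha2
    rw [e]; exact ⟨ha, ha1, ha2⟩

omit [Finite G] in
theorem Om_normal (Q N : Subgroup G) [hQ : Q.Normal] [hN : N.Normal] (h : N ≤ Q) : (Om Q N h).Normal :=
  ⟨fun w hw g => ⟨hN.conj_mem w hw.1 g, fun q hq => by
    have := hw.2.1 (g⁻¹ * q * g) (by simpa using hQ.conj_mem q hq g⁻¹)
    calc q * (g * w * g⁻¹) = g * (g⁻¹ * q * g * w) * g⁻¹ := by group
      _ = _ := by rw [this]; group, by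
    calc g * w * g⁻¹ * (g * w * g⁻¹) = g * (w * w) * g⁻¹ := by group
      _ = 1 := by rw [hw.2.2]; group⟩⟩

theorem Om_ne_bot {Q N : Subgroup G} [hN : N.Normal] (hQ : IsPGroup 2 Q) (h : N ≤ Q) (hne : N ≠ ⊥) :
    Om Q N h ≠ ⊥ := by
  have : Group.IsNilpotent Q := hQ.isNilpotent
  have h1 : N.subgroupOf Q ≠ ⊥ := fun h0 => hne (by
    rw [subgroupOf_eq_bot, disjoint_iff, inf_eq_left.2 h] at h0; exact h0)
  obtain ⟨z, hz, z1, zz⟩ := exists_inv (hQ.to_subgroup _) (inf_center_ne_bot h1)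
  intro h0
  have : (z : G) ∈ Om Q N h := ⟨hz.1, fun q hq => congrArg Subtype.val (mem_center_iff.1 hz.2 ⟨q, hq⟩),
    congrArg Subtype.val zz⟩
  rw [h0, mem_bot] at this
  exact z1 (Subtype.ext this)

/-- The configuration `2^{4+4} : D₁₀` with `f` fixed-point-free has a section `2^5`. -/
theorem no_44 (h4 : SectionalPRankLE 2 4 G) {Q W : Subgroup G} [hQ : Q.Normal] [hW : W.Normal] (hWQ : W ≤ Q)
    (hWc : ∀ w ∈ W, ∀ q ∈ Q, q * w = w * q) (hW2 : ∀ w ∈ W, w * w = 1) (hsq : ∀ x ∈ Q, x * x ∈ W)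
    (cW : Nat.card W = 16) (cQ : Nat.card Q = 16 * Nat.card W) {f s : G} (hf : f ^ 5 = 1)
    (hfp : ∀ x ∈ Q, f * x = x * f → x = 1) (hs : s * f * s⁻¹ = f⁻¹) (hs2 : s * s ∈ Q) : False := by
  have ss : s * s = 1 := hfp _ hs2 (by
    have h1 : s * f⁻¹ * s⁻¹ = f := by rw [← conj_inv, hs, inv_inv]
    calc f * (s * s) = s * f⁻¹ * s⁻¹ * (s * s) := by rw [h1]
      _ = s * (s * f * s⁻¹) * s := by rw [hs]; group
      _ = _ := by group)
  have si : s⁻¹ = s := inv_eq_of_mul_eq_one_right ss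
  set C : Subgroup G := W ⊓ centralizer {s} with hC
  have cC : Nat.card C ≤ 4 := by
    let m : C × C → W := fun x => ⟨x.1 * (f * x.2 * f⁻¹), W.mul_mem x.1.2.1 (hW.conj_mem _ x.2.2.1 f)⟩
    have hi : Function.Injective m := by
      rintro ⟨a, b⟩ ⟨a', b'⟩ h
      have h' : (a : G) * (f * b * f⁻¹) = a' * (f * b' * f⁻¹) := congrArg Subtype.val h
      have hd : (b' : G) * (b : G)⁻¹ ∈ C := C.mul_mem b'.2 (C.inv_mem b.2)
      have he : (a' : G)⁻¹ * a ∈ C := C.mul_mem (C.inv_mem a'.2) a.2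
      have e1 : (a' : G)⁻¹ * a = f * (b' * (b : G)⁻¹) * f⁻¹ := by
        calc (a' : G)⁻¹ * a = (a' : G)⁻¹ * (a * (f * b * f⁻¹)) * (f * (b : G)⁻¹ * f⁻¹) := by group
          _ = _ := by rw [h']; group
      set d : G := b' * (b : G)⁻¹ with hd'
      have c1 : d * s = s * d := mem_centralizer_singleton_iff.1 hd.2
      have c2 : f * d * f⁻¹ * s = s * (f * d * f⁻¹) := e1 ▸ mem_centralizer_singleton_iff.1 he.2
      have d1 : d = 1 := hfp d (hWQ hd.1) (comm_of_sq_comm hf (by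
        have h1 : s * f⁻¹ * s⁻¹ = f := by rw [← conj_inv, hs, inv_inv]
        have h2 : f * d * f⁻¹ = f⁻¹ * d * f := by
          calc f * d * f⁻¹ = s * (f * d * f⁻¹) * s⁻¹ := by rw [← c2]; group
            _ = (s * f * s⁻¹) * (s * d) * s⁻¹ * (s * f⁻¹ * s⁻¹) := by group
            _ = _ := by rw [hs, h1, ← c1]; group
        calc f * f * d = f * (f * d * f⁻¹) * f := by group
          _ = _ := by rw [h2]; group))
      have hb : b = b' := Subtype.ext (mul_inv_eq_one.1 d1).symm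
      have ha : a = a' := Subtype.ext (by rw [d1] at e1; exact (inv_mul_eq_one.1 (by rw [e1]; group)).symm)
      rw [ha, hb]
    have := Nat.card_le_card_of_injective m hi
    rw [Nat.card_prod, cW] at this
    nlinarith
  set π := QuotientGroup.mk' W with hπ
  have hea : IsElementaryAbelian 2 (Q.map π) := ea_of_sq (by
    rintro _ ⟨x, hx, rfl⟩
    rw [← map_mul]
    exact (QuotientGroup.eq_one_iff _).2 (hsq x hx))
  have hb := CL.Inv.card_le_sq_card_inf_centralizer hea (x := π s) (by rw [← map_mul, ss, map_one])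
    (mem_normalizer_fintype (by
      rintro _ ⟨x, hx, rfl⟩
      exact ⟨_, hQ.conj_mem x hx s, by simp⟩))
  have c16 : Nat.card (Q.map π) = 16 := by
    have := card_eq_relIndex_mul_card hWQ
    rw [← card_map_mk', cQ, cW, ← hπ] at this
    omega
  set Q1 : Subgroup G := (Q.map π ⊓ centralizer {π s}).comap π with hQ1
  have c64 : 64 ≤ Nat.card Q1 := by
    rw [hQ1, hπ, card_comap_mk', cW, ← hπ]
    rw [c16] at hb
    nlinarith
  have mQ1 : ∀ x, x ∈ Q1 ↔ x ∈ Q ∧ s * x * s⁻¹ * x⁻¹ ∈ W := fun x => by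
    have k1 : π x ∈ Q.map π ↔ x ∈ Q := by
      rw [← mem_comap, comap_map_eq, hπ, QuotientGroup.ker_mk', sup_eq_left.2 hWQ]
    have k2 : s * x * s⁻¹ * x⁻¹ ∈ W ↔ π x * π s = π s * π x := by
      rw [← QuotientGroup.eq_one_iff]
      show π _ = 1 ↔ _
      simp only [map_mul, map_inv]
      rw [mul_inv_eq_one, mul_inv_eq_iff_eq_mul, eq_comm]
    rw [hQ1, mem_comap, mem_inf, k1, k2, mem_centralizer_singleton_iff]
  have sn : ∀ x ∈ Q1, s * x * s⁻¹ ∈ Q1 := fun x hx => by
    obtain ⟨h1, h2⟩ := (mQ1 x).1 hx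
    refine (mQ1 _).2 ⟨hQ.conj_mem x h1 s, ?_⟩
    have := hW.conj_mem _ h2 s
    simpa only [mul_assoc, mul_inv_rev, inv_inv, inv_mul_cancel_left] using this
  have sQ : s ∉ Q := fun h => by
    have : C = W := inf_eq_left.2 fun w hw => mem_centralizer_singleton_iff.2 (hWc w hw s h).symm
    rw [this, cW] at cC
    omega
  let M : Subgroup G :=
    { carrier := {m | m ∈ Q1 ∨ m * s ∈ Q1}
      one_mem' := Or.inl Q1.one_mem
      mul_mem' := by
        rintro a b (ha | ha) (hb | hb)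
        · exact Or.inl (Q1.mul_mem ha hb)
        · exact Or.inr (by rw [mul_assoc]; exact Q1.mul_mem ha hb)
        · refine Or.inr ?_
          have := Q1.mul_mem ha (sn b hb)
          rwa [show a * s * (s * b * s⁻¹) = a * (s * s) * b * s⁻¹ by group, ss, mul_one, si] at this
        · refine Or.inl ?_
          have := Q1.mul_mem ha (sn _ hb)
          rwa [show a * s * (s * (b * s) * s⁻¹) = a * (s * s) * b by group, ss, mul_one] at this
      inv_mem' := by
        rintro a (ha | ha)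
        · exact Or.inl (Q1.inv_mem ha)
        · refine Or.inr ?_
          have := sn _ (Q1.inv_mem ha)
          rwa [show s * (a * s)⁻¹ * s⁻¹ = a⁻¹ * s⁻¹ by group, si] at this }
  have hlt : Q1 < M := lt_of_le_of_ne (fun x hx => Or.inl hx) fun h => by
    have : s ∈ M := Or.inr (by rw [ss]; exact Q1.one_mem)
    rw [← h] at this
    exact sQ ((mQ1 s).1 this).1
  have c128 : 2 * Nat.card Q1 ≤ Nat.card M := by
    obtain ⟨k, hk⟩ := card_dvd_of_le hlt.le
    have : Nat.card Q1 < Nat.card M := lt_of_not_ge fun h => hlt.ne (eq_of_le_of_card_ge hlt.le h)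
    have h0 : 0 < Nat.card Q1 := Nat.card_pos
    rw [hk] at this ⊢
    have : 2 ≤ k := by
      by_contra hc
      interval_cases k <;> omega
    nlinarith
  have hCM : C ≤ M := fun w hw => Or.inl ((mQ1 w).2 ⟨hWQ hw.1, W.mul_mem (hW.conj_mem _ hw.1 s) (W.inv_mem hw.1)⟩)
  have := sec h4 hCM (by
    rintro x (hx | hx)
    · obtain ⟨h1, h2⟩ := (mQ1 x).1 hx
      refine ⟨hsq x h1, mem_centralizer_singleton_iff.2 ?_⟩
      set w := s * x * s⁻¹ * x⁻¹ with hw
      have e : s * x * s⁻¹ = w * x := by rw [hw]; group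
      have e2 : s * (x * x) * s⁻¹ = x * x := by
        calc s * (x * x) * s⁻¹ = (s * x * s⁻¹) * (s * x * s⁻¹) := by group
          _ = w * (x * w) * x := by rw [e]; group
          _ = w * w * (x * x) := by rw [hWc w h2 x h1]; group
          _ = _ := by rw [hW2 w h2, one_mul]
      calc x * x * s = s * (x * x) * s⁻¹ * s := by rw [e2]
        _ = _ := by group
    · obtain ⟨h1, h2⟩ := (mQ1 _).1 hx
      set y := x * s with hy
      have ex : x = y * s := by rw [hy, mul_assoc, ss, mul_one]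
      have hm : x * x ∈ W := by
        have e : x * x = y * (s * y * s⁻¹ * y⁻¹) * y⁻¹ * (y * y) := by rw [ex, si]; group
        rw [e]
        exact W.mul_mem (hW.conj_mem _ h2 y) (hsq y h1)
      refine ⟨hm, mem_centralizer_singleton_iff.2 ?_⟩
      have es : s = y⁻¹ * x := by rw [ex]; group
      have := hWc _ hm _ (Q.inv_mem h1)
      rw [es]
      calc x * x * (y⁻¹ * x) = (x * x * y⁻¹) * x := by group
        _ = _ := by rw [← this]; group)
  omega

/-- `f` centralises the squares of `Q`. -/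
theorem cent_sq (n : ℕ) : ∀ (G : Type u) [Group G] [Finite G], Nat.card G ≤ n → SectionalPRankLE 2 4 G →
    ∀ (Q : Subgroup G) [Q.Normal], IsPGroup 2 Q → ∀ f s : G, f ^ 5 = 1 → s * f * s⁻¹ * f ∈ Q → s * s ∈ Q →
    ∀ x ∈ Q, f * (x * x) = x * x * f := by
  induction n with
  | zero => intro G _ _ h; exact absurd Nat.card_pos (by omega : ¬ 0 < Nat.card G)
  | succ n ih =>
    intro G _ _ hn h4 Q hQn hQ f s hf hs hs2
    by_contra hcon
    have hF : Fr Q ≠ ⊥ := fun h => hcon fun x hx => by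
      have := sq_mem_Fr hQ hx
      rw [h, mem_bot] at this
      rw [this, mul_one, one_mul]
    set W := Om Q (Fr Q) (Fr_le Q) with hWd
    have hW : W.Normal := Om_normal _ _ _
    have hW1 : W ≠ ⊥ := Om_ne_bot hQ _ hF
    have hWF : W ≤ Fr Q := fun w hw => hw.1
    have hWQ : W ≤ Q := hWF.trans (Fr_le Q)
    have hWc : ∀ w ∈ W, ∀ q ∈ Q, q * w = w * q := fun w hw => hw.2.1
    have hW2 : ∀ w ∈ W, w * w = 1 := fun w hw => hw.2.2
    set π := QuotientGroup.mk' W with hπ
    have hcard : Nat.card (G ⧸ W) ≤ n := by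
      have h1 := card_eq_card_quotient_mul_card_subgroup W
      have h2 : 1 < Nat.card W := one_lt_card_iff_ne_bot _ |>.2 hW1
      have h3 : 0 < Nat.card (G ⧸ W) := Nat.card_pos
      nlinarith
    have : (Q.map π).Normal := hQn.map π (QuotientGroup.mk'_surjective W)
    have IH := ih (G ⧸ W) hcard (secRank_of_surjective h4 _ (QuotientGroup.mk'_surjective W)) (Q.map π)
      (hQ.map π) (π f) (π s) (by rw [← map_pow, hf, map_one]) ⟨_, hs, by simp⟩ ⟨_, hs2, by simp⟩
    have hFW : ∀ y ∈ Fr Q, f * y * f⁻¹ * y⁻¹ ∈ W := fun y hy => by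
      have h1 : y ∈ (centralizer {π f}).comap π := Fr_le_of hQ (fun x hx => by
        rw [mem_comap, mem_centralizer_singleton_iff, map_mul]
        exact (IH _ ⟨x, hx, rfl⟩).symm) hy
      rw [mem_comap, mem_centralizer_singleton_iff] at h1
      rw [← QuotientGroup.eq_one_iff]
      show π _ = 1
      simp only [map_mul, map_inv]
      rw [← h1]; group
    rcases five0 h4 hW2 hf (fun x hx => hW.conj_mem x hx f) with h | ⟨cW, hfW⟩
    · refine hcon fun x hx => comm_of_sq_comm hf ?_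
      set y := x * x with hy
      have h1 := hFW y (sq_mem_Fr hQ hx)
      set w := f * y * f⁻¹ * y⁻¹ with hw
      have e : f * y = w * y * f := by rw [hw]; group
      calc f * f * y = f * (f * y) := by group
        _ = (f * w) * (y * f) := by rw [e]; group
        _ = w * (f * y) * f := by rw [h w h1]; group
        _ = w * w * y * (f * f) := by rw [e]; group
        _ = _ := by rw [hW2 w h1, one_mul]
    have hfF : ∀ y ∈ Fr Q, f * y = y * f → y = 1 := fun y hy hc => by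
      by_contra h1
      have hne : (Fr Q ⊓ centralizer {f} : Subgroup G) ≠ ⊥ := fun h0 => h1 (by
        have : y ∈ Fr Q ⊓ centralizer {f} := ⟨hy, mem_centralizer_singleton_iff.2 hc.symm⟩
        rwa [h0, mem_bot] at this)
      obtain ⟨z, hz, z1, zz⟩ := exists_inv (hQ.to_le (inf_le_left.trans (Fr_le Q))) hne
      have zW : z ∉ W := fun h => z1 (hfW z h (mem_centralizer_singleton_iff.1 hz.2).symm)
      have c2 := card_sup_zpowers_eq_prime_mul (p := 2) W zW (by rw [pow_two, zz]; exact W.one_mem)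
      have := sec h4 (bot_le : ⊥ ≤ W ⊔ zpowers z) (fun x hx => by
        obtain ⟨w, hw, t, ⟨k, rfl⟩, rfl⟩ := (mem_sup_iff_of_le_normalizer le_normalizer_of_normal).1 hx
        have hc := hWc w hw (z ^ k) (Q.zpow_mem (Fr_le Q hz.1) k)
        have hz2 : z ^ k * z ^ k = 1 := by rw [← Commute.mul_zpow (Commute.refl z), zz, one_zpow]
        rw [mem_bot]
        calc w * z ^ k * (w * z ^ k) = w * (z ^ k * w) * z ^ k := by group
          _ = w * w * (z ^ k * z ^ k) := by rw [hc]; group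
          _ = 1 := by rw [hW2 w hw, hz2, one_mul])
      rw [c2, cW, card_bot] at this
      omega
    have hFle : Fr Q ≤ W := fun y hy => by
      obtain ⟨x, hx, rfl⟩ := surj (fun x hx => Normal.conj_mem inferInstance x hx f) hfF y hy
      have := W.inv_mem (hFW x hx)
      simpa only [mul_inv_rev, inv_inv, mul_assoc] using this
    have hsq : ∀ x ∈ Q, x * x ∈ W := fun x hx => hFle (sq_mem_Fr hQ hx)
    rcases five h4 hWQ hsq hf (fun x hx => hQn.conj_mem x hx f) with h | ⟨cQ, hfQ⟩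
    · refine hcon fun x hx => ?_
      have h1 := h x hx
      set w := f * x * f⁻¹ * x⁻¹ with hw
      have e : f * x = w * x * f := by rw [hw]; group
      calc f * (x * x) = (f * x) * x := by group
        _ = w * x * f * x := by rw [e]
        _ = w * x * (f * x) := by group
        _ = w * (x * w) * x * f := by rw [e]; group
        _ = w * w * (x * x * f) := by rw [hWc w h1 x hx]; group
        _ = _ := by rw [hW2 w h1, one_mul]
    have hfp : ∀ x ∈ Q, f * x = x * f → x = 1 := fun x hx hc =>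
      hfW x (hfQ x hx (by rw [hc]; simp)) hc
    obtain ⟨q, hq, e⟩ := surj (f := f⁻¹) (fun x hx => hQn.conj_mem x hx f⁻¹)
      (fun x hx hc => hfp x hx (Commute.inv_left_iff.1 hc)) _ hs
    refine no_44 h4 hWQ hWc hW2 hsq cW cQ hf hfp (s := q⁻¹ * s) ?_ ?_
    · calc q⁻¹ * s * f * (q⁻¹ * s)⁻¹ = q⁻¹ * (s * f * s⁻¹ * f) * f⁻¹ * q := by group
        _ = _ := by rw [← e]; group
    · have := Q.mul_mem (Q.mul_mem (Q.inv_mem hq) (hQn.conj_mem _ (Q.inv_mem hq) s)) hs2
      rwa [show q⁻¹ * (s * q⁻¹ * s⁻¹) * (s * s) = q⁻¹ * s * (q⁻¹ * s) by group] at this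

end CL.GH4F
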