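/-
An element of order five centralising the Frattini subgroup of a normal 2-subgroup in a group of sectional
2-rank at most four.
-/
import Cfsg.Agent.Inv.GH4Five
import Cfsg.Agent.Cls.SL2Dihedral

set_option autoImplicit false

namespace CL.GH4F

open Subgroup Cfsg CL.Grp CL.Fgs
open scoped commutatorElement

variable {G : Type*} [Group G]

/-- Counting a conjugation-invariant set modulo `p`. -/
theorem cnt [Finite G] {p : ℕ} (hp : p.Prime) (S : Set G) {g : G} (hg : g ^ p = 1)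
    (hS : ∀ x ∈ S, g * x * g⁻¹ ∈ S) : S.ncard ≡ {x ∈ S | g * x = x * g}.ncard [MOD p] := by
  classical
  have : Fact p.Prime := ⟨hp⟩
  have : Fintype S := Fintype.ofFinite S
  let c : Function.End S := fun x => ⟨g * x * g⁻¹, hS x x.2⟩
  have hc : ∀ (n : ℕ) (x : S), ((c ^ n) x : G) = g ^ n * x * (g ^ n)⁻¹ := by
    intro n
    induction n with
    | zero => intro x; simp [Function.End.one_def]
    | succ n ih =>
      intro x
      rw [pow_succ']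
      show g * (c ^ n) x * g⁻¹ = _
      rw [ih]; group
  have := Equiv.Perm.card_fixedPoints_modEq (f := c) (p := p) (n := 1) (by
    funext x
    apply Subtype.ext
    rw [pow_one, hc, hg]; simp [Function.End.one_def])
  rw [← Nat.card_eq_fintype_card, ← Nat.card_eq_fintype_card, Nat.card_coe_set_eq] at this
  convert this using 1
  rw [← Nat.card_coe_set_eq]
  exact Nat.card_congr
    { toFun := fun x => ⟨⟨x, x.2.1⟩, Subtype.ext (by
        show g * x * g⁻¹ = x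
        rw [x.2.2]; group)⟩
      invFun := fun x => ⟨x.1, x.1.2, by
        have : g * x.1 * g⁻¹ = x.1 := congrArg Subtype.val x.2
        rw [mul_inv_eq_iff_eq_mul] at this; exact this⟩
      left_inv := fun _ => rfl
      right_inv := fun _ => rfl }

/-- `Q` has class two and exponent four over `Φ`, and `f` of order five is fixed-point-free on `Q / Φ`. -/
structure C2 (Q Φ : Subgroup G) (f : G) : Prop where
  le : Φ ≤ Q
  sq : ∀ x ∈ Q, x * x ∈ Φ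
  cz : ∀ y ∈ Φ, ∀ q ∈ Q, q * y = y * q
  two : ∀ y ∈ Φ, y * y = 1
  cf : ∀ y ∈ Φ, f * y = y * f
  nf : ∀ x ∈ Q, f * x * f⁻¹ ∈ Q
  f5 : f ^ 5 = 1
  fp : ∀ x ∈ Q, f * x * f⁻¹ * x⁻¹ ∈ Φ → x ∈ Φ

namespace C2

variable {Q Φ : Subgroup G} {f : G} (h : C2 Q Φ f)
include h

theorem cm {x y : G} (hx : x ∈ Q) (hy : y ∈ Q) : ⁅x, y⁆ ∈ Φ := by
  rw [commutatorElement_def, comm_eq_sq]
  exact Φ.mul_mem (Φ.mul_mem (h.sq x hx) (h.sq _ (Q.mul_mem (Q.inv_mem hx) hy))) (h.sq _ (Q.inv_mem hy))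

theorem csymm {x y : G} (hx : x ∈ Q) (hy : y ∈ Q) : ⁅y, x⁆ = ⁅x, y⁆ := by
  rw [← commutatorElement_inv x y, inv_eq_of_mul_eq_one_right (h.two _ (h.cm hx hy))]

theorem cmul {x y z : G} (hx : x ∈ Q) (hy : y ∈ Q) (hz : z ∈ Q) : ⁅x * y, z⁆ = ⁅x, z⁆ * ⁅y, z⁆ := by
  have e := h.cz _ (h.cm hy hz)
  rw [e _ (h.le (h.cm hx hz))]
  calc ⁅x * y, z⁆ = x * ⁅y, z⁆ * (z * x⁻¹ * z⁻¹) := by simp only [commutatorElement_def]; group
    _ = _ := by rw [e x hx]; simp only [commutatorElement_def]; group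

theorem cmul' {x y z : G} (hx : x ∈ Q) (hy : y ∈ Q) (hz : z ∈ Q) : ⁅x, y * z⁆ = ⁅x, y⁆ * ⁅x, z⁆ := by
  rw [h.csymm (Q.mul_mem hy hz) hx, h.cmul hy hz hx, h.csymm hx hy, h.csymm hx hz]

theorem sqmul {x y : G} (hx : x ∈ Q) (hy : y ∈ Q) : x * y * (x * y) = x * x * (y * y) * ⁅x, y⁆ := by
  have e := h.cz _ (h.cm hy hx) (x * (y * y)) (Q.mul_mem hx (Q.mul_mem hy hy))
  calc x * y * (x * y) = x * (⁅y, x⁆ * (x * (y * y))) := by simp only [commutatorElement_def]; group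
    _ = _ := by rw [← e, h.csymm hx hy]; group

theorem fixf {y : G} (hy : y ∈ Φ) : f * y * f⁻¹ = y := by rw [h.cf y hy]; group

theorem cconj {x y : G} (hx : x ∈ Q) (hy : y ∈ Q) : ⁅f * x * f⁻¹, f * y * f⁻¹⁆ = ⁅x, y⁆ := by
  rw [← h.fixf (h.cm hx hy)]; simp only [commutatorElement_def]; group

theorem sqconj {x : G} (hx : x ∈ Q) : f * x * f⁻¹ * (f * x * f⁻¹) = x * x := by
  rw [← h.fixf (h.sq x hx)]; group

theorem sqf : C2 Q Φ (f * f) where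
  le := h.le
  sq := h.sq
  cz := h.cz
  two := h.two
  cf := fun y hy => by rw [mul_assoc, h.cf y hy, ← mul_assoc, h.cf y hy, mul_assoc]
  nf := fun x hx => by
    have := h.nf _ (h.nf x hx)
    rwa [show f * (f * x * f⁻¹) * f⁻¹ = f * f * x * (f * f)⁻¹ by group] at this
  f5 := by rw [← pow_two, ← pow_mul, mul_comm, pow_mul, h.f5, one_pow]
  fp := fun x hx hc => h.fp x hx (by
    set w := f * f * x * (f * f)⁻¹ * x⁻¹ with hw
    have e : f * f * x = w * x * (f * f) := by rw [hw]; group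
    have c2 : f * f * w = w * (f * f) := by rw [mul_assoc, h.cf w hc, ← mul_assoc, h.cf w hc, mul_assoc]
    have e2 : f * f * (f * f) * x = x * (f * f * (f * f)) := by
      calc f * f * (f * f) * x = f * f * (f * f * x) := by group
        _ = (f * f * w) * x * (f * f) := by rw [e]; group
        _ = w * (f * f * x) * (f * f) := by rw [c2]; group
        _ = w * w * (x * (f * f * (f * f))) := by rw [e]; group
        _ = _ := by rw [h.two w hc, one_mul]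
    have e3 : f * f * (f * f) = f⁻¹ := by
      rw [eq_inv_iff_mul_eq_one, ← h.f5]; simp only [pow_succ, pow_zero, one_mul, mul_assoc]
    rw [e3] at e2
    rw [(Commute.inv_left_iff.1 e2).eq]
    simp)

theorem five_conj (x : G) : f * (f * (f * (f * (f * x * f⁻¹) * f⁻¹) * f⁻¹) * f⁻¹) * f⁻¹ = x := by
  calc _ = f ^ 5 * x * (f ^ 5)⁻¹ := by simp only [pow_succ, pow_zero, one_mul, mul_assoc, mul_inv_rev]
    _ = x := by rw [h.f5]; simp

theorem prod_mem {u u1 u2 u3 u4 : G} (hu : u ∈ Q) (e1 : f * u * f⁻¹ = u1) (e2 : f * u1 * f⁻¹ = u2)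
    (e3 : f * u2 * f⁻¹ = u3) (e4 : f * u3 * f⁻¹ = u4) : u * u1 * (u2 * u3) * u4 ∈ Φ := by
  have h1 : u1 ∈ Q := e1 ▸ h.nf _ hu
  have h2 : u2 ∈ Q := e2 ▸ h.nf _ h1
  have h3 : u3 ∈ Q := e3 ▸ h.nf _ h2
  have h4 : u4 ∈ Q := e4 ▸ h.nf _ h3
  have e5 : f * u4 * f⁻¹ = u := by rw [← e4, ← e3, ← e2, ← e1]; exact h.five_conj u
  have hP : u * u1 * (u2 * u3) * u4 ∈ Q := Q.mul_mem (Q.mul_mem (Q.mul_mem hu h1) (Q.mul_mem h2 h3)) h4
  refine h.fp _ hP ?_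
  have : f * (u * u1 * (u2 * u3) * u4) * f⁻¹ = u1 * u2 * u3 * u4 * u := by
    calc _ = (f * u * f⁻¹) * (f * u1 * f⁻¹) * (f * u2 * f⁻¹) * (f * u3 * f⁻¹) * (f * u4 * f⁻¹) := by group
      _ = _ := by rw [e1, e2, e3, e4, e5]
  rw [this]
  convert h.cm (Q.inv_mem hu) hP using 1
  simp only [commutatorElement_def]; group

/-- The relation `u² = [u, u₁] [u, u₂]`. -/
theorem rel {u : G} (hu : u ∈ Q) :
    u * u = ⁅u, f * u * f⁻¹⁆ * ⁅u, f * (f * u * f⁻¹) * f⁻¹⁆ := by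
  obtain ⟨u1, e1⟩ : ∃ v, f * u * f⁻¹ = v := ⟨_, rfl⟩
  obtain ⟨u2, e2⟩ : ∃ v, f * u1 * f⁻¹ = v := ⟨_, rfl⟩
  obtain ⟨u3, e3⟩ : ∃ v, f * u2 * f⁻¹ = v := ⟨_, rfl⟩
  obtain ⟨u4, e4⟩ : ∃ v, f * u3 * f⁻¹ = v := ⟨_, rfl⟩
  have h1 : u1 ∈ Q := e1 ▸ h.nf _ hu
  have h2 : u2 ∈ Q := e2 ▸ h.nf _ h1
  have h3 : u3 ∈ Q := e3 ▸ h.nf _ h2
  have h4 : u4 ∈ Q := e4 ▸ h.nf _ h3
  have e5 : f * u4 * f⁻¹ = u := by rw [← e4, ← e3, ← e2, ← e1]; exact h.five_conj u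
  have e6 : f * u * f⁻¹ = u1 := e1
  rw [e1, e2]
  have s1 : u1 * u1 = u * u := by rw [← e1, h.sqconj hu]
  have s2 : u2 * u2 = u * u := by rw [← e2, h.sqconj h1, s1]
  have s3 : u3 * u3 = u * u := by rw [← e3, h.sqconj h2, s2]
  have s4 : u4 * u4 = u * u := by rw [← e4, h.sqconj h3, s3]
  have c12 : ⁅u1, u2⁆ = ⁅u, u1⁆ := by rw [← h.cconj hu h1, e1, e2]
  have c23 : ⁅u2, u3⁆ = ⁅u, u1⁆ := by rw [← c12, ← h.cconj h1 h2, e2, e3]
  have c13 : ⁅u1, u3⁆ = ⁅u, u2⁆ := by rw [← h.cconj hu h2, e1, e3]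
  have c24 : ⁅u2, u4⁆ = ⁅u, u2⁆ := by rw [← c13, ← h.cconj h1 h3, e2, e4]
  have c03 : ⁅u, u3⁆ = ⁅u, u2⁆ := by rw [← c24, ← h.cconj h2 h4, e3, e5, h.csymm hu h3]
  have hP := h.prod_mem hu e1 e2 e3 e4
  have aa := h.two _ (h.sq u hu)
  have y2 : u * u1 * (u2 * u3) * (u * u1 * (u2 * u3)) = u * u := by
    set P := u * u1 * (u2 * u3) * u4 with hPd
    have ey : u * u1 * (u2 * u3) = P * u4⁻¹ := by rw [hPd]; group
    rw [ey]
    calc P * u4⁻¹ * (P * u4⁻¹) = P * (u4⁻¹ * P) * u4⁻¹ := by group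
      _ = P * P * (u4 * u4)⁻¹ := by rw [h.cz P hP _ (Q.inv_mem h4)]; group
      _ = _ := by rw [h.two P hP, one_mul, s4, inv_eq_of_mul_eq_one_right aa]
  rw [h.sqmul (Q.mul_mem hu h1) (Q.mul_mem h2 h3), h.sqmul hu h1, h.sqmul h2 h3, s1, s2, s3, aa, one_mul,
    one_mul, c23, h.two _ (h.cm hu h1), one_mul, h.cmul hu h1 (Q.mul_mem h2 h3), h.cmul' hu h2 h3,
    h.cmul' h1 h2 h3, c03, c12, c13, h.two _ (h.cm hu h2), one_mul] at y2
  exact y2.symm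

variable [Finite G]

theorem gen [Φ.Normal] (h4 : SectionalPRankLE 2 4 G) (cQ : Nat.card Q = 16 * Nat.card Φ) {D : Subgroup G}
    (hD : D ≤ Q) {u u1 u2 u3 : G} (hu : u ∈ D) (h1 : u1 ∈ D) (h2 : u2 ∈ D) (h3 : u3 ∈ D) (hne : u * u ≠ 1)
    (e1 : f * u * f⁻¹ = u1) (e2 : f * u1 * f⁻¹ = u2) (e3 : f * u2 * f⁻¹ = u3) : Q ≤ Φ ⊔ D := by
  set E := Φ ⊔ D with hE
  have hEQ : E ≤ Q := sup_le h.le hD
  let c : G →* G := (MulAut.conj f).toMonoidHom
  let H : Subgroup G := E ⊓ (E ⊓ (E ⊓ (E ⊓ E.comap c).comap c).comap c).comap c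
  have mH : ∀ x, x ∈ H ↔ x ∈ E ∧ f * x * f⁻¹ ∈ E ∧ f * (f * x * f⁻¹) * f⁻¹ ∈ E ∧
      f * (f * (f * x * f⁻¹) * f⁻¹) * f⁻¹ ∈ E ∧ f * (f * (f * (f * x * f⁻¹) * f⁻¹) * f⁻¹) * f⁻¹ ∈ E :=
    fun x => Iff.rfl
  have hΦ : Φ ≤ H := fun y hy => by
    rw [mH, h.fixf hy, h.fixf hy, h.fixf hy, h.fixf hy]
    have : y ∈ E := mem_sup_left hy
    exact ⟨this, this, this, this, this⟩
  have hu' : u ∈ H := by
    rw [mH, e1, e2, e3]
    refine ⟨mem_sup_right hu, mem_sup_right h1, mem_sup_right h2, mem_sup_right h3, ?_⟩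
    have hP : _ ∈ E := mem_sup_left (h.prod_mem (hD hu) e1 e2 e3 rfl)
    exact (E.mul_mem_cancel_left (mem_sup_right (D.mul_mem (D.mul_mem hu h1) (D.mul_mem h2 h3)))).1 hP
  rcases five h4 hΦ (fun x hx => h.sq x (hEQ hx.1)) h.f5 (fun x hx => by
    rw [mH] at hx ⊢
    rw [h.five_conj]
    exact ⟨hx.2.1, hx.2.2.1, hx.2.2.2.1, hx.2.2.2.2, hx.1⟩) with h' | ⟨h', -⟩
  · exact absurd (h.two _ (h.fp u (hD hu) (h' u hu'))) hne
  · have := eq_of_le_of_card_ge (inf_le_left.trans hEQ : H ≤ Q) (by rw [h', cQ])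
    exact this.symm.le.trans inf_le_left

/-- The extraspecial case. -/
theorem qd [Φ.Normal] (h4 : SectionalPRankLE 2 4 G) (cQ : Nat.card Q = 16 * Nat.card Φ)
    (hfr : ∀ D ≤ Q, Q ≤ Φ ⊔ D → Q ≤ D) {u : G} (hu : u ∈ Q) (hne : u * u ≠ 1)
    (hb : ⁅u, f * u * f⁻¹⁆ = 1) :
    Nat.card Q = 32 ∧ ∃ A B : Subgroup Q, Nonempty (A ≃* QuaternionGroup 2) ∧ Nonempty (B ≃* DihedralGroup 4) ∧
      (∀ a ∈ A, ∀ b ∈ B, a * b = b * a) ∧ A ⊔ B = ⊤ ∧ A ⊓ B = center Q := by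
  have hr := h.rel hu
  obtain ⟨u1, e1⟩ : ∃ v, f * u * f⁻¹ = v := ⟨_, rfl⟩
  obtain ⟨u2, e2⟩ : ∃ v, f * u1 * f⁻¹ = v := ⟨_, rfl⟩
  obtain ⟨u3, e3⟩ : ∃ v, f * u2 * f⁻¹ = v := ⟨_, rfl⟩
  obtain ⟨u4, e4⟩ : ∃ v, f * u3 * f⁻¹ = v := ⟨_, rfl⟩
  have h1 : u1 ∈ Q := e1 ▸ h.nf _ hu
  have h2 : u2 ∈ Q := e2 ▸ h.nf _ h1
  have h3 : u3 ∈ Q := e3 ▸ h.nf _ h2
  have h4' : u4 ∈ Q := e4 ▸ h.nf _ h3
  have e5 : f * u4 * f⁻¹ = u := by rw [← e4, ← e3, ← e2, ← e1]; exact h.five_conj u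
  rw [e1] at hb
  rw [e1, e2, hb, one_mul] at hr
  have s1 : u1 * u1 = u * u := by rw [← e1, h.sqconj hu]
  have s2 : u2 * u2 = u * u := by rw [← e2, h.sqconj h1, s1]
  have s3 : u3 * u3 = u * u := by rw [← e3, h.sqconj h2, s2]
  have c12 : ⁅u1, u2⁆ = 1 := by rw [← hb, ← h.cconj hu h1, e1, e2]
  have c23 : ⁅u2, u3⁆ = 1 := by rw [← c12, ← h.cconj h1 h2, e2, e3]
  have c13 : ⁅u1, u3⁆ = u * u := by rw [hr, ← h.cconj hu h2, e1, e3]
  have c24 : ⁅u2, u4⁆ = u * u := by rw [← c13, ← h.cconj h1 h3, e2, e4]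
  have c03 : ⁅u, u3⁆ = u * u := by rw [← c24, ← h.cconj h2 h4', e3, e5, h.csymm hu h3]
  have aa := h.two _ (h.sq u hu)
  have ht : u3 * u2 ∈ Q := Q.mul_mem h3 h2
  have tt : u3 * u2 * (u3 * u2) = 1 := by rw [h.sqmul h3 h2, s2, s3, aa, h.csymm h2 h3, c23, one_mul]
  have c0t : ⁅u, u3 * u2⁆ = 1 := by rw [h.cmul' hu h3 h2, c03, ← hr, aa]
  have c2t : ⁅u2, u3 * u2⁆ = 1 := by rw [h.cmul' h2 h3 h2, c23, commutatorElement_self, one_mul]
  have ct1 : ⁅u3 * u2, u1⁆ = u * u := by rw [h.cmul h3 h2 h1, h.csymm h1 h3, h.csymm h1 h2, c13, c12, mul_one]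
  have inv_of : ∀ x y : G, ⁅y, x⁆ = u * u → x * x = u * u → y * x * y⁻¹ = x⁻¹ := fun x y hc hx => by
    rw [eq_inv_iff_mul_eq_one, ← aa]
    nth_rewrite 1 [← hc]
    rw [← hx]
    simp only [commutatorElement_def]; group
  have ord : ∀ x : Q, (x : G) * x = u * u → orderOf x = 4 := fun x hx => by
    have : Fact (Nat.Prime 2) := ⟨Nat.prime_two⟩
    refine orderOf_eq_prime_pow (p := 2) (n := 1) (fun h0 => hne ?_) (Subtype.ext ?_)
    · rw [← hx, ← pow_two]; exact congrArg Subtype.val h0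
    · show (x : G) ^ (2 * 2) = 1
      rw [pow_mul, pow_two, pow_two, hx, aa]
  have nz : ∀ x y : Q, ⁅(y : G), (x : G)⁆ = u * u → y ∉ zpowers x := by
    rintro x _ hc ⟨k, rfl⟩
    refine hne (hc.symm.trans (commutatorElement_eq_one_iff_mul_comm.2 ?_))
    exact congrArg Subtype.val (Commute.zpow_self x k).eq
  set a0 : Q := ⟨u, hu⟩
  set a1 : Q := ⟨u1, h1⟩
  set a2 : Q := ⟨u2, h2⟩
  set t : Q := ⟨u3 * u2, ht⟩
  have o0 : orderOf a0 = 2 * 2 := ord a0 rfl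
  have o1 : orderOf a1 = 4 := ord a1 s1
  have q1 : a2 * a2 = a0 ^ 2 := Subtype.ext (by rw [pow_two]; exact s2)
  have q2 : a2 * a0 * a2⁻¹ = a0⁻¹ := Subtype.ext (inv_of u u2 (by rw [h.csymm hu h2, ← hr]) rfl)
  have d1 : t * t = 1 := Subtype.ext tt
  have d2 : t * a1 * t⁻¹ = a1⁻¹ := Subtype.ext (inv_of u1 _ ct1 s1)
  have iq := CL.SL2.quaternionHom_injective a0 a2 o0 q1 q2 (nz a0 a2 (by rw [h.csymm hu h2, ← hr]))
  have id := CL.SL2.dihedralHom_injective a1 t o1 d1 d2 (nz a1 t ct1)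
  set φ := CL.SL2.quaternionHom a0 a2 (o0 ▸ pow_orderOf_eq_one a0 : a0 ^ (2 * 2) = 1) q1 q2
  set ψ := CL.SL2.dihedralHom a1 t (o1 ▸ pow_orderOf_eq_one a1 : a1 ^ 4 = 1) d1 d2
  have m0 : a0 ∈ φ.range := ⟨.a 1, pow_one a0⟩
  have m2 : a2 ∈ φ.range := ⟨.xa 0, (congrArg (a2 * ·) (pow_zero a0)).trans (mul_one a2)⟩
  have m1 : a1 ∈ ψ.range := ⟨.r 1, pow_one a1⟩
  have mt : t ∈ ψ.range := ⟨.sr 0, (congrArg (t * ·) (pow_zero a1)).trans (mul_one t)⟩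
  have k01 : Commute a0 a1 := Subtype.ext (commutatorElement_eq_one_iff_mul_comm.1 hb)
  have k0t : Commute a0 t := Subtype.ext (commutatorElement_eq_one_iff_mul_comm.1 c0t)
  have k21 : Commute a2 a1 := Subtype.ext (commutatorElement_eq_one_iff_mul_comm.1 c12).symm
  have k2t : Commute a2 t := Subtype.ext (commutatorElement_eq_one_iff_mul_comm.1 c2t)
  have hcomm : ∀ a ∈ φ.range, ∀ b ∈ ψ.range, a * b = b * a := by
    have k0 : ∀ b ∈ ψ.range, Commute a0 b ∧ Commute a2 b := by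
      rintro _ ⟨i | i, rfl⟩
      · exact ⟨k01.pow_right _, k21.pow_right _⟩
      · exact ⟨k0t.mul_right (k01.pow_right _), k2t.mul_right (k21.pow_right _)⟩
    rintro _ ⟨i | i, rfl⟩ b hb
    · exact ((k0 b hb).1.pow_left _).eq
    · exact ((k0 b hb).2.mul_left ((k0 b hb).1.pow_left _)).eq
  have htop : φ.range ⊔ ψ.range = ⊤ := by
    have hD : (φ.range ⊔ ψ.range).map Q.subtype ≤ Q := map_subtype_le _
    have := hfr _ hD (h.gen h4 cQ hD ⟨a0, mem_sup_left m0, rfl⟩ ⟨a1, mem_sup_right m1, rfl⟩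
      ⟨a2, mem_sup_left m2, rfl⟩ ⟨t * a2⁻¹, mul_mem (mem_sup_right mt) (inv_mem (mem_sup_left m2)),
        mul_inv_cancel_right u3 u2⟩ hne e1 e2 e3)
    rw [eq_top_iff]
    intro x _
    obtain ⟨y, hy, e⟩ := this x.2
    rwa [← show y = x from Subtype.ext e]
  have cA : Nat.card φ.range = 8 := by
    rw [← Nat.card_congr (MonoidHom.ofInjective iq).toEquiv, Nat.card_eq_fintype_card, QuaternionGroup.card]
  have cB : Nat.card ψ.range = 8 := by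
    rw [← Nat.card_congr (MonoidHom.ofInjective id).toEquiv, DihedralGroup.nat_card]
  have hmul := card_sup_mul_card_inf (H := φ.range) (K := ψ.range) (fun a ha => mem_normalizer_fintype
    fun b hb => by rw [hcomm a ha b hb, mul_inv_cancel_right]; exact hb)
  rw [htop, card_top, cA, cB, cQ] at hmul
  have hz : a0 * a0 ∈ φ.range ⊓ ψ.range :=
    ⟨mul_mem m0 m0, by rw [show a0 * a0 = a1 * a1 from Subtype.ext s1.symm]; exact mul_mem m1 m1⟩
  have g1 : 1 < Nat.card (φ.range ⊓ ψ.range : Subgroup Q) := (one_lt_card_iff_ne_bot _).2 fun h0 => by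
    rw [h0, mem_bot] at hz
    exact hne (congrArg Subtype.val hz)
  have g2 : 1 < Nat.card Φ := (one_lt_card_iff_ne_bot _).2 fun h0 => by
    have := h.sq u hu
    rw [h0, mem_bot] at this
    exact hne this
  have cΦ : Nat.card Φ = 2 := by nlinarith
  refine ⟨by rw [cQ, cΦ], φ.range, ψ.range, ⟨(MonoidHom.ofInjective iq).symm⟩, ⟨(MonoidHom.ofInjective id).symm⟩,
    hcomm, htop, le_antisymm (fun z hz => ?_) fun z hzc => ?_⟩
  · have : (⊤ : Subgroup Q) ≤ centralizer {z} := by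
      rw [← htop]
      exact sup_le (fun a ha => mem_centralizer_singleton_iff.2 (hcomm a ha z hz.2))
        fun b hb => mem_centralizer_singleton_iff.2 (hcomm z hz.1 b hb).symm
    exact mem_center_iff.2 fun g => mem_centralizer_singleton_iff.1 (this (mem_top g))
  · have hzΦ : (z : G) ∈ Φ := by
      have hn : ∀ x ∈ Q, f⁻¹ * x * f ∈ Q := fun x hx => by
        have := (mem_normalizer_iff''.1 (mem_normalizer_fintype (S := (Q : Set G)) h.nf) x).1 hx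
        exact this
      rcases five h4 (H := Q ⊓ centralizer (Q : Set G)) (fun y hy => ⟨h.le hy, fun q hq => h.cz y hy q hq⟩)
        (fun x hx => h.sq x hx.1) h.f5 (fun x hx => ⟨h.nf x hx.1, fun q hq => by
          have := hx.2 _ (hn q hq)
          calc q * (f * x * f⁻¹) = f * (f⁻¹ * q * f * x) * f⁻¹ := by group
            _ = _ := by rw [this]; group⟩) with h' | ⟨h', -⟩
      · exact h.fp _ z.2 (h' z ⟨z.2, fun q hq => congrArg Subtype.val (mem_center_iff.1 hzc ⟨q, hq⟩)⟩)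
      · have := eq_of_le_of_card_ge (inf_le_left : Q ⊓ centralizer (Q : Set G) ≤ Q) (by rw [h', cQ])
        have h2' : u2 ∈ Q ⊓ centralizer (Q : Set G) := this.symm ▸ h2
        exact absurd (hr.trans (commutatorElement_eq_one_iff_mul_comm.2 (h2'.2 u hu))) hne
    have : Φ = zpowers (u * u) := by
      refine (eq_of_le_of_card_ge (zpowers_le.2 (h.sq u hu)) ?_).symm
      rw [cΦ]
      exact (one_lt_card_iff_ne_bot _).2 (by simpa using hne)
    rw [this] at hzΦ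
    obtain ⟨k, hk⟩ := hzΦ
    rw [show z = (a0 * a0) ^ k from Subtype.ext hk.symm]
    exact zpow_mem hz k

/-- The case `|Q| = 64` admits no element of order three. -/
theorem no_three [Φ.Normal] (cQ : Nat.card Q = 16 * Nat.card Φ) {u : G} (hu : u ∈ Q) (hne : u * u ≠ 1)
    (hb1 : ⁅u, f * u * f⁻¹⁆ ≠ 1) (hb2 : ⁅u, f * (f * u * f⁻¹) * f⁻¹⁆ ≠ 1) {r : G} (hr : r ^ 3 = 1)
    (rQ : ∀ x ∈ Q, r * x * r⁻¹ ∈ Q) (rΦ : ∀ y ∈ Φ, r * y = y * r) : ∀ x ∈ Q, r * x = x * r := by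
  have hrel := h.rel hu
  have h1 := h.nf _ hu
  have h2 := h.nf _ h1
  set u1 := f * u * f⁻¹ with e1
  set u2 := f * u1 * f⁻¹ with e2
  have s1 : u1 * u1 = u * u := by rw [e1, h.sqconj hu]
  have s2 : u2 * u2 = u * u := by rw [e2, h.sqconj h1, s1]
  have aa := h.two _ (h.sq u hu)
  have t1 : u * u1 * (u * u1) = ⁅u, u1⁆ := by rw [h.sqmul hu h1, s1, aa, one_mul]
  have t2 : u * u2 * (u * u2) = ⁅u, u2⁆ := by rw [h.sqmul hu h2, s2, aa, one_mul]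
  set π := QuotientGroup.mk' Φ with hπ
  let S : G → Set (G ⧸ Φ) := fun c => {v | ∃ x ∈ Q, x * x = c ∧ π x = v}
  have hπeq : ∀ x y, π x = π y ↔ x * y⁻¹ ∈ Φ := fun x y => by
    rw [← mul_inv_eq_one, ← map_inv, ← map_mul]; exact QuotientGroup.eq_one_iff _
  have hd : ∀ c c', c ≠ c' → Disjoint (S c) (S c') := fun c c' hc => Set.disjoint_left.2 (by
    rintro _ ⟨x, hx, rfl, rfl⟩ ⟨y, hy, rfl, e⟩
    have hw := (hπeq _ _).1 e
    apply hc
    calc x * x = (y * x⁻¹) * (y * x⁻¹) * (x * x) := by rw [h.two _ hw, one_mul]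
      _ = (y * x⁻¹) * ((y * x⁻¹) * x) * x := by group
      _ = _ := by rw [← h.cz _ hw x hx]; group)
  have hinv : ∀ g : G, (∀ x ∈ Q, g * x * g⁻¹ ∈ Q) → (∀ y ∈ Φ, g * y = y * g) → ∀ c, ∀ v ∈ S c,
      π g * v * (π g)⁻¹ ∈ S c := by
    rintro g hg hg' _ _ ⟨x, hx, rfl, rfl⟩
    refine ⟨_, hg x hx, ?_, by simp⟩
    calc g * x * g⁻¹ * (g * x * g⁻¹) = g * (x * x) * g⁻¹ := by group
      _ = _ := by rw [hg' _ (h.sq x hx)]; group
  have h5 : ∀ x ∈ Q, x * x ≠ 1 → 5 ≤ (S (x * x)).ncard := fun x hx hc => by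
    have := cnt (by norm_num : Nat.Prime 5) (S (x * x)) (g := π f) (by rw [← map_pow, h.f5, map_one])
      (hinv f h.nf h.cf _)
    have e0 : {v ∈ S (x * x) | π f * v = v * π f} = ∅ := Set.eq_empty_of_forall_notMem (by
      rintro _ ⟨⟨y, hy, e, rfl⟩, hc'⟩
      refine hc (e ▸ h.two y (h.fp y hy ((hπeq _ _).1 ?_)))
      rw [map_mul, map_mul, hc', map_inv, mul_inv_cancel_right])
    rw [e0, Set.ncard_empty] at this
    exact Nat.le_of_dvd ((Set.ncard_pos (Set.toFinite _)).2 ⟨_, x, hx, rfl, rfl⟩) (Nat.modEq_zero_iff_dvd.1 this)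
  have c16 : Nat.card (Q.map π) = 16 := by
    have := card_eq_relIndex_mul_card h.le
    rw [← card_map_mk', cQ, ← hπ] at this
    exact (Nat.eq_of_mul_eq_mul_right Nat.card_pos this).symm
  have n1 : u * u ≠ ⁅u, u1⁆ := fun e => hb2 (by rw [e] at hrel; exact left_eq_mul.1 hrel)
  have n2 : u * u ≠ ⁅u, u2⁆ := fun e => hb1 (by rw [e] at hrel; exact right_eq_mul.1 hrel)
  have n3 : ⁅u, u1⁆ ≠ ⁅u, u2⁆ := fun e => hne (by rw [hrel, ← e, h.two _ (h.cm hu h1)])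
  have a5 := h5 u hu hne
  have b5 := h5 _ (Q.mul_mem hu h1) (by rwa [t1])
  have c5 := h5 _ (Q.mul_mem hu h2) (by rwa [t2])
  rw [t1] at b5
  rw [t2] at c5
  have one : (S 1).Nonempty := ⟨1, 1, Q.one_mem, mul_one 1, map_one π⟩
  have sub : ∀ c, S c ⊆ Q.map π := by
    rintro _ _ ⟨x, hx, -, rfl⟩
    exact ⟨x, hx, rfl⟩
  have tot : (S 1).ncard + (S (u * u)).ncard + (S ⁅u, u1⁆).ncard + (S ⁅u, u2⁆).ncard ≤ 16 := by
    rw [← Set.ncard_union_eq (hd _ _ hne.symm), ← Set.ncard_union_eq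
      (Set.disjoint_union_left.2 ⟨hd _ _ hb1.symm, hd _ _ n1⟩), ← Set.ncard_union_eq
      (Set.disjoint_union_left.2 ⟨Set.disjoint_union_left.2 ⟨hd _ _ hb2.symm, hd _ _ n2⟩, hd _ _ n3⟩), ← c16]
    exact Set.ncard_le_ncard (t := (Q.map π : Set (G ⧸ Φ))) (Set.union_subset (Set.union_subset (Set.union_subset (sub _) (sub _)) (sub _)) (sub _))
  have p1 := (Set.ncard_pos (Set.toFinite _)).2 one
  have r3 : π r ^ 3 = 1 := by rw [← map_pow, hr, map_one]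
  have fa := cnt Nat.prime_three (S (u * u)) r3 (hinv r rQ rΦ _)
  have fb := cnt Nat.prime_three (S ⁅u, u1⁆) r3 (hinv r rQ rΦ _)
  rw [show (S (u * u)).ncard = 5 by omega] at fa
  rw [show (S ⁅u, u1⁆).ncard = 5 by omega] at fb
  have fc := modEq_cent Nat.prime_three (Q := Q.map π) r3 (by
    rintro _ ⟨x, hx, rfl⟩
    exact ⟨_, rQ x hx, by simp⟩)
  have tot2 : ({1} : Set (G ⧸ Φ)).ncard + {v ∈ S (u * u) | π r * v = v * π r}.ncard +
      {v ∈ S ⁅u, u1⁆ | π r * v = v * π r}.ncard ≤ Nat.card (Q.map π ⊓ centralizer {π r} : Subgroup (G ⧸ Φ)) := by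
    have o1 : ({1} : Set (G ⧸ Φ)) ⊆ S 1 := Set.singleton_subset_iff.2 ⟨1, Q.one_mem, mul_one 1, map_one π⟩
    rw [← Set.ncard_union_eq ((hd _ _ hne.symm).mono o1 (Set.sep_subset _ _)), ← Set.ncard_union_eq
      (Set.disjoint_union_left.2 ⟨(hd _ _ hb1.symm).mono o1 (Set.sep_subset _ _),
        (hd _ _ n1).mono (Set.sep_subset _ _) (Set.sep_subset _ _)⟩)]
    refine Set.ncard_le_ncard (t := ((Q.map π ⊓ centralizer {π r} : Subgroup (G ⧸ Φ)) : Set (G ⧸ Φ))) (Set.union_subset (Set.union_subset ?_ ?_) ?_)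
    · exact Set.singleton_subset_iff.2 (one_mem _)
    · exact fun v hv => ⟨sub _ hv.1, mem_centralizer_singleton_iff.2 hv.2.symm⟩
    · exact fun v hv => ⟨sub _ hv.1, mem_centralizer_singleton_iff.2 hv.2.symm⟩
  have hdv := card_dvd_of_le (inf_le_left : Q.map π ⊓ centralizer {π r} ≤ Q.map π)
  rw [c16] at hdv fc
  rw [Set.ncard_singleton] at tot2
  have heq := eq_of_le_of_card_ge (inf_le_left : Q.map π ⊓ centralizer {π r} ≤ Q.map π) (by
    rw [c16]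
    have hle := Nat.le_of_dvd (by norm_num) hdv
    unfold Nat.ModEq at fa fb fc
    generalize Nat.card (Q.map π ⊓ centralizer {π r} : Subgroup (G ⧸ Φ)) = n at *
    have : 5 ≤ n := by omega
    interval_cases n <;> omega)
  intro x hx
  have hw : r * x * r⁻¹ * x⁻¹ ∈ Φ := (hπeq _ _).1 (by
    have : π x ∈ Q.map π ⊓ centralizer {π r} := heq.symm ▸ ⟨x, hx, rfl⟩
    rw [map_mul, map_mul, ← mem_centralizer_singleton_iff.1 this.2, map_inv, mul_inv_cancel_right])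
  set w := r * x * r⁻¹ * x⁻¹ with hwd
  have e : r * x = w * x * r := by rw [hwd]; group
  have e2 : r * r * x = x * (r * r) := by
    calc r * r * x = r * (r * x) := by group
      _ = (r * w) * (x * r) := by rw [e]; group
      _ = w * (r * x) * r := by rw [rΦ w hw]; group
      _ = w * w * x * (r * r) := by rw [e]; group
      _ = _ := by rw [h.two w hw, one_mul]
  have e3 : r * r = r⁻¹ := by
    rw [eq_inv_iff_mul_eq_one, ← hr]; simp only [pow_succ, pow_zero, one_mul]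
  rw [e3] at e2
  exact (Commute.inv_left_iff.1 e2).eq

end C2

variable [Finite G]

omit [Finite G] in
theorem exists_odd_lift {Q : Subgroup G} [Q.Normal] (hQ : IsPGroup 2 Q) {p : ℕ} (hp : p ∣ 15) {g : G}
    (hg : g ^ p ∈ Q) : ∃ g' : G, g' ^ p = 1 ∧ (g' : G ⧸ Q) = g := by
  obtain ⟨k, hk⟩ := hQ ⟨_, hg⟩
  have hk' : (g ^ p) ^ 2 ^ k = 1 := congrArg Subtype.val hk
  refine ⟨g ^ 16 ^ k, ?_, ?_⟩
  · rw [← pow_mul, mul_comm, pow_mul, show 16 = 2 * 8 from rfl, mul_pow, pow_mul, hk', one_pow]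
  · have h1 : (g : G ⧸ Q) ^ p = 1 := by rw [← QuotientGroup.mk_pow]; exact (QuotientGroup.eq_one_iff _).2 hg
    have h2 : 16 ^ k ≡ 1 [MOD p] := by
      have := (Nat.ModEq.of_dvd hp (by norm_num : 16 ≡ 1 [MOD 15])).pow k
      rwa [one_pow] at this
    rw [QuotientGroup.mk_pow, pow_eq_pow_of_modEq h2 h1, pow_one]

theorem main (h4 : SectionalPRankLE 2 4 G) {Q : Subgroup G} [hQn : Q.Normal] (hQ : IsPGroup 2 Q)
    (hC : centralizer (Q : Set G) ≤ Q) {f s r : G} (hf : f ^ 5 = 1) (fQ : f ∉ Q) (hs : s * f * s⁻¹ * f ∈ Q)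
    (hs2 : s * s ∈ Q) (hr : r ^ 3 = 1) (rQ : r ∉ Q) (hN : ∀ N : Subgroup G, N.Normal → Q ≤ N → f ∈ N → r ∈ N) :
    (IsElementaryAbelian 2 Q ∧ Nat.card Q = 16) ∨ (Nat.card Q = 32 ∧ ∃ A B : Subgroup Q,
      Nonempty (A ≃* QuaternionGroup 2) ∧ Nonempty (B ≃* DihedralGroup 4) ∧
      (∀ a ∈ A, ∀ b ∈ B, a * b = b * a) ∧ A ⊔ B = ⊤ ∧ A ⊓ B = center Q) := by
  have cf : ∀ y ∈ Fr Q, f * y = y * f := fun y hy =>
    (mem_centralizer_singleton_iff.1 (Fr_le_of hQ (fun x hx => mem_centralizer_singleton_iff.2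
      (cent_sq _ G le_rfl h4 Q hQ f s hf hs hs2 x hx).symm) hy)).symm
  have nf : ∀ x ∈ Q, f * x * f⁻¹ ∈ Q := fun x hx => hQn.conj_mem x hx f
  rcases five h4 (Fr_le Q) (fun x hx => sq_mem_Fr hQ hx) hf nf with h | ⟨cQ, fp⟩
  · refine absurd (hC fun x hx => ?_) fQ
    have hw := h x hx
    set w := f * x * f⁻¹ * x⁻¹ with hwd
    have e : f * x = w * x * f := by rw [hwd]; group
    have e2 : ∀ n : ℕ, f ^ n * x = w ^ n * x * f ^ n := fun n => by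
      induction n with
      | zero => simp
      | succ n ih =>
        calc f ^ (n + 1) * x = f * (f ^ n * x) := by group
          _ = (f * w ^ n) * x * f ^ n := by rw [ih]; group
          _ = w ^ n * (f * x) * f ^ n := by rw [cf _ (pow_mem hw n)]; group
          _ = _ := by rw [e]; group
    have w5 : w ^ 5 = 1 := by simpa [hf] using (e2 5).symm
    obtain ⟨k, hk⟩ := hQ ⟨w, Fr_le Q hw⟩
    have w1 : w = 1 := orderOf_eq_one_iff.1 (Nat.eq_one_of_dvd_coprimes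
      ((by norm_num : Nat.Coprime 5 2).pow_right k) (orderOf_dvd_of_pow_eq_one w5)
      (orderOf_dvd_of_pow_eq_one (congrArg Subtype.val hk)))
    rw [e, w1, one_mul]
  have hfr : ∀ D ≤ Q, Q ≤ Fr Q ⊔ D → Q ≤ D := fun D hD => le_of_le_sup_map_frattini le_rfl hD
  have gen : ∀ D ≤ Q, (∀ x ∈ Q, x * f * x⁻¹ * f⁻¹ ∈ D) → Q ≤ D := fun D hD hc => hfr D hD fun y hy => by
    set π := QuotientGroup.mk' (Fr Q) with hπ
    obtain ⟨_, ⟨x, hx, rfl⟩, e⟩ := surj (H := Q.map π) (f := π f) (by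
      rintro _ ⟨x, hx, rfl⟩
      exact ⟨_, nf x hx, by simp⟩) (by
      rintro _ ⟨x, hx, rfl⟩ hc
      refine (QuotientGroup.eq_one_iff _).2 (fp x hx ((QuotientGroup.eq_one_iff _).1 ?_))
      show π _ = 1
      simp only [map_mul, map_inv]
      rw [hc]; group) _ ⟨y, hy, rfl⟩
    have : y * (x * f * x⁻¹ * f⁻¹)⁻¹ ∈ Fr Q := (QuotientGroup.eq_one_iff _).1 (by
      show π _ = 1
      rw [map_mul, ← e]; simp)
    have := mul_mem (mem_sup_left this : _ ∈ Fr Q ⊔ D) (mem_sup_right (hc x hx))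
    rwa [inv_mul_cancel_right] at this
  have cQ' : ∀ x ∈ Q, x * f * x⁻¹ * f⁻¹ ∈ Q := fun x hx => by
    simpa only [mul_assoc] using Q.mul_mem hx (nf _ (Q.inv_mem hx))
  have fC : f ∈ centralizer (Fr Q : Set G) := fun y hy => (cf y hy).symm
  have hz : Q ≤ centralizer (Fr Q : Set G) := (gen _ inf_le_left fun x hx =>
    mem_inf.2 ⟨cQ' x hx, mul_mem (Normal.conj_mem inferInstance f fC x) (inv_mem fC)⟩).trans inf_le_right
  have cz : ∀ y ∈ Fr Q, ∀ q ∈ Q, q * y = y * q := fun y hy q hq => (hz hq y hy).symm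
  have p4 : ∀ x ∈ Q, ∀ y ∈ Q, x * y * (x * y) * (x * y * (x * y)) = x * x * (x * x) * (y * y * (y * y)) := by
    intro x hx y hy
    have hc : x⁻¹ * y * x * y⁻¹ ∈ Fr Q := by
      have := comm_eq_sq x⁻¹ y
      rw [inv_inv] at this
      rw [this]
      exact mul_mem (mul_mem (sq_mem_Fr hQ (Q.inv_mem hx)) (sq_mem_Fr hQ (Q.mul_mem hx hy)))
        (sq_mem_Fr hQ (Q.inv_mem hy))
    set c := x⁻¹ * y * x * y⁻¹ with hcd
    have cc : c * c = 1 := by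
      have e1 : y * x * y⁻¹ = x * c := by rw [hcd]; group
      have e2 : x * x = x * x * (c * c) := by
        calc x * x = y * (x * x) * y⁻¹ := by rw [cz _ (sq_mem_Fr hQ hx) y hy]; group
          _ = (y * x * y⁻¹) * (y * x * y⁻¹) := by group
          _ = x * (c * x) * c := by rw [e1]; group
          _ = _ := by rw [← cz c hc x hx]; group
      exact left_eq_mul.1 e2
    have e : x * y * (x * y) = x * x * c * (y * y) := by rw [hcd]; group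
    have k1 : Commute (x * x) c := cz c hc _ (Q.mul_mem hx hx)
    have k2 : Commute (x * x * c) (y * y) := cz _ (sq_mem_Fr hQ hy) _ (Q.mul_mem (Q.mul_mem hx hx) (Fr_le Q hc))
    rw [e, ← pow_two, k2.mul_pow, k1.mul_pow, pow_two, pow_two, pow_two, cc, mul_one]
  let D : Subgroup G :=
    { carrier := {x | x ∈ Q ∧ x * x * (x * x) = 1}
      one_mem' := ⟨Q.one_mem, by simp⟩
      mul_mem' := by
        rintro x y ⟨hx, x4⟩ ⟨hy, y4⟩
        exact ⟨Q.mul_mem hx hy, by rw [p4 x hx y hy, x4, y4, one_mul]⟩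
      inv_mem' := by
        rintro x ⟨hx, x4⟩
        exact ⟨Q.inv_mem hx, by rw [← mul_inv_rev, ← mul_inv_rev, x4, inv_one]⟩ }
  have x4 : Q ≤ D := gen D (fun x hx => hx.1) fun x hx => ⟨cQ' x hx, by
    have e := p4 x hx _ (nf _ (Q.inv_mem hx))
    have e2 := cf _ (mul_mem (sq_mem_Fr hQ (Q.inv_mem hx)) (sq_mem_Fr hQ (Q.inv_mem hx)))
    rw [show x * f * x⁻¹ * f⁻¹ = x * (f * x⁻¹ * f⁻¹) by group, e]
    calc _ = x * x * (x * x) * (f * (x⁻¹ * x⁻¹ * (x⁻¹ * x⁻¹)) * f⁻¹) := by group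
      _ = 1 := by rw [e2]; group⟩
  have two : ∀ y ∈ Fr Q, y * y = 1 := fun y hy =>
    (Fr_le_of (N := Om Q (Fr Q) (Fr_le Q)) hQ (fun x hx => ⟨sq_mem_Fr hQ hx, cz _ (sq_mem_Fr hQ hx), (x4 hx).2⟩) hy).2.2
  have H : C2 Q (Fr Q) f := ⟨Fr_le Q, fun x hx => sq_mem_Fr hQ hx, cz, two, cf, nf, hf, fp⟩
  by_cases hall : ∀ x ∈ Q, x * x = 1
  · refine Or.inl ⟨ea_of_sq hall, ?_⟩
    rw [cQ, le_bot_iff.1 (Fr_le_of hQ hall), card_bot]
  push Not at hall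
  obtain ⟨u, hu, hne⟩ := hall
  right
  by_cases hb1 : ⁅u, f * u * f⁻¹⁆ = 1
  · exact H.qd h4 cQ hfr hu hne hb1
  by_cases hb2 : ⁅u, f * (f * u * f⁻¹) * f⁻¹⁆ = 1
  · exact H.sqf.qd h4 cQ hfr hu hne (by rw [← hb2]; congr 1; group)
  have rC := hN _ inferInstance hz fC
  exact absurd (hC fun x hx => (H.no_three cQ hu hne hb1 hb2 hr (fun x hx => hQn.conj_mem x hx r)
    (fun y hy => (rC y hy).symm) x hx).symm) rQ

end CL.GH4F
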