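/-
Groups with eighteen Sylow 17-subgroups.
-/
import Cfsg.Agent.Inv.IsoP4
import Cfsg.Agent.Cls.SL2NormD
import Cfsg.Agent.Perm.SpecGL2
import Cfsg.Agent.Fgs.SylNum
import Cfsg.Agent.Fgs.ClassBasic
import Cfsg.Agent.Grp.Primitive

set_option autoImplicit false

open Subgroup CL.Fgs CL.Grp CL.Perm
open scoped MatrixGroups

namespace CL.Inv

theorem isoP_perm {Ω : Type*} [Finite Ω] {p : ℕ} (hp : p.Prime) (h : Nat.card Ω = p + 1) (h2 : p ≠ 2) :
    IsoP p (Equiv.Perm Ω) := by
  classical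
  have := Fintype.ofFinite Ω
  intro g hg
  rw [← Equiv.Perm.lcm_cycleType] at hg
  obtain ⟨k, hk, hpk⟩ := hp.prime.exists_mem_multiset_dvd
    (hg.trans (Multiset.lcm_dvd.2 fun a ha => Multiset.dvd_prod ha))
  obtain ⟨s, hs⟩ := Multiset.exists_cons_of_mem hk
  have h1 := g.sum_cycleType_le
  rw [hs, Multiset.sum_cons, ← Nat.card_eq_fintype_card, h] at h1
  have h3 := hp.two_le
  have h4 := Equiv.Perm.two_le_of_mem_cycleType hk
  obtain ⟨c, rfl⟩ := hpk
  obtain rfl : c = 1 := by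
    rcases c with _ | _ | c
    · omega
    · rfl
    · exfalso
      have : p * 2 ≤ p * (c + 1 + 1) := Nat.mul_le_mul_left p (by omega)
      omega
  obtain rfl : s = 0 := Multiset.eq_zero_of_forall_notMem fun a ha => by
    have h5 := Equiv.Perm.two_le_of_mem_cycleType (hs ▸ Multiset.mem_cons_of_mem ha : a ∈ g.cycleType)
    have h6 := Multiset.single_le_sum (fun _ _ => Nat.zero_le _) a ha
    omega
  rw [← orderOf_dvd_iff_pow_eq_one, ← Equiv.Perm.lcm_cycleType, hs]
  simp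

theorem card_sylow_three_mul {X : Type*} [Group X] [Finite X] {x : X} (hx : orderOf x = 9) {m : ℕ}
    (hX : Nat.card X = 9 * m) (hm : ¬ 3 ∣ m) :
    Nat.card (Sylow 3 X) * Nat.card (normalizer (zpowers x : Set X)) = Nat.card X := by
  have := Fact.mk Nat.prime_three
  have h1 : IsPGroup 3 (zpowers x) := IsPGroup.of_card (n := 2) (by rw [Nat.card_zpowers, hx]; rfl)
  have h2 : (zpowers x).index = m := by
    have e := (zpowers x).card_mul_index
    rw [Nat.card_zpowers, hx, hX] at e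
    omega
  rw [Sylow.card_eq_index_normalizer (h1.toSylow (h2 ▸ hm))]
  exact index_mul_card _

theorem zass_eighteen {H : Type*} [Group H] [Finite H] [Fact (Nat.Prime 17)] (h : IsoP 17 H)
    (hP : ∀ P : Sylow 17 H, Nat.card P = 17 ^ 1) (hn : Nat.card (Sylow 17 H) = 17 ^ 1 + 1)
    {F : Type*} [Field F] [Fintype F] (hF : Fintype.card F = 17) :
    (Nonempty (H ≃* PSL(2, F)) ∨ Nonempty (H ≃* PGL(2, F))) ∧ Nat.card H ∣ 4896 ∧
      Nat.card (Sylow 2 H) = 153 ∧ Nat.card (Sylow 3 H) = 136 := by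
  have := Fact.mk Nat.prime_two
  have := Fact.mk Nat.prime_three
  have hchar : CharP F 17 := charP_of_card_eq_prime hF
  have hZ := h.isZ one_ne_zero hP hn
  obtain ⟨a, b, -, hab, -⟩ := hZ.three
  have hH := hZ.card_group hab
  rw [hn] at hH
  have hne : stab2 H a b ≠ ⊥ := fun e => by
    rw [e, card_bot] at hH
    have h1 := sum_card_orderOf (G := H) (n := 306) (by norm_num)
    have h2 : Nat.card {g : H // g ^ 306 = 1} ≤ 306 := (Finite.card_subtype_le _).trans (by omega)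
    have h3 : ∑ k ∈ ({2, 3, 17} : Finset ℕ), Nat.card {g : H // orderOf g = k} ≤
        ∑ k ∈ (306 : ℕ).divisors, Nat.card {g : H // orderOf g = k} :=
      Finset.sum_le_sum_of_subset (by decide)
    rw [Finset.sum_insert (by decide), Finset.sum_pair (by decide)] at h3
    have h4 : ∀ k : ℕ, k.Prime → k ∣ 306 → k ≠ 17 → 17 ≤ Nat.card {g : H // orderOf g = k} :=
      fun k hk hk1 hk2 => by
        have := Fact.mk hk
        obtain ⟨g, hg⟩ := exists_prime_orderOf_dvd_card' (G := H) k (by rw [hH]; exact hk1)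
        have : Nonempty {g : H // orderOf g = k} := ⟨⟨g, hg⟩⟩
        exact Nat.le_of_dvd Nat.card_pos (by
          simpa [hP a] using h.card_dvd_card_orderOf a hk.ne_one hk2)
    have h5 := h4 2 Nat.prime_two (by norm_num) (by norm_num)
    have h6 := h4 3 Nat.prime_three (by norm_num) (by norm_num)
    have h7 := h.card_orderOf_prime (n := 1) (m := 18) (d := 16) (by omega) one_ne_zero (by norm_num)
      (by norm_num)
    omega
  obtain ⟨⟨g, hg⟩, hg1⟩ := ne_bot_iff_exists_ne_one.1 hne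
  have hcases := zassenhaus_cases (G := H) ⟨hZ.faithful, hZ.two_trans, fun g a b c h1 h2 h3 h4 h5 h6 =>
    hZ.fix3 h1 h2 h3 h4 h5 h6, ⟨g, fun e => hg1 (Subtype.ext e), a, b, hab, hg.1, hg.2⟩,
    fun N hN hNt => by
      by_contra hc
      push Not at hc
      have e := hZ.card_eq_two_pow_of_regular hab N hc le_rfl hne
      rw [hn] at e
      have e2 : 3 ∣ 2 ^ Nat.card (stab2 H a b) := e ▸ (by norm_num)
      exact absurd (Nat.prime_three.dvd_of_dvd_pow e2) (by norm_num)⟩ hab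
  have key : (Nat.card (stab2 H a b) = 2 ^ 3 ∧ Nonempty (H ≃* PSL(2, F))) ∨
      (Nat.card (stab2 H a b) = 2 ^ 4 ∧ Nonempty (H ≃* PGL(2, F))) := by
    rcases hcases with h1 | ⟨h0, K, _, _, h1, -, ⟨e1⟩⟩ | ⟨K, _, _, k, -, -, h1, -⟩
    · obtain ⟨K, _, _, h4, ⟨e1⟩⟩ := (hZ.isSharp3_of_card hab h1).pgl2_of_comm hab
        ((hZ.isSharp3_of_card hab h1).comm_of_odd_pow (p := 17) (f := 1) (by norm_num) (by norm_num)
          odd_one hn hab)
      obtain ⟨e2⟩ := CL.SL2.nonempty_pgl_equiv_of_card_eq (ι := Fin 2) (K := K) (L := F) (by omega)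
      exact Or.inr ⟨by omega, ⟨e1.trans e2⟩⟩
    · obtain ⟨e2⟩ := CL.SLn.nonempty_psl_equiv_of_card_eq (ι := Fin 2) (K := K) (L := F) (by omega)
      exact Or.inl ⟨by omega, ⟨e1.trans e2⟩⟩
    · exfalso
      have h4 : 2 ∣ (2 ^ (2 * k + 1)) ^ 2 := dvd_pow (dvd_pow_self 2 (by omega)) two_ne_zero
      omega
  refine ⟨key.imp And.right And.right, by
    rcases key with ⟨h1, -⟩ | ⟨h1, -⟩ <;> rw [hH, h1] <;> norm_num, ?_, ?_⟩
  · obtain ⟨j, hj, hj2⟩ : ∃ j, Nat.card (stab2 H a b) = 2 ^ j ∧ 2 < 2 ^ j :=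
      key.elim (fun h => ⟨3, h.1, by norm_num⟩) fun h => ⟨4, h.1, by norm_num⟩
    have h1 := hZ.card_pairStab hab
    have h2 : (pairStab H a b).index = 153 := by
      have e := (pairStab H a b).card_mul_index
      rw [h1, hH] at e
      refine Nat.eq_of_mul_eq_mul_left (show 0 < 2 * Nat.card (stab2 H a b) by omega) ?_
      rw [e]
      ring
    have h3 : IsPGroup 2 (pairStab H a b) := IsPGroup.of_card (n := j + 1) (by rw [h1, hj]; ring)
    obtain ⟨y, hy, hy2⟩ : ∃ y ∈ stab2 H a b, y * y ≠ 1 := by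
      by_contra hc
      push Not at hc
      have e : (stab2 H a b : Set H) ⊆ {1, g} := fun y hy => by
        by_cases h1 : y = 1
        · exact Or.inl h1
        · exact Or.inr (invol_stab2_unique hZ hab hy h1 (hc y hy) hg (fun e => hg1 (Subtype.ext e))
            (hc g hg))
      have e2 := (Set.ncard_le_ncard e).trans ((Set.ncard_insert_le 1 {g}).trans (by rw [Set.ncard_singleton]))
      rw [← Nat.card_coe_set_eq] at e2
      have e3 : Nat.card (stab2 H a b) ≤ 2 := e2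
      omega
    rw [Sylow.card_eq_index_normalizer (h3.toSylow (by rw [h2]; norm_num))]
    refine Eq.trans (congrArg index ?_) h2
    refine le_antisymm (fun c hc => ?_) le_normalizer
    refine hZ.mem_pairStab_of_conj hab (mul_mem hy hy) hy2 ?_
    rw [show c * (y * y) * c⁻¹ = c * y * c⁻¹ * (c * y * c⁻¹) by group]
    rcases (mem_normalizer_iff.1 hc y).1 (stab2_le_pairStab a b hy) with ⟨e1, e2⟩ | ⟨e1, e2⟩
    · exact mem_stab2.2 ⟨by rw [mul_smul, e1, e1], by rw [mul_smul, e2, e2]⟩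
    · exact mem_stab2.2 ⟨by rw [mul_smul, e1, e2], by rw [mul_smul, e2, e1]⟩
  · rcases key with ⟨h1, ⟨e⟩⟩ | ⟨h1, ⟨e⟩⟩
    · obtain ⟨x, hx⟩ : 9 ∈ Spec PSL(2, F) := by rw [spec_PSL2 17, hF]; norm_num
      have hc : Nat.card PSL(2, F) = 9 * 272 := by rw [← Nat.card_congr e.toEquiv, hH, h1]; norm_num
      have : Finite PSL(2, F) := Nat.finite_of_card_ne_zero (by omega)
      have h2 := card_sylow_three_mul hx hc (by norm_num)
      obtain ⟨k, hk1, hk2, ⟨f⟩⟩ := CL.SL2.normalizer_psl 17 (x := x) (by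
        rw [Ne, ← orderOf_dvd_iff_pow_eq_one, hx]; norm_num)
      rw [hx] at hk1
      rw [hF] at hk2
      norm_num at hk2
      rw [Nat.card_congr f.toEquiv, DihedralGroup.nat_card, show k = 9 by omega, hc] at h2
      rw [card_sylow_congr e]
      omega
    · obtain ⟨x, hx⟩ : 9 ∈ Spec PGL(2, F) := by
        have e1 := spec_PGL2 (F := F) 17
        change Spec PGL(2, F) = _ at e1
        rw [e1, hF]
        norm_num
      have hc : Nat.card PGL(2, F) = 9 * 544 := by rw [← Nat.card_congr e.toEquiv, hH, h1]; norm_num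
      have : Finite PGL(2, F) := Nat.finite_of_card_ne_zero (by omega)
      have h2 := card_sylow_three_mul hx hc (by norm_num)
      obtain ⟨k, hk1, hk2, ⟨f⟩⟩ := CL.SL2.normalizer_pgl 17 (x := x) (by
        rw [Ne, ← orderOf_dvd_iff_pow_eq_one, hx]; norm_num)
      rw [hx] at hk1
      rw [hF] at hk2
      rw [Nat.card_congr f.toEquiv, DihedralGroup.nat_card, show k = 18 by omega, hc] at h2
      rw [card_sylow_congr e]
      omega

variable {G : Type*} [Group G] [Finite G]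

/-- A normal subgroup normalising all Sylow subgroups is trivial if the centre is. -/
theorem eq_bot_of_le_normalizer_sylow (hZ : center G = ⊥) (K : Subgroup G) [hK : K.Normal]
    (h : ∀ r : ℕ, r.Prime → r ∣ Nat.card G → ∀ R : Sylow r G, K ≤ normalizer ((R : Subgroup G) : Set G)) :
    K = ⊥ := by
  by_contra hne
  obtain ⟨r, hr, hrK⟩ := Nat.exists_prime_and_dvd (fun e => hne (card_eq_one.1 e) : Nat.card K ≠ 1)
  have := Fact.mk hr
  obtain ⟨R⟩ : Nonempty (Sylow r G) := inferInstance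
  have hR := isSylowIn_inf_normal R K
  have h1 : r ∣ Nat.card ((R : Subgroup G) ⊓ K : Subgroup G) := by
    rw [hR.card_eq_pow]
    exact dvd_pow_self r (hr.factorization_pos_of_dvd Nat.card_pos.ne' hrK).ne'
  obtain ⟨⟨z, ⟨hzR, hzK⟩, hzC⟩, hz1⟩ := ne_bot_iff_exists_ne_one.1 (inf_centralizer_ne_bot_of_isPGroup
    R.isPGroup' (le_normalizer_inf le_normalizer (by rw [normalizer_eq_top]; exact le_top)) h1)
  refine hz1 (Subtype.ext (mem_bot.1 (hZ ▸ cs_eq_one_iff.1 ?_)))
  by_contra hc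
  obtain ⟨s, hs, hsz⟩ := Nat.exists_prime_and_dvd hc
  have := Fact.mk hs
  by_cases e : s = r
  · subst e
    exact not_dvd_cs_iff.2 ⟨R, fun g hg => mem_cent.2 (hzC g hg)⟩ hsz
  obtain ⟨S⟩ : Nonempty (Sylow s G) := inferInstance
  refine not_dvd_cs_iff.2 ⟨S, fun g hg => ?_⟩ hsz
  have e1 : g * (z * g⁻¹ * z⁻¹) ∈ (S : Subgroup G) := mul_mem hg
    ((mem_normalizer_iff.1 (h s hs (hsz.trans (cs_dvd_card z)) S hzK) _).1 (inv_mem hg))
  have e2 : g * z * g⁻¹ ∈ (R : Subgroup G) := by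
    have e3 : zpowers (g * z * g⁻¹) ⊓ normalizer (R : Set G) = zpowers (g * z * g⁻¹) ⊓ R :=
      (((isPiElt_singleton_of_mem R.isPGroup' hzR).conj g).isPGroup_zpowers).inf_normalizer_sylow R
    exact (e3.le ⟨mem_zpowers _, h r hr (hrK.trans (card_subgroup_dvd_card K)) R
      (hK.conj_mem z hzK g)⟩).2
  have e4 : g * (z * g⁻¹ * z⁻¹) ∈ (R : Subgroup G) := by
    simpa [mul_assoc] using mul_mem e2 (inv_mem hzR)
  have e5 := (isPiElt_singleton_of_mem S.isPGroup' e1).eq_one
    ((isPiElt_singleton_of_mem R.isPGroup' e4).mono (by simpa using e))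
  rw [mem_cent_iff_conj, ← mul_inv_eq_one, ← e5]
  group

/-- Sylow subgroups inside a `p`-closed normal subgroup. -/
theorem not_dvd_card_sylow_of_le {p r : ℕ} [hp : Fact p.Prime] [hr : Fact r.Prime] (K : Subgroup G)
    [hK : K.Normal] (h : ∀ P : Sylow p G, K ≤ normalizer ((P : Subgroup G) : Set G))
    (hrK : ¬ r ∣ K.index) (hpr : ¬ r ∣ p - 1) (hne : r ≠ p) (h2 : ¬ p ^ 2 ∣ Nat.card (Sylow r G)) :
    ¬ p ∣ Nat.card (Sylow r G) := by
  obtain ⟨P⟩ : Nonempty (Sylow p G) := inferInstance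
  obtain ⟨Q⟩ : Nonempty (Sylow r G) := inferInstance
  have hQ := sylow_le_of_not_dvd_index K hrK Q
  have hn : Nat.card (Sylow r G) = (normalizer ((Q : Subgroup G) : Set G)).relIndex K := by
    rw [← card_sylow_of_normal_of_le K Q hQ, card_sylow_subgroup (isSylowIn_of_le Q hQ)]
  have hA := isSylowIn_inf_normal P K
  set A := (P : Subgroup G) ⊓ K with hAdef
  set N := normalizer ((Q : Subgroup G) : Set G) with hN
  have hKA : K ≤ normalizer (A : Set G) := le_normalizer_inf (h P) le_normalizer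
  have h1 : N.relIndex A ∣ N.relIndex K := by
    have : (A.subgroupOf K).Normal := normal_subgroupOf_of_le_normalizer' hKA
    have e := relIndex_dvd_index_of_normal (N.subgroupOf K) (A.subgroupOf K)
    rwa [relIndex_subgroupOf hA.le] at e
  have h3 : A ⊓ centralizer (Q : Set G) = N ⊓ A := by
    refine le_antisymm (fun x hx => ⟨centralizer_le_normalizer _ hx.2, hx.1⟩) fun x hx => ⟨hx.2, ?_⟩
    intro g hg
    have e1 : g * (x * g⁻¹ * x⁻¹) ∈ (Q : Subgroup G) :=
      mul_mem hg ((mem_normalizer_iff.1 hx.1 _).1 (inv_mem hg))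
    have e2 : g * (x * g⁻¹ * x⁻¹) ∈ A := by
      simpa [mul_assoc] using mul_mem ((mem_normalizer_iff.1 (hKA (hQ hg)) _).1 hx.2) (inv_mem hx.2)
    have e5 := (isPiElt_singleton_of_mem Q.isPGroup' e1).eq_one
      ((isPiElt_singleton_of_mem hA.isPGroup e2).mono (by simpa using hne))
    calc g * x = g * (x * g⁻¹ * x⁻¹) * x * g := by group
      _ = x * g := by rw [e5, one_mul]
  have h4 := card_modEq_card_inf_centralizer Q.isPGroup' (hQ.trans hKA)
  rw [show ((Q : Subgroup G) : Set G) = (Q : Set G) from rfl, h3, ← card_inf_mul_relIndex N A] at h4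
  obtain ⟨k, hk⟩ := hA.isPGroup.exists_card_eq
  obtain ⟨i, -, hi⟩ := (Nat.dvd_prime_pow hp.out).1
    (hk ▸ Dvd.intro_left _ (card_inf_mul_relIndex N A) : N.relIndex A ∣ p ^ k)
  obtain ⟨j, hj⟩ := (hA.isPGroup.to_le (inf_le_right : N ⊓ A ≤ A)).exists_card_eq
  have hi0 : i = 0 := by
    rcases i with _ | _ | i
    · rfl
    · exfalso
      rw [hi, hj, zero_add, pow_one] at h4
      have e := Nat.ModEq.cancel_left_of_coprime (c := p ^ j) (a := p) (b := 1)
        (Nat.Coprime.pow_right j ((Nat.coprime_primes hr.out hp.out).2 hne)) (by rwa [mul_one])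
      exact hpr ((Nat.modEq_iff_dvd' hp.out.one_le).1 e.symm)
    · exact absurd ((pow_dvd_pow p (by omega)).trans (hi ▸ hn ▸ h1)) h2
  rw [hi0, pow_zero, relIndex_eq_one] at hi
  rw [hn, ← inf_relIndex_right]
  exact hA.not_dvd_relIndex_of_le (le_inf hi hA.le) inf_le_right

end CL.Inv
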