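/-
Permutation facts for the step (NORM2): the alternating groups of degree `5, 6, 7`.
-/
import Cfsg.Agent.Base
import Mathlib.GroupTheory.SpecificGroups.Alternating
import Mathlib.Data.ZMod.Basic

set_option autoImplicit false
open Equiv

namespace CL.R14.N2

variable (n : ℕ) [NeZero n]

def fb : Perm (Fin n) := List.formPerm [0, 1, 2, 3, 4]
def sb : Perm (Fin n) := swap 1 4 * swap 2 3
def mb : Perm (Fin n) := swap 1 2 * swap 3 4
def m2 : Perm (Fin n) := swap 0 5 * swap 1 4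

variable {n}

/-- generators of `A₅` -/
def Tri (f s m : Perm (Fin n)) : Prop := Perm.sign f = 1 ∧ Perm.sign s = 1 ∧ Perm.sign m = 1 ∧ f ≠ 1 ∧ f ^ 5 = 1 ∧
  s * s = 1 ∧ m * m = 1 ∧ s * f * s * f = 1 ∧ s * m * s⁻¹ * m⁻¹ = 1 ∧ (f * m) ^ 3 = 1

instance (f s m : Perm (Fin n)) : Decidable (Tri f s m) := by unfold Tri; infer_instance

/-- the `2`-elements centralising the four-group lie in it -/
def Cen (s m : Perm (Fin n)) : Prop := ∀ p : Perm (Fin n), p * s = s * p → p * m = m * p → p ^ 16 = 1 →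
  (n = 5 ∨ Perm.sign p = 1) → p = 1 ∨ p * s = 1 ∨ p * m = 1 ∨ p * (s * m) = 1

instance (s m : Perm (Fin n)) : Decidable (Cen s m) := by unfold Cen; infer_instance

theorem tri5 : Tri (fb 5) (sb 5) (mb 5) := by decide +kernel
theorem tri6 : Tri (fb 6) (sb 6) (mb 6) ∧ Tri (fb 6) (sb 6) (m2 6) := by decide +kernel
theorem tri7 : Tri (fb 7) (sb 7) (mb 7) ∧ Tri (fb 7) (sb 7) (m2 7) := by decide +kernel
theorem cen5 : Cen (sb 5) (mb 5) := by decide +kernel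
theorem cen6 : Cen (sb 6) (mb 6) ∧ Cen (sb 6) (m2 6) := by decide +kernel

theorem all7 {P : Perm (Fin 7) → Prop} (h : ∀ (i : Fin 7) (q : Perm (Fin 6)), P (Perm.decomposeFin.symm (i, q)))
    (p : Perm (Fin 7)) : P p := by
  simpa using h (Perm.decomposeFin p).1 (Perm.decomposeFin p).2

theorem cen7 : Cen (sb 7) (mb 7) := all7 (by decide +kernel)
theorem cen7' : Cen (sb 7) (m2 7) := all7 (by decide +kernel)

theorem stab5 : ∀ p : Perm (Fin 5), p 0 = 0 → ∀ v, v = sb 5 ∨ v = mb 5 →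
    p⁻¹ * v * p = sb 5 ∨ p⁻¹ * v * p = mb 5 ∨ p⁻¹ * v * p = sb 5 * mb 5 := by
  simp only [forall_eq_or_imp, forall_eq]
  decide +kernel

theorem fb_pow : ∀ i : Fin 5, (fb 5 ^ i.1) 0 = i := by decide +kernel

/-- the group `3²` -/
abbrev Γ : Type := Multiplicative (ZMod 3 × ZMod 3)

variable (n)

def ph (g : Γ) : Perm (Fin n) :=
  List.formPerm [0, 1, 3] ^ g.toAdd.1.val * List.formPerm [2, 4, 5] ^ g.toAdd.2.val

def cjs : List (Perm (Fin n)) := [1, swap 0 1 * swap 0 2 * swap 1 4 * swap 3 5, swap 0 1 * swap 0 2 * swap 1 5 * swap 3 4,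
  swap 0 4 * swap 1 2, swap 0 1 * swap 3 5, swap 0 1 * swap 2 4, swap 2 3 * swap 2 5, swap 0 2 * swap 1 4]

/-- the subgroup `3²` of `A₆` -/
def Ph : Prop := ph n 1 = 1 ∧ (∀ g h : Γ, ph n (g * h) = ph n g * ph n h) ∧ (∀ g : Γ, Perm.sign (ph n g) = 1) ∧
  ∀ g : Γ, g ≠ 1 → ph n g ≠ 1 ∧ ∃ q ∈ cjs n, Perm.sign q = 1 ∧
    (ph n g = q * (fb n * mb n) * q⁻¹ ∨ ph n g = q * (fb n * m2 n) * q⁻¹)

instance : Decidable (Ph n) := by unfold Ph; infer_instance

theorem ph6 : Ph 6 := by decide +kernel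
theorem ph7 : Ph 7 := by decide +kernel
theorem cubeΓ : ∀ g : Γ, g ^ 3 = 1 := by decide +kernel

end CL.R14.N2
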