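/-
Extensions of a group of order at most `3` by an alternating or symmetric group, acting on a group of order `16`.
-/
import Cfsg.Agent.Inv.R14N2a
import Mathlib.GroupTheory.SpecificGroups.Cyclic
import Mathlib.GroupTheory.GroupAction.Quotient
import Mathlib.GroupTheory.GroupAction.FixedPoints

set_option autoImplicit false
set_option linter.unusedSectionVars false
open Subgroup Equiv
open scoped commutatorElement

namespace CL.R14.N2

variable {K : Type*} [Group K] {n : ℕ} [NeZero n] {χ : K →* Perm (Fin n)}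

/-- the kernel has order `1` or `3`, the image contains the alternating group -/
structure HK (χ : K →* Perm (Fin n)) : Prop where
  z3 : Nat.card χ.ker ∣ 3
  alt : alternatingGroup (Fin n) ≤ χ.range

/-- relations -/
structure Lf (f s m : K) : Prop where
  f5 : f ^ 5 = 1
  s2 : s * s = 1
  m2 : m * m = 1
  sf : s * f * s * f = 1
  sm : ⁅s, m⁆ = 1
  fm : (f * m) ^ 9 = 1

namespace HK

theorem cube (H : HK χ) {ζ : K} (h : χ ζ = 1) : ζ ^ 3 = 1 := by
  have : (⟨ζ, h⟩ : χ.ker) ^ 3 = 1 := orderOf_dvd_iff_pow_eq_one.1 ((_root_.orderOf_dvd_natCard _).trans H.z3)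
  exact congrArg Subtype.val this

theorem one (H : HK χ) {ζ : K} (h : χ ζ = 1) {k : ℕ} (hk : Nat.Coprime 3 k) (h2 : ζ ^ k = 1) : ζ = 1 :=
  orderOf_eq_one_iff.1 (Nat.eq_one_of_dvd_coprimes hk (orderOf_dvd_of_pow_eq_one (H.cube h))
    (orderOf_dvd_of_pow_eq_one h2))

theorem sqc (H : HK χ) (g : K) {ζ : K} (h : χ ζ = 1) : g ^ 2 * ζ = ζ * g ^ 2 := by
  haveI : Fact (Nat.Prime 3) := ⟨Nat.prime_three⟩
  haveI : Finite χ.ker := Nat.finite_of_card_ne_zero (fun e => by have := H.z3; rw [e] at this; omega)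
  haveI : IsCyclic χ.ker := isCyclic_of_card_dvd_prime H.z3
  have hc : Nat.card (MulAut χ.ker) ∣ 2 := by
    rw [IsCyclic.card_mulAut]
    rcases (Nat.dvd_prime Nat.prime_three).1 H.z3 with e | e <;> rw [e] <;> decide
  have h1 : (MulAut.conjNormal g : MulAut χ.ker) ^ 2 = 1 :=
    orderOf_dvd_iff_pow_eq_one.1 ((_root_.orderOf_dvd_natCard _).trans hc)
  rw [← map_pow] at h1
  have e := congrArg (fun φ : MulAut χ.ker => ((φ ⟨ζ, h⟩ : χ.ker) : K)) h1
  simp only [MulAut.conjNormal_apply, MulAut.one_apply] at e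
  exact mul_inv_eq_iff_eq_mul.1 e

theorem cent (H : HK χ) {k : K} (hk : Perm.sign (χ k) = 1) {ζ : K} (h : χ ζ = 1) : Commute k ζ := by
  have key : alternatingGroup (Fin n) ≤ (centralizer (χ.ker : Set K)).map χ := by
    rw [← Perm.closure_three_cycles_eq_alternating, closure_le]
    intro c hc
    obtain ⟨t, ht⟩ := H.alt (Perm.IsThreeCycle.mem_alternatingGroup hc)
    refine ⟨(t ^ 2) ^ 2, fun η hη => (H.sqc _ hη).symm, ?_⟩
    have : c ^ 3 = 1 := by rw [← Perm.IsThreeCycle.orderOf hc]; exact pow_orderOf_eq_one c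
    rw [map_pow, map_pow, ht, ← pow_mul]
    show c ^ (3 + 1) = c
    rw [pow_succ, this, one_mul]
  obtain ⟨c, hc, e⟩ := key (Perm.mem_alternatingGroup.2 hk)
  have h1 : χ (c⁻¹ * k) = 1 := by simp [e]
  have h2 : ((c⁻¹ * k) ^ 2) ^ 2 = c⁻¹ * k := by
    rw [← pow_mul]
    show (c⁻¹ * k) ^ (3 + 1) = _
    rw [pow_succ, H.cube h1, one_mul]
  have h3 : Commute (c⁻¹ * k) ζ := by rw [← h2]; exact H.sqc _ h
  have h4 : Commute c ζ := (hc ζ h).symm
  simpa using h4.mul_left h3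

theorem lift2 (H : HK χ) {v : Perm (Fin n)} (h : Perm.sign v = 1) (h2 : v * v = 1) : ∃ s : K, χ s = v ∧ s * s = 1 := by
  obtain ⟨s, hs⟩ := H.alt (Perm.mem_alternatingGroup.2 h)
  refine ⟨s ^ 3, ?_, ?_⟩
  · rw [map_pow, hs, pow_succ, pow_two, h2, one_mul]
  · have := H.cube (ζ := s ^ 2) (by rw [map_pow, hs, pow_two, h2])
    rw [← pow_mul] at this
    rw [← pow_add]; exact this

theorem lift (H : HK χ) {f' s' m' : Perm (Fin n)} (T : Tri f' s' m') :
    ∃ f s m : K, χ f = f' ∧ χ s = s' ∧ χ m = m' ∧ Lf f s m := by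
  obtain ⟨e1, e2, e3, -, t1, t2, t3, t4, t5, t6⟩ := T
  obtain ⟨s, hs, s2⟩ := H.lift2 e2 t2
  obtain ⟨m, hm, m2⟩ := H.lift2 e3 t3
  obtain ⟨f0, hf0⟩ := H.alt (Perm.mem_alternatingGroup.2 e1)
  have hf : χ (f0 ^ 6) = f' := by
    rw [map_pow, hf0]
    show f' ^ (5 + 1) = _
    rw [pow_succ, t1, one_mul]
  have f5 : (f0 ^ 6) ^ 5 = 1 := by
    have := H.cube (ζ := f0 ^ 5) (by rw [map_pow, hf0, t1])
    rw [← pow_mul] at this ⊢
    show f0 ^ (5 * 3 * 2) = 1
    rw [pow_mul, this, one_pow]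
  generalize f0 ^ 6 = f at hf f5
  have si : s⁻¹ = s := inv_eq_of_mul_eq_one_right s2
  have mi : m⁻¹ = m := inv_eq_of_mul_eq_one_right m2
  refine ⟨f, s, m, hf, hs, hm, f5, s2, m2, ?_, ?_, ?_⟩
  · have h1 : χ (s * f * s * f) = 1 := by simp only [map_mul, hs, hf, t4]
    refine H.one h1 (k := 5) (by decide) ?_
    have c : Commute (s * f * s * f) f⁻¹ := (H.cent (by rw [hf, e1]) h1).symm.inv_right
    have := c.mul_pow 5
    rw [mul_inv_cancel_right, inv_pow, f5, inv_one, mul_one] at this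
    rw [← this]
    nth_rewrite 2 [← si]
    rw [conj_pow, f5]; simp
  · have h1 : χ ⁅s, m⁆ = 1 := by rw [commutatorElement_def]; simp only [map_mul, map_inv, hs, hm, t5]
    refine H.one h1 (k := 2) (by decide) ?_
    have c : Commute ⁅s, m⁆ m := (H.cent (by rw [hm, e3]) h1).symm
    have := c.mul_pow 2
    rw [pow_two m, m2, mul_one] at this
    rw [← this, commutatorElement_def, inv_mul_cancel_right, conj_pow, pow_two, m2]; simp
  · have := H.cube (ζ := (f * m) ^ 3) (by rw [map_pow, map_mul, hf, hm, t6])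
    rwa [← pow_mul] at this

theorem cen (H : HK χ) (hn : n = 5 ∨ (n = 6 ∨ n = 7) ∧ χ.range ≤ alternatingGroup (Fin n)) {f s m : K} (L : Lf f s m)
    (C : Cen (χ s) (χ m)) {x : K} {k : ℕ} (hx : x ^ 2 ^ k = 1) (h1 : Commute x s) (h2 : Commute x m) :
    x = 1 ∨ x * s = 1 ∨ x * m = 1 ∨ x * (s * m) = 1 := by
  have p16 : χ x ^ 16 = 1 := by
    have d1 : orderOf (χ x) ∣ 2 ^ k := orderOf_dvd_of_pow_eq_one (by rw [← map_pow, hx, map_one])
    have d2 : orderOf (χ x) ∣ 5040 := by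
      refine (_root_.orderOf_dvd_natCard _).trans ?_
      rw [Nat.card_perm, Nat.card_eq_fintype_card, Fintype.card_fin]
      rcases hn with rfl | ⟨rfl | rfl, -⟩ <;> decide
    obtain ⟨j, -, e⟩ := (Nat.dvd_prime_pow Nat.prime_two).1 d1
    refine orderOf_dvd_iff_pow_eq_one.1 ?_
    rw [e] at d2 ⊢
    by_cases hj : j ≤ 4
    · exact pow_dvd_pow 2 hj
    · exact absurd ((pow_dvd_pow 2 (show 5 ≤ j by omega)).trans d2) (by decide)
  have sm : Commute s m := commutatorElement_eq_one_iff_commute.1 L.sm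
  have fin : ∀ v : K, v * v = 1 → Commute x v → χ x * χ v = 1 → x * v = 1 := fun v v2 c e => by
    refine H.one (by rw [map_mul, e]) (k := 2 ^ (k + 1)) (Nat.Coprime.pow_right _ (by decide)) ?_
    rw [c.mul_pow, pow_succ, pow_mul, hx, one_pow, one_mul, mul_comm, pow_mul, pow_two, v2, one_pow]
  rcases C (χ x) (by rw [← map_mul, ← map_mul, h1.eq]) (by rw [← map_mul, ← map_mul, h2.eq]) p16
    (hn.imp id fun h => Perm.mem_alternatingGroup.1 (h.2 ⟨x, rfl⟩)) with e | e | e | e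
  · exact .inl (by simpa using fin 1 (by simp) (by simp) (by simpa using e))
  · exact .inr (.inl (fin s L.s2 h1 e))
  · exact .inr (.inr (.inl (fin m L.m2 h2 e)))
  · refine .inr (.inr (.inr (fin (s * m) ?_ (h1.mul_right h2) (by rwa [map_mul]))))
    rw [← pow_two, sm.mul_pow, pow_two, pow_two, L.s2, L.m2, one_mul]

end HK

variable {V : Type*} [Group V] {ρ : K →* MulAut V}

/-- the orthogonal module -/
structure TyF (ρ : K →* MulAut V) (f s m : K) (z : V) : Prop where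
  fix : ∃ a, a ≠ 1 ∧ ρ (f * m) a = a
  ne : z ≠ 1
  uq : ∀ a, ρ s a = a ∧ ρ m a = a ↔ a = 1 ∨ a = z
  gen : closure (Set.range fun i : Fin 5 => ρ (f ^ i.1) z) = ⊤
  prod : z * ρ f z * ρ (f ^ 2) z * ρ (f ^ 3) z * ρ (f ^ 4) z = 1

theorem act_mul (a b : K) (v : V) : ρ (a * b) v = ρ a (ρ b v) := by rw [map_mul]; rfl

theorem TyF.fixz {f s m : K} {z : V} (F : TyF ρ f s m z) {k : K} (h1 : ρ (k⁻¹ * s * k) z = z)
    (h2 : ρ (k⁻¹ * m * k) z = z) : ρ k z = z := by
  have e : ∀ v : K, ρ (k⁻¹ * v * k) z = z → ρ v (ρ k z) = ρ k z := fun v h => by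
    have := congrArg (ρ k) h
    rwa [← act_mul, ← mul_assoc, ← mul_assoc, mul_inv_cancel, one_mul, act_mul] at this
  rcases (F.uq _).1 ⟨e s h1, e m h2⟩ with h | h
  · exact absurd ((map_eq_one_iff _ (ρ k).injective).1 h) F.ne
  · exact h

theorem TyF.inj {f s m : K} {z : V} (F : TyF ρ f s m z) (H : HK χ) (hρ : Function.Injective ρ)
    (T : Tri (χ f) (χ s) (χ m)) : Function.Injective χ := by
  rw [injective_iff_map_eq_one]
  intro ζ h
  have hz := (F.uq z).2 (.inr rfl)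
  have c : ∀ v : K, Perm.sign (χ v) = 1 → ζ⁻¹ * v * ζ = v := fun v hv => by
    rw [mul_assoc, (H.cent hv h).eq, inv_mul_cancel_left]
  have z1 : ρ ζ z = z := F.fixz (by rw [c s T.2.1]; exact hz.1) (by rw [c m T.2.2.1]; exact hz.2)
  apply hρ
  rw [map_one]
  apply MulEquiv.toMonoidHom_injective
  refine MonoidHom.eq_of_eqOn_dense F.gen ?_
  rintro _ ⟨i, rfl⟩
  show ρ ζ (ρ (f ^ i.1) z) = ρ (f ^ i.1) z
  rw [← act_mul, ← ((H.cent T.1 h).pow_left i.1).eq, act_mul, z1]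

theorem TyF.act5 {χ : K →* Perm (Fin 5)} {f s m : K} {z : V} (F : TyF ρ f s m z) (hχ : Function.Injective χ)
    (hf : χ f = fb 5) (hs : χ s = sb 5) (hm : χ m = mb 5) (k : K) (i : Fin 5) :
    ρ k (ρ (f ^ i.1) z) = ρ (f ^ (χ k i).1) z := by
  have hz := (F.uq z).2 (.inr rfl)
  set k' := (f ^ (χ k i).1)⁻¹ * k * f ^ i.1 with hk
  have h0 : χ k' 0 = 0 := by
    rw [hk, map_mul, map_mul, map_inv, map_pow, map_pow, hf, Perm.mul_apply, Perm.mul_apply, fb_pow,
      Perm.inv_eq_iff_eq, fb_pow]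
  have e : ∀ v : K, χ v = sb 5 ∨ χ v = mb 5 → ρ (k'⁻¹ * v * k') z = z := fun v hv => by
    have := stab5 _ h0 _ hv
    rw [← map_inv, ← map_mul, ← map_mul, ← hs, ← hm, ← map_mul] at this
    rcases this with h | h | h <;> rw [hχ h]
    exacts [hz.1, hz.2, by rw [act_mul, hz.2, hz.1]]
  have := congrArg (ρ (f ^ (χ k i).1)) (F.fixz (e s (.inl hs)) (e m (.inr hm)))
  rwa [← act_mul, hk, ← mul_assoc, mul_inv_cancel_left, act_mul] at this

theorem fix4 [Finite V] (hV : Nat.card V = 16) {τ : MulAut V} (h3 : τ ^ 3 = 1) (h1 : τ ≠ 1) {a : V} (ha : a ≠ 1)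
    (e : τ a = a) : Nat.card {v : V // τ v = v} = 4 := by
  classical
  haveI : Fact (Nat.Prime 3) := ⟨Nat.prime_three⟩
  letI := Fintype.ofFinite V
  let B : Subgroup V := τ.toMonoidHom.eqLocus (MonoidHom.id V)
  have hB : Nat.card {v : V // τ v = v} = Nat.card B := rfl
  have d : Nat.card B ∣ 2 ^ 4 := by have := card_subgroup_dvd_card B; rwa [hV] at this
  have m : Fintype.card V ≡ Fintype.card (Function.fixedPoints τ) [MOD 3] := by
    refine Perm.card_fixedPoints_modEq (f := (τ : V → V)) (p := 3) (n := 1) ?_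
    funext v
    exact congrArg (fun φ : MulAut V => φ v) h3
  rw [← Nat.card_eq_fintype_card, ← Nat.card_eq_fintype_card, hV] at m
  have m' : 16 ≡ Nat.card B [MOD 3] := m
  have n1 : Nat.card B ≠ 1 := fun h => ha (by
    have : a ∈ B := e
    rwa [card_eq_one.1 h, mem_bot] at this)
  have n2 : Nat.card B ≠ 16 := fun h => h1 (by
    have := eq_top_of_card_eq B (h.trans hV.symm)
    ext v
    exact (show v ∈ B from this ▸ mem_top v))
  rw [hB]
  obtain ⟨j, hj, e⟩ := (Nat.dvd_prime_pow Nat.prime_two).1 d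
  rw [e] at m' n1 n2 ⊢
  interval_cases j <;> first | rfl | exact absurd m' (by decide) | exact absurd rfl n1 | exact absurd rfl n2

theorem no67 [Finite V] (hV : Nat.card V = 16) (H : HK χ) (hχ : Function.Injective χ) (hρ : Function.Injective ρ)
    (P : Ph n) {k₁ k₂ : K} (e₁ : χ k₁ = fb n * mb n) (e₂ : χ k₂ = fb n * m2 n) (x₁ : ∃ a, a ≠ 1 ∧ ρ k₁ a = a)
    (x₂ : ∃ a, a ≠ 1 ∧ ρ k₂ a = a) : False := by
  classical
  obtain ⟨p1, pm, ps, pc⟩ := P
  choose φ hφ using fun g : Γ => H.alt (Perm.mem_alternatingGroup.2 (ps g))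
  let ψ : Γ →* K := ⟨⟨φ, hχ (by rw [hφ, p1, map_one])⟩, fun a b => hχ (by simp only [map_mul, hφ, pm])⟩
  letI : MulAction Γ V := MulAction.compHom V (ρ.comp ψ)
  letI := Fintype.ofFinite V
  letI := Fintype.ofFinite (Quotient (MulAction.orbitRel Γ V))
  have bs := MulAction.sum_card_fixedBy_eq_card_orbits_mul_card_group Γ V
  have c : ∀ g : Γ, Fintype.card (MulAction.fixedBy V g) = if g = 1 then 16 else 4 := fun g => by
    rw [← Nat.card_eq_fintype_card]
    split_ifs with h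
    · rw [h, MulAction.fixedBy_one_eq_univ, Nat.card_univ, hV]
    · obtain ⟨n1, q, -, sq, hq⟩ := pc g h
      obtain ⟨k, rfl⟩ := H.alt (Perm.mem_alternatingGroup.2 sq)
      have fx : ∀ k' : K, (∃ a, a ≠ 1 ∧ ρ k' a = a) → ph n g = χ k * χ k' * (χ k)⁻¹ → ∃ a, a ≠ 1 ∧ ρ (φ g) a = a := by
        rintro k' ⟨a, a1, ha⟩ e
        rw [← hφ, ← map_inv, ← map_mul, ← map_mul] at e
        refine ⟨ρ k a, fun h => a1 ((map_eq_one_iff _ (ρ k).injective).1 h), ?_⟩
        rw [hχ e, ← act_mul, inv_mul_cancel_right, act_mul, ha]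
      obtain ⟨a, a1, ha⟩ : ∃ a, a ≠ 1 ∧ ρ (φ g) a = a := by
        rcases hq with e | e
        exacts [fx k₁ x₁ (by rwa [e₁]), fx k₂ x₂ (by rwa [e₂])]
      refine fix4 hV (τ := ρ (φ g)) ?_ (fun e => n1 ?_) a1 ha
      · show ((ρ.comp ψ) g) ^ 3 = 1
        rw [← map_pow, cubeΓ, map_one]
      · rw [← hφ, hρ (e.trans (map_one ρ).symm), map_one]
  simp only [c] at bs
  have s48 : (∑ g : Γ, if g = 1 then 16 else 4) = 48 := by decide +kernel
  have c9 : Fintype.card Γ = 9 := by decide +kernel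
  rw [s48, c9] at bs
  omega

end CL.R14.N2
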