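/-
Strongly self-centralising subgroups with automizer of order 2 or 4: elementary facts and counting.
-/
import Cfsg.Agent.Char.TIPiece
import Cfsg.Agent.Grp.Frob
import Cfsg.Agent.Inv.Dihedral

set_option autoImplicit false
set_option linter.style.haveILetI false

namespace CL.ScS
open Subgroup CL.Char Cfsg

variable {G : Type*} [Group G]

/-- The order of the centraliser. -/
noncomputable def cz (g : G) : ℕ := Nat.card (centralizer ({g} : Set G))

/-- The size of the conjugacy class. -/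
noncomputable def ix (g : G) : ℕ := (centralizer ({g} : Set G)).index

theorem cz_mul_ix (g : G) : cz g * ix g = Nat.card G := card_mul_index _

theorem mem_cent {g x : G} : x ∈ centralizer ({g} : Set G) ↔ x * g = g * x := mem_centralizer_singleton_iff

theorem cz_conj (g k : G) : cz (k * g * k⁻¹) = cz g := by
  refine Nat.card_congr ⟨fun x => ⟨k⁻¹ * x * k, mem_cent.2 ?_⟩, fun x => ⟨k * x * k⁻¹, mem_cent.2 ?_⟩,
    fun x => Subtype.ext (by simp [mul_assoc]), fun x => Subtype.ext (by simp [mul_assoc])⟩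
  · have h := mem_cent.1 x.2
    calc k⁻¹ * x * k * g = k⁻¹ * (x * (k * g * k⁻¹)) * k := by group
      _ = _ := by rw [h]; group
  · have h := mem_cent.1 x.2
    calc k * x * k⁻¹ * (k * g * k⁻¹) = k * (x * g) * k⁻¹ := by group
      _ = _ := by rw [h]; group

theorem cz_pos [Finite G] (g : G) : 0 < cz g := Nat.card_pos

theorem exists_prime_comm [Finite G] {g : G} {r : ℕ} (hr : r.Prime) (h : r ∣ cz g) :
    ∃ x : G, orderOf x = r ∧ x * g = g * x := by
  have := Fact.mk hr
  obtain ⟨x, hx⟩ := exists_prime_orderOf_dvd_card' (G := centralizer ({g} : Set G)) r h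
  exact ⟨x, by rw [orderOf_coe, hx], mem_cent.1 x.2⟩

theorem one_lt_cz [Finite G] {g : G} (h : g ≠ 1) : 1 < cz g :=
  Finite.one_lt_card_iff_nontrivial.2 ⟨⟨⟨g, mem_cent.2 rfl⟩, 1, fun e => h (congrArg Subtype.val e)⟩⟩

theorem exists_conj_mem' [Finite G] {K : Subgroup G} {p : ℕ} (hp : p.Prime) (h : ¬ p ∣ K.index)
    {x : G} (hx : orderOf x = p) : ∃ a : G, a⁻¹ * x * a ∈ K := by
  have := Fact.mk hp
  obtain ⟨q, hq⟩ := (IsPGroup.of_card (G := zpowers x) (n := 1)
    (by rw [Nat.card_zpowers, hx, pow_one])).nonempty_fixed_point_of_prime_not_dvd_card (G ⧸ K) h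
  obtain ⟨a, rfl⟩ := QuotientGroup.mk_surjective q
  have h1 : ((x * a : G) : G ⧸ K) = a := hq ⟨x, mem_zpowers x⟩
  exact ⟨a, by simpa [mul_assoc] using QuotientGroup.eq.1 h1.symm⟩

/-- `B` is strongly self-centralising with automizer of order `e ∈ {2, 4}`. -/
structure SC (B : Subgroup G) (e : ℕ) : Prop where
  cent : ∀ a ∈ B, a ≠ 1 → centralizer ({a} : Set G) = B
  idx : B.relIndex (normalizer (B : Set G)) = e
  ev : e = 2 ∨ e = 4
  nt : 1 < Nat.card B

namespace SC
variable {B : Subgroup G} {e : ℕ} (h : SC B e)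
include h

theorem mem_of_comm {a x : G} (ha : a ∈ B) (h1 : a ≠ 1) (hx : x * a = a * x) : x ∈ B :=
  h.cent a ha h1 ▸ mem_cent.2 hx

theorem comm {a b : G} (ha : a ∈ B) (hb : b ∈ B) : a * b = b * a := by
  by_cases h1 : b = 1
  · simp [h1]
  · exact mem_cent.1 ((h.cent b hb h1).symm ▸ ha)

theorem ticc : TICC B := TICC.of_selfCent h.cent

theorem exists_ne_one : ∃ a ∈ B, a ≠ 1 := by
  have : Finite B := Nat.finite_of_card_ne_zero (by have := h.nt; omega)
  have := Finite.one_lt_card_iff_nontrivial.1 h.nt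
  obtain ⟨a, ha⟩ := _root_.exists_ne (1 : B)
  exact ⟨a, a.2, fun e => ha (Subtype.ext e)⟩

theorem exists_tau [Finite G] : ∃ τ : G, τ ∉ B ∧ τ * τ = 1 ∧ ∀ b ∈ B, τ * b * τ⁻¹ = b⁻¹ := by
  have := Fact.mk Nat.prime_two
  have h2 : 2 ∣ Nat.card (normalizer (B : Set G) ⧸ B.subgroupOf (normalizer (B : Set G))) := by
    have := h.idx
    rw [relIndex, index] at this
    rw [this]; rcases h.ev with rfl | rfl <;> norm_num
  obtain ⟨q, hq⟩ := exists_prime_orderOf_dvd_card' 2 h2
  obtain ⟨τ, rfl⟩ := QuotientGroup.mk_surjective q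
  have hτ : (τ : G) ∉ B := fun hτ => by
    rw [(QuotientGroup.eq_one_iff τ).2 (mem_subgroupOf.2 hτ), orderOf_one] at hq; omega
  have hττ : (τ : G) * τ ∈ B := by
    have := pow_orderOf_eq_one (τ : normalizer (B : Set G) ⧸ B.subgroupOf (normalizer (B : Set G)))
    rw [hq, pow_two, ← QuotientGroup.mk_mul, QuotientGroup.eq_one_iff] at this
    exact mem_subgroupOf.1 this
  have h1 : (τ : G) * τ = 1 := by
    by_contra e
    exact hτ (h.mem_of_comm hττ e (by group))
  refine ⟨τ, hτ, h1, fun b hb => ?_⟩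
  have hb' : (τ : G) * b * (τ : G)⁻¹ ∈ B := (mem_normalizer_iff.1 τ.2 b).1 hb
  by_contra e
  have hi : (τ : G)⁻¹ = τ := inv_eq_of_mul_eq_one_right h1
  refine hτ (h.mem_of_comm (B.mul_mem hb hb') (fun e' => e (eq_inv_of_mul_eq_one_right e')) ?_)
  conv_lhs => rw [h.comm hb hb']
  rw [hi]
  calc (τ : G) * (τ * b * τ * b) = (τ * τ) * b * τ * b := by group
    _ = b * (τ * b * (τ * τ)) := by rw [h1]; group
    _ = _ := by group

theorem odd [Finite G] : Odd (Nat.card B) := by
  have := Fact.mk Nat.prime_two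
  obtain ⟨τ, hτ, -, hi⟩ := h.exists_tau
  by_contra e
  obtain ⟨b, hb⟩ := exists_prime_orderOf_dvd_card' (G := B) 2 (even_iff_two_dvd.1 (Nat.not_odd_iff_even.1 e))
  rw [← orderOf_coe] at hb
  refine hτ (h.mem_of_comm b.2 (fun e => by rw [e, orderOf_one] at hb; omega) ?_)
  have := hi b b.2
  rw [inv_eq_of_mul_eq_one_right (CL.Inv.mul_self_of_orderOf_two hb)] at this
  exact mul_inv_eq_iff_eq_mul.1 this

theorem mem_cj_of_comm {g k : G} (hk : k ∈ cjInto B) (hg : g ≠ 1) (hc : g * k = k * g) : g ∈ cjInto B := by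
  obtain ⟨h1, x, hx⟩ := hk
  refine ⟨hg, x, h.mem_of_comm hx (conj_ne_one h1 x) ?_⟩
  calc x⁻¹ * g * x * (x⁻¹ * k * x) = x⁻¹ * (g * k) * x := by group
    _ = _ := by rw [hc]; group

theorem cz_eq {g : G} (hg : g ∈ cjInto B) : cz g = Nat.card B := by
  obtain ⟨h1, x, hx⟩ := hg
  rw [← cz_conj g x⁻¹, inv_inv, cz, h.cent _ hx (conj_ne_one h1 x)]

theorem odd_orderOf [Finite G] {g : G} (hg : g ∈ cjInto B) : Odd (orderOf g) :=
  Odd.of_dvd_nat h.odd (h.cz_eq hg ▸ Subgroup.orderOf_dvd_natCard _ (mem_cent.2 rfl))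

theorem card_norm : Nat.card (normalizer (B : Set G)) = Nat.card B * e := by
  rw [← h.idx, relIndex, ← card_mul_index (B.subgroupOf (normalizer (B : Set G))),
    Nat.card_congr (subgroupOfEquivOfLe le_normalizer).toEquiv]

end SC

open Classical in
/-- The non-identity elements conjugate into `B`. -/
noncomputable def SS [Fintype G] (B : Subgroup G) : Finset G := Finset.univ.filter (· ∈ cjInto B)

theorem mem_SS [Fintype G] {B : Subgroup G} {g : G} : g ∈ SS B ↔ g ∈ cjInto B := by simp [SS]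

theorem sum_class_le [Fintype G] {T : Finset G} (hT : ∀ g ∈ T, ∀ k, k * g * k⁻¹ ∈ T) {f : G → ℤ}
    (hf : ∀ g k, f (k * g * k⁻¹) = f g) (h0 : ∀ g ∈ T, 0 ≤ f g) {g : G} (hg : g ∈ T) :
    ix g * f g ≤ ∑ x ∈ T, f x := by
  classical
  have hs : Finset.univ.filter (IsConj g) ⊆ T := fun x hx => by
    obtain ⟨k, rfl⟩ := isConj_iff.1 (Finset.mem_filter.1 hx).2
    exact hT g hg k
  refine le_trans (le_of_eq ?_) (Finset.sum_le_sum_of_subset_of_nonneg hs fun x hx _ => h0 x hx)
  rw [Finset.sum_congr rfl (g := fun _ => f g) fun x hx => by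
    obtain ⟨k, rfl⟩ := isConj_iff.1 (Finset.mem_filter.1 hx).2
    exact hf g k, Finset.sum_const, nsmul_eq_mul, ix, ← card_isConj_eq_index_centralizer, Nat.card_eq_fintype_card,
    Fintype.card_subtype]

namespace SC
variable [Fintype G] {B : Subgroup G} {e : ℕ} (h : SC B e)
include h

theorem card_SS : (SS B).card * (Nat.card B * e) + Nat.card G = Nat.card B * Nat.card G := by
  classical
  have h1 := h.ticc.sum_cjInto (isClassFunction_const (G := G) 1)
  have h2 : ∑ g : G, (cjInto B).indicator (fun _ => (1 : ℂ)) g = (SS B).card := by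
    simp [Set.indicator_apply, SS]
  rw [h2, shSum_const, h.card_norm] at h1
  have h3 := natCard_ne_zero (G := G)
  have h4 := natCard_subgroup_ne_zero B
  have h5 : (e : ℂ) ≠ 0 := by rcases h.ev with rfl | rfl <;> norm_num
  push_cast at h1
  field_simp at h1
  have : (((SS B).card * (Nat.card B * e) + Nat.card G : ℕ) : ℂ) = (Nat.card B * Nat.card G : ℕ) := by
    push_cast; linear_combination h1
  exact_mod_cast this

/-- The number of conjugates of `B` is `1` modulo `|B|`. -/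
theorem exists_m : ∃ m : ℕ, Nat.card G = Nat.card B * e * m ∧ (SS B).card + m = Nat.card B * m ∧
    (Nat.card B : ℤ) ∣ m - 1 := by
  classical
  set n := Nat.card B with hn
  have h1 : Nat.card G = n * e * (normalizer (B : Set G)).index := by rw [← h.card_norm, card_mul_index]
  set m := (normalizer (B : Set G)).index
  have he : 0 < n * e := Nat.mul_pos Nat.card_pos (by rcases h.ev with rfl | rfl <;> norm_num)
  have h2 : (SS B).card + m = n * m := by
    refine Nat.eq_of_mul_eq_mul_right he ?_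
    have := h.card_SS
    rw [← hn, h1] at this
    linarith
  refine ⟨m, h1, h2, ?_⟩
  have h3 := CL.Grp.card_dvd_card_of_conj_free B {g | g ∈ cjInto B ∧ g ∉ B}
    (fun b hb x hx => ⟨(conj_mem_cjInto b).2 hx.1, fun e => hx.2 (by simpa [mul_assoc] using B.mul_mem (B.mul_mem (B.inv_mem hb) e) hb)⟩)
    (fun b hb x hx e => by
      by_contra e'
      exact hx.2 (h.mem_of_comm hb e' (mul_inv_eq_iff_eq_mul.1 e).symm))
  have h4 : Nat.card {g | g ∈ cjInto B ∧ g ∉ B} + n = (SS B).card + 1 := by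
    have e1 : Nat.card {g | g ∈ cjInto B ∧ g ∉ B} = ((SS B).filter (· ∉ B)).card := by
      rw [← Nat.card_eq_finsetCard]
      exact Nat.card_congr (Equiv.subtypeEquivRight fun g => by simp [mem_SS])
    have e2 : n = ((SS B).filter (· ∈ B)).card + 1 := by
      rw [← Finset.card_insert_of_notMem (a := 1) (by simp [mem_SS, cjInto]), hn, ← Nat.card_eq_finsetCard]
      refine Nat.card_congr (Equiv.subtypeEquivRight fun g => ?_)
      simp only [Finset.mem_insert, Finset.mem_filter, mem_SS]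
      refine ⟨fun hg => ?_, fun hg => hg.elim (fun e => e ▸ B.one_mem) And.right⟩
      by_cases e : g = 1
      · exact Or.inl e
      · exact Or.inr ⟨mem_cjInto_of_mem hg e, hg⟩
    have := Finset.card_filter_add_card_filter_not (s := SS B) (· ∈ B)
    omega
  obtain ⟨k, hk⟩ := h3
  rw [hk, ← hn] at h4
  refine ⟨m - 1 - k, ?_⟩
  zify at h2 h4
  linear_combination h2 + h4

theorem coprime_index : (Nat.card B).Coprime B.index := by
  obtain ⟨m, h1, -, h3⟩ := h.exists_m
  have h4 : B.index = e * m :=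
    Nat.eq_of_mul_eq_mul_left (Nat.card_pos (α := B)) (by rw [card_mul_index, h1, mul_assoc])
  rw [h4]
  refine Nat.Coprime.mul_right ?_ ?_
  · have := Nat.coprime_two_right.2 h.odd
    rcases h.ev with rfl | rfl
    · exact this
    · exact this.pow_right 2
  · obtain ⟨k, hk⟩ := h3
    exact Nat.isCoprime_iff_coprime.1 ⟨-k, 1, by linear_combination hk⟩

theorem coprime_cz {g : G} (h1 : g ≠ 1) (hg : g ∉ cjInto B) : (cz g).Coprime (Nat.card B) := by
  refine Nat.coprime_of_dvd fun r hr h2 h3 => hg ?_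
  obtain ⟨x, hx, hc⟩ := exists_prime_comm hr h2
  have hi : ¬ r ∣ B.index := fun e => hr.one_lt.ne' (Nat.eq_one_of_dvd_coprimes h.coprime_index h3 e)
  exact h.mem_cj_of_comm ⟨fun e => by rw [e, orderOf_one] at hx; exact hr.one_lt.ne hx, exists_conj_mem' hr hi hx⟩
    h1 hc.symm

theorem e_dvd : (e : ℤ) ∣ Nat.card B - 1 := by
  classical
  have := Fact.mk Nat.prime_two
  obtain ⟨k, hk⟩ : ∃ k, e = 2 ^ k := by
    rcases h.ev with rfl | rfl
    exacts [⟨1, rfl⟩, ⟨2, rfl⟩]
  obtain ⟨P, hP⟩ := Sylow.exists_subgroup_card_pow_prime (G := normalizer (B : Set G)) 2 (n := k)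
    (by rw [h.card_norm, hk]; exact dvd_mul_left _ _)
  have h3 := CL.Grp.card_dvd_card_of_conj_free (P.map (normalizer (B : Set G)).subtype) {g | g ∈ B ∧ g ≠ 1}
    (by
      rintro _ ⟨b, -, rfl⟩ x hx
      exact ⟨(mem_normalizer_iff.1 b.2 x).1 hx.1, by simpa using conj_ne_one hx.2 (b : G)⁻¹⟩)
    (fun b hb x hx e => by
      have h1 : orderOf b ∣ Nat.card B :=
        Subgroup.orderOf_dvd_natCard _ (h.mem_of_comm hx.1 hx.2 (mul_inv_eq_iff_eq_mul.1 e))
      have h2 := Subgroup.orderOf_dvd_natCard _ hb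
      rw [card_map_of_injective (normalizer (B : Set G)).subtype_injective, hP] at h2
      exact orderOf_eq_one_iff.1 (Nat.eq_one_of_dvd_coprimes ((Nat.coprime_two_right.2 h.odd).pow_right k) h1 h2))
  rw [card_map_of_injective (normalizer (B : Set G)).subtype_injective, hP, ← hk] at h3
  have h4 : Nat.card {g | g ∈ B ∧ g ≠ 1} + 1 = Nat.card B := by
    have e1 : Nat.card {g | g ∈ B ∧ g ≠ 1} = ((Finset.univ.filter (· ∈ B)).erase 1).card := by
      rw [← Nat.card_eq_finsetCard]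
      exact Nat.card_congr (Equiv.subtypeEquivRight fun g => by simp [and_comm])
    rw [e1, Finset.card_erase_add_one (by simp [B.one_mem]), Nat.card_eq_fintype_card, Fintype.card_subtype]
  obtain ⟨c, hc⟩ := h3
  exact ⟨c, by rw [← h4, hc]; push_cast; ring⟩

theorem not_mem_cj {A : Subgroup G} {e' : ℕ} (h' : SC A e') (hn : ∀ g : G, A.map (MulAut.conj g).toMonoidHom ≠ B)
    {g : G} (hg : g ∈ cjInto B) : g ∉ cjInto A := by
  rintro ⟨h1, x, hx⟩
  obtain ⟨-, y, hy⟩ := hg
  refine hn (y⁻¹ * x) (le_antisymm ?_ fun b hb => ⟨x⁻¹ * y * b * y⁻¹ * x, ?_, by simp [mul_assoc]⟩)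
  · rintro _ ⟨a, ha, rfl⟩
    refine h.mem_of_comm hy (conj_ne_one h1 y) ?_
    have := h'.comm ha hx
    calc (y⁻¹ * x) * a * (y⁻¹ * x)⁻¹ * (y⁻¹ * g * y) = y⁻¹ * x * (a * (x⁻¹ * g * x)) * x⁻¹ * y := by group
      _ = y⁻¹ * g * y * ((y⁻¹ * x) * a * (y⁻¹ * x)⁻¹) := by rw [this]; group
  · refine h'.mem_of_comm hx (conj_ne_one h1 x) ?_
    have := h.comm hb hy
    calc x⁻¹ * y * b * y⁻¹ * x * (x⁻¹ * g * x) = x⁻¹ * y * (b * (y⁻¹ * g * y)) * y⁻¹ * x := by group
      _ = _ := by rw [this]; group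

theorem coprime_card {A : Subgroup G} {e' : ℕ} (h' : SC A e') (hn : ∀ g ∈ cjInto B, g ∉ cjInto A) :
    (Nat.card B).Coprime (Nat.card A) := by
  obtain ⟨b, hb, h1⟩ := h.exists_ne_one
  have := mem_cjInto_of_mem hb h1
  exact h.cz_eq this ▸ h'.coprime_cz h1 (hn b this)

end SC

/-! ### Products of two involutions -/

section Inv
variable [Fintype G]

open Classical in
/-- The involutions. -/
noncomputable def II (G : Type*) [Group G] [Fintype G] : Finset G := Finset.univ.filter (orderOf · = 2)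

theorem mem_II {u : G} : u ∈ II G ↔ orderOf u = 2 := by simp [II]

theorem mem_II' {u : G} : u ∈ II G ↔ u * u = 1 ∧ u ≠ 1 := by
  have := Fact.mk Nat.prime_two
  rw [mem_II]
  exact ⟨fun h => ⟨CL.Inv.mul_self_of_orderOf_two h, fun e => by rw [e, orderOf_one] at h; omega⟩,
    fun h => orderOf_eq_prime (by rw [pow_two, h.1]) h.2⟩

theorem conj_mem_II {u : G} (hu : u ∈ II G) (k : G) : k * u * k⁻¹ ∈ II G := by
  rw [mem_II'] at hu ⊢
  refine ⟨?_, by simpa using conj_ne_one hu.2 k⁻¹⟩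
  calc k * u * k⁻¹ * (k * u * k⁻¹) = k * (u * u) * k⁻¹ := by group
    _ = 1 := by rw [hu.1]; group

open Classical in
/-- The number of ways to write `g` as a product of two involutions. -/
noncomputable def aa (g : G) : ℕ := ((II G).filter fun u => g * u ∈ II G).card

theorem sum_II_II {R : Type*} [CommRing R] (f : G → R) : ∑ u ∈ II G, ∑ v ∈ II G, f (v * u) = ∑ g, aa g * f g := by
  classical
  have h1 : ∀ u ∈ II G, ∑ v ∈ II G, f (v * u) = ∑ g, if g * u ∈ II G then f g else 0 := fun u hu => by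
    rw [← Finset.sum_filter]
    have hu' := (mem_II'.1 hu).1
    refine Finset.sum_nbij' (· * u) (· * u) (fun v hv => by simpa [mul_assoc, hu'] using hv)
      (fun g hg => by simpa using hg) (fun v _ => by simp [mul_assoc, hu']) (fun v _ => by simp [mul_assoc, hu'])
      fun _ _ => rfl
  rw [Finset.sum_congr rfl h1, Finset.sum_comm]
  refine Finset.sum_congr rfl fun g _ => ?_
  rw [← Finset.sum_filter, Finset.sum_const, nsmul_eq_mul, aa]

theorem sum_II_conj {R : Type*} [AddCommMonoid R] {f : G → R} (hf : ∀ g k, f (k * g * k⁻¹) = f g) (t k : G) :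
    ∑ v ∈ II G, f (v * (k * t * k⁻¹)) = ∑ v ∈ II G, f (v * t) := by
  refine Finset.sum_nbij' (fun v => k⁻¹ * v * k⁻¹⁻¹) (fun v => k * v * k⁻¹) (fun v hv => conj_mem_II hv _)
    (fun v hv => conj_mem_II hv _) (fun v _ => by group) (fun v _ => by group) fun v _ => ?_
  rw [← hf _ k⁻¹]; congr 1; group

theorem card_mul_sum_II {R : Type*} [CommRing R] (hc : ∀ t ∈ II G, ∀ u ∈ II G, IsConj t u) {f : G → R}
    (hf : ∀ g k, f (k * g * k⁻¹) = f g) {t : G} (ht : t ∈ II G) :
    (II G).card * ∑ v ∈ II G, f (v * t) = ∑ g, aa g * f g := by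
  rw [← sum_II_II, ← nsmul_eq_mul, ← Finset.sum_const]
  refine Finset.sum_congr rfl fun u hu => ?_
  obtain ⟨k, rfl⟩ := isConj_iff.1 (hc t ht u hu)
  exact (sum_II_conj hf t k).symm

theorem inverts_of {g u : G} (hu : u ∈ II G) (h : g * u ∈ II G) : u * g * u⁻¹ = g⁻¹ := by
  have h1 := (mem_II'.1 hu).1
  rw [inv_eq_of_mul_eq_one_right h1]
  exact eq_inv_of_mul_eq_one_right (by rw [← (mem_II'.1 h).1]; group)

theorem aa_le (g : G) : aa g ≤ cz g := by
  classical
  rcases ((II G).filter fun u => g * u ∈ II G).eq_empty_or_nonempty with h | ⟨u, hu⟩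
  · rw [aa, h]; exact Nat.zero_le _
  rw [cz, Nat.card_eq_fintype_card, Fintype.card_subtype, aa]
  refine Finset.card_le_card_of_injOn (u⁻¹ * ·) (fun v hv => ?_) fun _ _ _ _ e => mul_left_cancel e
  simp only [Finset.coe_filter, Finset.mem_filter, Set.mem_ofPred_eq, Finset.mem_univ, true_and] at hu hv ⊢
  have h1 := inverts_of hu.1 hu.2
  have h2 := inverts_of hv.1 hv.2
  refine mem_cent.2 ?_
  calc u⁻¹ * v * g = u⁻¹ * (v * g * v⁻¹) * v := by group
    _ = _ := by rw [h2, ← h1]; group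

theorem aa_conj (g k : G) : aa (k * g * k⁻¹) = aa g := by
  classical
  refine Finset.card_nbij' (fun v => k⁻¹ * v * k⁻¹⁻¹) (fun v => k * v * k⁻¹) (fun v hv => ?_) (fun v hv => ?_)
    (fun v _ => by group) (fun v _ => by group)
  all_goals simp only [Finset.coe_filter, Set.mem_ofPred_eq] at hv ⊢
  · exact ⟨conj_mem_II hv.1 _, by convert conj_mem_II hv.2 k⁻¹ using 1; group⟩
  · exact ⟨conj_mem_II hv.1 _, by convert conj_mem_II hv.2 k using 1; group⟩

theorem aa_one : aa (1 : G) = (II G).card := by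
  classical
  rw [aa, Finset.filter_true_of_mem fun u hu => by simpa using hu]

theorem SC.tau_mul {B : Subgroup G} {τ : G} (hτ : τ ∉ B) (h1 : τ * τ = 1) (hi : ∀ b ∈ B, τ * b * τ⁻¹ = b⁻¹)
    {b : G} (hb : b ∈ B) : b * τ ∈ II G := by
  refine mem_II'.2 ⟨?_, fun e => hτ (by rw [eq_inv_of_mul_eq_one_right e]; exact B.inv_mem hb)⟩
  have := hi b hb
  rw [inv_eq_of_mul_eq_one_right h1] at this
  calc b * τ * (b * τ) = b * (τ * b * τ) := by group
    _ = 1 := by rw [this]; group

theorem SC.aa_eq {B : Subgroup G} {e : ℕ} (h : SC B e) {g : G} (hg : g ∈ cjInto B) : aa g = Nat.card B := by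
  classical
  refine le_antisymm (h.cz_eq hg ▸ aa_le g) ?_
  obtain ⟨-, x, hx⟩ := hg
  obtain ⟨τ, hτ, h1, hi⟩ := h.exists_tau
  rw [← aa_conj g x⁻¹, inv_inv, Nat.card_eq_fintype_card, Fintype.card_subtype, aa]
  refine Finset.card_le_card_of_injOn (· * τ) (fun b hb => ?_) fun _ _ _ _ e => mul_right_cancel e
  simp only [Finset.coe_filter, Set.mem_ofPred_eq, Finset.mem_univ, true_and] at hb ⊢
  exact ⟨SC.tau_mul hτ h1 hi hb, by rw [← mul_assoc]; exact SC.tau_mul hτ h1 hi (B.mul_mem hx hb)⟩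

theorem odd_card_II (h : Even (Nat.card G)) : Odd (II G).card := by
  classical
  have := Fact.mk Nat.prime_two
  have h1 := Equiv.Perm.card_fixedPoints_modEq (f := (fun g : G => g⁻¹ : Function.End G)) (p := 2) (n := 1)
    (funext fun g => inv_inv g)
  have h2 : Fintype.card (Function.fixedPoints (fun g : G => g⁻¹)) = (II G).card + 1 := by
    rw [← Finset.card_insert_of_notMem (a := 1) (by simp [mem_II']), ← Fintype.card_coe]
    refine Fintype.card_congr (Equiv.subtypeEquivRight fun g => ?_)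
    simp only [Finset.mem_insert, mem_II', Function.mem_fixedPoints_iff, inv_eq_iff_mul_eq_one]
    by_cases e : g = 1 <;> simp [e]
  rw [h2, ← Nat.card_eq_fintype_card] at h1
  rw [Nat.odd_iff]
  rw [Nat.even_iff] at h
  unfold Nat.ModEq at h1
  omega

theorem card_II (hc : ∀ t ∈ II G, ∀ u ∈ II G, IsConj t u) {t : G} (ht : t ∈ II G) : (II G).card = ix t := by
  classical
  rw [ix, ← card_isConj_eq_index_centralizer, Nat.card_eq_fintype_card, Fintype.card_subtype]
  congr 1
  ext u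
  simp only [Finset.mem_filter, Finset.mem_univ, true_and]
  refine ⟨hc t ht u, fun hu => ?_⟩
  obtain ⟨k, rfl⟩ := isConj_iff.1 hu
  exact conj_mem_II ht k

end Inv

end CL.ScS
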