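/-
Exceptional characters for a strongly self-centralising subgroup with automizer of order 2.
-/
import Cfsg.Agent.Inv.ScS1
import Cfsg.Agent.Char.Exceptional
import Cfsg.Agent.Char.Galois
import Cfsg.Agent.Char.Integrality
import Cfsg.Agent.Char.InductionChar

set_option autoImplicit false
set_option linter.style.haveILetI false

namespace CL.ScS
open Subgroup CL.Char Cfsg
open scoped ComplexConjugate

section Comb
variable {I : Type*} [Fintype I]

theorem vec_two (c : I → ℤ) (h : ∑ i, c i * c i = 2) : ∃ u v, u ≠ v ∧ (c u = 1 ∨ c u = -1) ∧ (c v = 1 ∨ c v = -1) ∧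
    ∀ f : I → ℤ, ∑ i, c i * f i = c u * f u + c v * f v := by
  classical
  obtain ⟨u, hu⟩ : ∃ u, c u ≠ 0 := by
    by_contra! e
    simp [e] at h
  have h1 : c u * c u ≤ 2 := h ▸ Finset.single_le_sum (f := fun i => c i * c i) (fun i _ => mul_self_nonneg _)
    (Finset.mem_univ u)
  have h2 : c u = 1 ∨ c u = -1 := by
    have : c u ≤ 1 := by nlinarith
    have : -1 ≤ c u := by nlinarith
    omega
  have h3 : ∀ f : I → ℤ, ∑ i, c i * f i = c u * f u + ∑ i, Function.update c u 0 i * f i := fun f => by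
    rw [← Finset.add_sum_erase _ _ (Finset.mem_univ u), ← Finset.add_sum_erase _ _ (Finset.mem_univ u)]
    simp only [Function.update_self, zero_mul, zero_add]
    congr 1
    exact Finset.sum_congr rfl fun i hi => by rw [Function.update_of_ne (Finset.ne_of_mem_erase hi)]
  obtain ⟨v, hv, hv'⟩ := int_vec_of_sq_sum_one (Function.update c u 0) (by
    have e1 := h3 c
    have e2 := h3 (Function.update c u 0)
    simp only [Function.update_self, mul_zero, zero_add] at e2
    rw [← e2, Finset.sum_congr rfl fun i _ => mul_comm _ _]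
    rcases h2 with e | e <;> rw [e] at e1 <;> linarith)
  have huv : v ≠ u := by rintro rfl; simp at hv
  rw [Function.update_of_ne huv] at hv
  refine ⟨u, v, huv.symm, h2, hv, fun f => ?_⟩
  rw [h3, Finset.sum_eq_single v (fun w _ hw => by rw [hv' w hw, zero_mul]) (by simp), Function.update_of_ne huv]

theorem sq_le_two {c : I → ℤ} (h : ∑ i, c i * c i = 2) {u v : I} (huv : u ≠ v) : c u * c u + c v * c v ≤ 2 := by
  classical
  rw [← h, ← Finset.sum_pair (f := fun i => c i * c i) huv]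
  exact Finset.sum_le_sum_of_subset_of_nonneg (Finset.subset_univ _) fun i _ _ => mul_self_nonneg _

theorem comb_aux {J : Type*} (c : J → I → ℤ) (d : I → ℤ) (h2 : ∀ j, ∑ i, c j i * c j i = 2)
    (hd : ∀ j, ∑ i, c j i * d i = -1) (h1 : ∀ j k, 1 ≤ ∑ i, c j i * c k i) {j0 j1 : J} {u v : I} (huv : u ≠ v)
    (hu : c j0 u = 1 ∨ c j0 u = -1) (hv : c j0 v = 1 ∨ c j0 v = -1)
    (hf : ∀ f : I → ℤ, ∑ i, c j0 i * f i = c j0 u * f u + c j0 v * f v) (e1 : c j1 u = c j0 u) (e2 : c j1 v = 0)
    (j : J) : c j u = c j0 u := by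
  classical
  obtain ⟨w, hwu, hw, hg⟩ : ∃ w, w ≠ u ∧ (c j1 w = 1 ∨ c j1 w = -1) ∧
      ∀ f : I → ℤ, ∑ i, c j1 i * f i = c j1 u * f u + c j1 w * f w := by
    obtain ⟨a, b, hab, ha, hb, hg⟩ := vec_two (c j1) (h2 j1)
    have := hg (Pi.single u 1)
    simp only [Pi.single_apply, mul_ite, mul_one, mul_zero, Finset.sum_ite_eq', Finset.mem_univ, if_true] at this
    by_cases e : a = u
    · subst e; exact ⟨b, hab.symm, hb, hg⟩
    by_cases e' : b = u
    · subst e'; exact ⟨a, hab, ha, fun f => by rw [hg, add_comm]⟩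
    simp only [e, e', if_false] at this
    omega
  have hwv : w ≠ v := by rintro rfl; omega
  obtain ⟨a, b, hab, ha, hb, hk⟩ := vec_two (c j) (h2 j)
  have s1 := h1 j0 j
  have s2 := h1 j1 j
  rw [hf] at s1
  rw [hg, e1] at s2
  have t1 := sq_le_two (h2 j) huv
  have t2 := sq_le_two (h2 j) hwv
  by_contra e
  have b1 : c j u ≤ 1 ∧ -1 ≤ c j u := ⟨by nlinarith, by nlinarith⟩
  have b2 : c j v ≤ 1 ∧ -1 ≤ c j v := ⟨by nlinarith, by nlinarith⟩
  have b3 : c j w ≤ 1 ∧ -1 ≤ c j w := ⟨by nlinarith, by nlinarith⟩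
  have q1 : c j v = c j0 v := by rcases hu with x | x <;> rcases hv with y | y <;> rw [x, y] at s1 <;> omega
  have q2 : c j w = c j1 w := by rcases hu with x | x <;> rcases hw with y | y <;> rw [x, y] at s2 <;> omega
  have k1 := hk (Pi.single v 1)
  have k2 := hk (Pi.single w 1)
  simp only [Pi.single_apply, mul_ite, mul_one, mul_zero, Finset.sum_ite_eq', Finset.mem_univ, if_true] at k1 k2
  have r : ∑ i, c j i * d i = c j v * d v + c j w * d w := by
    rw [hk]
    have n1 : a = v ∨ b = v := by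
      by_contra! e
      simp only [e.1, e.2, if_false] at k1
      omega
    have n2 : a = w ∨ b = w := by
      by_contra! e
      simp only [e.1, e.2, if_false] at k2
      omega
    rcases n1 with rfl | rfl <;> rcases n2 with rfl | rfl
    exacts [absurd rfl hwv, rfl, add_comm _ _, absurd rfl hwv]
  have d0 := hd j0
  have d1 := hd j1
  have d2 := hd j
  rw [hf] at d0
  rw [hg, e1] at d1
  rw [r, q1, q2] at d2
  omega

theorem comb {J : Type*} (c : J → I → ℤ) (d : I → ℤ) (h2 : ∀ j, ∑ i, c j i * c j i = 2)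
    (hd : ∀ j, ∑ i, c j i * d i = -1) (h1 : ∀ j k, 1 ≤ ∑ i, c j i * c k i) {j0 j1 : J}
    (h01 : ∑ i, c j0 i * c j1 i = 1) : ∃ u v, u ≠ v ∧ (c j0 u = 1 ∨ c j0 u = -1) ∧ (c j0 v = 1 ∨ c j0 v = -1) ∧
      (∀ f : I → ℤ, ∑ i, c j0 i * f i = c j0 u * f u + c j0 v * f v) ∧ ∀ j, c j u = c j0 u := by
  obtain ⟨u, v, huv, hu, hv, hf⟩ := vec_two (c j0) (h2 j0)
  have t1 := sq_le_two (h2 j1) huv
  have b1 : c j1 u ≤ 1 ∧ -1 ≤ c j1 u := ⟨by nlinarith, by nlinarith⟩
  have b2 : c j1 v ≤ 1 ∧ -1 ≤ c j1 v := ⟨by nlinarith, by nlinarith⟩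
  rw [hf] at h01
  have : (c j1 u = c j0 u ∧ c j1 v = 0) ∨ (c j1 v = c j0 v ∧ c j1 u = 0) := by
    rcases hu with x | x <;> rcases hv with y | y <;> rw [x, y] at h01 <;> omega
  rcases this with ⟨e1, e2⟩ | ⟨e1, e2⟩
  · exact ⟨u, v, huv, hu, hv, hf, comb_aux c d h2 hd h1 huv hu hv hf e1 e2⟩
  · have hf' : ∀ f : I → ℤ, ∑ i, c j0 i * f i = c j0 v * f v + c j0 u * f u := fun f => by rw [hf, add_comm]
    exact ⟨v, u, huv.symm, hv, hu, hf', comb_aux c d h2 hd h1 huv.symm hv hu hf' e1 e2⟩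

end Comb

variable {G : Type*} [Group G] [Fintype G] {A : Subgroup G}

/-- The induced generalised character `(1 - λ)^G`. -/
noncomputable def th (A : Subgroup G) (lam : A →* ℂˣ) : G → ℂ := indFun A ((fun _ => 1) - fun a => (lam a : ℂ))

theorem th_gen (lam : A →* ℂˣ) : IsGeneralizedCharacter G (th A lam) :=
  isGeneralizedCharacter_indFun (isCharacter_one.isGeneralizedCharacter.sub
    (isIrrCharacter_linear lam).isCharacter.isGeneralizedCharacter)

theorem th_off (lam : A →* ℂˣ) {g : G} (hg : g ∉ cjInto A) : th A lam g = 0 := by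
  by_cases e : g = 1
  · subst e; rw [th, indFun_one]; simp
  · exact indFun_eq_zero_of_not_cjInto _ e hg

theorem th_inner [Fintype A] (lam : A →* ℂˣ) {φ : G → ℂ} (hφ : IsClassFunction G φ) :
    classInner φ (th A lam) = classInner (fun a : A => φ a) (fun _ => 1) -
      classInner (fun a : A => φ a) (fun a => (lam a : ℂ)) := by
  rw [th, frobenius_reciprocity' _ hφ, classInner_sub_right]

theorem SC.th_res (h : SC A 2) (lam : A →* ℂˣ) :
    (fun a : A => th A lam a) = (2 : ℂ) • (fun a => ((1 : A →* ℂˣ) a : ℂ)) - (fun a => (lam a : ℂ)) -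
      fun a => (lam⁻¹ a : ℂ) := by
  classical
  ext a
  simp only [Pi.sub_apply, Pi.smul_apply, MonoidHom.one_apply, Units.val_one, smul_eq_mul, MonoidHom.inv_apply]
  by_cases e : (a : G) = 1
  · rw [th_off lam (fun h => h.1 e), show a = 1 from Subtype.ext e]; norm_num
  obtain ⟨τ, hτ, h1, hi⟩ := h.exists_tau
  have hτN : τ ∈ normalizer (A : Set G) := mem_normalizer_iff.2 fun b => ⟨fun hb => hi b hb ▸ A.inv_mem hb, fun hb => by
    have := hi _ hb
    rw [inv_eq_of_mul_eq_one_right h1] at this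
    have e : τ * (τ * b * τ) * τ = b := by
      calc τ * (τ * b * τ) * τ = (τ * τ) * b * (τ * τ) := by group
        _ = b := by rw [h1]; group
    rw [← e, this]; exact A.inv_mem (by rwa [inv_eq_of_mul_eq_one_right h1] at hb)⟩
  rw [th, h.ticc.indFun_eq _ a.2 e]
  have h2 : ∀ x : normalizer (A : Set G), extendByZero A ((fun _ => 1) - fun a => (lam a : ℂ)) ((x : G)⁻¹ * a * x) =
      if x ∈ A.subgroupOf (normalizer (A : Set G)) then 1 - (lam a : ℂ) else 1 - ((lam a)⁻¹ : ℂˣ) := fun x => by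
    split_ifs with hx
    · rw [mul_assoc, h.comm a.2 (mem_subgroupOf.1 hx), inv_mul_cancel_left, extendByZero_coe]; rfl
    · have h3 : x * ⟨τ, hτN⟩ ∈ A.subgroupOf (normalizer (A : Set G)) :=
        (mul_mem_iff_of_index_two h.idx).2 (iff_of_false hx hτ)
      have h4 : (x : G) * τ ∈ A := h3
      have h5 : (x : G)⁻¹ * a * x = (a⁻¹ : A) := by
        calc (x : G)⁻¹ * a * x = τ * ((x * τ)⁻¹ * (a * (x * τ))) * τ⁻¹ := by group
          _ = _ := by rw [h.comm a.2 h4, inv_mul_cancel_left, hi _ a.2]; rfl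
      rw [h5, extendByZero_coe, ← map_inv]; rfl
  have h3 : (Finset.univ.filter (· ∈ A.subgroupOf (normalizer (A : Set G)))).card = Nat.card A := by
    rw [← Fintype.card_subtype, ← Nat.card_eq_fintype_card]
    exact Nat.card_congr (subgroupOfEquivOfLe le_normalizer).toEquiv
  have h4 := Finset.card_filter_add_card_filter_not (s := Finset.univ) (· ∈ A.subgroupOf (normalizer (A : Set G)))
  rw [Finset.card_univ, ← Nat.card_eq_fintype_card, h.card_norm, h3] at h4
  rw [Finset.sum_congr rfl fun x _ => h2 x, Finset.sum_ite, Finset.sum_const, Finset.sum_const, h3,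
    show (Finset.univ.filter (· ∉ A.subgroupOf (normalizer (A : Set G)))).card = Nat.card A by omega]
  have := natCard_subgroup_ne_zero A
  simp only [nsmul_eq_mul]
  field_simp
  ring

open Classical in
theorem SC.th_th (h : SC A 2) {lam mu : A →* ℂˣ} (hl : lam ≠ 1) (hm : mu ≠ 1) : classInner (th A lam) (th A mu) =
    2 + (if lam = mu then 1 else 0) + if lam⁻¹ = mu then 1 else 0 := by
  have : Fintype A := Fintype.ofFinite A
  have e : (fun _ : A => (1 : ℂ)) = fun a => ((1 : A →* ℂˣ) a : ℂ) := by ext; simp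
  rw [th_inner mu (φ := th A lam) (indFun_isClassFunction _), h.th_res, e]
  have hl' : lam⁻¹ ≠ 1 := fun e => hl (by
    ext a
    simpa using DFunLike.congr_fun e a)
  simp only [classInner_sub_left, classInner_smul_left, classInner_monoidHom, hl, hm.symm, hl', if_true, if_false]
  ring_nf

theorem th_one {lam : A →* ℂˣ} (hl : lam ≠ 1) : classInner (fun _ => 1) (th A lam) = 1 := by
  classical
  have : Fintype A := Fintype.ofFinite A
  have e : (fun _ : A => (1 : ℂ)) = fun a => ((1 : A →* ℂˣ) a : ℂ) := by ext; simp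
  rw [th_inner lam (isClassFunction_const 1), e]
  simp only [classInner_monoidHom, hl.symm, if_true, if_false, sub_zero]

theorem SC.inv_ne {e : ℕ} (h : SC A e) {lam : A →* ℂˣ} (hl : lam ≠ 1) : lam⁻¹ ≠ lam := fun e => hl <| by
  ext a
  obtain ⟨k, hk⟩ := h.odd
  have h1 : lam a * lam a = 1 := by
    have := DFunLike.congr_fun e a
    rw [MonoidHom.inv_apply] at this
    nth_rewrite 1 [← this]; exact inv_mul_cancel _
  have h2 : lam (a ^ Nat.card A) = 1 := by rw [pow_card_eq_one', map_one]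
  rw [map_pow, hk, pow_succ, pow_mul, pow_two, h1, one_pow, one_mul] at h2
  simp [h2]

theorem SC.fourier {e : ℕ} (h : SC A e) [Fintype A] (f : A → ℂ) {c : ℂ}
    (hc : ∀ lam : A →* ℂˣ, classInner f (fun a => (lam a : ℂ)) = c) (a : A) : f a = c * regChar A a := by
  classical
  have : Fintype (A →* ℂˣ) := Fintype.ofFinite _
  have hA : ∀ a b : A, a * b = b * a := fun a b => Subtype.ext (h.comm a.2 b.2)
  rw [← sum_monoidHom_apply hA, Finset.mul_sum]
  rw [Finset.sum_congr rfl fun lam _ => by rw [← hc lam]]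
  simp_rw [classInner_def, conj_monoidHom_apply, mul_assoc, Finset.sum_mul, mul_assoc, ← Units.val_mul, ← map_mul]
  rw [← Finset.mul_sum, Finset.sum_comm]
  simp_rw [← Finset.mul_sum, sum_monoidHom_apply hA]
  rw [Finset.sum_eq_single a (fun b _ hb => by rw [regChar_of_ne_one (fun e => hb (inv_mul_eq_one.1 e)), mul_zero])
    (by simp), inv_mul_cancel, regChar_one]
  have := natCard_subgroup_ne_zero A
  field_simp

/-- The two non-principal constituents of `(1 - λ)^G`. -/
theorem SC.exists_chars (h : SC A 2) (h5 : 5 ≤ Nat.card A) : ∃ (lam : A →* ℂˣ) (ψ χ : IrrCharacter G) (δ : ℤ),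
    lam ≠ 1 ∧ (δ = 1 ∨ δ = -1) ∧ ψ ≠ χ ∧ ψ ≠ irrOne G ∧ χ ≠ irrOne G ∧
    (∀ g, th A lam g = 1 + δ * ((ψ : G → ℂ) g - (χ : G → ℂ) g)) ∧ (∀ a ∈ A, a ≠ 1 → (ψ : G → ℂ) a = δ) ∧
    ∃ k : ℤ, (ψ : G → ℂ) 1 = δ + k * Nat.card A := by
  classical
  have : Fintype A := Fintype.ofFinite A
  have : Fintype (A →* ℂˣ) := Fintype.ofFinite _
  have hA : ∀ a b : A, a * b = b * a := fun a b => Subtype.ext (h.comm a.2 b.2)
  have hc : 5 ≤ Fintype.card (A →* ℂˣ) := by rwa [← Nat.card_eq_fintype_card, card_monoidHom_of_comm hA]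
  obtain ⟨l0, hl0⟩ := Fintype.exists_ne_of_one_lt_card (by omega) (1 : A →* ℂˣ)
  obtain ⟨l1, -, hl1⟩ := Finset.exists_mem_notMem_of_card_lt_card (s := {1, l0, l0⁻¹}) (t := Finset.univ)
    (Finset.card_le_three.trans_lt (by rw [Finset.card_univ]; omega))
  simp only [Finset.mem_insert, Finset.mem_singleton, not_or] at hl1
  choose c hc' using fun j : {l : A →* ℂˣ // l ≠ 1} =>
    exc_genChar_coeffs ((th_gen j.1).sub isCharacter_one.isGeneralizedCharacter)
  choose d hd0 hd using fun ψ : IrrCharacter G => ψ.2.exists_nat_one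
  have h11 : classInner (fun _ : G => (1 : ℂ)) (fun _ => 1) = 1 := isIrrCharacter_one.classInner_self
  have hin : ∀ j k, ((∑ i, c j i * c k i : ℤ) : ℂ) =
      1 + (if j.1 = k.1 then 1 else 0) + if j.1⁻¹ = k.1 then 1 else 0 := fun j k => by
    rw [← exc_inner_sum_sum, ← hc', ← hc', classInner_sub_left, classInner_sub_right, classInner_sub_right,
      h.th_th j.2 k.2, th_one k.2, ← conj_classInner (fun _ => 1), th_one j.2, h11, map_one]
    ring_nf
  have hco : ∀ j (ψ : IrrCharacter G), (c j ψ : ℂ) = classInner (th A j.1) ψ - classInner (fun _ : G => 1) ψ :=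
    fun j ψ => by rw [← classInner_sub_left, hc', exc_inner_sum_irr]
  obtain ⟨ψ, χ, hne, hψ, hχ, hf, hall⟩ := comb c (fun i => d i) (fun j => by
      have := hin j j
      rw [if_pos rfl, if_neg (h.inv_ne j.2)] at this
      exact_mod_cast this.trans (by norm_num : (1 : ℂ) + 1 + 0 = (2 : ℤ)))
    (fun j => by
      have := congrFun (hc' j) 1
      simp only [Pi.sub_apply, th_off j.1 (fun h => h.1 rfl), Finset.sum_apply, Pi.smul_apply, smul_eq_mul, hd] at this
      exact_mod_cast this.symm)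
    (fun j k => by
      have : ∑ i, c j i * c k i = 1 + (if j.1 = k.1 then 1 else 0) + if j.1⁻¹ = k.1 then 1 else 0 := by
        exact_mod_cast hin j k
      rw [this]; split_ifs <;> norm_num)
    (j0 := ⟨l0, hl0⟩) (j1 := ⟨l1, hl1.1⟩) (by
      have := hin ⟨l0, hl0⟩ ⟨l1, hl1.1⟩
      rw [if_neg (Ne.symm hl1.2.1), if_neg (Ne.symm hl1.2.2)] at this
      exact_mod_cast this)
  have h0 : c ⟨l0, hl0⟩ (irrOne G) = 0 := by
    have := hco ⟨l0, hl0⟩ (irrOne G)
    rw [coe_irrOne, ← conj_classInner (fun _ => 1), th_one hl0, h11, map_one, sub_self] at this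
    exact_mod_cast this
  have hψ1 : ψ ≠ irrOne G := by rintro rfl; omega
  have hχ1 : χ ≠ irrOne G := by rintro rfl; omega
  set δ := c ⟨l0, hl0⟩ ψ with hδ
  have hex : ∀ g, th A l0 g = 1 + δ * (ψ : G → ℂ) g + c ⟨l0, hl0⟩ χ * (χ : G → ℂ) g := fun g => by
    have e1 := congrFun (hc' ⟨l0, hl0⟩) g
    simp only [Pi.sub_apply, Finset.sum_apply, Pi.smul_apply, smul_eq_mul] at e1
    rw [Finset.sum_eq_add_of_mem ψ χ (Finset.mem_univ _) (Finset.mem_univ _) hne fun w _ hw => by
      have := hf (Pi.single w 1)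
      simp only [Pi.single_apply, mul_ite, mul_one, mul_zero, Finset.sum_ite_eq', Finset.mem_univ, if_true,
        hw.1.symm, hw.2.symm, if_false, add_zero] at this
      simp [this]] at e1
    linear_combination e1
  have hε : c ⟨l0, hl0⟩ χ = -δ := by
    have e1 := hex 1
    rw [th_off l0 (fun h => h.1 rfl), hd, hd] at e1
    have e2 : (0 : ℤ) = 1 + δ * d ψ + c ⟨l0, hl0⟩ χ * d χ := by exact_mod_cast e1
    have := hd0 ψ
    have := hd0 χ
    rcases hψ with x | x <;> rcases hχ with y | y <;> rw [x, y] at e2 <;> omega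
  obtain ⟨m, hm⟩ := (ψ.2.isCharacter.restrict A).exists_nat_classInner isCharacter_one
  have key := h.fourier ((fun a : A => (ψ : G → ℂ) a) - (δ : ℂ) • fun a => ((1 : A →* ℂˣ) a : ℂ)) (c := m - δ)
    fun lam => by
      rw [classInner_sub_left, classInner_smul_left, classInner_monoidHom]
      by_cases e : 1 = lam
      · subst e; simpa using hm
      have e1 := hco ⟨lam, Ne.symm e⟩ ψ
      rw [hall, ← coe_irrOne, classInner_irr, if_neg hψ1.symm, ← conj_classInner, th_inner lam ψ.2.isClassFunction,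
        hm, sub_zero] at e1
      have e2 := congrArg conj e1
      rw [Complex.conj_conj, map_intCast] at e2
      rw [if_neg e]; linear_combination e2
  refine ⟨l0, ψ, χ, δ, hl0, hψ, hne, hψ1, hχ1, fun g => by rw [hex, hε]; push_cast; ring, fun a ha h1 => ?_,
    m - δ, ?_⟩
  · have := key ⟨a, ha⟩
    rw [regChar_of_ne_one (fun e => h1 (congrArg Subtype.val e))] at this
    simpa [sub_eq_zero] using this
  · have := key 1
    rw [regChar_one] at this
    simp only [Pi.sub_apply, Pi.smul_apply, MonoidHom.one_apply, Units.val_one, smul_eq_mul, OneMemClass.coe_one] at this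
    push_cast; linear_combination this

end CL.ScS
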