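/-
The integer valued exceptional character and the numerical data it provides.
-/
import Cfsg.Agent.Inv.ScS2

set_option autoImplicit false
set_option linter.style.haveILetI false

namespace CL.ScS
open Subgroup CL.Char Cfsg
open scoped ComplexConjugate

variable {G : Type*} [Group G] [Fintype G]

/-- The data extracted from the exceptional characters of `A`. -/
structure Dat (A : Subgroup G) (p : G → ℤ) (δ : ℤ) : Prop where
  hδ : δ = 1 ∨ δ = -1
  cls : ∀ g k, p (k * g * k⁻¹) = p g
  onA : ∀ g ∈ cjInto A, p g = δ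
  sum0 : ∑ g, p g = 0
  sum2 : ∑ g, p g ^ 2 = Nat.card G
  ypos : 0 < p 1 + δ
  xpos : 0 < p 1
  xmod : (Nat.card A : ℤ) ∣ p 1 - δ
  xdvd : p 1 ∣ Nat.card G
  ydvd : p 1 + δ ∣ Nat.card G
  int1 : ∀ g, p 1 ∣ ix g * p g
  int2 : ∀ g, g ∉ cjInto A → p 1 + δ ∣ ix g * (p g + δ)
  lt : ∀ g, g ≠ 1 → p g < p 1
  cj : ∀ t ∈ II G, ∀ u ∈ II G, IsConj t u
  eq1 : ∀ t ∈ II G, (II G).card ^ 2 * (p 1 - p t) ^ 2 = Nat.card A * Nat.card G * (p 1 * (p 1 + δ))
  eq2 : ∀ t ∈ II G, p 1 * ∑ v ∈ II G, p (v * t) = (II G).card * p t ^ 2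
  sgn : ∀ (B : Subgroup G) (e : ℕ), SC B e → ∀ c : ℤ, (∀ g ∈ cjInto B, p g = c) → ∀ t ∈ II G,
    Nat.card B * p t ≤ p 1 + (Nat.card B - 1) * c

theorem int_dvd_of_integral {a b : ℤ} (hb : b ≠ 0) (h : IsIntegral ℤ ((a : ℂ) / (b : ℂ))) : b ∣ a := by
  obtain ⟨z, hz⟩ := exists_int_of_isIntegral_ratCast (q := (a : ℚ) / b) (by push_cast; exact h)
  push_cast at hz
  have : (b : ℂ) ≠ 0 := by exact_mod_cast hb
  field_simp at hz
  exact ⟨z, by exact_mod_cast hz⟩

/-- The generalised dihedral group generated by `B` and an inverting involution. -/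
def dih (B : Subgroup G) (τ : G) (h1 : τ * τ = 1) (hi : ∀ b ∈ B, τ * b * τ ∈ B) : Subgroup G where
  carrier := {g | g ∈ B ∨ g * τ ∈ B}
  one_mem' := Or.inl B.one_mem
  mul_mem' := by
    rintro a b (ha | ha) (hb | hb)
    · exact Or.inl (B.mul_mem ha hb)
    · exact Or.inr (mul_assoc a b τ ▸ B.mul_mem ha hb)
    · refine Or.inr ?_
      convert B.mul_mem ha (hi b hb) using 1
      calc a * b * τ = a * (τ * τ) * b * τ := by rw [h1, mul_one]
        _ = _ := by group
    · refine Or.inl ?_
      convert B.mul_mem ha (hi _ hb) using 1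
      calc a * b = a * (τ * τ) * b * (τ * τ) := by rw [h1, mul_one, mul_one]
        _ = _ := by group
  inv_mem' := by
    rintro a (ha | ha)
    · exact Or.inl (B.inv_mem ha)
    · refine Or.inr ?_
      convert hi _ (B.inv_mem ha) using 1
      group

theorem SC.sgn_bound {B : Subgroup G} {e : ℕ} (h : SC B e) {ψ : G → ℂ} (hψ : IsCharacter G ψ) {c s : ℂ}
    (hc : ∀ g ∈ cjInto B, ψ g = c) (hs : ∀ u ∈ II G, ψ u = s) :
    ∃ k : ℕ, ψ 1 + (Nat.card B - 1) * c - Nat.card B * s = k := by
  classical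
  obtain ⟨τ, hτ, h1, hi⟩ := h.exists_tau
  have hτi : τ⁻¹ = τ := inv_eq_of_mul_eq_one_right h1
  have hi' : ∀ b ∈ B, τ * b * τ ∈ B := fun b hb => by
    have := hi b hb
    rw [hτi] at this
    exact this ▸ B.inv_mem hb
  set D := dih B τ h1 hi'
  have hσ : IsIrrCharacter D fun g => if (g : G) ∈ B then 1 else -1 := by
    refine isIrrCharacter_of_map_mul (by simp [B.one_mem]) fun a b => ?_
    by_cases ha : (a : G) ∈ B <;> by_cases hb : (b : G) ∈ B
    · simp [ha, hb, B.mul_mem ha hb]
    · simp [ha, hb, B.mul_mem_cancel_left ha]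
    · simp [ha, hb, B.mul_mem_cancel_right hb]
    · have : (a : G) * b ∈ B := by
        convert B.mul_mem (a.2.resolve_left ha) (hi' _ (b.2.resolve_left hb)) using 1
        calc (a : G) * b = a * (τ * τ) * b * (τ * τ) := by rw [h1, mul_one, mul_one]
          _ = _ := by group
      simp [ha, hb, this]
  obtain ⟨k, hk⟩ := (hψ.restrict D).exists_nat_classInner hσ.isCharacter
  refine ⟨Nat.card D * k, ?_⟩
  rw [classInner_def, ← Finset.sum_subtype (Finset.univ.filter (· ∈ D)) (by simp)
    (fun g => ψ g * conj (if g ∈ B then (1 : ℂ) else -1)), ← Finset.sum_filter_add_sum_filter_not _ (· ∈ B)] at hk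
  have hB : (Finset.univ.filter (· ∈ B)).card = Nat.card B := by
    rw [Nat.card_eq_fintype_card, Fintype.card_subtype]
  have e1 : (Finset.univ.filter (· ∈ D)).filter (· ∈ B) = Finset.univ.filter (· ∈ B) := by
    ext g
    simp only [Finset.mem_filter, Finset.mem_univ, true_and]
    exact ⟨And.right, fun hg => ⟨Or.inl hg, hg⟩⟩
  have e2 : ∑ g ∈ Finset.univ.filter (· ∈ B), ψ g * conj (if g ∈ B then (1 : ℂ) else -1) =
      ψ 1 + (Nat.card B - 1) * c := by
    rw [← Finset.add_sum_erase _ _ (a := 1) (by simp [B.one_mem]), Finset.sum_congr rfl (g := fun _ => c) fun g hg => by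
      simp only [Finset.mem_erase, Finset.mem_filter, Finset.mem_univ, true_and] at hg
      simp [hg.2, hc g (mem_cjInto_of_mem hg.2 hg.1)], Finset.sum_const, Finset.card_erase_of_mem (by simp [B.one_mem]),
      hB, nsmul_eq_mul, Nat.cast_sub Nat.card_pos]
    simp [B.one_mem]
  have e3 : ∑ g ∈ (Finset.univ.filter (· ∈ D)).filter (· ∉ B), ψ g * conj (if g ∈ B then (1 : ℂ) else -1) =
      ∑ g ∈ Finset.univ.filter (· ∈ B), -s := by
    refine Finset.sum_nbij' (· * τ) (· * τ) (fun g hg => ?_) (fun g hg => ?_) (fun v _ => by simp [mul_assoc, h1])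
      (fun v _ => by simp [mul_assoc, h1]) fun g hg => ?_
    all_goals simp only [Finset.mem_filter, Finset.mem_univ, true_and] at hg ⊢
    · exact hg.1.resolve_left hg.2
    · exact ⟨Or.inr (by simpa [mul_assoc, h1] using hg), fun e => hτ ((B.mul_mem_cancel_left hg).1 e)⟩
    · have := hs _ (SC.tau_mul hτ h1 hi (hg.1.resolve_left hg.2))
      rw [mul_assoc, h1, mul_one] at this
      simp [hg.2, this]
  rw [e1, e2, e3, Finset.sum_const, hB, nsmul_eq_mul] at hk
  have := natCard_subgroup_ne_zero D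
  field_simp at hk
  push_cast
  linear_combination hk

theorem SC.exists_dat [IsSimpleGroup G] {A : Subgroup G} (h : SC A 2) (h5 : 5 ≤ Nat.card A) :
    ∃ (p : G → ℤ) (δ : ℤ), Dat A p δ := by
  classical
  have : Fintype A := Fintype.ofFinite A
  obtain ⟨lam, ψ, χ, δ, hl, hδ, hne, hψ1, hχ1, hth, hA, k, hk⟩ := h.exists_chars h5
  have hψ1' : (ψ : G → ℂ) ≠ fun _ => 1 := fun e => hψ1 (Subtype.ext e)
  have hδ2 : (δ : ℂ) * δ = 1 := by rcases hδ with rfl | rfl <;> norm_num
  have hf : ∀ g, (ψ : G → ℂ) g = (ψ : G → ℂ) 1 → g = 1 := fun g hg => by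
    have := ψ.2.mem_charKer.2 hg
    rwa [ψ.2.charKer_eq_bot_of_simple hψ1', mem_bot] at this
  have hth' : th A lam = (irrOne G : G → ℂ) + (δ : ℂ) • ((ψ : G → ℂ) - (χ : G → ℂ)) := funext hth
  have hin : ∀ φ : IrrCharacter G, classInner (φ : G → ℂ) (th A lam) =
      (if φ = irrOne G then 1 else 0) + δ * ((if φ = ψ then 1 else 0) - if φ = χ then 1 else 0) := fun φ => by
    rw [hth', classInner_add_right, classInner_smul_right, classInner_sub_right, classInner_irr, classInner_irr,
      classInner_irr, map_intCast]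
  obtain ⟨a0, ha0, ha1⟩ := h.exists_ne_one
  have hpow : ∀ m : ℕ, m.Coprime (Nat.card G) → ∀ g, (ψ : G → ℂ) (g ^ m) = (ψ : G → ℂ) g := fun m hm => by
    have hn : ∀ a : G, a ≠ 1 → a ^ m ≠ 1 := fun a ha e => ha (orderOf_eq_one_iff.1
      (Nat.eq_one_of_dvd_coprimes hm (orderOf_dvd_of_pow_eq_one e) (orderOf_dvd_natCard a)))
    let φ : IrrCharacter G := ⟨_, isIrr_pow_coprime ψ.2 hm⟩
    have e1 : (fun a : A => (φ : G → ℂ) a) = fun a : A => (ψ : G → ℂ) a := funext fun a => by
      by_cases e : (a : G) = 1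
      · simp [φ, e]
      · exact (hA _ (A.pow_mem a.2 m) (hn _ e)).trans (hA _ a.2 e).symm
    have e2 : classInner (φ : G → ℂ) (th A lam) = classInner (ψ : G → ℂ) (th A lam) := by
      rw [th_inner lam φ.2.isClassFunction, th_inner lam ψ.2.isClassFunction, e1]
    have e3 : φ ≠ irrOne G := fun e => by
      have x1 : (ψ : G → ℂ) (a0 ^ m) = 1 := congrFun (congrArg Subtype.val e) a0
      have x2 : (ψ : G → ℂ) (1 ^ m) = 1 := congrFun (congrArg Subtype.val e) 1
      rw [one_pow] at x2
      exact hn a0 ha1 (hf _ (x1.trans x2.symm))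
    rw [hin, hin, if_neg e3, if_neg hψ1, if_pos rfl, if_neg hne] at e2
    by_cases e : φ = ψ
    · exact congrFun (congrArg Subtype.val e)
    · exfalso
      rw [if_neg e] at e2
      rcases hδ with rfl | rfl <;> split_ifs at e2 <;> norm_num at e2
  choose p hp using fun g => genChar_exists_int_of_forall_pow ψ.2.isCharacter.isGeneralizedCharacter
    fun m hm => hpow m hm g
  have hcls : ∀ g k, p (k * g * k⁻¹) = p g := fun g k => by
    have := ψ.2.isClassFunction g k
    rw [hp, hp] at this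
    exact_mod_cast this
  have hχ : ∀ g, g ∉ cjInto A → (χ : G → ℂ) g = (p g + δ : ℤ) := fun g hg => by
    have := hth g
    rw [th_off lam hg, hp] at this
    push_cast
    linear_combination δ * this + ((p g : ℂ) - (χ : G → ℂ) g) * hδ2
  have h1A : (1 : G) ∉ cjInto A := fun h => h.1 rfl
  have hIA : ∀ t ∈ II G, t ∉ cjInto A := fun t ht h' => by
    have := h.odd_orderOf h'
    rw [mem_II.1 ht] at this
    exact absurd this (by decide)
  obtain ⟨x, hx0, hx⟩ := ψ.2.exists_nat_one
  obtain ⟨y, hy0, hy⟩ := χ.2.exists_nat_one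
  have hx' : p 1 = x := by rw [hp] at hx; exact_mod_cast hx
  have hy' : p 1 + δ = y := by rw [hχ 1 h1A] at hy; exact_mod_cast hy
  have hxc : (p 1 : ℂ) ≠ 0 := by rw [hx']; exact_mod_cast hx0.ne'
  have hyc : (p 1 : ℂ) + δ ≠ 0 := by
    have : ((p 1 + δ : ℤ) : ℂ) ≠ 0 := by rw [hy']; exact_mod_cast hy0.ne'
    exact_mod_cast this
  have hlt : ∀ g, g ≠ 1 → p g < p 1 := fun g hg => by
    have := isChar_norm_le ψ.2.isCharacter g
    rw [hp, hp, Complex.norm_intCast, Complex.norm_intCast] at this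
    have e1 : |p g| ≤ |p 1| := by exact_mod_cast this
    rw [abs_of_pos (a := p 1) (by omega)] at e1
    exact lt_of_le_of_ne ((le_abs_self _).trans e1) fun e => hg (hf g (by rw [hp, hp, e]))
  have hsum : ∀ t ∈ II G, ∀ u ∈ II G, (p 1 : ℂ) * (p 1 + δ) * ∑ v with IsConj t v, th A lam (v * u) =
      Nat.card {v : G // IsConj t v} * ((p 1 - p t) * (p 1 - p u)) := fun t ht u hu => by
    simp only [hth, Finset.sum_add_distrib, ← Finset.mul_sum, Finset.sum_sub_distrib]
    rw [classAlg_sum_class_mul_right ψ.2, classAlg_sum_class_mul_right χ.2, hχ t (hIA t ht), hχ u (hIA u hu),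
      hχ 1 h1A, hp, hp, hp, Finset.sum_const, Nat.card_eq_fintype_card, Fintype.card_subtype, nsmul_eq_mul]
    push_cast
    field_simp
    linear_combination (Finset.univ.filter (IsConj t)).card * ((p t : ℂ) * p u - p 1 * p t - p 1 * p u - p 1 * δ) * hδ2
  have hconj : ∀ t ∈ II G, ∀ u ∈ II G, IsConj t u := fun t ht u hu => by
    by_contra e
    have e1 := hsum t ht u hu
    rw [Finset.sum_eq_zero fun v hv => th_off lam fun h' => ?_, mul_zero] at e1
    · have x1 := hlt t (mem_II'.1 ht).2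
      have x2 := hlt u (mem_II'.1 hu).2
      have : Nonempty {v : G // IsConj t v} := ⟨⟨t, IsConj.refl t⟩⟩
      have x3 := Nat.card_pos (α := {v : G // IsConj t v})
      have : (0 : ℤ) = Nat.card {v : G // IsConj t v} * ((p 1 - p t) * (p 1 - p u)) := by exact_mod_cast e1
      have : (0 : ℤ) < Nat.card {v : G // IsConj t v} * ((p 1 - p t) * (p 1 - p u)) :=
        mul_pos (by exact_mod_cast x3) (mul_pos (by omega) (by omega))
      omega
    · have hv := (Finset.mem_filter.1 hv).2
      exact e (hv.trans (CL.Inv.isConj_of_odd_mul (classAlg_mul_self_of_isConj (mem_II'.1 ht).1 hv) (mem_II'.1 hu).1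
        (h.odd_orderOf h')))
  have hII : ∀ t ∈ II G, Finset.univ.filter (IsConj t) = II G := fun t ht => by
    ext u
    simp only [Finset.mem_filter, Finset.mem_univ, true_and]
    refine ⟨fun hu => ?_, hconj t ht u⟩
    obtain ⟨k, rfl⟩ := isConj_iff.1 hu
    exact conj_mem_II ht k
  have hIc : ∀ t ∈ II G, Nat.card {v : G // IsConj t v} = (II G).card := fun t ht => by
    rw [Nat.card_eq_fintype_card, Fintype.card_subtype, hII t ht]
  refine ⟨p, δ, hδ, hcls, ?_, ?_, ?_, by omega, by omega, ?_, ?_, ?_, fun g => ?_, fun g hg => ?_, hlt, hconj,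
    fun t ht => ?_, fun t ht => ?_, fun B e hB c hc t ht => ?_⟩
  · rintro g ⟨h1, z, hz⟩
    have := hA _ hz (conj_ne_one h1 z)
    rw [ψ.2.isClassFunction.inv_conj, hp] at this
    exact_mod_cast this
  · have := ψ.2.sum_eq_zero hψ1'
    simp only [hp] at this
    exact_mod_cast this
  · have := ψ.2.sum_norm_sq
    simp only [hp, Complex.norm_intCast, sq_abs] at this
    exact_mod_cast this
  · rw [hp] at hk
    exact ⟨k, by
      have : p 1 = δ + k * Nat.card A := by exact_mod_cast hk
      linear_combination this⟩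
  · rw [hx']; exact_mod_cast isIrr_degree_dvd_card ψ.2 hx
  · rw [hy']; exact_mod_cast isIrr_degree_dvd_card χ.2 hy
  · have := isIrr_isIntegral_central ψ.2 g
    rw [hp, hp] at this
    exact int_dvd_of_integral (by omega) (by push_cast; exact this)
  · have := isIrr_isIntegral_central χ.2 g
    rw [hχ g hg, hχ 1 h1A] at this
    exact int_dvd_of_integral (by omega) (by push_cast at this ⊢; exact this)
  · have e1 := hsum t ht t ht
    have e2 := card_mul_sum_II hconj (f := th A lam) (indFun_isClassFunction _) ht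
    have e3 : ∑ g, aa g * th A lam g = Nat.card A * ∑ g, th A lam g := by
      rw [Finset.mul_sum]
      refine Finset.sum_congr rfl fun g _ => ?_
      by_cases e : g ∈ cjInto A
      · rw [h.aa_eq e]
      · rw [th_off lam e, mul_zero, mul_zero]
    have e4 := congrArg conj (th_one hl)
    rw [conj_classInner, classInner_def] at e4
    simp only [map_one, mul_one] at e4
    have := natCard_ne_zero (G := G)
    field_simp at e4
    rw [hII t ht, hIc t ht] at e1
    rw [e3, e4] at e2
    have : (((II G).card ^ 2 * (p 1 - p t) ^ 2 : ℤ) : ℂ) = (Nat.card A * Nat.card G * (p 1 * (p 1 + δ)) : ℤ) := by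
      push_cast
      linear_combination (p 1 : ℂ) * (p 1 + δ) * e2 - (II G).card * e1
    exact_mod_cast this
  · have e1 := classAlg_sum_class_mul_right ψ.2 t t
    rw [hII t ht, hIc t ht] at e1
    simp only [hp] at e1
    field_simp at e1
    have : ((p 1 * ∑ v ∈ II G, p (v * t) : ℤ) : ℂ) = ((II G).card * p t ^ 2 : ℤ) := by
      push_cast
      linear_combination e1
    exact_mod_cast this
  · obtain ⟨k, hk⟩ := hB.sgn_bound ψ.2.isCharacter (c := c) (s := p t) (fun g hg => by rw [hp, hc g hg])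
      fun u hu => by rw [← ψ.2.isClassFunction.apply_eq_of_isConj (hconj t ht u hu), hp]
    rw [hp] at hk
    have : p 1 + (Nat.card B - 1) * c - Nat.card B * p t = k := by exact_mod_cast hk
    omega

end CL.ScS
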