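/-
Arithmetic for the characterisation of the Suzuki groups by three strongly self-centralising subgroups.
-/
import Cfsg.Agent.Base

set_option autoImplicit false

namespace CL.ScS

theorem mul_add_nonneg {δ : ℤ} (hδ : δ = 1 ∨ δ = -1) (z : ℤ) : 0 ≤ z * (z + δ) := by
  rcases hδ with rfl | rfl
  · rcases le_or_gt 0 z with h | h <;> nlinarith
  · rcases le_or_gt z 0 with h | h <;> nlinarith

theorem ar_both {n b c : ℤ} (hn : 5 ≤ n) (hb : 9 ≤ b) (hc : 9 ≤ c) (h : n * ((b - 1) * c + (c - 1) * b) < 8 * b * c) :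
    False := by
  have h1 : 5 * ((b - 1) * c + (c - 1) * b) ≤ n * ((b - 1) * c + (c - 1) * b) :=
    mul_le_mul_of_nonneg_right hn (by nlinarith)
  nlinarith [mul_nonneg (sub_nonneg.2 hb) (sub_nonneg.2 hc)]

theorem ar_mixed0 {n b c x y d : ℤ} (hn : 5 ≤ n) (hb : 9 ≤ b) (hc : 9 ≤ c) (hx : 0 < x) (hy : 0 < y)
    (d1 : (b - 1) * x ≤ b * d) (d2 : (c - 1) * y ≤ c * d) (hT : (2 * n + b + c - 4) * d ^ 2 < 4 * n * x * y) :
    (2 * n + b + c - 4) * ((b - 1) * (c - 1)) < 4 * n * (b * c) := by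
  have h1 : ((b - 1) * x) * ((c - 1) * y) ≤ (b * d) * (c * d) :=
    mul_le_mul d1 d2 (by first | positivity | nlinarith) (le_trans (by first | positivity | nlinarith) d1)
  have h2 : (2 * n + b + c - 4) * (((b - 1) * x) * ((c - 1) * y)) ≤ (2 * n + b + c - 4) * ((b * d) * (c * d)) :=
    mul_le_mul_of_nonneg_left h1 (by omega)
  have h3 : b * c * ((2 * n + b + c - 4) * d ^ 2) < b * c * (4 * n * x * y) :=
    mul_lt_mul_of_pos_left hT (by positivity)
  refine lt_of_mul_lt_mul_right (a := x * y) ?_ (by positivity)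
  linarith

theorem ar_mixed {n b c x δ s w : ℤ} (hδ : δ = 1 ∨ δ = -1) (hn : 5 ≤ n) (hno : n % 2 = 1) (hb : 9 ≤ b) (hc : 9 ≤ c)
    (hb4 : 4 ∣ b - 1) (hc4 : 4 ∣ c - 1) (hbc : b ≠ c) (h8 : n * (b - 1) < 8 * b) (hx : 0 < x) (hy : 0 < x + δ)
    (bx : b ∣ x) (cy : c ∣ x + δ) (nx : n ∣ x - δ) (s1 : b * s ≤ x) (s2 : c * s ≤ x + (c - 1) * -δ)
    (hT : (2 * n + b + c - 4) * (x - s) ^ 2 < 4 * n * x * (x + δ))
    (ho : n * x * (x + δ) * w ^ 2 ≤ 3 * n ^ 2 * b ^ 2 * c ^ 2) (nw : n ∣ w ^ 2 - 1) (hw : 0 < w)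
    (db : IsCoprime (x - s) b) (dc : IsCoprime (x - s) c) (h1 : w = 1 → s * (s + δ) = 0) : False := by
  have k := ar_mixed0 hn hb hc hx hy (d := x - s) (by linarith) (by linarith) hT
  have k0 : 64 * (b * c) ≤ 81 * ((b - 1) * (c - 1)) := by nlinarith [mul_nonneg (sub_nonneg.2 hb) (sub_nonneg.2 hc)]
  have k1 : 64 * (2 * n + b + c - 4) < 81 * (4 * n) := by
    refine lt_of_mul_lt_mul_right (a := b * c) ?_ (by positivity)
    nlinarith [mul_le_mul_of_nonneg_left k0 (show 0 ≤ 2 * n + b + c - 4 by omega)]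
  have hn9 : n < 9 := by nlinarith
  obtain ⟨rfl, hbc'⟩ : n = 7 ∧ ((b = 9 ∧ c = 13) ∨ (b = 13 ∧ c = 9)) := by
    have : b ≤ 20 := by omega
    have : c ≤ 20 := by omega
    interval_cases n <;> interval_cases b <;> interval_cases c <;> omega
  have hw' : w = 1 ∨ 6 ≤ w := by
    rcases lt_or_ge w 6 with h | h
    · interval_cases w <;> omega
    · exact Or.inr h
  rcases hw' with h | h
  · rcases mul_eq_zero.1 (h1 h) with e | e
    · have := db.symm.isUnit_of_dvd (by rw [e, sub_zero]; exact bx)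
      rw [Int.isUnit_iff] at this; omega
    · have := dc.symm.isUnit_of_dvd (by rw [show x - s = x + δ by omega]; exact cy)
      rw [Int.isUnit_iff] at this; omega
  have k2 : x * (x + δ) * 36 ≤ x * (x + δ) * w ^ 2 := mul_le_mul_of_nonneg_left (by nlinarith) (by positivity)
  have k3 : x * (x + δ) ≤ 7985 := by rcases hbc' with ⟨rfl, rfl⟩ | ⟨rfl, rfl⟩ <;> norm_num at ho <;> nlinarith
  have k4 : x ≤ 89 := by rcases hδ with rfl | rfl <;> nlinarith
  obtain ⟨rfl, rfl, rfl, rfl⟩ : b = 9 ∧ c = 13 ∧ x = 27 ∧ δ = -1 := by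
    clear ho k k0 k1 k2 k3 hT s1 s2 h1
    rcases hbc' with ⟨rfl, rfl⟩ | ⟨rfl, rfl⟩ <;> rcases hδ with rfl | rfl <;> omega
  have : s = 3 := by
    have : s ≤ 3 := by omega
    by_contra e
    have : 25 ≤ 27 - s := by omega
    nlinarith
  subst this
  have := db.isUnit_of_dvd' (x := 3) (by norm_num) (by norm_num)
  rw [Int.isUnit_iff] at this; omega

theorem ar_w {n b c x δ s w z i : ℤ} (hδ : δ = 1 ∨ δ = -1) (hn : 5 ≤ n) (hno : n % 2 = 1) (hb : 9 ≤ b) (hc : 9 ≤ c)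
    (hbc : b ≠ c) (hb4 : 4 ∣ b - 1) (hc4 : 4 ∣ c - 1) (hx : 0 < x) (hy : x + δ = b * c * z) (nx : n ∣ x - δ) (hd : s < x)
    (ho : n * x * (x + δ) * w ^ 2 ≤ 3 * n ^ 2 * b ^ 2 * c ^ 2) (nw : n ∣ w ^ 2 - 1) (hw : 0 < w)
    (dn : IsCoprime (x - s) n) (db : IsCoprime (x - s) b) (dc : IsCoprime (x - s) c)
    (k1 : x * (x + δ) + i * (s * (s + δ)) ≤ x * (x + δ) * w ^ 2) (k2 : i * (x - s) = n * x * (x + δ) * w)
    (k3 : x ∣ i * s) (hi : i % 2 = 1) : w = 1 := by
  by_contra hw1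
  have hπ : 117 ≤ b * c := by
    rcases lt_or_gt_of_ne hbc with h | h
    · nlinarith [mul_nonneg (sub_nonneg.2 hb) (show 0 ≤ c - 13 by omega), show 13 ≤ c by omega]
    · nlinarith [mul_nonneg (sub_nonneg.2 hc) (show 0 ≤ b - 13 by omega), show 13 ≤ b by omega]
  set π := b * c with hπ'
  obtain ⟨j, hj⟩ := nw
  have hj0 : 0 < j := by
    have : 0 < n * j := by nlinarith [show 2 ≤ w by omega]
    exact (mul_pos_iff_of_pos_left (by omega)).1 this
  have hz : 0 < z := by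
    have : 0 ≤ π * z := by omega
    have : 0 ≤ z := nonneg_of_mul_nonneg_right this (by omega)
    rcases this.eq_or_lt with rfl | h
    · have : x = 1 ∧ δ = -1 := by omega
      obtain ⟨rfl, rfl⟩ := this
      have := Int.le_of_dvd (by norm_num) nx
      omega
    · exact h
  have ho' : x * z * (1 + n * j) ≤ 3 * n * π := by
    refine le_of_mul_le_mul_left (a := n * π) ?_ (by positivity)
    rw [hy, show w ^ 2 = 1 + n * j by linarith] at ho
    rw [hπ'] at ho ⊢
    linarith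
  have hx1 : π * z - 1 ≤ x := by omega
  have hz1 : z = 1 := by
    by_contra e
    have e1 : 2 * π - 1 ≤ x := by nlinarith [show 2 ≤ z by omega]
    have e2 : (2 * π - 1) * 2 ≤ x * z := mul_le_mul e1 (by omega) (by norm_num) hx.le
    have e3 : (2 * π - 1) * 2 * n ≤ x * z * (1 + n * j) := mul_le_mul e2 (by nlinarith) (by omega) (by positivity)
    nlinarith
  subst hz1
  rw [mul_one] at hy hx1 ho'
  have hj3 : j ≤ 3 := by
    by_contra e
    have e3 : (π - 1) * (4 * n) ≤ x * (1 + n * j) := mul_le_mul hx1 (by nlinarith) (by omega) hx.le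
    nlinarith
  have hdp : 0 < x - s := by omega
  have hy0 : 0 < x + δ := by omega
  have k4 : w * (s * (s + δ)) ≤ j * (x - s) := by
    refine le_of_mul_le_mul_left (a := n * x * (x + δ)) ?_ (by positivity)
    have := mul_le_mul_of_nonneg_right k1 hdp.le
    rw [show w ^ 2 = 1 + n * j by linarith] at this
    linear_combination this - s * (s + δ) * k2
  have k5 : x - s ∣ w * s := by
    obtain ⟨q, hq⟩ := k3
    have e : (x - s) * q = n * (π * (w * s)) := by
      refine mul_left_cancel₀ hx.ne' ?_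
      rw [← hy]; linear_combination s * k2 - (x - s) * hq
    exact (db.mul_right dc).dvd_of_dvd_mul_left (dn.dvd_of_dvd_mul_left ⟨q, e.symm⟩)
  by_cases hs : s = 0
  · subst hs
    have e : i = n * π * w := mul_right_cancel₀ hx.ne' (by rw [← hy]; linear_combination k2)
    obtain ⟨v, rfl⟩ : Odd w := by
      by_contra e'
      obtain ⟨v, rfl⟩ := Int.not_odd_iff_even.1 e'
      have : i = 2 * (n * π * v) := by rw [e]; ring
      omega
    obtain ⟨r, hr⟩ := Int.even_mul_succ_self v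
    have : n * j = 8 * r := by linear_combination 4 * hr - hj
    interval_cases j <;> omega
  have k6 : x - s ≤ w * |s| := by
    have := Int.le_of_dvd (by positivity) ((dvd_abs _ _).2 k5)
    rwa [abs_mul, abs_of_pos hw] at this
  have k7 : s * (s + δ) ≤ 3 * |s| := by
    refine le_of_mul_le_mul_left (a := w) ?_ hw
    nlinarith [mul_le_mul hj3 k6 hdp.le (by norm_num : (0 : ℤ) ≤ 3)]
  have k8 : |s| ≤ 4 := by
    rcases abs_cases s with h | h <;> rw [h.1] at k7 ⊢ <;> rcases hδ with rfl | rfl <;> nlinarith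
  have k9 : x ≤ 4 * w + 4 := by nlinarith [le_abs_self s]
  have k10 : n ≤ x - δ := Int.le_of_dvd (by omega) nx
  have : 28 ≤ w := by omega
  nlinarith

theorem ar_size {n b c z d m : ℤ} (hb : 9 ≤ b) (hbc : b < c) (hm : b ≤ m) (hd0 : 0 < d) (hd : d ≤ m + 8)
    (hn : 2 * n = c + d) (h1 : 4 * m * c < (b + c) * z) (h2 : z ^ 2 - z ≤ 3 * n)
    (h3 : (n - 6) * c ≤ b * z * d ^ 2 + 8 * d) : False := by
  have hz0 : 0 < z := by
    by_contra e
    nlinarith [mul_nonneg (show 0 ≤ b + c by omega) (show 0 ≤ -z by omega), mul_pos (show 0 < m by omega) (show 0 < c by omega)]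
  have e1 : 2 * m < z := by
    refine lt_of_mul_lt_mul_right (a := 2 * c) ?_ (by omega)
    nlinarith [mul_le_mul_of_nonneg_right hbc.le hz0.le]
  have e2 : 10 * z ≤ c := by nlinarith [mul_nonneg (show 0 ≤ z - 19 by omega) hz0.le]
  have e3 : 80 * m < 21 * z := by
    refine lt_of_mul_lt_mul_right (a := c) ?_ (by omega)
    nlinarith [mul_le_mul_of_nonneg_right (show 20 * b ≤ c by omega) hz0.le]
  have e4 : 35 ≤ z := by omega
  have e5 : 2 * d ≤ z := by omega
  have e6 : 3 * z ^ 2 ≤ 10 * (n - 6) := by nlinarith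
  have e7 : 3 * z ^ 2 ≤ 5 * c := by nlinarith
  have e8 : 3 * z ^ 2 * (3 * z ^ 2) ≤ 10 * (n - 6) * (5 * c) := mul_le_mul e6 e7 (by positivity) (by nlinarith)
  have e9 : (2 * d) ^ 2 ≤ z ^ 2 := pow_le_pow_left₀ (by omega) e5 2
  have e10 : 80 * b * z * (2 * d) ^ 2 ≤ 21 * z * z * z ^ 2 :=
    mul_le_mul (mul_le_mul_of_nonneg_right (by omega) hz0.le) e9 (by positivity) (by positivity)
  have e11 : 35 * z ≤ z ^ 2 := by nlinarith
  have e12 : 35 * z ^ 2 ≤ z ^ 2 * z ^ 2 := by nlinarith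
  nlinarith

theorem ar_z {n b c x δ z ρ Y : ℤ} (hδ : δ = 1 ∨ δ = -1) (hn : 5 ≤ n) (hb : 9 ≤ b) (hbc : b < c) (hx : 0 < x)
    (hy : x + δ = b * c * z) (hz : 1 < z) (hρ : 0 ≤ ρ) (hρ' : 4 * ρ = 4 * δ + 2 * n - b - c)
    (y1 : ρ * (n * x * (x + δ)) ≤ Y * z) (y2 : n * x * (x + δ) ≤ Y * z)
    (hY : 4 * Y = x * (4 * δ - 2 * (x + δ) + n * z * (b + c))) (ho : n * x * (x + δ) ≤ 3 * n ^ 2 * b ^ 2 * c ^ 2)
    (nx : n ∣ x - δ) (hc : c ∣ n * b * z + 4 * δ) : False := by
  obtain ⟨κ, k1, k2, k3⟩ : ∃ κ : ℤ, 1 ≤ κ ∧ ρ ≤ κ ∧ κ * (n * x * (x + δ)) ≤ Y * z := by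
    rcases hρ.eq_or_lt with rfl | h
    · exact ⟨1, le_rfl, by norm_num, by linarith⟩
    · exact ⟨ρ, h, le_rfl, y1⟩
  have hπ : 81 ≤ b * c := by nlinarith
  have hy1 : 81 ≤ x + δ := by nlinarith
  have e1 : 4 * (κ * b) * c < (b + c) * z := by
    refine lt_of_mul_lt_mul_left (a := n * x * z) ?_ (by positivity)
    have : 0 < x * z * (2 * (x + δ) - 4 * δ) := mul_pos (by positivity) (by omega)
    have e : 4 * (Y * z) = x * (4 * δ - 2 * (x + δ) + n * z * (b + c)) * z := by rw [← hY]; ring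
    rw [hy] at k3
    nlinarith
  have e2 : z ^ 2 - z ≤ 3 * n := by
    have : x * z ≤ 3 * n * (b * c) := by
      refine le_of_mul_le_mul_left (a := n * (b * c)) ?_ (by positivity)
      rw [hy] at ho; linarith
    have h' : (b * c * z - 1) * z ≤ x * z := mul_le_mul_of_nonneg_right (by omega) (by omega)
    refine le_of_mul_le_mul_left (a := b * c) ?_ (by omega)
    nlinarith
  set d := b + 4 * ρ - 4 * δ with hd
  have hd0 : 5 ≤ d := by omega
  obtain ⟨β, hβ⟩ : c ∣ b * z * d + 8 * δ := by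
    have := dvd_sub (hc.mul_left 2) (dvd_mul_right c (b * z))
    rwa [show 2 * (n * b * z + 4 * δ) - c * (b * z) = b * z * d + 8 * δ by linear_combination (-b * z) * hρ'] at this
  have hβ0 : 0 < β := by
    have : 18 ≤ b * z := by nlinarith
    have : 18 * 5 ≤ b * z * d := mul_le_mul this hd0 (by norm_num) (by omega)
    have : 0 < c * β := by omega
    exact (mul_pos_iff_of_pos_left (by omega)).1 this
  have e3 : n ∣ β * d + 6 * δ := by
    have := dvd_add (dvd_sub (dvd_mul_right n (2 * β)) (dvd_mul_right n (2 * b * z))) nx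
    rwa [show n * (2 * β) - n * (2 * b * z) + (x - δ) = β * d + 6 * δ by
      linear_combination (b * z - β) * hρ' - hβ + hy] at this
  have e4 : n ≤ β * d + 6 * δ := Int.le_of_dvd (by
    rcases hδ with rfl | rfl
    · positivity
    · nlinarith [show 13 ≤ d by omega]) e3
  refine ar_size hb hbc (m := κ * b) (d := d) (n := n) (z := z) (by nlinarith) (by omega)
    (by nlinarith [mul_nonneg (sub_nonneg.2 k1) (show 0 ≤ b - 4 by omega), show -1 ≤ δ by omega]) (by omega) e1 e2 ?_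
  have e5 : (n - 6) * c ≤ β * d * c := mul_le_mul_of_nonneg_right (by omega) (by omega)
  have e6 : δ * d ≤ d := by rcases hδ with rfl | rfl <;> omega
  nlinarith

theorem ar_fin {n b c δ : ℤ} (hδ : δ = 1 ∨ δ = -1) (hn : 5 ≤ n) (h1 : 4 * δ + 2 * n - b - c = 0)
    (h2 : 4 * δ - 2 * (b * c) + n * (b + c) = 0) : δ = 1 ∧ b * c = (n + 1) ^ 2 + 1 := by
  rcases hδ with rfl | rfl
  · exact ⟨rfl, by nlinarith⟩
  · exfalso; nlinarith [sq_nonneg (b - c)]

end CL.ScS
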