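/-
Three strongly self-centralising subgroups: determination of the group order.
-/
import Cfsg.Agent.Inv.ScS3
import Cfsg.Agent.Inv.ScS4

set_option autoImplicit false
set_option linter.style.haveILetI false

namespace CL.ScS
open Subgroup CL.Char Cfsg

variable {G : Type*} [Group G] [Fintype G]

theorem SC.card_SS' {B : Subgroup G} {e : ℕ} (h : SC B e) :
    ((SS B).card : ℤ) * (Nat.card B * e) = (Nat.card B - 1) * Nat.card G := by
  have := h.card_SS
  zify at this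
  linarith

theorem SC.not_II {B : Subgroup G} {e : ℕ} (h : SC B e) {t : G} (ht : t ∈ II G) : t ∉ cjInto B := fun h' => by
  have := h.odd_orderOf h'
  rw [mem_II.1 ht] at this
  exact absurd this (by decide)

theorem SC.ix_eq {B : Subgroup G} {e : ℕ} (h : SC B e) {g : G} (hg : g ∈ cjInto B) : ix g = B.index :=
  Nat.eq_of_mul_eq_mul_left (Nat.card_pos (α := B)) (by rw [card_mul_index, ← h.cz_eq hg, cz_mul_ix])

theorem SC.exists_II {B : Subgroup G} {e : ℕ} (h : SC B e) : ∃ t, t ∈ II G := by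
  obtain ⟨τ, hτ, h1, hi⟩ := h.exists_tau
  exact ⟨_, SC.tau_mul hτ h1 hi B.one_mem⟩

theorem SC.cop_cz {B : Subgroup G} {e : ℕ} (h : SC B e) {g : G} (h1 : g ≠ 1) (hg : g ∉ cjInto B) :
    IsCoprime (cz g : ℤ) (Nat.card B) := Nat.isCoprime_iff_coprime.2 (h.coprime_cz h1 hg)

theorem cz_mul_ix' (g : G) : (cz g : ℤ) * ix g = Nat.card G := by exact_mod_cast cz_mul_ix g

theorem sum_SS_const {B : Subgroup G} {f : G → ℤ} {c : ℤ} (h : ∀ g ∈ cjInto B, f g = c) :
    ∑ g ∈ SS B, f g = (SS B).card * c := by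
  rw [Finset.sum_congr rfl fun g hg => h g (mem_SS.1 hg), Finset.sum_const, nsmul_eq_mul]

namespace Dat
variable {A : Subgroup G} {p : G → ℤ} {δ : ℤ} (hA : SC A 2) (D : Dat A p δ)
include hA D

open Classical in
theorem sumP : (Nat.card A : ℤ) * ∑ g ∈ (SS A)ᶜ, p g * (p g + δ) = Nat.card G := by
  have h1 := Finset.sum_add_sum_compl (SS A) fun g => p g * (p g + δ)
  rw [sum_SS_const (c := 2) fun g hg => by rw [D.onA g hg]; rcases D.hδ with rfl | rfl <;> norm_num] at h1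
  have h2 : ∑ g, p g * (p g + δ) = Nat.card G := by
    rw [← D.sum2, ← add_zero (∑ g, p g ^ 2), ← mul_zero δ, ← D.sum0, Finset.mul_sum, ← Finset.sum_add_distrib]
    exact Finset.sum_congr rfl fun g _ => by ring
  have h3 := hA.card_SS'
  push_cast at h3
  linear_combination (Nat.card A : ℤ) * (h1.trans h2) - h3

open Classical in
theorem sumQ : (Nat.card A : ℤ) * ∑ g ∈ (SS A)ᶜ, (p g + δ) ^ 2 = 2 * Nat.card G := by
  have h1 := Finset.sum_add_sum_compl (SS A) fun g => (p g + δ) ^ 2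
  rw [sum_SS_const (c := 4) fun g hg => by rw [D.onA g hg]; rcases D.hδ with rfl | rfl <;> norm_num] at h1
  have h2 : ∑ g, (p g + δ) ^ 2 = 2 * Nat.card G := by
    have : ∑ g, (p g + δ) ^ 2 = ∑ g, p g ^ 2 + 2 * δ * ∑ g, p g + ∑ _g : G, (1 : ℤ) := by
      rw [Finset.mul_sum, ← Finset.sum_add_distrib, ← Finset.sum_add_distrib]
      exact Finset.sum_congr rfl fun g _ => by rcases D.hδ with rfl | rfl <;> ring
    rw [this, D.sum0, D.sum2, Finset.sum_const, Finset.card_univ, ← Nat.card_eq_fintype_card]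
    simp [two_mul]
  have h3 := hA.card_SS'
  push_cast at h3
  linear_combination (Nat.card A : ℤ) * (h1.trans h2) - 2 * h3

omit hA in
theorem cop_xy : IsCoprime (p 1) (p 1 + δ) :=
  ⟨-δ, δ, by rcases D.hδ with rfl | rfl <;> ring⟩

theorem exists_w {t : G} (ht : t ∈ II G) : ∃ w : ℤ, 0 < w ∧ (Nat.card G : ℤ) = Nat.card A * p 1 * (p 1 + δ) * w ^ 2 ∧
    (cz t : ℤ) = w * (p 1 - p t) ∧ (Nat.card A : ℤ) ∣ w ^ 2 - 1 ∧
    (II G).card * (p 1 - p t) = Nat.card A * p 1 * (p 1 + δ) * w := by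
  obtain ⟨k, hk⟩ := D.xmod
  obtain ⟨r, hr⟩ := hA.odd
  zify at hr
  set n : ℤ := ((Nat.card A : ℕ) : ℤ)
  have hδ2 : δ * δ = 1 := by rcases D.hδ with rfl | rfl <;> norm_num
  have c1 : IsCoprime n (p 1) := ⟨-k * δ, δ, by linear_combination δ * hk + hδ2⟩
  have c2 : IsCoprime n (p 1 + δ) := ⟨1 + r * k * δ, -r * δ, by linear_combination hr - r * δ * hk - 2 * r * hδ2⟩
  obtain ⟨W, hW⟩ : n * (p 1 * (p 1 + δ)) ∣ Nat.card G := (c1.mul_right c2).mul_dvd
    (Int.natCast_dvd_natCast.2 (card_subgroup_dvd_card A)) (D.cop_xy.mul_dvd D.xdvd D.ydvd)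
  have e1 := D.eq1 t ht
  have e2 := cz_mul_ix' t
  rw [← card_II D.cj ht] at e2
  have hd := sub_pos.2 (D.lt t (mem_II'.1 ht).2)
  have hN : (0 : ℤ) < Nat.card G := by exact_mod_cast Nat.card_pos
  have hn : 0 < n := Int.natCast_pos.2 Nat.card_pos
  have hx := D.xpos
  have hy := D.ypos
  have hc : (0 : ℤ) < cz t := by exact_mod_cast cz_pos t
  have e3 : (cz t : ℤ) ^ 2 = (p 1 - p t) ^ 2 * W := by
    refine mul_left_cancel₀ (a := n * Nat.card G * (p 1 * (p 1 + δ))) (by positivity) ?_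
    linear_combination (-(cz t : ℤ) ^ 2) * e1 + (p 1 - p t) ^ 2 * ((cz t : ℤ) * (II G).card + Nat.card G) * e2 +
      (p 1 - p t) ^ 2 * Nat.card G * hW
  obtain ⟨w, hw⟩ := (Int.pow_dvd_pow_iff two_ne_zero).1 ⟨W, e3⟩
  have e4 : W = w ^ 2 := mul_left_cancel₀ (a := (p 1 - p t) ^ 2) (by positivity) (by rw [← e3, hw]; ring)
  have hw0 : 0 < w := (mul_pos_iff_of_pos_left hd).1 (hw ▸ hc)
  refine ⟨w, hw0, by rw [hW, e4]; ring, by rw [hw, mul_comm], ?_, mul_left_cancel₀ hw0.ne' ?_⟩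
  · obtain ⟨m, h1, -, j, hj⟩ := hA.exists_m
    zify at h1
    have e5 : p 1 * (p 1 + δ) * w ^ 2 = 2 * m := mul_left_cancel₀ hn.ne' (by linear_combination h1 - hW - n * (p 1 * (p 1 + δ)) * e4)
    refine (show IsCoprime n 2 from ⟨1, -r, by linear_combination hr⟩).dvd_of_dvd_mul_left
      ⟨2 * j - (3 * k * δ + n * k ^ 2) * w ^ 2, ?_⟩
    linear_combination e5 + 2 * hj - w ^ 2 * (p 1 + 2 * δ + n * k) * hk - 2 * w ^ 2 * hδ2
  · linear_combination e2 + hW + n * (p 1 * (p 1 + δ)) * e4 - (II G).card * hw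

theorem sum_w {w : ℤ} (hw : (Nat.card G : ℤ) = Nat.card A * p 1 * (p 1 + δ) * w ^ 2) :
    open Classical in ∑ g ∈ (SS A)ᶜ, p g * (p g + δ) = p 1 * (p 1 + δ) * w ^ 2 :=
  mul_left_cancel₀ (a := (Nat.card A : ℤ)) (by exact_mod_cast (Nat.card_pos (α := A)).ne') (by
    rw [D.sumP hA, hw]; ring)

theorem k1 {w : ℤ} (hw : (Nat.card G : ℤ) = Nat.card A * p 1 * (p 1 + δ) * w ^ 2) {t : G} (ht : t ∈ II G) :
    p 1 * (p 1 + δ) + (II G).card * (p t * (p t + δ)) ≤ p 1 * (p 1 + δ) * w ^ 2 := by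
  classical
  rw [← D.sum_w hA hw, ← nsmul_eq_mul, ← Finset.sum_const, Finset.sum_congr rfl (g := fun g => p g * (p g + δ))
    fun u hu => by obtain ⟨k, rfl⟩ := isConj_iff.1 (D.cj t ht u hu); rw [D.cls],
    ← Finset.sum_insert (f := fun g => p g * (p g + δ)) (by simp [mem_II'])]
  refine Finset.sum_le_sum_of_subset_of_nonneg (fun g hg => ?_) fun g _ _ => mul_add_nonneg D.hδ _
  rw [Finset.mem_compl, mem_SS]
  rcases Finset.mem_insert.1 hg with rfl | hg
  exacts [fun h => h.1 rfl, hA.not_II hg]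

theorem type {B : Subgroup G} {e : ℕ} (hB : SC B e) (hd : ∀ g ∈ cjInto B, g ∉ cjInto A) :
    ((Nat.card B : ℤ) ∣ p 1 + δ ∧ ∀ g ∈ cjInto B, p g = -δ) ∨ ((Nat.card B : ℤ) ∣ p 1 ∧ ∀ g ∈ cjInto B, p g = 0) := by
  classical
  obtain ⟨t, ht⟩ := hA.exists_II
  obtain ⟨w, hw0, hw, hc, -⟩ := D.exists_w hA ht
  have hi : IsCoprime (Nat.card B : ℤ) B.index := Nat.isCoprime_iff_coprime.2 hB.coprime_index
  have hb1 : (1 : ℤ) < Nat.card B := by exact_mod_cast hB.nt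
  have hn1 : (1 : ℤ) < Nat.card A := by exact_mod_cast hA.nt
  have hN : (Nat.card B : ℤ) * B.index = Nat.card G := by exact_mod_cast card_mul_index B
  have hi0 : (0 : ℤ) < B.index := by exact_mod_cast Nat.pos_of_ne_zero index_ne_zero_of_finite
  have hxy : (Nat.card B : ℤ) ∣ p 1 * (p 1 + δ) := by
    have c1 : IsCoprime (Nat.card B : ℤ) (Nat.card A) := Nat.isCoprime_iff_coprime.2 (hB.coprime_card hA hd)
    have c2 : IsCoprime (Nat.card B : ℤ) w :=
      (hB.cop_cz (mem_II'.1 ht).2 (hB.not_II ht)).symm.of_isCoprime_of_dvd_right ⟨_, hc⟩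
    exact (c1.mul_right (c2.pow_right (n := 2))).dvd_of_dvd_mul_left ⟨B.index, by rw [hN, hw]; ring⟩
  have key : ∀ g ∈ cjInto B, ((Nat.card B : ℤ) ∣ p 1 + δ ∧ p g = -δ) ∨ ((Nat.card B : ℤ) ∣ p 1 ∧ p g = 0) := fun g hg => by
    have i1 := D.int1 g
    have i2 := D.int2 g (hd g hg)
    have i3 := sum_class_le (T := (SS A)ᶜ) (f := fun g => p g * (p g + δ))
      (fun g hg k => by rwa [Finset.mem_compl, mem_SS, conj_mem_cjInto, ← mem_SS, ← Finset.mem_compl])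
      (fun g k => by simp only [D.cls]) (fun g _ => mul_add_nonneg D.hδ _) (g := g)
      (by rw [Finset.mem_compl, mem_SS]; exact hd g hg)
    rw [hB.ix_eq hg] at i1 i2 i3
    have i4 : (Nat.card B : ℤ) ∣ p g * (p g + δ) := (hi.mul_right hi).dvd_of_dvd_mul_left
      (hxy.trans (by convert mul_dvd_mul i1 i2 using 1; ring))
    have i5 : Nat.card A * (p g * (p g + δ)) ≤ Nat.card B := by
      refine le_of_mul_le_mul_right ?_ hi0
      rw [hN, ← D.sumP hA]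
      nlinarith
    have i6 := mul_add_nonneg D.hδ (p g)
    have hu : IsUnit δ := Int.isUnit_iff.2 D.hδ
    rcases mul_eq_zero.1 (Int.eq_zero_of_dvd_of_nonneg_of_lt i6 (by nlinarith) i4) with e | e
    · rw [e, zero_add, hu.dvd_mul_right] at i2
      exact Or.inr ⟨(hi.of_isCoprime_of_dvd_right i2).dvd_of_dvd_mul_right hxy, e⟩
    · rw [eq_neg_of_add_eq_zero_left e, hu.neg.dvd_mul_right] at i1
      exact Or.inl ⟨(hi.of_isCoprime_of_dvd_right i1).dvd_of_dvd_mul_left hxy, eq_neg_of_add_eq_zero_left e⟩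
  have hno : ¬ ((Nat.card B : ℤ) ∣ p 1 ∧ (Nat.card B : ℤ) ∣ p 1 + δ) := fun h => by
    have := Int.isUnit_iff.1 (D.cop_xy.isUnit_of_dvd' h.1 h.2)
    omega
  obtain ⟨g0, h0, h1⟩ := hB.exists_ne_one
  rcases key g0 (mem_cjInto_of_mem h0 h1) with h | h
  · exact Or.inl ⟨h.1, fun g hg => (key g hg).elim And.right fun h' => (hno ⟨h'.1, h.1⟩).elim⟩
  · exact Or.inr ⟨h.1, fun g hg => (key g hg).elim (fun h' => (hno ⟨h.1, h'.1⟩).elim) And.right⟩

theorem typeII_le {T : Finset G} (h1 : 1 ∉ T) (hT : ∀ g ∈ T, g ∉ cjInto A ∧ p g = 0) :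
    (Nat.card A : ℤ) * T.card < 2 * Nat.card G := by
  classical
  rw [← D.sumQ hA]
  refine mul_lt_mul_of_pos_left ?_ (by exact_mod_cast Nat.card_pos (α := A))
  have e : ∑ g ∈ insert 1 T, (p g + δ) ^ 2 = (p 1 + δ) ^ 2 + T.card := by
    rw [Finset.sum_insert h1, Finset.sum_congr rfl (g := fun _ => 1) fun g hg => by
      rw [(hT g hg).2]; rcases D.hδ with rfl | rfl <;> norm_num]
    simp
  refine lt_of_lt_of_le (by rw [e]; nlinarith [D.ypos]) (Finset.sum_le_sum_of_subset_of_nonneg (s := insert 1 T)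
    (fun g hg => ?_) fun g _ _ => sq_nonneg _)
  rw [Finset.mem_compl, mem_SS]
  rcases Finset.mem_insert.1 hg with rfl | hg
  exacts [fun h => h.1 rfl, (hT g hg).1]

end Dat

/-- The hypotheses on the three subgroups. -/
structure Tri (A B C : Subgroup G) : Prop where
  hA : SC A 2
  hB : SC B 4
  hC : SC C 4
  dBA : ∀ g ∈ cjInto B, g ∉ cjInto A
  dCA : ∀ g ∈ cjInto C, g ∉ cjInto A
  dCB : ∀ g ∈ cjInto C, g ∉ cjInto B
  n5 : 5 ≤ Nat.card A
  b5 : 5 < Nat.card B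
  c5 : 5 < Nat.card C
  ord : Nat.card G ≤ 3 * Nat.card A ^ 2 * Nat.card B ^ 2 * Nat.card C ^ 2

open Classical in
/-- The non-identity elements not conjugate into `A`, `B`, `C`. -/
noncomputable def RR (A B C : Subgroup G) : Finset G :=
  Finset.univ.filter fun g => g ≠ 1 ∧ g ∉ cjInto A ∧ g ∉ cjInto B ∧ g ∉ cjInto C

theorem mem_RR {A B C : Subgroup G} {g : G} : g ∈ RR A B C ↔ g ≠ 1 ∧ g ∉ cjInto A ∧ g ∉ cjInto B ∧ g ∉ cjInto C := by
  simp [RR]

namespace Tri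
variable {A B C : Subgroup G} (T : Tri A B C)
include T

theorem symm : Tri A C B :=
  ⟨T.hA, T.hC, T.hB, T.dCA, T.dBA, fun g hg h => T.dCB g h hg, T.n5, T.c5, T.b5, by
    have := T.ord; rwa [mul_right_comm] at this⟩

theorem sum_split (f : G → ℤ) :
    ∑ g, f g = f 1 + ∑ g ∈ SS A, f g + ∑ g ∈ SS B, f g + ∑ g ∈ SS C, f g + ∑ g ∈ RR A B C, f g := by
  classical
  simp only [SS, RR, Finset.sum_filter]
  rw [show f 1 = ∑ g, if g = 1 then f g else 0 by simp]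
  simp only [← Finset.sum_add_distrib]
  refine Finset.sum_congr rfl fun g _ => ?_
  by_cases h1 : g = 1
  · subst h1
    have : ∀ K : Subgroup G, (1 : G) ∉ cjInto K := fun K h => h.1 rfl
    simp [this]
  have := T.dBA g
  have := T.dCA g
  have := T.dCB g
  by_cases hA : g ∈ cjInto A <;> by_cases hB : g ∈ cjInto B <;> by_cases hC : g ∈ cjInto C <;> simp_all

theorem b9 : (9 : ℤ) ≤ Nat.card B ∧ (4 : ℤ) ∣ Nat.card B - 1 := by
  have h1 := T.hB.e_dvd
  have h2 := T.b5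
  push_cast at h1
  omega

theorem cop : IsCoprime (Nat.card B : ℤ) (Nat.card C) :=
  (Nat.isCoprime_iff_coprime.2 (T.hC.coprime_card T.hB T.dCB)).symm

theorem b_ne_c : (Nat.card B : ℤ) ≠ Nat.card C := fun e => by
  have := T.cop
  rw [e, isCoprime_self, Int.isUnit_iff] at this
  have := T.c5
  omega

theorem sum_aa (f : G → ℤ) {a b c : ℤ} (ha : ∀ g ∈ cjInto A, f g = a) (hb : ∀ g ∈ cjInto B, f g = b)
    (hc : ∀ g ∈ cjInto C, f g = c) : 4 * ∑ g, aa g * f g = 4 * (II G).card * f 1 +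
      (2 * (Nat.card A - 1) * a + (Nat.card B - 1) * b + (Nat.card C - 1) * c) * Nat.card G +
      4 * ∑ g ∈ RR A B C, aa g * f g := by
  rw [T.sum_split, aa_one, sum_SS_const (c := Nat.card A * a) fun g hg => by rw [T.hA.aa_eq hg, ha g hg],
    sum_SS_const (c := Nat.card B * b) fun g hg => by rw [T.hB.aa_eq hg, hb g hg],
    sum_SS_const (c := Nat.card C * c) fun g hg => by rw [T.hC.aa_eq hg, hc g hg]]
  have h1 := T.hA.card_SS'
  have h2 := T.hB.card_SS'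
  have h3 := T.hC.card_SS'
  push_cast at h1 h2 h3
  linear_combination 2 * a * h1 + b * h2 + c * h3

variable {p : G → ℤ} {δ : ℤ} (D : Dat A p δ)
include D

theorem pair {t : G} (ht : t ∈ II G) : (2 * Nat.card A + Nat.card B + Nat.card C - 4) * (p 1 - p t) ^ 2 <
    4 * Nat.card A * p 1 * (p 1 + δ) := by
  have h1 := T.sum_aa (fun _ => 1) (fun _ _ => rfl) (fun _ _ => rfl) (fun _ _ => rfl)
  rw [← card_mul_sum_II D.cj (fun _ _ => rfl) ht] at h1
  have h2 : 0 ≤ ∑ g ∈ RR A B C, (aa g : ℤ) * 1 := Finset.sum_nonneg fun g _ => by positivity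
  have h3 : (0 : ℤ) < (II G).card := by exact_mod_cast Finset.card_pos.2 ⟨t, ht⟩
  have hN : (0 : ℤ) < Nat.card G := by exact_mod_cast Nat.card_pos
  simp only [Finset.sum_const, nsmul_eq_mul, mul_one] at h1 h2
  have h4 : (2 * Nat.card A + Nat.card B + Nat.card C - 4) * (Nat.card G : ℤ) < 4 * (II G).card ^ 2 := by linarith
  have h5 := mul_lt_mul_of_pos_right h4 (pow_pos (sub_pos.2 (D.lt t (mem_II'.1 ht).2)) 2)
  refine lt_of_mul_lt_mul_right ?_ hN.le
  linear_combination h5 + 4 * D.eq1 t ht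

theorem ord' {w : ℤ} (hw : (Nat.card G : ℤ) = Nat.card A * p 1 * (p 1 + δ) * w ^ 2) :
    Nat.card A * p 1 * (p 1 + δ) * w ^ 2 ≤ 3 * Nat.card A ^ 2 * Nat.card B ^ 2 * Nat.card C ^ 2 := by
  rw [← hw]; exact_mod_cast T.ord

theorem typeI : (Nat.card B : ℤ) ∣ p 1 + δ ∧ ∀ g ∈ cjInto B, p g = -δ := by
  classical
  refine (D.type T.hA T.hB T.dBA).resolve_right fun hB => ?_
  have hN : (0 : ℤ) < Nat.card G := by exact_mod_cast Nat.card_pos
  have h2 := T.hB.card_SS'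
  have h3 := T.hC.card_SS'
  have hn : (5 : ℤ) ≤ Nat.card A := by exact_mod_cast T.n5
  have hb := T.b9
  have hc := T.symm.b9
  push_cast at h2 h3
  rcases D.type T.hA T.hC T.dCA with hC | hC
  · obtain ⟨t, ht⟩ := T.hA.exists_II
    obtain ⟨w, hw0, hw, hz, nw, -⟩ := D.exists_w T.hA ht
    have e := D.typeII_le T.hA (T := SS B) (fun h => (mem_SS.1 h).1 rfl)
      fun g hg => ⟨T.dBA g (mem_SS.1 hg), hB.2 g (mem_SS.1 hg)⟩
    refine ar_mixed D.hδ hn (by have := Nat.odd_iff.1 T.hA.odd; omega) hb.1 hc.1 hb.2 hc.2 T.b_ne_c ?_ D.xpos D.ypos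
      hB.1 hC.1 D.xmod (by simpa using D.sgn B 4 T.hB 0 hB.2 t ht) (D.sgn C 4 T.hC _ hC.2 t ht) (T.pair D ht)
      (T.ord' D hw) nw hw0 ((T.hB.cop_cz (mem_II'.1 ht).2 (T.hB.not_II ht)).of_isCoprime_of_dvd_left ⟨w, by rw [hz]; ring⟩)
      ((T.hC.cop_cz (mem_II'.1 ht).2 (T.hC.not_II ht)).of_isCoprime_of_dvd_left ⟨w, by rw [hz]; ring⟩) fun e => ?_
    · refine lt_of_mul_lt_mul_right ?_ hN.le
      have := mul_lt_mul_of_pos_right e (show (0 : ℤ) < Nat.card B * 4 by omega)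
      linear_combination this - (Nat.card A : ℤ) * h2
    · have h4 := D.k1 T.hA hw ht
      have h5 : (0 : ℤ) < (II G).card := by exact_mod_cast Finset.card_pos.2 ⟨t, ht⟩
      rw [e] at h4
      exact le_antisymm (le_of_mul_le_mul_left (by linarith) h5) (mul_add_nonneg D.hδ _)
  · have hdis : Disjoint (SS B) (SS C) := Finset.disjoint_right.2 fun g hg h => T.dCB g (mem_SS.1 hg) (mem_SS.1 h)
    have e := D.typeII_le T.hA (T := SS B ∪ SS C) (by simp [mem_SS, cjInto]) fun g hg => by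
      rcases Finset.mem_union.1 hg with hg | hg
      exacts [⟨T.dBA g (mem_SS.1 hg), hB.2 g (mem_SS.1 hg)⟩, ⟨T.dCA g (mem_SS.1 hg), hC.2 g (mem_SS.1 hg)⟩]
    rw [Finset.card_union_of_disjoint hdis] at e
    push_cast at e
    refine ar_both hn hb.1 hc.1 (lt_of_mul_lt_mul_right ?_ hN.le)
    have := mul_lt_mul_of_pos_right e (show (0 : ℤ) < 4 * (Nat.card B * Nat.card C) by nlinarith)
    linear_combination this - (Nat.card A : ℤ) * Nat.card C * h2 - (Nat.card A : ℤ) * Nat.card B * h3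

theorem w_one {t : G} (ht : t ∈ II G) : (Nat.card G : ℤ) = Nat.card A * p 1 * (p 1 + δ) ∧ p t = 0 ∧
    (cz t : ℤ) = p 1 ∧ ((II G).card : ℤ) = Nat.card A * (p 1 + δ) ∧
    ∀ g, g ≠ 1 → g ∉ cjInto A → p g * (p g + δ) = 0 := by
  classical
  obtain ⟨w, hw0, hw, hz, nw, hi⟩ := D.exists_w T.hA ht
  obtain ⟨z, hy⟩ := T.cop.mul_dvd (T.typeI D).1 (T.symm.typeI D).1
  have hb := T.b9
  have hc := T.symm.b9
  have cop : ∀ {K : Subgroup G} {e : ℕ}, SC K e → IsCoprime (p 1 - p t) (Nat.card K) := fun hK =>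
    (hK.cop_cz (mem_II'.1 ht).2 (hK.not_II ht)).of_isCoprime_of_dvd_left ⟨w, by rw [hz]; ring⟩
  have hodd : Odd (II G).card := odd_card_II (even_iff_two_dvd.2 (mem_II.1 ht ▸ orderOf_dvd_natCard t))
  obtain rfl := ar_w D.hδ (by exact_mod_cast T.n5) (by have := Nat.odd_iff.1 T.hA.odd; omega) hb.1 hc.1 T.b_ne_c hb.2
    hc.2 D.xpos hy D.xmod (D.lt t (mem_II'.1 ht).2) (T.ord' D hw) nw hw0 (cop T.hA) (cop T.hB) (cop T.hC)
    (D.k1 T.hA hw ht) hi (by rw [card_II D.cj ht]; exact D.int1 t) (by have := Nat.odd_iff.1 hodd; omega)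
  have key : ∀ g, g ≠ 1 → g ∉ cjInto A → p g * (p g + δ) = 0 := fun g h1 hg => by
    have e := D.sum_w T.hA hw
    rw [← Finset.add_sum_erase _ _ (a := 1) (by simp [mem_SS, cjInto]), one_pow, mul_one, add_eq_left,
      Finset.sum_eq_zero_iff_of_nonneg fun g _ => mul_add_nonneg D.hδ _] at e
    exact e g (by simp [mem_SS, h1, hg])
  have hs : p t = 0 := (mul_eq_zero.1 (key t (mem_II'.1 ht).2 (T.hA.not_II ht))).resolve_right fun e => by
    have := (cop T.hB).symm.isUnit_of_dvd (by rw [show p 1 - p t = p 1 + δ by omega]; exact (T.typeI D).1)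
    rw [Int.isUnit_iff] at this; omega
  rw [hs, sub_zero] at hz hi
  exact ⟨by rw [hw]; ring, hs, by rw [hz, one_mul], mul_right_cancel₀ D.xpos.ne' (by rw [hi]; ring), key⟩

end Tri

end CL.ScS
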